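import Mathlib
import Cfsg.Agent.H28.Norm

/-! Abelian `2`-groups with cyclic factors of pairwise distinct orders have no automorphisms of odd order. -/

set_option autoImplicit false
set_option linter.unusedSectionVars false
set_option linter.style.haveILetI false

namespace H28
open Cfsg Cfsg.FusionSystem Equiv

theorem zmod_two_tors {a : ℕ} {x : ZMod (2 ^ (a + 1))} (h : 2 • x = 0) : x = 0 ∨ x = 2 ^ a := by
  refine ((ZMod.neg_eq_self_iff x).1 (by rw [neg_eq_iff_add_eq_zero, ← two_nsmul, h])).imp_right fun e => ?_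
  rw [← ZMod.natCast_zmod_val x, Nat.eq_of_mul_eq_mul_left two_pos (e.trans (pow_succ' 2 a))]
  simp

theorem ulm_step {n : ℕ} {a : Fin n → ℕ} (ha : Function.Injective a) (ha1 : ∀ i, 1 ≤ a i) {k : ℕ}
    {x y : (i : Fin n) → ZMod (2 ^ a i)} (hx : 2 • x = 0) (hy : 2 • y = 0) (x1 : ∃ w, x = 2 ^ k • w)
    (y1 : ∃ w, y = 2 ^ k • w) (x2 : ¬ ∃ w, x = 2 ^ (k + 1) • w) (y2 : ¬ ∃ w, y = 2 ^ (k + 1) • w) :
    ∃ w, -x + y = 2 ^ (k + 1) • w := by
  have h1 : ∀ {b : ℕ} (z : ZMod (2 ^ b)), 2 • z = 0 → k + 1 < b → ∃ w, z = 2 ^ (k + 1) • w := fun {b} z hz hb => by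
    obtain ⟨c, rfl⟩ : ∃ c, b = k + 1 + c + 1 := ⟨b - k - 2, by omega⟩
    rcases zmod_two_tors hz with rfl | rfl
    · exact ⟨0, by simp⟩
    · exact ⟨2 ^ c, by simp [pow_add]⟩
  have h2 : ∀ {b : ℕ} (w : ZMod (2 ^ b)), b ≤ k → 2 ^ k • w = 0 := fun {b} w hb => by
    rw [nsmul_eq_mul, (ZMod.natCast_eq_zero_iff _ _).2 (pow_dvd_pow 2 hb), zero_mul]
  have h3 : ∀ z : (i : Fin n) → ZMod (2 ^ a i), 2 • z = 0 → (∃ w, z = 2 ^ k • w) → (¬ ∃ w, z = 2 ^ (k + 1) • w) →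
      ∀ i, a i = k + 1 → z i ≠ 0 := fun z hz ⟨w, hw⟩ z2 i hi h0 => by
    refine z2 (((Classical.skolem (p := fun j u => z j = 2 ^ (k + 1) • u)).1 fun j => ?_).imp fun u hu => funext hu)
    rcases lt_trichotomy (a j) (k + 1) with h | h | h
    · exact ⟨0, by rw [hw, smul_zero]; exact h2 _ (by omega)⟩
    · obtain rfl := ha (h.trans hi.symm)
      exact ⟨0, by rw [h0, smul_zero]⟩
    · exact h1 _ (congrFun hz j) h
  refine ((Classical.skolem (p := fun j u => (-x + y) j = 2 ^ (k + 1) • u)).1 fun j => ?_).imp fun u hu => funext hu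
  rcases lt_trichotomy (a j) (k + 1) with h | h | h
  · obtain ⟨w, rfl⟩ := x1
    obtain ⟨u, rfl⟩ := y1
    exact ⟨0, by simp only [Pi.add_apply, Pi.neg_apply, Pi.smul_apply, h2 _ (Nat.le_of_lt_succ h)]; simp⟩
  · have b1 := h3 x hx x1 x2 j h
    have b2 := h3 y hy y1 y2 j h
    have b3 : 2 • x j = 0 := congrFun hx j
    have b4 : 2 • y j = 0 := congrFun hy j
    refine ⟨0, ?_⟩
    rw [Pi.add_apply, Pi.neg_apply, smul_zero]
    generalize x j = u at *
    generalize y j = v at *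
    generalize a j = b at *
    subst h
    rw [(zmod_two_tors b3).resolve_left b1, (zmod_two_tors b4).resolve_left b2, neg_add_cancel]
  · exact h1 _ (by rw [← Pi.smul_apply, smul_add, smul_neg, hx, hy]; simp) h

theorem aut_eq_one_of_distinct {Ω : Type*} [Group Ω] {S : Subgroup Ω} {n : ℕ} {a : Fin n → ℕ}
    (ha : Function.Injective a) (ha1 : ∀ i, 1 ≤ a i) (e : S ≃* Multiplicative ((i : Fin n) → ZMod (2 ^ a i)))
    (hS : IsPGroup 2 S) {N : ℕ} (hN : ∀ x : S, x ^ 2 ^ N = 1) {α : MulAut S} (hα : (orderOf α).Coprime 2) : α = 1 := by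
  have fix : ∀ x : S, α (x⁻¹ * α x) = x⁻¹ * α x → α x = x := fun x h => Subtype.ext (by
    have := fix_of_step hS le_rfl hα x.2 (by rw [ex_coe, ← Subgroup.coe_inv, ← Subgroup.coe_mul, ex_coe, h])
    rwa [ex_coe] at this)
  have hc : ∀ x y : S, x * y = y * x := fun x y => e.injective (by rw [map_mul, map_mul, mul_comm])
  have hD : ∀ (m : ℕ) (x : S), (∃ w, (e x).toAdd = m • w) ↔ ∃ w, x = w ^ m := fun m x =>
    ⟨fun ⟨w, h⟩ => ⟨e.symm (.ofAdd w), e.injective (by rw [map_pow, e.apply_symm_apply, ← ofAdd_nsmul, ← h]; rfl)⟩,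
      fun ⟨w, h⟩ => ⟨(e w).toAdd, by rw [h, map_pow, toAdd_pow]⟩⟩
  have hA : ∀ (m : ℕ) (x : S), (∃ w, α x = w ^ m) ↔ ∃ w, x = w ^ m := fun m x =>
    ⟨fun ⟨w, h⟩ => ⟨α.symm w, α.injective (by rw [map_pow, h, α.apply_symm_apply])⟩,
      fun ⟨w, h⟩ => ⟨α w, by rw [h, map_pow]⟩⟩
  have h2 : ∀ x : S, x ^ 2 = 1 → 2 • (e x).toAdd = 0 := fun x h => by rw [← toAdd_pow, ← map_pow, h, map_one]; rfl
  have hm : ∀ (m : ℕ) (x : S), (x⁻¹ * α x) ^ m = (x ^ m)⁻¹ * α (x ^ m) := fun m x => by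
    rw [Commute.mul_pow (hc _ _), inv_pow, map_pow]
  have h1 : ∀ j k, k + j = N → ∀ x : S, x ^ 2 = 1 → (∃ w, x = w ^ 2 ^ k) → α x = x := fun j => by
    induction j with
    | zero => rintro k rfl x - ⟨w, rfl⟩; rw [show w ^ 2 ^ k = 1 from hN w, map_one]
    | succ j ih =>
      intro k hk x hx hw
      by_cases h : ∃ w, x = w ^ 2 ^ (k + 1)
      · exact ih (k + 1) (by omega) x hx h
      refine fix x (ih (k + 1) (by omega) _ (by rw [hm, hx]; simp) ((hD _ _).1 ?_))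
      rw [map_mul, map_inv, toAdd_mul, toAdd_inv]
      exact ulm_step ha ha1 (h2 x hx) (h2 _ (by rw [← map_pow, hx, map_one])) ((hD _ _).2 hw)
        ((hD _ _).2 ((hA _ _).2 hw)) (fun c => h ((hD _ _).1 c)) fun c => h ((hA _ _).1 ((hD _ _).1 c))
  have h3 : ∀ k, ∀ x : S, x ^ 2 ^ k = 1 → α x = x := fun k => by
    induction k with
    | zero => intro x h; rw [show x = 1 by simpa using h, map_one]
    | succ k ih =>
      intro x h
      refine fix x (h1 N 0 (by simp) _ ?_ ⟨_, (pow_one _).symm⟩)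
      rw [hm, ih _ (by rw [← pow_mul, ← pow_succ', h]), inv_mul_cancel]
  exact MulEquiv.ext fun x => h3 N x (hN x)

end H28
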