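import Mathlib
import Cfsg.Agent.H28.Cen2

/-! The product of a normal subsystem with a `p`-subgroup. -/

set_option autoImplicit false
set_option linter.unusedSectionVars false
set_option linter.style.haveILetI false

open Cfsg Cfsg.FusionSystem Equiv
open H26 (IsSyl)

namespace H28

variable {Ω : Type*} [Group Ω] {p : ℕ} {S : Subgroup Ω} [Finite S] {F : FusionSystem S}
  {P Q R T U V X Y Z P' Q' R' T' : Subgroup Ω} {f g : Perm Ω} {𝓔 : ∀ T' : Subgroup Ω, FusionSystem T' → Prop}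

theorem iso_of_triv_agree (hT : T ≤ S) (hc : TC F T Q) (hQP : Q ≤ P) (hP : P ≤ normalizerIn S Q) (hf : Iso F P P f) (tf : Triv T P f)
    (hi : HIso Q Q f) (hg : M F R g) (tg : Triv T R g) (hPR : P ≤ R) (e : ∀ x ∈ Q, g x = f x) : Iso F P P g :=
  (hg.mono hPR).iso_self fun u hu => by
    have a1 := hg.inv_mul_mem_centralizerIn (hi.congr fun x hx => (e x hx).symm) (hQP.trans hPR) (hPR hu) (hf.map.mem hu)
      fun x hx => by rw [e _ (conj_mem_of_normalizer (hP hu).2 hx), e x hx, hf.hom.map_conj hu (hQP hx)]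
    simpa using mul_mem (hf.map_mem hu) (hQP (hc.self hT ⟨by
      simpa [mul_assoc] using mul_mem (inv_mem (tf u hu)) (tg u (hPR hu)), a1.2⟩))

theorem exists_conj_system (D : FusionSystem X) [Finite X] (hf : HIso Y X f) : ∃ D' : FusionSystem Y, IsFIso D (f⁻¹ : Perm Ω) D' ∧
    ∀ R R' b, R ≤ Y → HIso R R' f → (M D' R b ↔ M D R' (f * b * f⁻¹)) := by
  obtain ⟨D', h⟩ := exists_isFIso D hf.symm.hom (f⁻¹ : Perm Ω).injective.injOn hf.symm.img_eq
  refine ⟨D', h, fun R R' b a1 a2 => ?_⟩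
  have a3 := (a2.le_iff hf).2 a1
  have k : (∀ x ∈ R', (f * b * f⁻¹) x ∈ X) → (M D' R b ↔ M D R' (f * b * f⁻¹)) := fun a4 => by
    rw [h.M_iff a3 a4 (f' := b) fun x _ => by simp only [ma, ia], a2.symm.img_eq]
  exact ⟨fun a => (k fun x hx => hf.map_mem (a.mem (a2.inv_mem hx))).1 a, fun a => (k fun _ => a.mem).2 a⟩

theorem card_le_of_fn {E : FusionSystem T} (hE : E.IsInvariantIn F) (hP : E.IsFullyNormalized P) (hf : Iso F P Q f) :
    Nat.card (normalizerIn T Q) ≤ Nat.card (normalizerIn T P) := by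
  haveI := inv_finite hE
  obtain ⟨a, f₀, a3, a4, a5⟩ := inv_frattini hE hP.1 hf.map
  obtain ⟨Q', a6⟩ := a4.exists_iso
  refine (a3.hiso.symm.card_normalizerIn_le le_rfl ((hf.hiso.symm.trans a6.hiso).congr fun y hy => ?_)
    (sc_le_of_iso hE.2.1 hf hP.1)).trans ((isFullyNormalized_iff.1 hP).2 _ _ a6)
  obtain ⟨x, hx, rfl⟩ := hf.surj hy
  rw [ma, ia, a5 x hx, ia]

variable [Fact p.Prime] (hS : IsPGroup p S)
include hS

theorem exists_mem_pCore (hT : F.StronglyClosed T) (hP : P ≤ S) (h : ¬ centralizerIn T (P ⊓ T) ≤ P) :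
    ∃ x ∈ normalizerIn T P, x ∉ P ∧ res P (cj x) ∈ pCoreOf p (F.autGroup P) := by
  have hn := hP.trans (sc_le_normalizer hT)
  obtain ⟨x, hx, hx'⟩ := SetLike.not_le_iff_exists.1 fun h5 => h (le_of_normalizerIn_le hS hP
    (centralizerIn_le.trans hT.1) (H26.le_normalizer_inf hn (H26.le_normalizer_centralizer
      (H26.le_normalizer_inf Subgroup.le_normalizer hn))) h5)
  haveI := finite_mulAut hP
  have h1 := Iso.cj F hP ⟨hT.1 hx.1.1, hx.2⟩
  have h2 : ∀ y ∈ P ⊓ T, cj x y = y := fun y hy => by rw [cj_apply, ← hx.1.2 y hy, mul_inv_cancel_right]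
  have h3 := (sc_iso_inf hT h1).hiso
  have h4 : F.autGroup P ≤ stab P (P ⊓ T) := fun α hα => (sc_iso_inf hT (iso_ex hP hα)).hiso
  exact ⟨x, ⟨hx.1.1, hx.2⟩, hx', H26.le_pCoreOf (inf_le_left.trans inf_le_left) (H26.le_normalizer_inf (H26.le_normalizer_inf
    Subgroup.le_normalizer (h4.trans Subgroup.le_normalizer)) (H26.le_normalizer_inf ((le_inf le_rfl h4).trans
      (le_normalizer_stabK inf_le_left hP Subgroup.le_normalizer_of_normal)) (le_normalizer_commIn hT hP)))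
    (isPGroup_triv hS hP inf_le_left hT centralizerIn_le inf_le_right) ⟨⟨h1.res_mem, (h1.hiso.res_mem_stab inf_le_left).2 h3⟩,
      (h1.hiso.res_mem_stabK inf_le_left).2 ⟨h3, h3.res_eq_one_iff.2 h2⟩, (triv_res h1.hiso).2 (triv_cj hn hx.1.1)⟩⟩

variable (hF : F.IsSaturated p)
include hF

theorem Fam.mem_sup_of_conj (h : Fam p F T 𝓔) (hQ : F.IsFullyNormalized Q) (hc : TC F T Q) (hf : Hb F T 𝓔 Q f)
    (hp : (orderOf (res Q f)).Coprime p) {s t : Ω} (hs : s ∈ normalizerIn S Q) (ht : t ∈ normalizerIn S Q)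
    (e : ∀ x ∈ Q, f (s * x * s⁻¹) = t * f x * t⁻¹) : s⁻¹ * t ∈ T ⊔ centralizerIn S Q := by
  have c0 := hiso_cj_of_normalizer hs.2
  have c1 : res Q (cj t) = res Q f * res Q (cj s) * (res Q f)⁻¹ := by
    rw [← hf.1.res_conj c0, (hiso_cj_of_normalizer ht.2).res_eq_res_iff (by
      rw [mul_assoc]; exact (hf.1.symm.trans c0).trans hf.1)]
    intro x hx
    simp only [ma, cj_apply, e _ (hf.1.inv_mem hx), ai]
  have c2 := mul_mem (inv_mem hs) ht
  obtain ⟨v, hv, c3⟩ := (res_cj_mem_iff c2.2).1 (h.inf_le hS hF hQ hc ⟨res_cj_mem c2.1 c2.2, by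
    rw [res_cj_mul (inv_mem hs.2) ht.2, res_cj_inv hs.2, c1, ← mul_assoc, ← mul_assoc]
    have c2 := H26.mem_pResidualOf hf.res_mem hp
    exact Subgroup.mul_mem _ (conj_mem_of_normalizer' (H26.le_normalizer_pResidualOf' (le_normalizer_hbGrp hQ.1)
      (Iso.cj F hQ.1 hs).res_mem) c2) (Subgroup.inv_mem _ c2)⟩)
  have c4 : v⁻¹ * (s⁻¹ * t) ∈ centralizerIn S Q := ⟨S.mul_mem (S.inv_mem (h.sc.1 hv)) c2.1, c3⟩
  have c5 : v * (v⁻¹ * (s⁻¹ * t)) ∈ T ⊔ centralizerIn S Q := Subgroup.mul_mem _ (Subgroup.mem_sup_left hv) (Subgroup.mem_sup_right c4)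
  simpa using c5

theorem Fam.bp_of_cop (h : Fam p F T 𝓔) (hQ : F.IsFullyNormalized Q) (hc : TC F T Q) (h1 : Q ⊔ centralizerIn S Q ≤ R)
    (hR : R ≤ normalizerIn S Q) (hg : Iso F R R g) (hp : (orderOf (res R g)).Coprime p) (hf : Bp F T 𝓔 (Q ⊔ centralizerIn S Q) g) :
    Bp F T 𝓔 R g := by
  have h0 := hc.sup_inf h.sc.1
  have hn := sc_le_normalizer h.sc
  have h2 := h.hb_of_recep (sat_recep_fn hS hF hQ) hc hf
  have h3 := le_sup_left.trans h1
  refine h.bp_of_ext hS hF hQ hc.1 le_sup_left h1 (le_inf hR (hR.trans normalizerIn_le_normalizer_sup)) (le_sup_right.trans h1)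
    (by rw [h0]; exact le_sup_right) hf hg (fun _ _ => rfl) hp (triv_two_step hS (H := T ⊔ centralizerIn S Q) hn hg hp
      (fun s hs => h.mem_sup_of_conj hS hF hQ hc h2 (coprime_res hg.hiso h2.1 h3 hp) (hR hs) (hR (hg.map_mem hs))
        fun x hx => hg.hom.map_conj hs (h3 hx)) fun y hy => ?_)
  obtain ⟨u, hu, c, hc', rfl⟩ := (H26.mem_sup_of_le_normalizer' (centralizerIn_le.trans hn)).1 hy.2
  have b1 := h1 (Subgroup.mem_sup_right hc')
  have b2 := (Subgroup.mul_mem_cancel_right _ b1).1 hy.1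
  rw [hg.hom _ b2 _ b1]
  convert mul_mem (conj_mem_of_normalizer' (hn hc'.1) (mul_mem (inv_mem hu) (sc_mem h.sc hg.map b2 hu)))
    (hf.triv c (Subgroup.mem_sup_right hc')) using 1
  group

/-- a local system for the product -/
structure Loc (p : ℕ) (F : FusionSystem S) (E : FusionSystem T) (Q : Subgroup Ω) (D : FusionSystem X) : Prop where
  sat : D.IsSaturated p
  sub : D.IsSubsystemOf F
  normal : D.IsNormal Q
  bp : ∀ R b, Iso D R R b → (orderOf (res R b)).Coprime p → Bp F T (fam1 E) R b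
  mem : ∀ R b, Q ≤ R → R ≤ X → Bp F T (fam1 E) R b → HIso Q Q b → (orderOf (res R b)).Coprime p → M D R b

variable {E : FusionSystem T} (hE : E.IsNormalIn F p)
include hE

omit hS hF hE [Fact p.Prime] in
theorem Bp.iso_E (h : Bp F T (fam1 E) R f) (hQ : Q ≤ R) (hT : Q ≤ T) (hi : HIso Q Q f) : Iso E Q Q f :=
  ((h.mem T E (Same.refl E)).mono (le_inf hQ hT)).iso_of hi

omit hS hF hE [Fact p.Prime] in
theorem bp_fam1 (hf : Iso F R R f) (ht : Triv T R f) (h : M E (R ⊓ T) f) : Bp F T (fam1 E) R f :=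
  ⟨hf, ht, fun _ _ a => (h.mono (inf_le_inf_left _ a.eq.ge)).of_sub a.1⟩

theorem exists_ext_bp (hQ : F.IsFullyNormalized Q) (hc : TC F T Q) (hQR : Q ≤ R) (hR : R ≤ normalizerIn S Q)
    (hf : Bp F T (fam1 E) R f) (hi : HIso Q Q f) (hp : (orderOf (res R f)).Coprime p) :
    ∃ g, Bp F T (fam1 E) (R ⊔ centralizerIn S Q) g ∧ (orderOf (res (R ⊔ centralizerIn S Q) g)).Coprime p ∧ HIso R R g ∧
      ∃ z ∈ centralizerIn Q Q, ∀ x ∈ R, f x = g (z * x * z⁻¹) := by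
  have h := fam_one hE.1
  have a0 := coprime_res hf.iso.hiso hi hQR hp
  have a1 := hb_of_normal hS hF hE hc (hf.iso_E hQR hc.1 hi) a0
  obtain ⟨β, a2, a3, a4⟩ := a1.ext_cop hQ.1 a0
  obtain ⟨k, b1, b2, b3⟩ := h.up_fn hS hF hQ hc hQR hR a2 a4 fun s hs => ⟨f s, hf.iso.map_mem hs,
    by simpa using inv_mem (hf.triv s hs), fun x hx => by
      rw [a3 _ (conj_mem_of_normalizer (hR hs).2 hx), a3 x hx, hf.iso.hom.map_conj hs (hQR hx)]⟩
  have b4 : ∀ x ∈ Q, k x = f x := fun x hx => (b2 x (Subgroup.mem_sup_left hx)).trans (a3 x hx)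
  have b5 := iso_of_triv_agree h.sc.1 hc hQR hR hf.iso hf.triv hi b1.iso.map b1.triv le_sup_left b4
  exact ⟨k, b1, b3, b5.hiso, h.u2 hS hF hc hQR hR b5 (b1.triv.mono le_sup_left) (coprime_res b1.iso.hiso b5.hiso le_sup_left b3)
    hf.iso hf.triv hp (a1.congr fun x hx => (b4 x hx).symm) fun x hx => (b4 x hx).symm⟩

theorem exists_loc_fn (hQ : F.IsFullyNormalized Q) (hc : TC F T Q) (h1 : normalizerIn T Q ≤ X) (h2 : X ≤ normalizerIn S Q) :
    ∃ D : FusionSystem X, Loc p F E Q D := by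
  have h := fam_one hE.1
  have hp := pair_sup hS hF hQ
  have hW := centric_sup_centralizerIn (sat_fc hS hF hQ)
  set W := Q ⊔ centralizerIn S Q with eW
  haveI := finite_mulAut hW.1
  have h0 : W ⊓ T ≤ Q := (hc.sup_inf h.sc.1).le
  have hQX := (le_normalizerIn hc.1).trans h1
  have a1 : bpGrp F T (fam1 E) W ≤ F.autGroup W ⊓ stab W Q := le_inf (bpGrp_le hW.1) fun α hα =>
    ((hα hW.1).restrict' h0 hp.le).iso.hiso
  set L := pResidualOf p (bpGrp F T (fam1 E) W)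
  have a2 : L ≤ F.autGroup W ⊓ stab W Q := (H26.pResidualOf_le _).trans a1
  have a3 : F.autGroup W ≤ Subgroup.normalizer (L : Set (MulAut W)) := H26.le_normalizer_pResidualOf' (h.le_normalizer_bpGrp hW.1)
  have x1 : X ⊔ centralizerIn S Q ≤ normalizerIn S Q := sup_le h2 centralizerIn_le_normalizerIn
  have x2 : W ≤ X ⊔ centralizerIn S Q := sup_le_sup_right hQX _
  set X' := X ⊔ centralizerIn S Q
  have x3 := x1.trans normalizerIn_le
  haveI := finite_of_le x3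
  have a4 := autInducedBy_le_autGroup F hW.1 x3
  have a5 := isPGroup_autInducedBy (hS.to_le x3) W
  have a6 : IsSyl p (autInducedBy X' W) (autInducedBy X' W ⊔ L) := by
    refine isSyl_sup_of_inf a5 (a4.trans a3) ?_
    have b1 := hp.syl.inf_of_le a2 (inf_le_left.trans a3)
    rwa [b1.max _ (a5.to_le inf_le_left) (le_inf (fun α hα => ?_) b1.le) inf_le_right]
    obtain ⟨s, hs, rfl⟩ := (mem_autInducedBy_stab hp.le).1 hα.1
    obtain ⟨t, ht, e⟩ := (res_cj_mem_iff hs.1.2).1 (h.inf_le hS hF hQ hc ⟨res_cj_mem hs.1.1 hs.1.2, by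
      rw [← (hiso_cj_of_normalizer hs.2).rs_res (hiso_cj_of_normalizer hs.1.2) hp.le]
      refine H26.pResidualOf_mono (img_le_iff.2 fun α (hα : α ∈ bpGrp F T (fam1 E) W) =>
        (h.hb_of_recep (sat_recep_fn hS hF hQ) hc (hα hW.1)).res_mem)
        (((homOn_rs W Q).mono (a1.trans inf_le_right)).img_pResidualOf.le (mem_img_of_mem hα.2))⟩)
    have c1 : t⁻¹ * s ∈ centralizerIn S Q := ⟨S.mul_mem (S.inv_mem (h.sc.1 ht)) hs.1.1, e⟩
    have c2 : t ∈ normalizerIn T Q := ⟨ht, by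
      simpa using (Subgroup.mul_mem _ hs.1 (Subgroup.inv_mem _ (centralizerIn_le_normalizerIn c1))).2⟩
    have c3 : t * (t⁻¹ * s) ∈ X' := Subgroup.mul_mem _ (Subgroup.mem_sup_left (h1 c2)) (Subgroup.mem_sup_right c1)
    exact res_cj_mem (by simpa using c3) hs.2
  have a7 : autInducedBy S W ⊓ (autInducedBy X' W ⊔ L) = autInducedBy X' W := a6.max _ ((isPGroup_autInducedBy hS W).to_le inf_le_left)
    (le_inf (autInducedBy_mono x3) le_sup_left) inf_le_right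
  have x4 := x1.trans normalizerIn_le_normalizer_sup
  obtain ⟨D', hD'⟩ := exists_isNK₂ F hW.1 (K := autInducedBy X' W ⊔ L) (V := X') (le_antisymm
    (fun s hs => ⟨⟨x3 hs, x4 hs⟩, Subgroup.mem_sup_left (res_cj_mem hs (x4 hs))⟩) fun s hs => by
      obtain ⟨t, ht, e⟩ := (res_cj_mem_iff hs.1.2).1 (a7.le ⟨res_cj_mem hs.1.1 hs.1.2, hs.2⟩)
      simpa using mul_mem ht (x2 (centric_self hW ⟨S.mul_mem (S.inv_mem (x3 ht)) hs.1.1, e⟩)))
  have a8 : D'.IsSaturated p := hD'.sat hS hF (fc_of_centric hW) (by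
    rw [a7, inf_eq_right.2 (sup_le a4 (a2.trans inf_le_left))]; exact a6)
  have a9 : ∀ {g}, HIso W W g → res W g ∈ autInducedBy X' W ⊔ L → HIso Q Q g := fun b1 b2 =>
    (b1.res_mem_stab hp.le).1 (sup_le (c := stab W Q) (fun α hα => by
      obtain ⟨s, hs, rfl⟩ := mem_autInducedBy'.1 hα
      exact ((hiso_cj_of_normalizer hs.2).res_mem_stab hp.le).2 (hiso_cj_of_normalizer (x1 hs.1).2)) (a2.trans inf_le_right) b2)
  have b0 : ∀ R b, Iso D' R R b → (orderOf (res R b)).Coprime p → Bp F T (fam1 E) R b := fun R b b1 b2 => by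
    obtain ⟨g, c1, c2, c3, c4⟩ := hD'.ext b1.map
    have c5 := b1.hiso.congr fun x hx => (c2 x hx).symm
    have c6 := Iso.sup c1 c5 c3
    obtain ⟨n, c7, c8⟩ := exists_pow_p' c6 c5 (by rwa [c5.res_congr c2])
    have c9 := mem_of_coprime_of_sup a5 (a4.trans a3) (c3.res_pow n ▸ pow_mem c4 n)
      (coprime_res (c6.pow n).hiso (c3.pow n) le_sup_right c8)
    exact ((h.bp_of_cop hS hF hQ hc le_sup_right ((sup_le b1.le x2).trans x1) (c6.pow n) c8 (bp_of_yp hW.1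
      ⟨c3.pow n, H26.pResidualOf_le _ c9⟩)).restrict le_sup_left (c5.pow n)).congr fun x hx => (c7 x hx).trans (c2 x hx)
  have b1 : D'.IsNormal Q := isNormal_iff.2 ⟨hp.le.trans x2, fun P f hf => by
    obtain ⟨g, c1, c2, c3, c4⟩ := hD'.ext hf
    exact ⟨g, hD'.of_M c1 (sup_le_sup_left hp.le _) le_sup_right (sup_le hf.le (hp.le.trans x2)) c3 c4, c2,
      fun _ => (a9 c3 c4).map_mem⟩⟩
  obtain ⟨D, b2, b3⟩ := exists_pidx (hS.to_le x3) a8 (T := X) le_sup_left (hyperfocal_le_iff.2 fun P hP α hα hc x hx =>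
    h1 ⟨(b0 P _ (iso_ex hP hα) (by rwa [res_ex])).triv x hx, (x1 (mul_mem (inv_mem (hP hx)) (hP (ex_mem α hx)))).2⟩)
  refine ⟨D, b2, sub_trans b3.1 hD'.sub, normal_of_sub (hS.to_le x3) b2 b3.1 b1 hQX, fun R b c1 => b0 R b (c1.of_sub b3.1),
    fun R b c1 c2 c3 c4 c5 => pidx_M b3 c2 (M.iso_of ?_ c3.iso.hiso) c5⟩
  obtain ⟨g, d1, d2, d3, z, hz, d4⟩ := exists_ext_bp hS hF hE hQ hc c1 (c2.trans h2) c3 c4 c5
  have d5 : W ≤ R ⊔ centralizerIn S Q := sup_le_sup_right c1 _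
  have d6 := d1.restrict d5 (d1.iso.map.hiso_sup_centralizerIn ((c4.congr fun x hx => ?_)) d5)
  · exact ((M.cj D' (c2.trans le_sup_left) (x2 (hp.le hz.1))).comp (hD'.of_M d1.iso.map le_sup_left d5 (c2.trans le_sup_left)
      d6.iso.hiso (Subgroup.mem_sup_right (H26.mem_pResidualOf d6.res_mem (coprime_res d1.iso.hiso d6.iso.hiso d5 d2))))
      fun x hx => mul_mem (mul_mem (c1 hz.1) hx) (inv_mem (c1 hz.1))).congr fun x hx => (d4 x hx).symm
  · rw [d4 x (c1 hx), ← hz.2 x hx, mul_inv_cancel_right]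

theorem exists_loc (hP : E.IsFullyNormalized P) (hc : TC F T P) : ∃ D : FusionSystem (normalizerIn S P), Loc p F E P D := by
  have h := fam_one hE.1
  have hPS := hc.1.trans h.sc.1
  obtain ⟨Q, φ, a1, a2, a3⟩ := sat_exists_fn hS hF hPS
  obtain ⟨X, a4⟩ := a1.exists_iso
  have a5 := a1.iso_of_le (le_normalizerIn hPS) a2
  have a6 : X ≤ normalizerIn S Q := fun y hy => by
    obtain ⟨x, hx, rfl⟩ := a4.surj hy
    exact a1.normalizerIn_mem a2 hPS hx
  obtain ⟨Y, a7, a8⟩ := a4.restrict (normalizerIn_mono_left h.sc.1)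
  have a9 : Y = normalizerIn T Q := eq_of_le_of_card_le (normalizerIn_le.trans h.sc.1)
    (le_inf (sc_le_of_iso h.sc a8 normalizerIn_le) (a7.trans (a6.trans normalizerIn_le_normalizer)))
    (a8.card_eq ▸ card_le_of_fn hE.1.2.2 hP a5)
  obtain ⟨D, hD⟩ := exists_loc_fn hS hF hE a3 (hc.iso h.sc a5) (a9 ▸ a7) a6
  haveI := finite_of_le a4.le'
  haveI := finite_of_le a4.le
  obtain ⟨D', b1, b2⟩ := exists_conj_system D a4.hiso
  refine ⟨D', b1.sat (hS.to_le a4.le') hD.sat, sub_iff_M.2 fun R b hb => ?_, a2.symm.img_eq ▸ (b1.normal_iff hD.normal.1).2 hD.normal,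
    fun R b c1 c2 => ?_, fun R b c1 c2 c3 c4 c5 => ?_⟩
  · obtain ⟨R', -, c1⟩ := a4.restrict hb.le
    have c2 := (b2 R R' b hb.le c1.hiso).1 hb
    exact ((c1.map.comp (c2.of_sub hD.sub) fun _ => c1.map_mem).comp a4.symm.map fun _ hx => c2.mem (c1.map_mem hx)).congr
      fun x _ => by simp only [ma, ia]
  · obtain ⟨R', -, c3⟩ := a4.restrict c1.le
    convert h.bp_conj (hD.bp R' _ (((b2 R R' b c1.le c3.hiso).1 c1.map).iso_of (by
      rw [mul_assoc]; exact (c3.hiso.symm.trans c1.hiso).trans c3.hiso)) (coprime_conj c3.hiso c1.hiso c2)) c3.symm using 1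
    group
  · obtain ⟨R', c6, c7⟩ := a4.restrict c2
    exact (b2 R R' b c2 c7.hiso).2 (hD.mem R' _ ((a2.le_iff c7.hiso).2 c1) c6 (h.bp_conj c3 c7)
      (by rw [mul_assoc]; exact (a2.symm.trans c4).trans a2) (coprime_conj c7.hiso c3.iso.hiso c5))

/-- the generators of the product system -/
def GenES (p : ℕ) (F : FusionSystem S) (E : FusionSystem T) (P : Subgroup Ω) (b : Perm Ω) : Prop :=
  TC F T (P ⊓ T) ∧ Bp F T (fam1 E) P b ∧ (orderOf (res P b)).Coprime p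

omit hF hE in
theorem Loc.sub_gen {L : FusionSystem X} (h : Loc p F E Q L) (hc : TC F T Q) {D : FusionSystem V} (hX : X ≤ V)
    (hD : ∀ P b, P ≤ X → GenES p F E P b → M D P b) : L.IsSubsystemOf D := by
  haveI := finite_of_le (le_of_sub h.sub)
  have h1 := hS.to_le (le_of_sub h.sub)
  refine sub_of_cop h1 h.sat hX fun R a hR ha hp => hD R a ha.le ⟨hc.mono (le_inf ?_ hc.1) inf_le_right, h.bp R a ha hp, hp⟩
  exact normal_le_of_radical h1 h.normal (cr_of_alperin h1 h.sat hR).1 (cr_of_alperin h1 h.sat hR).2.1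

omit hF in
theorem Loc.aut_E {L : FusionSystem (normalizerIn S Q)} (h : Loc p F E Q L) (hQ : E.IsFullyNormalized Q) (hf : Iso E Q Q f) :
    M L Q f := by
  have hi := hE.1.2.2
  haveI := inv_finite hi
  have h1 := le_normalizerIn (hQ.1.trans (inv_le hi))
  exact aut_ind_cop (sat_fa (hS.to_le (inv_le hi)) hE.1.1 hQ) (C := fun a => M L Q a) (fun _ _ => M.congr)
    (fun _ _ _ hb h1 h2 => h2.comp h1 fun _ => hb.map_mem) (fun _ hs => M.cj L h1 (normalizerIn_mono_left (inv_le hi) hs))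
    (fun a ha hc => h.mem Q a le_rfl h1 (bp_fam1 (ha.of_sub hi.1) (fun x hx => hQ.1 (mul_mem (inv_mem hx) (ha.map_mem hx)))
      (ha.map.mono inf_le_left)) ha.hiso hc) hf

theorem exists_map_fn {D : FusionSystem S} (hD : D.IsSubsystemOf F) (hg : ∀ P b, GenES p F E P b → M D P b) (hP : P ≤ T) :
    ∃ Q ψ, M D (normalizerIn S P) ψ ∧ HIso P Q ψ ∧ E.IsFullyNormalized Q := by
  have hi := hE.1.2.2
  haveI := inv_finite hi
  have hT := hi.2.1
  have hT' := hS.to_le hT.1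
  refine induction_card T (C := fun P => ∃ Q ψ, M D (normalizerIn S P) ψ ∧ HIso P Q ψ ∧ E.IsFullyNormalized Q)
    (fun P hP ih => ?_) P hP
  have k0 : ∀ {P Q ψ}, P ≤ T → M D (normalizerIn S P) ψ → HIso P Q ψ → Q ≤ T ∧ ∀ x ∈ normalizerIn T P, ψ x ∈ normalizerIn T Q :=
    fun {P Q ψ} a1 a2 a3 => ⟨sc_le_of_iso hT ((a2.of_sub hD).iso_of_le (le_normalizerIn (a1.trans hT.1)) a3) a1, fun x hx =>
      ⟨sc_mem hT (a2.of_sub hD) (normalizerIn_mono_left hT.1 hx) hx.1,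
        (a2.normalizerIn_mem a3 (a1.trans hT.1) (normalizerIn_mono_left hT.1 hx)).2⟩⟩
  obtain ⟨_, ⟨Q, ψ, a1, a2, rfl⟩, a3⟩ := Set.exists_max_image
    {n : ℕ | ∃ Q ψ, M D (normalizerIn S P) ψ ∧ HIso P Q ψ ∧ n = Nat.card (normalizerIn T Q)} id
    ((Set.finite_Iic (Nat.card T)).subset (by
      rintro _ ⟨Q, ψ, -, -, rfl⟩; exact card_le_of_le' le_rfl normalizerIn_le)) ⟨_, P, 1, M.one D normalizerIn_le, HIso.refl P, rfl⟩
  have k1 : ∀ {Q' φ}, M D (normalizerIn S Q) φ → HIso Q Q' φ → Nat.card (normalizerIn T Q') ≤ Nat.card (normalizerIn T Q) :=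
    fun {Q' φ} b1 b2 => a3 _ ⟨Q', φ * ψ, a1.comp b1 fun _ => a1.normalizerIn_mem a2 (hP.trans hT.1), a2.trans b2, rfl⟩
  have a4 := (k0 hP a1 a2).1
  rcases a4.lt_or_eq with hlt | rfl
  swap
  · exact ⟨Q, ψ, a1, a2, fullyNormalized_top E⟩
  have a5 := lt_normalizerIn hT' hlt
  have a6 : normalizerIn S Q ≤ normalizerIn S (normalizerIn T Q) := le_inf normalizerIn_le (H26.le_normalizer_inf
    (normalizerIn_le.trans (sc_le_normalizer hT)) (H26.le_normalizer_normalizer normalizerIn_le_normalizer))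
  obtain ⟨P₁, ψ₁, b1, b2, b3⟩ := ih _ normalizerIn_le (a2.card_eq ▸ card_lt_of_lt normalizerIn_le a5)
  obtain ⟨Q₁, b4⟩ := (b1.mono a6).exists_iso_le (le_normalizerIn (a4.trans hT.1))
  have b5 := k0 a4 (b1.mono a6) b4.hiso
  have b6 : P₁ = normalizerIn T Q₁ := eq_of_le_of_card_le (S := T) normalizerIn_le (fun y hy => by
    obtain ⟨x, hx, rfl⟩ := b2.surj hy
    exact b5.2 x hx) (b2.card_eq ▸ k1 (b1.mono a6) b4.hiso)
  subst b6
  refine ⟨Q₁, ψ₁ * ψ, a1.comp (b1.mono a6) fun _ => a1.normalizerIn_mem a2 (hP.trans hT.1), a2.trans b4.hiso, ?_⟩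
  have c1 : TC F T (normalizerIn T Q₁) := (tc_iff hi).2 (centric_of_fc (sat_fc hT' hE.1.1 b3)
    ((centralizerIn_mono (le_normalizerIn b5.1)).trans centralizerIn_le_normalizerIn))
  obtain ⟨L, hL⟩ := exists_loc hS hF hE b3 c1
  have c2 := hL.sub_gen hS c1 normalizerIn_le fun P b _ => hg P b
  haveI := finite_of_le (le_of_sub hL.sub)
  have c3 := hS.to_le (le_of_sub hL.sub)
  have c4 : normalizerIn S Q₁ ≤ normalizerIn S (normalizerIn T Q₁) := le_inf normalizerIn_le (H26.le_normalizer_inf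
    (normalizerIn_le.trans (sc_le_normalizer hT)) (H26.le_normalizer_normalizer normalizerIn_le_normalizer))
  obtain ⟨Q₂, φ, d1, d2, d3⟩ := sat_exists_fn c3 hL.sat ((le_normalizerIn (b5.1.trans hT.1)).trans c4)
  have d4 := (d1.mono (le_inf c4 normalizerIn_le_normalizer)).of_sub c2
  have d5 := k1 ((b1.mono a6).comp d4 fun _ => (b1.mono a6).normalizerIn_mem b4.hiso (a4.trans hT.1)) (b4.hiso.trans d2)
  obtain ⟨R, k, e1, e2⟩ := exists_fullyNormalized E b5.1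
  obtain ⟨g, e3, e4⟩ := sat_ext_normalizer hT' hE.1.1 e2 e1
  obtain ⟨N, e5⟩ := e3.exists_iso
  have e6 : N ≤ normalizerIn T R := fun y hy => by
    obtain ⟨x, hx, rfl⟩ := e5.surj hy
    exact e3.normalizerIn_mem e4 b5.1 hx
  rcases e6.lt_or_eq with e7 | e7
  swap
  · exact isFullyNormalized_iff.2 ⟨b5.1, fun Q' f hf => ((isFullyNormalized_iff.1 e2).2 Q' _ (e1.symm.trans hf)).trans
      (e7 ▸ e5.card_eq.ge)⟩
  exfalso
  haveI := finite_of_le (normalizerIn_le (S := T) (P := R))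
  have f1 := lt_normalizerIn (hT'.to_le normalizerIn_le) e7
  obtain ⟨l, f2, f3⟩ := sat_ext_normalizer hT' hE.1.1 b3 e5.symm
  have f4 := e5.trans (f2.iso_of_le (le_normalizerIn e5.le') f3)
  have f5 := (e4.le_iff e5.hiso).2 (le_normalizerIn b5.1)
  obtain ⟨Q₃, f6⟩ := f2.exists_iso_le (f5.trans (le_normalizerIn e5.le'))
  have f7 := (hL.aut_E hS hE b3 f4).iso_of_le (le_normalizerIn b5.1) (e4.trans f6.hiso)
  have f8 := card_normalizerIn_le c3 hL.sat (sc_sub hT hL.sub) d3 (f7.symm.trans (d1.iso_of_le (le_normalizerIn f7.le) d2))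
  have f9 : normalizerIn (normalizerIn T R) N ≤ normalizerIn T N := normalizerIn_mono_left normalizerIn_le
  have g1 := (f2.mono f9).card_le (Q := normalizerIn (T ⊓ normalizerIn S (normalizerIn T Q₁)) Q₃) (normalizerIn_le.trans inf_le_left)
    fun x hx => ⟨⟨f2.mem (f9 hx), normalizerIn_mono_left hT.1 (f2.normalizerIn_mem f3 e5.le' (f9 hx))⟩,
      (f2.mem_normalizerIn f6.hiso (f5.trans (le_normalizerIn e5.le')) (f9 hx) hx.1.2).2⟩
  have g2 := card_lt_of_lt (normalizerIn_le.trans normalizerIn_le) f1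
  have g3 := card_le_of_le' (S := T) normalizerIn_le (normalizerIn_mono_left (inf_le_left (b := normalizerIn S (normalizerIn T Q₁)))
    (P := Q₂))
  have g4 := e5.card_eq
  have g5 := b2.card_eq
  omega

structure IsES (p : ℕ) (F : FusionSystem S) (E : FusionSystem T) (D : FusionSystem V) : Prop where
  sat : D.IsSaturated p
  sub : D.IsSubsystemOf F
  idx : E.HasPPowerIndexIn D p

theorem exists_ES_top : ∃ D : FusionSystem S, IsES p F E D := by
  have h := fam_one hE.1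
  have hi := hE.1.2.2
  haveI := inv_finite hi
  have hT := h.sc
  have hT' := hS.to_le hT.1
  obtain ⟨D, hD, hg⟩ := exists_gen F le_rfl (𝒢 := GenES p F E) fun P k hk => ⟨hk.2.1.iso.map, hk.2.1.iso.le, fun _ => hk.2.1.iso.map.mem⟩
  have h0 : ∀ {P}, P ≤ S → P ≤ normalizerIn S (P ⊓ T) := fun hP =>
    le_inf hP (H26.le_normalizer_inf Subgroup.le_normalizer (hP.trans (sc_le_normalizer hT)))
  have h1 : ∀ {P}, P ≤ S → ∃ Q ψ, M D (normalizerIn S (P ⊓ T)) ψ ∧ Iso D P Q ψ ∧ E.IsFullyNormalized (Q ⊓ T) := fun hP => by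
    obtain ⟨Q₀, ψ, a1, a2, a3⟩ := exists_map_fn hS hF hE hD hg.mem (inf_le_right (a := _))
    obtain ⟨Q, a4⟩ := a1.exists_iso_le (h0 hP)
    exact ⟨Q, ψ, a1, a4, a2.unique (sc_iso_inf hT (a4.of_sub hD)).hiso ▸ a3⟩
  have h2 : ∀ {P}, P ≤ S → normalizerIn S P ≤ normalizerIn S (P ⊓ T) := fun hP => le_inf normalizerIn_le
    (H26.le_normalizer_inf normalizerIn_le_normalizer (normalizerIn_le.trans (sc_le_normalizer hT)))
  have h3 := gm hS (F := D) (ℋ := fun P => P ≤ S ∧ TC F T (P ⊓ T)) (L := fun P => pResidualOf p (bpGrp F T (fam1 E) P))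
    (fun _ hP => hP.1) (fun _ _ _ hP hf => ⟨hf.le', hP.2.iso hT (sc_iso_inf hT (hf.of_sub hD))⟩)
    (fun _ _ hP a1 a2 => ⟨a2, hP.2.mono (inf_le_inf_right _ a1) inf_le_right⟩)
    (fun P hP => H26.pResidualOf_le_iff.2 fun α hα hc => (mem_autGroup hP.1).2 (hg.mem _ _ ⟨hP.2, hα hP.1, by rwa [res_ex]⟩))
    (fun E' hE' => hg.le E' fun P k hk => (hE' P ⟨hk.2.1.iso.le, hk.1⟩ _ (H26.mem_pResidualOf hk.2.1.res_mem hk.2.2)).congr
      fun _ hx => hk.2.1.iso.hiso.ex_res hx)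
    (fun P Q f _ hf a ha => conj_mem_yp hf.hiso (fun α hα => by
      rw [← map_tr_res hf.hiso (h.map_tr_bpGrp (hf.of_sub hD))]; exact ⟨α, hα, rfl⟩) ha)
    (fun P R b hP a1 a2 hb hi hc => ⟨hi, H26.mem_pResidualOf ((bp_of_yp (a2.trans normalizerIn_le)
      (yp_mono (H26.pResidualOf_le _) hb)).restrict a1.le hi).res_mem (coprime_res hb.1 hi a1.le hc)⟩) fun P hP => by
      obtain ⟨Q₀, f, a1, a2⟩ := exists_fullyNormalized D hP.1
      obtain ⟨Q, ψ, a3, a4, a5⟩ := h1 a2.1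
      have a6 : D.IsFullyNormalized Q := isFullyNormalized_iff.2 ⟨a4.le', fun Q' k hk =>
        ((isFullyNormalized_iff.1 a2).2 Q' _ (a4.trans hk)).trans ((a3.mono (h2 a2.1)).card_le normalizerIn_le
          fun _ => (a3.mono (h2 a2.1)).normalizerIn_mem a4.hiso a2.1)⟩
      have a7 := hP.2.iso hT (sc_iso_inf hT ((a1.trans a4).of_sub hD))
      obtain ⟨L, hL⟩ := exists_loc hS hF hE a5 a7
      have c2 := hL.sub_gen hS a7 normalizerIn_le fun P b _ => hg.mem P b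
      haveI := finite_of_le (le_of_sub hL.sub)
      have c3 := hS.to_le (le_of_sub hL.sub)
      have c4 : normalizerIn (normalizerIn S (Q ⊓ T)) Q = normalizerIn S Q :=
        le_antisymm (normalizerIn_mono_left normalizerIn_le) (le_inf (h2 a6.1) normalizerIn_le_normalizer)
      have c5 : L.IsFullyNormalized Q := isFullyNormalized_iff.2 ⟨h0 a6.1, fun Q' k hk => c4.symm ▸ (card_le_of_le' normalizerIn_le
        (normalizerIn_mono_left normalizerIn_le)).trans ((isFullyNormalized_iff.1 a6).2 Q' k (hk.of_sub c2))⟩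
      have c6 : ∀ b, Bp F T (fam1 E) Q b → (orderOf (res Q b)).Coprime p → Iso L Q Q b := fun b d1 d2 =>
        (hL.mem Q b inf_le_left c5.1 d1 (sc_iso_inf hT d1.iso).hiso d2).iso_of d1.iso.hiso
      haveI := finite_mulAut a6.1
      refine ⟨Q, _, a1.trans a4, a6, ?_, fun R b b1 _ b3 b4 b5 b6 => ?_⟩
      · have := (sat_syl c3 hL.sat c5).inf_of_le (N := pResidualOf p (bpGrp F T (fam1 E) Q)) (H26.pResidualOf_le_iff.2 fun α hα hc =>
          res_ex α ▸ (c6 _ (hα a6.1) (by rwa [res_ex])).res_mem) ((autGroup_mono hL.sub Q).trans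
          (H26.le_normalizer_pResidualOf' (p := p) (h.le_normalizer_bpGrp a6.1)))
        rwa [← autInducedBy_normalizerIn, c4, autInducedBy_normalizerIn] at this
      · obtain ⟨g, d1, d2⟩ := recep_ext_of_le (sat_recep_fn c3 hL.sat c5) (c6 b (bp_of_yp a6.1 (yp_mono (H26.pResidualOf_le _) b4)) b5)
          (K := R) fun s hs => let ⟨t, ht, e⟩ := b6 s hs; ⟨h2 a6.1 (b3 hs), (b3 hs).2, t, h2 a6.1 (b3 ht), e⟩
        exact ⟨g, (d1.mono le_sup_right).of_sub c2, d2⟩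
  have h4 : D.IsSaturated p := sat_of_family hS (ℋ := fun P => P ≤ S ∧ TC F T (P ⊓ T))
    (fun _ _ _ hP hf => ⟨hf.le', hP.2.iso hT (sc_iso_inf hT (hf.of_sub hD))⟩) (fun P hP => (h3 P hP).1)
    (fun E' hE' => hg.le E' fun P k hk => hE' P k ⟨hk.2.1.iso.le, hk.1⟩ (hg.mem _ _ hk)) fun P hP hn => by
      obtain ⟨Q, ψ, -, a4, a5⟩ := h1 hP.1
      obtain ⟨x, b1, b2, b3⟩ := exists_mem_pCore hS hT a4.le' fun a => hn ⟨hP.1, ((tc_iff hi).2 (centric_of_fc (sat_fc hT' hE.1.1 a5)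
        (le_inf a centralizerIn_le))).iso hT (sc_iso_inf hT (a4.of_sub hD)).symm⟩
      have b4 := normalizerIn_mono_left hT.1 b1
      exact ⟨Q, ψ, a4, fun h => b2 (mem_of_res_cj_mem_Inn (centric_le hP a4) a4.le' b4 (h ⟨res_cj_mem b4.1 b4.2,
        H26.inf_pCoreOf_le (autGroup_mono hD Q) ⟨(Iso.cj D a4.le' b4).res_mem, b3⟩⟩))⟩
  have h5 : ∀ P b, TC F T (P ⊓ T) → Iso D P P b → (orderOf (res P b)).Coprime p → Bp F T (fam1 E) P b := fun P b a1 a2 a3 =>
    bp_of_yp a2.le (yp_mono (H26.pResidualOf_le _) ((h3 P ⟨a2.le, a1⟩).2 b a2 a3))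
  have h6 : D.hyperfocalSubgroup p ≤ T := hyperfocal_le_of_inner_mod hS (sc_le_normalizer hT) fun P f hf =>
    alperin_cop hS h4 (C := fun P f => ∃ s ∈ S, ∀ x ∈ P, (s * x * s⁻¹)⁻¹ * f x ∈ T)
      (fun _ _ _ _ _ ⟨s, hs, e⟩ a e' => ⟨s, hs, fun x hx => e' x hx ▸ e x (a hx)⟩)
      (fun _ _ f g _ _ ⟨s, hs, e⟩ ⟨t, ht, e'⟩ a => ⟨t * s, mul_mem ht hs, fun x hx => by
        convert mul_mem (conj_mem_of_normalizer (sc_le_normalizer hT ht) (e x hx)) (e' _ (a x hx)) using 1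
        rw [ma]; group⟩) (fun s hs => ⟨s, hs, fun x _ => by rw [cj_apply, inv_mul_cancel]; exact one_mem _⟩) (fun R a a1 a2 a3 => ⟨1, one_mem _, by
        have a4 : E.IsSubsystemOf D := sub_of_cop hT' hE.1.1 hT.1 fun R a b1 b2 b3 => hg.mem _ _ ⟨by
          rw [inf_eq_left.2 b2.le]; exact (tc_iff hi).2 (cr_of_alperin hT' hE.1.1 b1).1, bp_fam1 (b2.of_sub hi.1)
            (fun x hx => b2.le (mul_mem (inv_mem hx) (b2.map_mem hx))) (b2.map.mono inf_le_left), b3⟩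
        intro x hx
        simpa using (h5 R a ((tc_iff hi).2 (centric_inf_of_radical hS h4 (inv_of_inv_sub hS hi h4 hD a4)
          (cr_of_alperin hS h4 a1).1 (cr_of_alperin hS h4 a1).2.1)) a2 a3).triv x hx⟩) hf
  have h7 : E.IsSubsystemOf D := sub_of_cop hT' hE.1.1 hT.1 fun R a b1 b2 b3 => hg.mem _ _ ⟨by
    rw [inf_eq_left.2 b2.le]; exact (tc_iff hi).2 (cr_of_alperin hT' hE.1.1 b1).1, bp_fam1 (b2.of_sub hi.1)
      (fun x hx => b2.le (mul_mem (inv_mem hx) (b2.map_mem hx))) (b2.map.mono inf_le_left), b3⟩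
  obtain ⟨E', a1, a2⟩ := exists_pidx hS h4 hT.1 h6
  have a3 := sub_of_pidx hS a2 hE.1.1 h7 le_rfl
  obtain rfl : E' = E := eq_of_sub (sub_of_cop hT' a1 le_rfl fun R a b1 b2 b3 => by
    have b4 := (cr_of_alperin hT' a1 b1).1
    exact ((h5 R a (by
      rw [inf_eq_left.2 b2.le]; exact (tc_iff hi).2 (isCentric_iff.2 ⟨b4.1, fun Q f hf => centric_le b4 (hf.of_sub a3)⟩))
      (b2.of_sub a2.1) b3).iso_E le_rfl b2.le b2.hiso).map) a3
  exact ⟨D, h4, hD, a2⟩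

theorem exists_ES (hT : T ≤ V) (hV : V ≤ S) : ∃ D : FusionSystem V, IsES p F E D := by
  obtain ⟨D, hD⟩ := exists_ES_top hS hF hE
  obtain ⟨D', h1, h2⟩ := exists_pidx hS hD.sat hV (hD.idx.2.1.trans hT)
  haveI := finite_of_le hV
  exact ⟨D', h1, sub_trans h2.1 hD.sub, pidx_iff.2 ⟨sub_of_pidx hS h2 hE.1.1 hD.idx.1 hT, (hyperfocal_mono h2.1).trans hD.idx.2.1,
    fun P hP b hb => pidx_M hD.idx hP (hb.of_sub h2.1)⟩⟩

end H28
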