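import Mathlib
import Cfsg.Agent.H28.ES
import Cfsg.Agent.H28.Ctrl2

/-! Uniqueness of the product of a normal subsystem with a `p`-subgroup, and centralizers for odd `p`. -/

set_option autoImplicit false
set_option linter.unusedSectionVars false
set_option linter.style.haveILetI false

open Cfsg Cfsg.FusionSystem Equiv
open H26 (IsSyl)
open scoped IsMulCommutative

namespace H28

theorem exists_avg_elt {G Ω : Type*} [Group G] [Group Ω] (H : Subgroup G) [H.FiniteIndex] (b : G →* Perm Ω) {C K : Subgroup Ω}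
    (hC : ∀ u ∈ C, ∀ v ∈ C, u * v = v * u) (h1 : ∀ g, HIso C C (b g)) {x : Ω} (hx : x ∈ C) (h2 : ∀ h ∈ H, b h x = x)
    (hK : ∀ g, x⁻¹ * b g x ∈ K) : ∃ y ∈ C, (∀ g, b g y = y) ∧ (x ^ H.index)⁻¹ * y ∈ K := by
  letI := Fintype.ofFinite (G ⧸ H)
  haveI : IsMulCommutative C := ⟨⟨fun a b => Subtype.ext (hC _ a.2 _ b.2)⟩⟩
  let φ : G → C := fun g => ⟨b g x, (h1 g).map_mem hx⟩
  refine ⟨(∏ q : G ⧸ H, φ q.out : C), Subtype.property _, fun g => ?_, ?_⟩
  · rw [← (h1 g).equiv_apply, map_prod, ← prod_out_mul H φ (fun a u hu => Subtype.ext (by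
      simp only [φ, map_mul, ma, h2 u hu])) g]
    congr 2
    ext q
    simp only [φ, map_mul, ma, HIso.equiv_apply]
  · have : ((⟨x, hx⟩ : C) ^ H.index)⁻¹ * ∏ q : G ⧸ H, φ q.out ∈ K.subgroupOf C := by
      rw [Subgroup.index_eq_card, Nat.card_eq_fintype_card, ← Finset.card_univ, ← Finset.prod_const, ← Finset.prod_inv_distrib,
        ← Finset.prod_mul_distrib]
      exact Subgroup.prod_mem _ fun q _ => hK _
    exact this

section
variable {Ω : Type*} [Group Ω] {p : ℕ} {S : Subgroup Ω} [Finite S] {F : FusionSystem S}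
  {P Q R T U V X Y Z P' Q' R' T' : Subgroup Ω} {f g : Perm Ω}
variable [Fact p.Prime] (hS : IsPGroup p S) (hF : F.IsSaturated p) {E : FusionSystem T} (hE : E.IsNormalIn F p)
include hS hF hE

theorem M_of_bp {D : FusionSystem V} (hD : E.IsNormalIn D p) (hs : D.IsSubsystemOf F) (hP : P ≤ V) (hc : TC F T (P ⊓ T))
    (hf : Bp F T (fam1 E) P f) (hp : (orderOf (res P f)).Coprime p) : M D P f := by
  haveI := finite_of_le (le_of_sub hs)
  have hV := hS.to_le (le_of_sub hs)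
  have h := fam_one hE.1
  have h' := fam_one hD.1
  have k : ∀ {P f}, D.IsFullyNormalized (P ⊓ T) → P ≤ V → TC F T (P ⊓ T) → Bp F T (fam1 E) P f → (orderOf (res P f)).Coprime p →
      M D P f := fun {P f} hQ hP hc hf hp => by
    have hi := (sc_iso_inf h.sc hf.iso).hiso
    have hc' := (tc_iff hD.1.2.2).2 ((tc_iff hE.1.2.2).1 hc)
    have hR : P ≤ normalizerIn V (P ⊓ T) := le_inf hP (H26.le_normalizer_inf Subgroup.le_normalizer (hP.trans (sc_le_normalizer h'.sc)))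
    have a0 := coprime_res hf.iso.hiso hi inf_le_left hp
    have a5 := hf.iso_E inf_le_left inf_le_right hi
    obtain ⟨β, a2, a3, a4⟩ := (hb_of_normal hV hD.1.2.1 hD hc' a5 a0).ext_cop hQ.1 a0
    obtain ⟨k, b1, b2, b3⟩ := h'.up_fn hV hD.1.2.1 hQ hc' inf_le_left hR a2 a4 fun s hs => ⟨f s, hf.iso.map_mem hs,
      by simpa using Subgroup.inv_mem _ (hf.triv s hs), fun x hx => by
        rw [a3 _ (conj_mem_of_normalizer (hR hs).2 hx), a3 x hx, hf.iso.hom.map_conj hs hx.1]⟩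
    have b4 : ∀ x ∈ P ⊓ T, k x = f x := fun x hx => (b2 x (Subgroup.mem_sup_left hx)).trans (a3 x hx)
    have hR' := hR.trans (normalizerIn_mono_left (le_of_sub hs))
    have b5 := iso_of_triv_agree h.sc.1 hc inf_le_left hR' hf.iso hf.triv hi (b1.iso.map.of_sub hs) b1.triv le_sup_left b4
    obtain ⟨z, hz, e⟩ := h.u2 hS hF hc inf_le_left hR' b5 (b1.triv.mono le_sup_left) (coprime_res b1.iso.hiso b5.hiso le_sup_left b3)
      hf.iso hf.triv hp ((hb_of_normal hS hF hE hc a5 a0).congr fun x hx => (b4 x hx).symm) fun x hx => (b4 x hx).symm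
    exact ((M.cj D hP (hP hz.1.1)).comp (b1.iso.map.mono le_sup_left) fun x hx =>
      mul_mem (mul_mem hz.1.1 hx) (inv_mem hz.1.1)).congr fun x hx => (e x hx).symm
  obtain ⟨Q, φ, a1, a2, a3⟩ := sat_exists_fn hV hD.1.2.1 (inf_le_left.trans hP : P ⊓ T ≤ V)
  obtain ⟨P', a4⟩ := a1.exists_iso_le (R := P)
    (le_inf hP (H26.le_normalizer_inf Subgroup.le_normalizer (hP.trans (sc_le_normalizer h'.sc))))
  have a5 := sc_iso_inf h.sc (a4.of_sub hs)
  obtain rfl := a2.unique a5.hiso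
  exact ((a4.map.comp (k a3 a4.le' (hc.iso h.sc a5) (h.bp_conj hf (a4.of_sub hs)) (coprime_conj a4.hiso hf.iso.hiso hp))
    fun _ => a4.map_mem).comp a4.symm.map fun x hx => by simpa only [ma, ia] using a4.map_mem (hf.iso.map_mem hx)).congr
    fun x _ => by simp only [ma, ia]

omit hF in
theorem IsES.normalIn {D : FusionSystem V} (h : IsES p F E D) : E.IsNormalIn D p :=
  haveI := finite_of_le (le_of_sub h.sub)
  pidx_normal (hS.to_le (le_of_sub h.sub)) h.sat ((le_of_sub h.sub).trans (sc_le_normalizer hE.1.2.2.2.1)) hE.1.1 h.idx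

theorem IsES.sub_of {D : FusionSystem V} (h : IsES p F E D) {D' : FusionSystem U} (h' : E.IsNormalIn D' p) (hs : D'.IsSubsystemOf F)
    (hV : V ≤ U) : D.IsSubsystemOf D' := by
  haveI := finite_of_le (le_of_sub h.sub)
  have h1 := hS.to_le (le_of_sub h.sub)
  have h2 := (h.normalIn hS hE).1.2.2
  exact sub_of_cop h1 h.sat hV fun R a b1 b2 b3 => M_of_bp hS hF hE h' hs (b2.le.trans hV)
    ((tc_iff hE.1.2.2).2 ((tc_iff h2).1 (tc_inf_of_alperin h1 h.sat h2.2.1 b1))) (bp_fam1 (b2.of_sub h.sub)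
      (fun x hx => h.idx.2.1 (b2.hiso.ex_res hx ▸ mem_hyperfocal b2.le (H26.mem_pResidualOf b2.res_mem b3) hx))
      (pidx_M h.idx inf_le_right (sc_iso_inf h2.2.1 b2) (coprime_res b2.hiso (sc_iso_inf h2.2.1 b2).hiso inf_le_left b3))) b3

theorem IsES.unique {D D' : FusionSystem V} (h : IsES p F E D) (h' : IsES p F E D') : D = D' :=
  eq_of_sub (h.sub_of hS hF hE (h'.normalIn hS hE) h'.sub le_rfl) (h'.sub_of hS hF hE (h.normalIn hS hE) h.sub le_rfl)

end

universe u in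
theorem centralizerIn_le_of_odd {Ω : Type u} [Group Ω] {p : ℕ} {S T : Subgroup Ω} [Finite S] {F : FusionSystem S} [Fact p.Prime]
    (hG : Glaub.{u} p) (hp : p ≠ 2) (hS : IsPGroup p S) (hF : F.IsSaturated p) {E : FusionSystem T} (hE : E.IsNormalIn F p) :
    centralizerIn S T ≤ T ⊔ cenS p F E := fun x hx => by
  have hT := hE.1.2.2.2.1
  have h1 : T ⊔ Subgroup.zpowers x ≤ S := sup_le hT.1 (Subgroup.zpowers_le.2 hx.1)
  have h0 : T ≤ T ⊔ Subgroup.zpowers x := le_sup_left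
  have h2 : x ∈ centralizerIn (T ⊔ Subgroup.zpowers x) (T ⊔ Subgroup.zpowers x) :=
    ⟨Subgroup.mem_sup_right (Subgroup.mem_zpowers x), Subgroup.le_centralizer_iff.1 (sup_le
      (Subgroup.le_centralizer_iff.2 (Subgroup.zpowers_le.2 hx.2)) (Subgroup.le_centralizer _)) (Subgroup.mem_zpowers x)⟩
  have h3 : ⁅T ⊔ Subgroup.zpowers x, T ⊔ Subgroup.zpowers x⁆ ≤ T := by
    have hn := (Subgroup.zpowers_le.2 hx.1).trans (sc_le_normalizer hT)
    refine Subgroup.commutator_le.2 fun a ha b hb => ?_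
    obtain ⟨u, hu, c, hc, rfl⟩ := (H26.mem_sup_of_le_normalizer' hn).1 ha
    have h4 := (Subgroup.zpowers_le.2 h2 hc).2 b hb
    rw [commutatorElement_def, mul_inv_rev, mul_assoc u, ← h4, mul_assoc u, mul_assoc b, mul_inv_cancel_left, mul_assoc u]
    exact mul_mem hu (conj_mem_of_normalizer (sc_le_normalizer hT (h1 hb)) (inv_mem hu))
  generalize T ⊔ Subgroup.zpowers x = V at h0 h1 h2 h3
  obtain ⟨D, hD⟩ := exists_ES hS hF hE h0 h1
  haveI := finite_of_le h1
  have hV := hS.to_le h1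
  have h4 : D.focalSubgroup ≤ T := (focal_eq_sup hV hD.sat).trans_le (sup_le hD.idx.2.1 h3)
  have hJ : thompsonSubgroupAOf V ≤ V := (pfun_J (p := p)).le V
  have hn : V ≤ Subgroup.normalizer (thompsonSubgroupAOf V : Set Ω) := Subgroup.le_normalizer.trans (pfun_J.norm hV)
  have h5 := center_le_J V
  set J := thompsonSubgroupAOf V
  haveI := finite_mulAut hJ
  have h6 := (sat_syl hV hD.sat (fullyNormalized_of_normal hJ hn)).not_dvd
  haveI := finite_of_le hJ
  haveI := finite_of_le (centralizerIn_le (S := J) (P := J))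
  obtain ⟨y, hy, h7, h8⟩ := exists_avg_elt ((autInducedBy V J).subgroupOf (D.autGroup J)) ((ex J).comp (D.autGroup J).subtype)
    (C := centralizerIn J J) (K := T) (fun u hu v hv => hv.2 u hu.1) (fun g => ((hiso_ex g.1).hom.mono centralizerIn_le).hiso_self
      fun z hz => ⟨ex_mem _ hz.1, (hiso_ex g.1).comm_of_comm (hiso_ex g.1).hom le_rfl hz.1 hz.2⟩)
    (x := x) ⟨h5 h2, fun z hz => h2.2 z (hJ hz)⟩ (fun a ha => by
      obtain ⟨s, hs, e⟩ := mem_autInducedBy.1 ha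
      exact (e x (h5 h2)).trans (by rw [h2.2 s hs, mul_inv_cancel_right]))
    fun a => h4 ((iso_ex hJ a.2).map.mem_focal (h5 h2))
  have h9 : ∀ {P f}, J ≤ P → M D P f → HIso J J f → f y = y := fun a1 a2 a3 =>
    (a3.ex_res hy.1).symm.trans (h7 ⟨_, (a2.iso_of_le a1 a3).res_mem⟩)
  have h10 : y ∈ centralizerIn V V := ⟨hJ hy.1, fun s hs =>
    mul_inv_eq_iff_eq_mul.1 (h9 hJ (M.cj D le_rfl hs) (hiso_cj_of_normalizer (hn hs)))⟩
  have h11 := central_iff_le_center.2 (Subgroup.zpowers_le.2 ((mem_center_iff hV hD.sat).2 ⟨h10.1,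
    glaub_fix hG hV hD.sat (Or.inl hp) y h10 fun P f a1 a2 a3 _ => h9 a1 a2 a3⟩))
  have h12 : Cen F E (Subgroup.zpowers y) := ⟨Subgroup.zpowers_le.2 ⟨h1 h10.1, fun t ht => h10.2 t (h0 ht)⟩,
    fun P f hf => let ⟨g, a1, a2⟩ := central_ext h11 (hf.of_sub hD.idx.1); ⟨g, a1.of_sub hD.sub, a2⟩⟩
  obtain ⟨k, hk⟩ := H26.isPGroup_iff_mem.1 hS x hx.1
  refine mem_of_pow_mem (n := ((autInducedBy V J).subgroupOf (D.autGroup J)).index) ?_
    ((((Nat.Prime.coprime_iff_not_dvd Fact.out).2 h6).symm.pow_right k).coprime_dvd_right (orderOf_dvd_of_pow_eq_one hk))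
  simpa using Subgroup.mul_mem _ (Subgroup.mem_sup_right (S := T) (h12.le_cenS hS hF hE (Subgroup.mem_zpowers y)))
    (Subgroup.inv_mem _ (Subgroup.mem_sup_left h8))

end H28
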