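import Cfsg.Agent.H28.Ea2
import Cfsg.Agent.H28.Ea3
import Cfsg.Agent.H28.Fa1
import Cfsg.Agent.H11.Mult
import Cfsg.Agent.S1063

/-!
# Alternating sections of the groups of type `E₆`
-/

set_option autoImplicit false
set_option synthInstance.maxSize 4096

open Module

namespace H28.Ea
open H28.Al H16.E6 Cfsg.Lie

universe u v

theorem core (F : Type u) [Field F] [IsAlgClosed F] (p : ℕ) [Fact p.Prime] [CharP F p] (h2 : (2 : F) ≠ 0) {r : ℕ}
    (hr : 11 ≤ r - 1 - if p ∣ r then 1 else 0) (c : ℕ) : ∀ (G : Type v) [Group G] [Finite G], Nat.card G = c →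
    ∀ (φ : G →* alternatingGroup (Fin r)), Function.Surjective φ → ∀ j : G →* E6univ F,
    (∀ u, orderOf u = 2 → ∃ x, Dg (x * j u * x⁻¹) n1 ∨ Dg (x * j u * x⁻¹) (ng 56)) → False := by
  induction c using Nat.strong_induction_on with
  | _ c ihc =>
  intro G _ _ hc φ hφ j hi
  have hmin : ∀ H : Subgroup G, H.map φ = ⊤ → H = ⊤ := fun H hH => by
    by_contra h0
    refine ihc _ ?_ H rfl (φ.comp H.subtype) ?_ (j.comp H.subtype) fun u hu => hi u ((Subgroup.orderOf_coe u).trans hu)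
    · rw [← hc]
      exact lt_of_le_of_ne (Subgroup.card_le_card_group H) fun q => h0 (Subgroup.eq_top_of_card_eq H q)
    · intro σ
      obtain ⟨g, hg, rfl⟩ : σ ∈ H.map φ := by rw [hH]; trivial
      exact ⟨⟨g, hg⟩, rfl⟩
  have h5 : 5 ≤ Nat.card (Fin r) := by simp; omega
  have hN : ∀ N : Subgroup G, N.Normal → N ≤ φ.ker ∨ N = ⊤ := fun N hN => by
    have := hN.map φ hφ
    rcases alternatingGroup.normal_subgroup_eq_bot_or_eq_top h5 (N := N.map φ) with q | q
    · exact .inl ((Subgroup.map_eq_bot_iff _).1 q)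
    · exact .inr (hmin N q)
  have hnil : Group.IsNilpotent φ.ker := by
    have h1 : φ.ker ≤ frattini G := by
      rw [frattini, Order.radical]
      refine le_iInf₂ fun M hM => ?_
      by_contra q
      have h2 := hM.2 (M ⊔ φ.ker) (left_lt_sup.2 q)
      refine hM.1 (hmin M ?_)
      have h3 := congrArg (Subgroup.map φ) h2
      rwa [Subgroup.map_sup, (Subgroup.map_eq_bot_iff _).2 le_rfl, sup_bot_eq, ← MonoidHom.range_eq_map,
        MonoidHom.range_eq_top.2 hφ] at h3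
    have := frattini_nilpotent (G := G)
    exact Group.nilpotent_of_mulEquiv (Subgroup.subgroupOfEquivOfLe h1)
  have hG : H10 F G := fun W _ _ _ ρ hW g => by
    rcases hN ρ.ker inferInstance with q | q
    · have := main F p (by omega) _ W rfl _ G rfl φ hφ ρ q
      omega
    · exact q.ge (Subgroup.mem_top g)
  have hV : finrank F (I27 → F) = 27 := by simp
  have ht : ∀ u, orderOf u = 2 → tr ((r0.comp j) u) = 3 ∨ tr ((r0.comp j) u) = -5 := fun u hu => by
    obtain ⟨x, hx⟩ := hi u hu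
    rw [tr, hV, MonoidHom.comp_apply, ← rk_conj r0 x]
    rcases hx with hx | hx
    · right; rw [(hx.rk h2).1, show Finset.card _ = 16 by decide +kernel]; rfl
    · left; rw [(hx.rk h2).1, show Finset.card _ = 12 by decide +kernel]; rfl
  by_cases hK : Odd (Nat.card φ.ker)
  · exact oddK h2 (by omega) φ hφ hK _ hV ht
  · obtain ⟨z, h1, h3⟩ := cenZ h2 (by omega) φ hφ hK hnil _ hV ht
    obtain ⟨x, hx | hx⟩ := hi z h1
    · exact b1 h2 hG ((MulAut.conj x).toMonoidHom.comp j) h3 hx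
    · exact b2 h2 hG ((MulAut.conj x).toMonoidHom.comp j) h3 hx

theorem one {G A : Type*} [Group G] [Group A] [Finite G] (π : G →* A) (hπ : Function.Surjective π) {l k : ℕ} [hl : Fact l.Prime]
    (cl : ∀ Q : Subgroup G, IsPGroup l Q → ∀ a ∈ Q, ∀ b ∈ Q, a * b = b * a)
    {u b : A} (hu : orderOf u = l) (h1 : b * u * b⁻¹ = u ^ k) : ∃ y g : G, orderOf y = l ∧ g * y * g⁻¹ = y ^ k := by
  have := Finite.of_surjective π hπ
  let B := Subgroup.normalizer (Subgroup.zpowers u : Set A)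
  have b1 : b ∈ B := Subgroup.mem_normalizer_fintype (by
    rintro _ ⟨i, rfl⟩; rw [← conj_zpow, h1]; exact zpow_mem (Subgroup.npow_mem_zpowers ..) _)
  have b4 : (B.comap π).map π = B := Subgroup.map_comap_eq_self_of_surjective hπ B
  obtain ⟨Q, -, q1, q2, q3, -⟩ := H28.Fa.fr π (B.comap π) (V := Subgroup.zpowers u)
    (IsPGroup.of_card (p := l) (n := 1) (by rw [Nat.card_zpowers, hu, pow_one])) (fun m h => h) (by rw [b4]; exact Subgroup.le_normalizer)
  rw [b4] at q3
  obtain ⟨g, ⟨g1, -⟩, rfl⟩ := q3 b1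
  obtain ⟨z0, z1, rfl⟩ := q2.ge (Subgroup.mem_zpowers u)
  obtain ⟨z, -, z3, z4⟩ := H28.Fa.eig π (k := k) q1 (cl Q q1) g1 (fun a ha => by
    obtain ⟨i, hi⟩ := q2.le ⟨a, ha, rfl⟩
    rw [← show π z0 ^ i = π a from hi, ← conj_zpow, h1, ← zpow_natCast, ← zpow_natCast, ← zpow_mul, ← zpow_mul, mul_comm]) ⟨z0, z1, by
    intro q; rw [q, orderOf_one] at hu; exact hl.out.ne_one hu.symm⟩
  exact ⟨z, g, z3, z4⟩

open H11 Cfsg StSys

theorem exists_sg {D : ChevalleyDatum} [Good D] [Cert D] (K : Type u) [Field K] [Fintype K] (p : ℕ) [CharP K p]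
    (hi : ∀ (Ω : Type u) [Field Ω], Function.Injective (torS (hMul_sg (D := D) (K := Ω)))) :
    ∃ (Ω : Type u) (_ : Field Ω) (_ : IsAlgClosed Ω) (_ : Uncountable Ω) (_ : CharP Ω p) (σ : _)
      (j : D.SteinbergGroup K →* D.SteinbergGroup Ω), Tws (galSg D Ω) σ ((Fintype.card K : ℤ) • 1) ∧ Function.Injective j ∧
        j.range = fixS σ := by
  obtain ⟨Ω, _, _, _, ⟨φ⟩⟩ := exists_unc K
  have := (φ.charP_iff_charP p).1 inferInstance
  obtain ⟨τ, h1, h2⟩ := exists_frobΩ φ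
  obtain ⟨j, hj⟩ := exists_sgMor (hMul_sg (D := D)) φ
  refine ⟨Ω, _, inferInstance, inferInstance, this, (galSg D Ω).aut τ, j, ?_, (injective_iff_map_eq_one _).2 fun g hg => ?_,
    (galSg D Ω).range_eq_fix (sgSys_grp _ _) hj h2 fun z hz => ⟨1, map_one _, by simpa using hi Ω (hz.trans (map_one _).symm)⟩⟩
  · convert ((galSg D Ω).simpAct τ).tws (A := galSg D Ω) (hi Ω) (fun _ => h1) Fintype.one_lt_card h1 (pow_one _)
    ext i j; by_cases e : i = j <;> simp [e]
  · have h3 := hj.θ (sgSys_grp _ _) g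
    rw [hg, map_one] at h3
    obtain ⟨c, rfl⟩ := (torS_range hMul_sg).ge (mem_H_of_θ_eq_one (S := sgSys D K) (g := g) (sgSys_grp D K ▸ trivial)
      (Units.ext (Matrix.map_injective φ.injective ((congrArg Units.val h3).symm.trans (by simp)))))
    rw [hj.torS hMul_sg hMul_sg] at hg
    have h4 := hi Ω (hg.trans (map_one _).symm)
    rw [show c = 1 from funext fun i => Units.map_injective φ.injective ((congrFun h4 i).trans (map_one _).symm), map_one]

theorem sg_cov (K : Type u) [Field K] [Fintype K] : Finite (chevE6.SteinbergGroup K) ∧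
    ∃ θ : chevE6.SteinbergGroup K →* chevE6.group K, Function.Surjective θ ∧ ∀ z, θ z = 1 → z ^ 3 = 1 ∧ ∀ g, g * z = z * g := by
  have h1 : ((sgSys chevE6 K).θG (sgSys_grp _ _)).ker = Subgroup.center _ := by rw [θG_ker, center_eq_ker (sgSys_grp _ _)]
  have h2 := center_sgE6 (K := K)
  refine ⟨Nat.finite_of_card_ne_zero ?_, _, θG_surjective (sgSys_grp _ _), fun z hz => ?_⟩
  · rw [← ((sgSys chevE6 K).θG (sgSys_grp _ _)).ker.card_mul_index, Subgroup.index_ker, h1, h2]
    exact mul_ne_zero (Nat.gcd_ne_zero_left three_ne_zero) Nat.card_pos.ne'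
  · have h3 : z ∈ Subgroup.center _ := h1.le hz
    exact ⟨orderOf_dvd_iff_pow_eq_one.1 ((Subgroup.orderOf_dvd_natCard _ h3).trans (h2 ▸ Nat.gcd_dvd_left _ _)),
      Subgroup.mem_center_iff.1 h3⟩

theorem exists27 (F : Type u) [Field F] : ∃ f : chevE6.SteinbergGroup F →* E6univ F,
    f (torS hMul_sg (sgn F ([1].getD · 0))) = H16.E6.hh 56 (-1) ∧
      f (torS hMul_sg (sgn F ([1, 1].getD · 0))) = H16.E6.hh 56 (-1) * H16.E6.hh 46 (-1) := by
  have e (r : Fin 72) (c : F) : H11.hh (yy r) (yy r.rev) c = H16.E6.hh r c := by simp only [H11.hh, H16.E6.hh, mul_assoc]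
  let f : chevE6.SteinbergGroup F →* E6univ F := PresentedGroup.toGroup (rel_yy.kills' fun r a b ha hb => by
    refine (congrArg₂ (· * ·) (e r a) (e r b)).trans (Eq.trans ?_ (e r _).symm)
    refine mul_inv_eq_one.1 (eq_one_of_ee fun w => ?_)
    rw [ac_mul, ← ac_inv (H16.E6.hh r (a * b)) (ee w), inv_ac]
    funext v
    rw [ac_mul, ac_hh r ha, ac_hh r hb, ac_hh r (mul_ne_zero ha hb)]
    split_ifs <;> simp [mul_assoc, mul_left_comm])
  have hf (r t) : f ((sgSys chevE6 F).x r t) = yy r t := PresentedGroup.toGroup.of _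
  have h1 (i : Node chevE6) (r : Fin 72) (hr : sroot i = r) : f (torS hMul_sg (Pi.mulSingle i (-1))) = H16.E6.hh r (-1) := by
    subst hr
    rw [torS_single]
    simp only [StSys.h, StSys.n, map_mul, hf, H16.E6.hh, mul_assoc]
    simp
    rfl
  refine ⟨f, ?_, ?_⟩
  · rw [show sgn F ([1].getD · 0) = Pi.mulSingle (⟨0, by decide⟩ : Node chevE6) (-1) from funext fun i => by
      fin_cases i <;> simp [sgn, Fin.ext_iff], h1 _ 56 (Fin.ext (by decide +kernel))]
  · rw [show sgn F ([1, 1].getD · 0) = Pi.mulSingle (⟨0, by decide⟩ : Node chevE6) (-1) * Pi.mulSingle (⟨1, by decide⟩ : Node chevE6) (-1) from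
      funext fun i => by fin_cases i <;> simp [sgn, Fin.ext_iff], map_mul, map_mul,
      h1 _ 56 (Fin.ext (by decide +kernel)), h1 _ 46 (Fin.ext (by decide +kernel))]

theorem no11 (w : Weyl chevE6) : ¬ ((11 : ℕ) : ℤ) ∣ (((2 : ℕ) : ℤ) • 1 * corM w.1 - 1).det := fun h => by
  obtain ⟨Ω, _, _, _, _, σ, j, T, hj, hr⟩ := exists_sg (D := chevE6) (ZMod 2) 2 fun _ _ => torS_sgE6
  obtain ⟨_, θ, -, hθ⟩ := sg_cov (ZMod 2)
  rw [ZMod.card] at T
  obtain ⟨c, h1, h2⟩ := exists_prime_c (K := Ω) (B := ((2 : ℕ) : ℤ) • 1 * corM w.1) (by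
    rw [← eq_intCast (Int.castRingHom Ω), RingHom.map_det, map_sub, map_mul, map_zsmul, map_one, zsmul_eq_mul, Int.cast_natCast,
      ← map_natCast (algebraMap Ω (Matrix (Node chevE6) (Node chevE6) Ω)), CharP.cast_eq_zero, map_zero, zero_mul, zero_mul, zero_sub,
      Matrix.det_neg]
    simp) (by norm_num) h
  obtain ⟨g, hg⟩ := T.exists_ord hj hr w h1
  rw [h2] at hg
  have h3 : orderOf (θ g) = 11 := ((Nat.dvd_prime (by norm_num)).1 (hg ▸ orderOf_map_dvd θ g)).resolve_left fun q =>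
    absurd (hg ▸ orderOf_dvd_of_pow_eq_one (hθ g (orderOf_eq_one_iff.1 q)).1) (by decide)
  have h4 := (h3 ▸ orderOf_dvd_natCard (θ g)).mul_left (Nat.gcd 3 (2 - 1))
  rw [Cfsg.Agent.S1063.result (ZMod.card 2)] at h4
  exact absurd h4 (by norm_num)

theorem final {F : Type u} [Field F] [Fintype F] (p : ℕ) [hp : Fact p.Prime] [CharP F p] {r : ℕ} (H : Subgroup (chevE6.group F))
    (π : H →* alternatingGroup (Fin r)) (hπ : Function.Surjective π) :
    r ≤ 11 + (if p = 2 ∨ p = 3 ∨ p = 5 then 1 else 0) := by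
  obtain ⟨Ω, _, _, _, _, σ, j, T, hj, hr⟩ := exists_sg (D := chevE6) F p fun _ _ => torS_sgE6
  obtain ⟨_, θ, hθ, hθ'⟩ := sg_cov F
  by_contra! h
  split_ifs at h with q
  · let ι := H24.Alt.embA (Fin.castLEEmb (show 13 ≤ r by omega))
    have hι : Function.Injective ι := H24.Alt.embA_injective _
    let c (a b c d : Fin 13) (h : a ≠ b ∧ c ≠ d := by decide) : alternatingGroup (Fin 13) :=
      ⟨Equiv.swap a b * Equiv.swap c d, by simp [Equiv.Perm.mem_alternatingGroup, h.1, h.2]⟩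
    have : Fact (Nat.Prime 11) := ⟨by norm_num⟩
    have hp11 : ¬ p ∣ 11 := by rcases q with rfl | rfl | rfl <;> decide
    have ab := H28.Fa.ab_of 11 (fun h3 P a ha b hb => by
        obtain ⟨n, -, hn⟩ := FiniteField.card F p
        obtain ⟨f⟩ := Cfsg.Agent.S2378.result (F := F) rfl (chevE6, [2, 5, 6, 8, 9, 12]) (by simp) 11 (fun q => hp11
          ((Nat.prime_dvd_prime_iff_eq this.out hp.out).1 (this.out.dvd_of_dvd_pow (hn ▸ q)) ▸ dvd_rfl)) (by decide) h3 P
        exact congrArg Subtype.val (f.injective (show f (⟨a, ha⟩ * ⟨b, hb⟩) = f (⟨b, hb⟩ * ⟨a, ha⟩) by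
          rw [map_mul, map_mul, mul_comm]))) H
    have h0 : ∀ u b : alternatingGroup (Fin 13), u ^ 11 = 1 ∧ u ≠ 1 ∧ b * u * b⁻¹ = u ^ 2 → False := fun u b ⟨a1, a2, a3⟩ => by
      obtain ⟨y, g, h1, h2⟩ := one π hπ (k := 2) ab (u := ι u) (b := ι b) (by rw [orderOf_injective ι hι, orderOf_eq_prime a1 a2])
        (by rw [← map_inv, ← map_mul, ← map_mul, a3, map_pow])
      obtain ⟨y', hy⟩ := hθ y
      obtain ⟨g', hg⟩ := hθ g
      have h3 := hθ' (y' ^ 11) (by rw [map_pow, hy, ← h1]; exact congrArg Subtype.val (pow_orderOf_eq_one y))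
      have h4 := hθ' ((y' ^ 2)⁻¹ * (g' * y' * g'⁻¹)) (by
        rw [map_mul, map_inv, map_pow, map_mul, map_mul, map_inv, hy, hg, inv_mul_eq_one]
        exact (congrArg Subtype.val h2).symm)
      have h5 : orderOf (y' ^ 3) = 11 := orderOf_eq_prime (by rw [← pow_mul, mul_comm, pow_mul, h3.1]) fun q => by
        have := congrArg θ q
        rw [map_pow, hy, map_one] at this
        exact absurd (h1 ▸ orderOf_dvd_of_pow_eq_one (x := y) (Subtype.ext this)) (by decide)
      obtain ⟨c, w, h6, h7⟩ := H28.Fa.trans_ord T hj hr p (y := y' ^ 3) (k := 2) (by rwa [h5]) (isConj_iff.2 ⟨g', by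
        rw [← conj_pow, ← mul_inv_cancel_left (y' ^ 2) (g' * y' * g'⁻¹), Commute.mul_pow (h4.2 _), h4.1, mul_one, ← pow_mul, ← pow_mul]⟩)
      exact no11 w (by rw [← h5, ← h6]; exact orderOf_dvd_det h7)
    exact h0 (c 0 10 0 9 * c 0 8 0 7 * c 0 6 0 5 * c 0 4 0 3 * c 0 2 0 1)
      (c 1 6 1 3 * c 1 7 1 9 * c 1 10 1 5 * c 1 8 1 4 * c 1 2 11 12) (by decide +kernel)
  · have h2 : (2 : Ω) ≠ 0 := Ring.two_ne_zero (by rw [ringChar.eq Ω p]; tauto)
    obtain ⟨f, f1, f2⟩ := exists27 Ω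
    refine core Ω p h2 (r := r) ?_ _ (H.comap θ) rfl (π.comp (θ.subgroupComap H))
      (hπ.comp (θ.subgroupComap_surjective_of_surjective H hθ)) (f.comp (j.comp (H.comap θ).subtype)) fun u hu => ?_
    · split_ifs with q1
      · by_contra q2
        obtain rfl : r = 12 := by omega
        rcases (Nat.Prime.dvd_mul hp.out (m := 4) (n := 3)).1 q1 with q3 | q3
        · exact q (.inl ((Nat.prime_dvd_prime_iff_eq hp.out Nat.prime_two).1 (hp.out.dvd_of_dvd_pow (n := 2) q3)))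
        · exact q (.inr (.inl ((Nat.prime_dvd_prime_iff_eq hp.out Nat.prime_three).1 q3)))
      · omega
    · obtain ⟨_, hψ, x, e⟩ := T.exists_inv hj hr p h2 [([1].getD · 0), ([1, 1].getD · 0)]
        (lk 0x5645374667677d579a899baa78788c684534263556566e463423152412120600 4 15) (by decide +kernel)
        ((Subgroup.orderOf_coe u).trans hu)
      refine ⟨f x⁻¹, ?_⟩
      have e1 : f x⁻¹ * (f.comp (j.comp (H.comap θ).subtype)) u * (f x⁻¹)⁻¹ = f (x⁻¹ * j u * x) := by simp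
      rw [e1, e]
      simp only [List.mem_cons, List.not_mem_nil, or_false] at hψ
      rcases hψ with rfl | rfl
      · exact .inr (f1 ▸ dg_hh 56)
      · exact .inl (f2 ▸ dg_n1)

end H28.Ea
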