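import Cfsg.Agent.H28.Eb1

/-!
# The 56 weights of type `E₇`: multiplicities for rational elements
-/

set_option autoImplicit false

open Module Finset

namespace H28.Eb
open H11 Cfsg Cfsg.Lie StSys H28.Al H28.Ea

variable {l : ℕ} [NeZero l]

theorem qq {h : ZMod l} (hh : 2 * h = 1) (b : Fin 8 → ZMod l) (t : ZMod l) :
    ∑ a, ∑ a', (if a ≠ a' ∧ b a + b a' = t then 1 else 0) + #{a | b a = h * t} = ∑ s, #{a | b a = s} * #{a | b a = t - s} := by
  have e1 := Finset.sum_fiberwise' univ b fun s => #{a | b a = t - s}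
  simp only [sum_const, smul_eq_mul] at e1
  rw [e1, card_filter, ← sum_add_distrib]
  refine sum_congr rfl fun a _ => ?_
  rw [card_filter, ← add_sum_erase _ _ (mem_univ a), ← add_sum_erase _ (fun a' => if b a' = t - b a then 1 else 0) (mem_univ a),
    if_neg (by simp), zero_add, add_comm]
  congr 1
  · exact if_congr ⟨fun q => by linear_combination 2 * q + t * hh, fun q => by linear_combination h * q - b a * hh⟩ rfl rfl
  · exact sum_congr rfl fun a' ha => if_congr ⟨fun q => by linear_combination q.2,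
      fun q => ⟨(ne_of_mem_erase ha).symm, by linear_combination q⟩⟩ rfl rfl

/-- coordinates of a cocharacter -/
def bn (l : ℕ) (n : Node chevE8 → ℤ) (a : Fin 8) : ZMod l := (∑ j, n j * bb a j : ℤ)

/-- multiplicity -/
def NN (l : ℕ) (n : Node chevE8 → ℤ) (k : ZMod l) : ℕ := #{r : Root chevE8 | fv v8 r = 1 ∧ (fv n r : ZMod l) = k}

theorem cnt {h : ZMod l} (hh : 2 * h = 1) {n : Node chevE8 → ℤ} (hn : ∀ j : Node chevE8, j.1 = 7 → n j = 0) (k : ZMod l) :
    2 * NN l n k = MM h (fun s => #{a | bn l n a = s}) (2 * k) := by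
  have e0 : ∀ x : Bool × Fin 8 × Fin 8, x.2.1 ≠ x.2.2 →
      ((fv n (gt x) : ZMod l) = k ↔ (if x.1 then 1 else -1) * (bn l n x.2.1 + bn l n x.2.2) = 2 * k) := fun x hx => by
    have e : 2 * fv n (gt x) = (if x.1 then 1 else -1) * (∑ j, n j * bb x.2.1 j + ∑ j, n j * bb x.2.2 j) := by
      rw [fv, dotProduct, ← sum_add_distrib, mul_sum, mul_sum]
      refine sum_congr rfl fun j _ => ?_
      rcases (chk1 x hx).2 j with q | q
      · simp [hn j q]
      · linear_combination n j * q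
    have e' := congrArg (Int.cast : ℤ → ZMod l) e
    rw [Int.cast_mul, Int.cast_mul, Int.cast_add, Int.cast_ite, Int.cast_ofNat, Int.cast_one, Int.cast_neg, Int.cast_one] at e'
    rw [bn, bn, ← e']
    exact ⟨fun q => by rw [q], fun q => by linear_combination h * q - (fv n (gt x) - k) * hh⟩
  have e1 : #{x : Bool × Fin 8 × Fin 8 | x.2.1 ≠ x.2.2 ∧ (if x.1 then 1 else -1) * (bn l n x.2.1 + bn l n x.2.2) = 2 * k} =
      2 * NN l n k := by
    rw [card_eq_sum_card_fiberwise (f := gt) (t := {r : Root chevE8 | fv v8 r = 1 ∧ (fv n r : ZMod l) = k}) fun x hx => by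
      have := (mem_filter.1 hx).2
      exact mem_filter.2 ⟨mem_univ _, (chk1 x this.1).1, (e0 x this.1).2 this.2⟩, NN, mul_comm 2 #_]
    refine sum_const_nat fun r hr => ?_
    have := (mem_filter.1 hr).2
    rw [← chk2 r this.1, filter_filter]
    exact congrArg card (filter_congr fun x _ => ⟨fun q => ⟨q.1.1, q.2⟩, fun q => ⟨⟨q.1, (e0 x q.1).1 (q.2 ▸ this.2)⟩, q.2⟩⟩)
  have q1 := qq hh (bn l n) (2 * k)
  have q2 := qq hh (bn l n) (-(2 * k))
  rw [card_filter, Fintype.sum_prod_type, Fintype.sum_bool, Fintype.sum_prod_type, Fintype.sum_prod_type] at e1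
  simp only [if_true, one_mul, Bool.false_eq_true, if_false, neg_one_mul, neg_eq_iff_eq_neg] at e1
  rw [MM, ← q1, ← q2, ← e1, mul_neg]
  omega

omit [NeZero l] in
theorem bn_sum (n : Node chevE8 → ℤ) : ∑ a, bn l n a = 0 := by
  simp only [bn]
  rw [← Int.cast_sum, sum_comm, sum_eq_zero fun j _ => by
    rw [← mul_sum, (by decide +kernel : ∀ j : Node chevE8, ∑ a, bb a j = 0) j, mul_zero], Int.cast_zero]

omit [NeZero l] in
theorem bn_zero {h : ZMod l} (hh : 2 * h = 1) {n : Node chevE8 → ℤ} (hn : ∀ j : Node chevE8, j.1 = 7 → n j = 0)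
    (h0 : #{a | bn l n a = 0} = 8) (i : Node chevE8) : (n i : ZMod l) = 0 := by
  have e : ∀ a, bn l n a = 0 := fun a => (mem_filter.1 ((eq_univ_of_card _ (h0.trans (by simp))).ge (mem_univ a))).2
  have e1 : ∃ x : Fin 8 → ℤ, ∀ j : Node chevE8, j.1 = 7 ∨ ∑ a, x a * bb a j = if j = i then 2 else 0 := by
    refine ⟨fun a => ([[-1, 1], [-2], [-2, 1, 1], [-3, 1, 1, 1], [-2, 1, 1, 1, 1], [-1, 1, 1, 1, 1, 1], [0, 1, 1, 1, 1, 1, 1]].getD i []).getD a 0, ?_⟩
    revert i; decide +kernel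
  obtain ⟨x, hx⟩ := e1
  have e2 : ∑ a, x a * ∑ j, n j * bb a j = 2 * n i := by
    simp only [mul_sum]
    rw [sum_comm, sum_eq_single i (fun j _ hj => ?_) (by simp)]
    · rcases hx i with q | q
      · simp [hn i q]
      · simp only [mul_left_comm _ (n i), ← mul_sum, q, if_true, mul_comm]
    · rcases hx j with q | q
      · simp [hn j q]
      · simp only [mul_left_comm _ (n j), ← mul_sum, q, if_neg hj, mul_zero]
  have e3 := congrArg (Int.cast : ℤ → ZMod l) e2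
  rw [Int.cast_sum, sum_eq_zero fun a _ => by rw [Int.cast_mul, show ((∑ j, n j * bb a j : ℤ) : ZMod l) = 0 from e a, mul_zero]] at e3
  push_cast at e3
  linear_combination -h * e3 - n i * hh

theorem sums (n : Node chevE8 → ℤ) : ∑ s, #{a | bn l n a = s} = 8 ∧ ∑ s, (#{a | bn l n a = s} : ZMod l) * s = 0 := by
  refine ⟨(card_eq_sum_card_fiberwise (s := univ) (t := univ) (f := bn l n) fun _ _ => mem_univ _).symm.trans (by simp), ?_⟩
  have e1 := Finset.sum_fiberwise' univ (bn l n) fun s => s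
  simp only [sum_const, nsmul_eq_mul] at e1
  rw [e1, bn_sum]

theorem md7 {a b c d e f g : ℕ} (h : (a : ZMod 7) * 0 + b * 1 + c * 2 + d * 3 + e * 4 + f * 5 + g * 6 = 0) :
    (b + 2 * c + 3 * d + 4 * e + 5 * f + 6 * g) % 7 = 0 :=
  Nat.mod_eq_zero_of_dvd ((ZMod.natCast_eq_zero_iff _ _).1 (by push_cast; rw [← h]; ring))

theorem md5 {a b c d e : ℕ} (h : (a : ZMod 5) * 0 + b * 1 + c * 2 + d * 3 + e * 4 = 0) :
    (b + 2 * c + 3 * d + 4 * e) % 5 = 0 :=
  Nat.mod_eq_zero_of_dvd ((ZMod.natCast_eq_zero_iff _ _).1 (by push_cast; rw [← h]; ring))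

theorem a7 (c : ZMod 7 → ℕ) (s1 : ∑ s, c s = 8) (s2 : ∑ s, (c s : ZMod 7) * s = 0) (h1 : MM 4 c 2 = MM 4 c 4)
    (h2 : MM 4 c 2 = MM 4 c 6) : c 0 = 8 ∨ MM 4 c 0 ∈ [4, 16, 40] := by
  have ec : cv 7 [c 0, c 1, c 2, c 3, c 4, c 5, c 6] = c := funext fun s => by fin_cases s <;> rfl
  replace s1 : c 0 + c 1 + c 2 + c 3 + c 4 + c 5 + c 6 = 8 := (Fin.sum_univ_seven _).symm.trans s1
  replace s2 : (c 0 : ZMod 7) * 0 + c 1 * 1 + c 2 * 2 + c 3 * 3 + c 4 * 4 + c 5 * 5 + c 6 * 6 = 0 := 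
    (Fin.sum_univ_seven (fun s : ZMod 7 => (c s : ZMod 7) * s)).symm.trans s2
  have s3 := fin7 (c 0) (by omega) (c 1) (by omega) (c 2) (by omega) (c 3) (by omega) (c 4) (by omega) (c 5) (by omega)
    (c 6) (by omega) s1 (md7 s2)
  rw [ok7, ec] at s3
  exact of_decide_eq_true s3 h1 h2

theorem a5 (c : ZMod 5 → ℕ) (s1 : ∑ s, c s = 8) (s2 : ∑ s, (c s : ZMod 5) * s = 0) (h1 : MM 3 c 2 = MM 3 c 4) :
    c 0 = 8 ∨ MM 3 c 0 = 32 := by
  have ec : cv 5 [c 0, c 1, c 2, c 3, c 4] = c := funext fun s => by fin_cases s <;> rfl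
  replace s1 : c 0 + c 1 + c 2 + c 3 + c 4 = 8 := (Fin.sum_univ_five _).symm.trans s1
  replace s2 : (c 0 : ZMod 5) * 0 + c 1 * 1 + c 2 * 2 + c 3 * 3 + c 4 * 4 = 0 := 
    (Fin.sum_univ_five (fun s : ZMod 5 => (c s : ZMod 5) * s)).symm.trans s2
  have s3 := fin5 (c 0) (by omega) (c 1) (by omega) (c 2) (by omega) (c 3) (by omega) (c 4) (by omega)
    s1 (md5 s2)
  rw [ec] at s3
  exact s3 h1

theorem d7 {n : Node chevE8 → ℤ} (hn : ∀ j : Node chevE8, j.1 = 7 → n j = 0) (h : ∀ k, k ≠ 0 → NN 7 n k = NN 7 n 1)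
    (h0 : ∃ i, (n i : ZMod 7) ≠ 0) : NN 7 n 0 ∈ [2, 8, 20] := by
  have hh : (2 : ZMod 7) * 4 = 1 := by decide
  have e := cnt hh hn
  have e1 := e 1
  have e2 := e 2
  have e3 := e 3
  have e4 := e 0
  rw [show (2 * 1 : ZMod 7) = 2 by decide] at e1
  rw [show (2 * 2 : ZMod 7) = 4 by decide, h 2 (by decide), e1] at e2
  rw [show (2 * 3 : ZMod 7) = 6 by decide, h 3 (by decide), e1] at e3
  rw [mul_zero] at e4
  obtain q | q := a7 _ (sums n).1 (sums n).2 e2 e3
  · obtain ⟨i, hi⟩ := h0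
    exact absurd (bn_zero hh hn q i) hi
  · rw [← e4] at q
    simp only [List.mem_cons, List.not_mem_nil, or_false] at q ⊢
    omega

theorem d5 {n : Node chevE8 → ℤ} (hn : ∀ j : Node chevE8, j.1 = 7 → n j = 0) (h : ∀ k, k ≠ 0 → NN 5 n k = NN 5 n 1)
    (h0 : ∃ i, (n i : ZMod 5) ≠ 0) : NN 5 n 0 = 16 := by
  have hh : (2 : ZMod 5) * 3 = 1 := by decide
  have e := cnt hh hn
  have e1 := e 1
  have e2 := e 2
  have e4 := e 0
  rw [show (2 * 1 : ZMod 5) = 2 by decide] at e1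
  rw [show (2 * 2 : ZMod 5) = 4 by decide, h 2 (by decide), e1] at e2
  rw [mul_zero] at e4
  obtain q | q := a5 _ (sums n).1 (sums n).2 e2
  · obtain ⟨i, hi⟩ := h0
    exact absurd (bn_zero hh hn q i) hi
  · omega

end H28.Eb
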