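import Cfsg.Agent.H28.Eb2

/-!
# The 56-dimensional representation of the group of type `E₇`
-/

set_option autoImplicit false

open Module Finset

namespace H28.Eb
open H11 Cfsg Cfsg.Lie StSys H28.Al H28.Ea

universe u

variable {Ω : Type u} [Field Ω]

/-- the embedding of the diagrams -/
def i78 : Node chevE7 → Node chevE8 := Fin.castLE (by decide)

theorem i78_inj : Function.Injective i78 := Fin.castLE_injective _

theorem exists_f8 : ∃ f : chevE7.SteinbergGroup Ω →* GL chevE8.Idx Ω,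
    (∀ c, f (torS hMul_sg c) = torHom chevE8 Ω (Function.ExtendByOne.hom Ωˣ i78 c)) ∧
    ∀ (ζ : Ωˣ) g, torHom chevE8 Ω (fun i => ζ ^ v8 i) * f g = f g * torHom chevE8 Ω (fun i => ζ ^ v8 i) := by
  obtain ⟨f, hf⟩ := exists_sgn_hom (D := chevE7) (hMul_mat (D := chevE8) (K := Ω)) (rel_emE7 (StSys.rel _)) (by decide +kernel)
  have h : ∀ i : Node chevE7, emE7 (sroot i).1 = [((sroot (i78 i)).1, 1, 1)] ∧ emE7 (sroot i).rev.1 = [((sroot (i78 i)).rev.1, 1, 1)] := by
    decide +kernel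
  have h1 : ∀ i t, f ((sgSys chevE7 Ω).x (sroot i) t) = (matSys chevE8 Ω).x (sroot (i78 i)) t := fun i t => by
    rw [hf, (h i).1]; simp [appW, -sroot_val]
  have h2 : ∀ i t, f ((sgSys chevE7 Ω).x (sroot i).rev t) = (matSys chevE8 Ω).x (sroot (i78 i)).rev t := fun i t => by
    rw [hf, (h i).2]; simp [appW, -Fin.val_rev]
  have e0 : ∀ c, torHom chevE8 Ω c = torS hMul_mat c := fun c => (θ_torS (S := matSys chevE8 Ω) hMul_mat c).symm
  have e : f.comp (torS hMul_sg) = (torS hMul_mat).comp (Function.ExtendByOne.hom Ωˣ i78) := tor_ext fun i c => by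
    have : Function.ExtendByOne.hom Ωˣ i78 (Pi.mulSingle i c) = Pi.mulSingle (i78 i) c := funext fun j => by
      change Function.extend i78 _ 1 j = _
      by_cases hj : ∃ a, i78 a = j
      · obtain ⟨a, rfl⟩ := hj
        rw [i78_inj.extend_apply]; simp [Pi.mulSingle_apply, i78_inj.eq_iff]
      · rw [Function.extend_apply' _ _ _ hj, Pi.mulSingle_eq_of_ne fun e => hj ⟨i, e.symm⟩]; rfl
    simp only [MonoidHom.comp_apply, this, torS_single, StSys.h, StSys.n, map_mul, h1, h2]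
  refine ⟨f, fun c => (DFunLike.congr_fun e c).trans (e0 (Function.ExtendByOne.hom Ωˣ i78 c)).symm, fun ζ g => mul_inv_eq_iff_eq_mul.1 ?_⟩
  rw [e0]
  refine DFunLike.congr_fun (hom_ext_simple (sgSys_grp chevE7 Ω) (f := (MulAut.conj (torS hMul_mat fun i => ζ ^ v8 i)).toMonoidHom.comp f)
    (g := f) (fun i t => ?_) fun i t => ?_) g
  · rw [MonoidHom.comp_apply, h1]
    refine (torS_conj _ _ _ _).trans ?_
    rw [chiOf_zpow, show fv v8 (sroot (i78 i)) = 0 from chk5 i]; simp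
  · rw [MonoidHom.comp_apply, h2]
    refine (torS_conj _ _ _ _).trans ?_
    rw [chiOf_zpow, fv_rev, show fv v8 (sroot (i78 i)) = 0 from chk5 i]; simp

/-- the index set -/
abbrev I56 := {r : Root chevE8 // fv v8 r = 1}

open Classical in
theorem exists56 {ζ : Ωˣ} (hζ : ∀ k ∈ [-2, -1, 0, 1, 2], ζ ^ (k : ℤ) = ζ → k = 1) :
    ∃ ρ : chevE7.SteinbergGroup Ω →* End Ω (I56 → Ω), ∀ c (a : Ω), finrank Ω (Eg (ρ (torS hMul_sg c)) a) =
      #{r : Root chevE8 | fv v8 r = 1 ∧ (chiOf (Function.ExtendByOne.hom Ωˣ i78 c) r : Ω) = a} := by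
  obtain ⟨f, h1, h2⟩ := exists_f8 (Ω := Ω)
  let e : I56 → chevE8.Idx := fun r => Sum.inr r.1
  have he : Function.Injective e := Sum.inr_injective.comp Subtype.val_injective
  have h3 : ∀ g k, k ∉ Set.range e → ∀ j, (f g : Matrix _ _ Ω) k (e j) = 0 := fun g k hk j => by
    have h4 := congrArg Units.val (h2 ζ g)
    rw [Units.val_mul, Units.val_mul, torHom_val, tor] at h4
    have := congrFun (congrFun h4 k) (e j)
    rw [Matrix.diagonal_mul, Matrix.mul_diagonal, Sum.elim_inr, chiOf_zpow, j.2, zpow_one, mul_comm] at this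
    by_contra q
    replace this := mul_left_cancel₀ q this
    rcases k with k | k
    · exact absurd (hζ 0 (by simp) (Units.ext (by simpa using this))) (by decide)
    · rw [Sum.elim_inr, chiOf_zpow] at this
      exact hk ⟨⟨k, hζ _ (chk4 k) (Units.ext this)⟩, rfl⟩
  let M : chevE7.SteinbergGroup Ω →* Matrix I56 I56 Ω :=
    { toFun := fun g => (f g : Matrix _ _ Ω).submatrix e e
      map_one' := by rw [map_one, Units.val_one, Matrix.submatrix_one e he]
      map_mul' := fun a b => by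
        ext i j
        rw [map_mul, Units.val_mul, Matrix.submatrix_apply, Matrix.mul_apply, Matrix.mul_apply]
        exact (Fintype.sum_of_injective e he _ _ (fun k hk => by rw [h3 b k hk, mul_zero]) fun _ => rfl).symm }
  refine ⟨(Matrix.toLinAlgEquiv' (R := Ω) (n := I56)).toMulEquiv.toMonoidHom.comp M, fun c a => ?_⟩
  rw [diag_rk (Pi.basisFun Ω I56) _ (fun r => (chiOf (Function.ExtendByOne.hom Ωˣ i78 c) r.1 : Ω)) (fun i => ?_) a _ fun _ => Iff.rfl,
    ← Fintype.card_subtype, ← Fintype.card_subtype]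
  · exact Fintype.card_congr (Equiv.subtypeSubtypeEquivSubtypeInter _ fun r => (chiOf (Function.ExtendByOne.hom Ωˣ i78 c) r : Ω) = a)
  · change Matrix.toLinAlgEquiv' ((f (torS hMul_sg c) : Matrix _ _ Ω).submatrix e e) _ = _
    rw [Matrix.toLinAlgEquiv'_apply, h1, torHom_val, tor, Matrix.submatrix_diagonal _ e he]
    funext v
    rw [Matrix.mulVec_diagonal, Pi.smul_apply, smul_eq_mul, Pi.basisFun_apply]
    by_cases q : v = i <;> simp [q, e]

theorem rk56 : finrank Ω (I56 → Ω) = 56 := by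
  rw [Module.finrank_fintype_fun_eq_card, Fintype.card_subtype, chk3]

theorem rat {R : Type u} [Group R] [Finite R] [IsAlgClosed Ω] {σ B} (T : Tws (galSg chevE7 Ω) σ B) {j : R →* chevE7.SteinbergGroup Ω}
    (hj : Function.Injective j) (hr : j.range = fixS σ) (p : ℕ) [hp : Fact p.Prime] [CharP Ω p] (l : ℕ) [hl : Fact l.Prime]
    (h5 : 5 ≤ l) (hpl : p ≠ l) : ∃ ρ : R →* End Ω (I56 → Ω), ∀ y, orderOf y = l → (∀ i : ℕ, ¬ l ∣ i → IsConj y (y ^ i)) →
      ∃ n : Node chevE8 → ℤ, (∀ j : Node chevE8, j.1 = 7 → n j = 0) ∧ (∀ k, k ≠ 0 → NN l n k = NN l n 1) ∧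
        (∃ i, (n i : ZMod l) ≠ 0) ∧ finrank Ω (Eg (ρ y) 1) = NN l n 0 := by
  classical
  have hpl' : ¬ p ∣ l := fun q => hpl ((Nat.prime_dvd_prime_iff_eq hp.out hl.out).1 q)
  have : NeZero (l : Ω) := ⟨fun q => hpl' ((CharP.cast_eq_zero_iff Ω p l).1 q)⟩
  obtain ⟨z, hz⟩ := HasEnoughRootsOfUnity.exists_primitiveRoot Ω l
  let ζ := (hz.isUnit hl.out.ne_zero).unit
  have h0 : IsPrimitiveRoot ζ l := hz.isUnit_unit hl.out.ne_zero
  have h1 : ∀ ξ : Ωˣ, orderOf ξ = l → ∀ a b : ℤ, ((ξ ^ a : Ωˣ) : Ω) = (ξ ^ b : Ωˣ) ↔ (a : ZMod l) = b := fun ξ hξ a b => by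
    rw [Units.val_inj, zpow_eq_zpow_iff_modEq, hξ, ZMod.intCast_eq_intCast_iff]
  obtain ⟨ρ, hρ⟩ := exists56 (ζ := ζ) fun k hk q => by
    have := (zpow_eq_zpow_iff_modEq.1 (q.trans (zpow_one ζ).symm)).dvd
    rw [← h0.eq_orderOf] at this
    by_contra q1
    have q2 := Int.le_of_dvd (abs_pos.2 (sub_ne_zero.2 (Ne.symm q1))) ((dvd_abs _ _).2 this)
    simp only [List.mem_cons, List.not_mem_nil, or_false] at hk
    rcases hk with rfl | rfl | rfl | rfl | rfl <;> norm_num at q2 <;> omega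
  refine ⟨ρ.comp j, fun y hy hc => ?_⟩
  obtain ⟨x, c, e, -⟩ := T.semisimple hr p (g := y) (by rwa [hy])
  have e1 : ∀ i : ℕ, x⁻¹ * j (y ^ i) * x⁻¹⁻¹ = torS hMul_sg (c ^ i) := fun i => by
    rw [map_pow, ← conj_pow, inv_inv, e, map_pow]
  have e2 : c ^ l = 1 := T.inj ((e1 l).symm.trans (by rw [← hy, pow_orderOf_eq_one, map_one, map_one, mul_one, mul_inv_cancel]))
  choose m _ hm using fun i => h0.eq_pow_of_mem_rootsOfUnity (ξ := c i) ((mem_rootsOfUnity _ _).2 (congrFun e2 i))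
  let n : Node chevE8 → ℤ := Function.extend i78 (fun i => (m i : ℤ)) 0
  have e3 : ∀ i : ℕ, Function.ExtendByOne.hom Ωˣ i78 (c ^ i) = fun a => (ζ ^ i) ^ n a := fun i => funext fun a => by
    change Function.extend i78 _ 1 a = _
    by_cases ha : ∃ b, i78 b = a
    · obtain ⟨b, rfl⟩ := ha
      simp only [n, i78_inj.extend_apply, Pi.pow_apply, ← hm, zpow_natCast, ← pow_mul, mul_comm]
    · simp only [n, Function.extend_apply' _ _ _ ha, Pi.zero_apply, zpow_zero, Pi.one_apply]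
  have e4 : ∀ (i : ℕ) (a : Ω), finrank Ω (Eg ((ρ.comp j) (y ^ i)) a) = #{r : Root chevE8 | fv v8 r = 1 ∧ (((ζ ^ i) ^ fv n r : Ωˣ) : Ω) = a} :=
    fun i a => by
      rw [MonoidHom.comp_apply, ← rk_conj ρ x⁻¹, e1, hρ, e3]
      simp only [chiOf_zpow]
  have e5 : ∀ k : ℤ, finrank Ω (Eg ((ρ.comp j) y) (ζ ^ k : Ωˣ)) = NN l n k := fun k => by
    have := e4 1 (ζ ^ k : Ωˣ)
    rw [pow_one, pow_one] at this
    rw [this, NN]
    exact congrArg card (filter_congr fun r _ => and_congr_right' (h1 ζ h0.eq_orderOf.symm _ _))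
  refine ⟨n, fun a ha => Function.extend_apply' _ _ _ ?_, fun k hk => ?_, ?_, by
    have := e5 0
    rwa [zpow_zero, Units.val_one, Int.cast_zero] at this⟩
  · rintro ⟨b, rfl⟩
    exact absurd ha (ne_of_lt b.2)
  · have q : ¬ l ∣ k.val := fun q => hk ((ZMod.val_eq_zero k).1 (Nat.eq_zero_of_dvd_of_lt q k.val_lt))
    obtain ⟨g, hg⟩ := isConj_iff.1 (hc _ q)
    have := e5 k.val
    rw [Int.cast_natCast, ZMod.natCast_zmod_val, ← rk_conj _ g, hg, e4] at this
    rw [← this, NN]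
    refine congrArg card (filter_congr fun r _ => and_congr_right' ?_)
    have q1 := h1 _ (h0.pow_of_coprime _ ((Nat.Prime.coprime_iff_not_dvd hl.out).2 q).symm).eq_orderOf.symm (fv n r) 1
    rwa [zpow_one, Int.cast_one, ← zpow_natCast ζ k.val] at q1
  · by_contra! q
    have e6 : c = 1 := funext fun i => by
      have := q (i78 i)
      simp only [n, i78_inj.extend_apply, Int.cast_natCast, ZMod.natCast_eq_zero_iff] at this
      rw [← hm, Pi.one_apply, h0.pow_eq_one_iff_dvd]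
      exact this
    rw [e6, map_one, mul_assoc, inv_mul_eq_one, right_eq_mul, map_eq_one_iff _ hj] at e
    rw [e, orderOf_one] at hy
    omega

end H28.Eb
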