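import Cfsg.Agent.H28.Eb3
import Cfsg.Agent.H16.NoL
import Cfsg.Agent.H17.Sr7
import Cfsg.Agent.H22.Cn1

/-!
# Alternating sections of the groups of type `E₇`
-/

set_option autoImplicit false

open Module

namespace H28.Eb
open H11 Cfsg Cfsg.Lie StSys H28.Al H28.Ea

universe u

theorem final7 {F : Type u} [Field F] [Fintype F] (p : ℕ) [hp : Fact p.Prime] [CharP F p] {r : ℕ} (H : Subgroup (chevE7.group F))
    (π : H →* alternatingGroup (Fin r)) (hπ : Function.Surjective π) : r ≤ 13 + (if p = 7 then 1 else 0) := by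
  obtain ⟨Ω, _, _, _, _, σ, j, T, hj, hr⟩ := exists_sg (D := chevE7) F p fun _ _ => torS_sgE7
  have : Finite (chevE7.SteinbergGroup F) := Nat.finite_of_card_ne_zero (by
    have h1 := Fintype.one_lt_card (α := F)
    have h2 : ∀ d, d ≠ 0 → Fintype.card F ^ d - 1 ≠ 0 := fun d hd => Nat.sub_ne_zero_of_lt (Nat.one_lt_pow hd h1)
    rw [H17.card_sgE7 F rfl]
    simp only [mul_ne_zero_iff]
    refine ⟨⟨⟨⟨⟨⟨⟨pow_ne_zero _ (by omega), ?_⟩, ?_⟩, ?_⟩, ?_⟩, ?_⟩, ?_⟩, ?_⟩ <;> exact h2 _ (by decide))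
  let θ := (sgSys chevE7 F).θG (sgSys_grp _ _)
  have hθ : Function.Surjective θ := θG_surjective (sgSys_grp _ _)
  have key : ∀ (l : ℕ) [Fact l.Prime], l = 5 ∨ l = 7 → p ≠ l → 11 ≤ r → (l : Ω) ≠ 0 ∧
      ∃ (M : Subgroup (chevE7.SteinbergGroup F)) (φ : M →* alternatingGroup (Fin r)) (ρ : M →* End Ω (I56 → Ω)),
        Function.Surjective φ ∧ ¬ l ∣ Nat.card φ.ker ∧ ∀ y, orderOf y = l → (∀ i : ℕ, ¬ l ∣ i → IsConj y (y ^ i)) →
          ∃ n : Node chevE8 → ℤ, (∀ j : Node chevE8, j.1 = 7 → n j = 0) ∧ (∀ k, k ≠ 0 → NN l n k = NN l n 1) ∧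
            (∃ i, (n i : ZMod l) ≠ 0) ∧ finrank Ω (Eg (ρ y) 1) = NN l n 0 := fun l hl h1 h2 h3 => by
    have h4 : ¬ p ∣ l := fun q => h2 ((Nat.prime_dvd_prime_iff_eq hp.out hl.out).1 q)
    obtain ⟨M, φ, h5, h6⟩ := H16.NoL.noL (l := l) (by omega) h3 (H17.sr7 F l h1 fun q => h4 ((CharP.cast_eq_zero_iff F p l).1 q))
      (H.comap θ) (π.comp (θ.subgroupComap H)) (hπ.comp (θ.subgroupComap_surjective_of_surjective H hθ))
    obtain ⟨ρ, hρ⟩ := rat T hj hr p l (by omega) h2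
    exact ⟨fun q => h4 ((CharP.cast_eq_zero_iff Ω p l).1 q), M, φ, ρ.comp M.subtype, h5, h6, fun y hy hc =>
      hρ y ((Subgroup.orderOf_coe y).trans hy) fun i hi => M.subtype.map_isConj (hc i hi)⟩
  by_contra! h
  split_ifs at h with q
  · have : Fact (Nat.Prime 5) := ⟨by norm_num⟩
    obtain ⟨h0, M, φ, ρ, h1, h2, h3⟩ := key 5 (.inl rfl) (by omega) (by omega)
    refine H22.Cn.cnt5 φ h1 ρ rk56 (by omega) (by exact_mod_cast h0) h2 fun y hy hc => ?_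
    obtain ⟨n, a1, a2, a3, a4⟩ := h3 y hy hc
    exact a4 ▸ d5 a1 a2 a3
  · have : Fact (Nat.Prime 7) := ⟨by norm_num⟩
    obtain ⟨h0, M, φ, ρ, h1, h2, h3⟩ := key 7 (.inr rfl) q (by omega)
    refine H22.Cn.cnt7 φ h1 ρ rk56 (by omega) (by exact_mod_cast h0) h2 fun y hy hc => ?_
    obtain ⟨n, a1, a2, a3, a4⟩ := h3 y hy hc
    exact a4 ▸ d7 a1 a2 a3

end H28.Eb
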