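import Cfsg.Agent.H28.Ec1
import Cfsg.Agent.S1065

/-!
# Alternating sections of the groups of type `E₈`: fixed spaces and the prime seventeen
-/

set_option autoImplicit false

open Module Finset

namespace H28.Ec
open H11 Cfsg Cfsg.Lie StSys H28.Al H28.Ea

universe u

variable {Ω : Type u} [Field Ω]

/-- the adjoint representation -/
noncomputable def ad8 (Ω : Type u) [Field Ω] : chevE8.SteinbergGroup Ω →* End Ω (chevE8.Idx → Ω) :=
  (Matrix.toLinAlgEquiv' (R := Ω) (n := chevE8.Idx)).toMulEquiv.toMonoidHom.comp ((Units.coeHom _).comp (sgSys chevE8 Ω).θ)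

open Classical in
theorem ad8_rk (c : Node chevE8 → Ωˣ) : finrank Ω (Eg (ad8 Ω (torS hMul_sg c)) 1) = 8 + #{r : Root chevE8 | chiOf c r = 1} := by
  rw [diag_rk (Pi.basisFun Ω chevE8.Idx) _ (Sum.elim (fun _ => 1) fun r => (chiOf c r : Ω)) (fun i => ?_) 1 _ fun _ => Iff.rfl,
    card_filter, card_filter, Fintype.sum_sum_type]
  · simp only [Sum.elim_inl, Sum.elim_inr, if_true, Units.val_eq_one, sum_const, card_univ, Fintype.card_fin, smul_eq_mul, mul_one]
    rfl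
  · change Matrix.toLinAlgEquiv' (Units.val ((sgSys chevE8 Ω).θ (torS hMul_sg c))) _ = _
    rw [Matrix.toLinAlgEquiv'_apply, θ_torS, torHom_val, tor]
    funext v
    rw [Matrix.mulVec_diagonal, Pi.smul_apply, smul_eq_mul, Pi.basisFun_apply]
    by_cases q : v = i <;> simp [q]

theorem rk248 : finrank Ω (chevE8.Idx → Ω) = 248 := by
  rw [Module.finrank_fintype_fun_eq_card, Fintype.card_sum, Fintype.card_fin, Fintype.card_fin]; rfl

theorem rat3 {R : Type u} [Group R] [Finite R] [IsAlgClosed Ω] {σ B} (T : Tws (galSg chevE8 Ω) σ B) {j : R →* chevE8.SteinbergGroup Ω}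
    (hj : Function.Injective j) (hr : j.range = fixS σ) (p : ℕ) [hp : Fact p.Prime] [CharP Ω p] (hp3 : p ≠ 3) (y : R)
    (hy : orderOf y = 3) : finrank Ω (Eg (ad8 Ω (j y)) 1) ∈ [80, 86, 92, 134] := by
  classical
  have hpl' : ¬ p ∣ 3 := fun q => hp3 ((Nat.prime_dvd_prime_iff_eq hp.out Nat.prime_three).1 q)
  have : NeZero ((3 : ℕ) : Ω) := ⟨fun q => hpl' ((CharP.cast_eq_zero_iff Ω p 3).1 q)⟩
  obtain ⟨z, hz⟩ := HasEnoughRootsOfUnity.exists_primitiveRoot Ω 3
  let ζ := (hz.isUnit three_ne_zero).unit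
  have h0 : IsPrimitiveRoot ζ 3 := hz.isUnit_unit three_ne_zero
  obtain ⟨x, c, e, -⟩ := T.semisimple hr p (g := y) (by rwa [hy])
  have e1 : x⁻¹ * j y * x⁻¹⁻¹ = torS hMul_sg c := by rw [inv_inv, e]
  have e2 : c ^ 3 = 1 := T.inj (by
    change torS hMul_sg _ = torS hMul_sg _
    rw [map_pow, ← e1, conj_pow, ← map_pow, ← hy, pow_orderOf_eq_one, map_one, map_one, mul_one, mul_inv_cancel])
  choose m _ hm using fun i => h0.eq_pow_of_mem_rootsOfUnity (ξ := c i) ((mem_rootsOfUnity _ _).2 (congrFun e2 i))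
  have e3 : c = fun a => ζ ^ (m a : ℤ) := funext fun a => by rw [zpow_natCast, hm]
  have e4 := d3 (fun a => m a) (by
    by_contra! q
    have e6 : c = 1 := funext fun i => by
      have := q i
      rw [Int.cast_natCast, ZMod.natCast_eq_zero_iff] at this
      rw [← hm, Pi.one_apply, h0.pow_eq_one_iff_dvd]
      exact this
    rw [e6, map_one, mul_assoc, inv_mul_eq_one, right_eq_mul, map_eq_one_iff _ hj] at e
    rw [e, orderOf_one] at hy
    omega)
  rw [← rk_conj _ x⁻¹, e1, ad8_rk, show #_ = N8 fun a => m a from congrArg card (filter_congr fun r _ => by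
    rw [e3, chiOf_zpow, h0.zpow_eq_one_iff_dvd, ZMod.intCast_zmod_eq_zero_iff_dvd])]
  simp only [List.mem_cons, List.not_mem_nil, or_false] at e4 ⊢
  omega

theorem sg_cov8 (K : Type u) [Field K] [Fintype K] : Finite (chevE8.SteinbergGroup K) ∧
    ∃ θ : chevE8.SteinbergGroup K →* chevE8.group K, Function.Bijective θ := by
  have h1 : ((sgSys chevE8 K).θG (sgSys_grp _ _)).ker = Subgroup.center _ := by rw [θG_ker, center_eq_ker (sgSys_grp _ _)]
  have h2 : Function.Injective ((sgSys chevE8 K).θG (sgSys_grp _ _)) := by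
    rw [← MonoidHom.ker_eq_bot_iff, h1, ← Subgroup.card_eq_one, card_center_sg (torS_E8 _), kerE8]
  exact ⟨.of_injective _ h2, _, h2, θG_surjective (sgSys_grp _ _)⟩

theorem no17 (w : Weyl chevE8) : ¬ ((17 : ℕ) : ℤ) ∣ (((3 : ℕ) : ℤ) • 1 * corM w.1 - 1).det := fun h => by
  have : Fact (Nat.Prime 3) := ⟨Nat.prime_three⟩
  obtain ⟨Ω, _, _, _, _, σ, j, T, hj, hr⟩ := exists_sg (D := chevE8) (ZMod 3) 3 fun _ _ => torS_E8 _
  obtain ⟨_, θ, hθ, -⟩ := sg_cov8 (ZMod 3)
  rw [ZMod.card] at T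
  obtain ⟨c, h1, h2⟩ := exists_prime_c (K := Ω) (B := ((3 : ℕ) : ℤ) • 1 * corM w.1) (by
    rw [← eq_intCast (Int.castRingHom Ω), RingHom.map_det, map_sub, map_mul, map_zsmul, map_one, zsmul_eq_mul, Int.cast_natCast,
      ← map_natCast (algebraMap Ω (Matrix (Node chevE8) (Node chevE8) Ω)), CharP.cast_eq_zero, map_zero, zero_mul, zero_mul, zero_sub,
      Matrix.det_neg]
    simp) (by norm_num) h
  obtain ⟨g, hg⟩ := T.exists_ord hj hr w h1
  rw [h2, ← orderOf_injective θ hθ] at hg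
  have h4 := hg ▸ orderOf_dvd_natCard (θ g)
  rw [Cfsg.Agent.S1065.result (ZMod.card 3)] at h4
  exact absurd h4 (by norm_num)

theorem char3 {F : Type u} [Field F] [Fintype F] [CharP F 3] {r : ℕ} (H : Subgroup (chevE8.group F))
    (π : H →* alternatingGroup (Fin r)) (hπ : Function.Surjective π) : r ≤ 18 := by
  have hp : Fact (Nat.Prime 3) := ⟨Nat.prime_three⟩
  obtain ⟨Ω, _, _, _, _, σ, j, T, hj, hr⟩ := exists_sg (D := chevE8) F 3 fun _ _ => torS_E8 _
  obtain ⟨_, θ, hθ⟩ := sg_cov8 F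
  by_contra! h
  let ι := H24.Alt.embA (Fin.castLEEmb (show 19 ≤ r by omega))
  have hι : Function.Injective ι := H24.Alt.embA_injective _
  let c (a b c d : Fin 19) (h : a ≠ b ∧ c ≠ d := by decide) : alternatingGroup (Fin 19) :=
    ⟨Equiv.swap a b * Equiv.swap c d, by simp [Equiv.Perm.mem_alternatingGroup, h.1, h.2]⟩
  have : Fact (Nat.Prime 17) := ⟨by norm_num⟩
  have ab := H28.Fa.ab_of 17 (fun h3 P a ha b hb => by
      obtain ⟨n, -, hn⟩ := FiniteField.card F 3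
      obtain ⟨f⟩ := Cfsg.Agent.S2378.result (F := F) rfl (chevE8, [2, 8, 12, 14, 18, 20, 24, 30]) (by simp) 17
        (fun q => absurd (this.out.dvd_of_dvd_pow (hn ▸ q)) (by decide)) (by decide) h3 P
      exact congrArg Subtype.val (f.injective (show f (⟨a, ha⟩ * ⟨b, hb⟩) = f (⟨b, hb⟩ * ⟨a, ha⟩) by
        rw [map_mul, map_mul, mul_comm]))) H
  have h0 : ∀ u b : alternatingGroup (Fin 19), u ^ 17 = 1 ∧ u ≠ 1 ∧ b * u * b⁻¹ = u ^ 3 → False := fun u b ⟨a1, a2, a3⟩ => by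
    obtain ⟨y, g, h1, h2⟩ := one π hπ (k := 3) ab (u := ι u) (b := ι b) (by rw [orderOf_injective ι hι, orderOf_eq_prime a1 a2])
      (by rw [← map_inv, ← map_mul, ← map_mul, a3, map_pow])
    obtain ⟨y', hy⟩ := hθ.2 y
    obtain ⟨g', hg⟩ := hθ.2 g
    have h5 : orderOf y' = 17 := by rw [← orderOf_injective θ hθ.1, hy, Subgroup.orderOf_coe, h1]
    obtain ⟨c, w, h6, h7⟩ := H28.Fa.trans_ord T hj hr 3 (y := y') (k := 3) (by rw [h5]; decide) (isConj_iff.2 ⟨g', hθ.1 (by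
      rw [map_mul, map_mul, map_inv, map_pow, hy, hg]; exact congrArg Subtype.val h2)⟩)
    exact no17 w (by rw [← h5, ← h6]; exact orderOf_dvd_det h7)
  exact h0 (c 0 16 0 15 * c 0 14 0 13 * c 0 12 0 11 * c 0 10 0 9 * c 0 8 0 7 * c 0 6 0 5 * c 0 4 0 3 * c 0 2 0 1)
    (c 1 6 1 2 * c 1 12 1 4 * c 1 7 1 8 * c 1 14 1 16 * c 1 11 1 15 * c 1 5 1 13 * c 1 10 1 9 * c 1 3 17 18) (by decide +kernel)

end H28.Ec
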