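import Cfsg.Agent.H28.Ed2

/-!
# The configuration in an alternating section of degree eighteen
-/

set_option autoImplicit false

open Module Equiv Equiv.Perm

namespace H28.Ed
open H28.Al H28.Ea H22.Cn

universe u v

attribute [local instance] Nat.fact_prime_three

/-- translations as elements of the `3`-group -/
def hE : Multiplicative (Fin 6 → ZMod 3) →* P8 := (tl 3 6).codRestrict P8 tl_mem

/-- generators -/
def xs (s : Fin 6) : P8 := hE (.ofAdd (Pi.single s 1))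
def uu : P8 := ⟨bl c1, bl_mem (show c1 ∈ A9 from .tail _ (.head _))⟩
def vv : P8 := ⟨bl c2, bl_mem (show c2 ∈ A9 from .tail _ (.tail _ (.tail _ (.head _))))⟩

theorem rel : uu ^ 3 = 1 ∧ vv ^ 3 = 1 ∧ uu * vv = vv * uu ∧ (∀ s, uu * xs s * uu⁻¹ = xs (c1 s)) ∧
    (∀ s, vv * xs s * vv⁻¹ = xs (c2 s)) ∧
    (∀ s, hE (kK.toMultiplicative (.ofAdd (Pi.single s 1))) = xs s * (xs 0)⁻¹) ∧ hB (.ofAdd (Pi.single 2 1)) = xs 3 ∧
    ∀ i, hB (kS.toMultiplicative (.ofAdd (Pi.single i 1))) = ![uu, xs 0 * xs 1 * xs 2, xs 4 * (xs 3)⁻¹, xs 5 * (xs 3)⁻¹] i := by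
  simp only [Subtype.ext_iff]
  decide +kernel

theorem rel2 : sign (bl c4) = 1 ∧ sign iv = 1 ∧ (∀ s, bl c4 * xs s * (bl c4)⁻¹ = xs (c4 s)) ∧ bl c4 * uu * (bl c4)⁻¹ = vv ∧
    bl c4 * vv * (bl c4)⁻¹ = (uu⁻¹ : P8) ∧ (∀ s, iv * xs s * iv⁻¹ = ((xs s)⁻¹ : P8)) ∧ iv * uu * iv⁻¹ = uu ∧
    iv * vv * iv⁻¹ = vv := by
  decide +kernel

theorem ar1 (a b c d e f A B C D : ℕ) (ha : a ∈ [80, 86, 92, 134]) (hb : b ∈ [80, 86, 92, 134]) (hc : c ∈ [80, 86, 92, 134])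
    (hd : d ∈ [80, 86, 92, 134]) (he : e ∈ [80, 86, 92, 134]) (hf : f ∈ [80, 86, 92, 134])
    (eE : 248 + 12 * a + 60 * b + 160 * c + 240 * d + 192 * e + 64 * f = 486 * (124 + A))
    (eK : 248 + 30 * b + 40 * c + 90 * d + 60 * e + 22 * f = 162 * (124 + B))
    (eB : 248 + 6 * a + 12 * b + 16 * c + 48 * d + 96 * e + 64 * f = 162 * (124 + C))
    (eS : 248 + 6 * b + 10 * c + 48 * e + 16 * f = 54 * (124 + D)) (le : C ≤ D) : A = 12 ∧ B = 16 ∧ C = D := by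
  have h1 := arith a ha b hb c hc d hd e he f hf
  have q1 := Nat.mul_mod_right 486 (124 + A)
  have q2 := Nat.mul_mod_right 162 (124 + B)
  have q3 := Nat.mul_mod_right 162 (124 + C)
  have q4 := Nat.mul_mod_right 54 (124 + D)
  rewrite [← eE] at q1
  rewrite [← eK] at q2
  rewrite [← eB] at q3
  rewrite [← eS] at q4
  have h2 := h1 q1 q2 q3 q4 (by linarith) (by linarith)
  clear h1 q1 q2 q3 q4 ha hb hc hd he hf
  obtain ⟨a1, a2, a3, a4, a5, a6⟩ := h2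
  refine ⟨by linarith, by linarith, by linarith⟩

theorem ar2 (n : Fin 7 → ℕ) (n0 : n 0 = 248) (nj : ∀ j, j ≠ 0 → n j ∈ [80, 86, 92, 134]) {A B C D d : ℕ} (hd : d = 248)
    (eE : 3 * ∑ j, ![1, 12, 60, 160, 240, 192, 64] j * n j + 3 ^ 6 * A = 3 ^ 6 * (d + 3 * A))
    (eK : 3 * ∑ j, ![3, 0, 90, 120, 270, 180, 66] j * n j + 3 ^ 6 * B = 3 ^ 6 * (d + 3 * B))
    (eB : 3 * ∑ j, ![1, 6, 12, 16, 48, 96, 64] j * n j + 3 ^ 5 * C = 3 ^ 5 * (d + 3 * C))
    (eS : 3 * ∑ j, ![1, 0, 6, 10, 0, 48, 16] j * n j + 3 ^ 4 * D = 3 ^ 4 * (d + 3 * D)) (le : C ≤ D) :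
    A = 12 ∧ B = 16 ∧ C = D := by
  simp only [Fin.sum_univ_seven, hd, n0, Matrix.cons_val, Nat.reducePow] at eE eK eB eS
  exact ar1 _ _ _ _ _ _ _ _ _ _ (nj 1 (by decide)) (nj 2 (by decide)) (nj 3 (by decide))
    (nj 4 (by decide)) (nj 5 (by decide)) (nj 6 (by decide)) (by linarith) (by linarith) (by linarith) (by linarith) le

theorem c1' {k V : Type u} [Field k] [IsAlgClosed k] [AddCommGroup V] [Module k V] [FiniteDimensional k V] {G : Type v} [Group G] [Finite G] {r : ℕ} (φ : G →* alternatingGroup (Fin r)) (hφ : Function.Surjective φ) (ρ : G →* Module.End k V) (hV : finrank k V = 248) (hr : 18 ≤ r) (h3 : (3 : k) ≠ 0) (hK : ¬ 3 ∣ Nat.card φ.ker) (h : ∀ y : G, orderOf y = 3 → finrank k (Eg (ρ y) 1) ∈ [80, 86, 92, 134]) : ∃ (x : Fin 6 → G) (u v f i : G) (a b c : Equiv.Perm (Fin 6)), (∀ s t, x s * x t = x t * x s) ∧ (∀ s, x s ^ 3 = 1) ∧ u ^ 3 = 1 ∧ v ^ 3 = 1 ∧ u * v = v * u ∧ (∀ s,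 u * x s * u⁻¹ = x (a s)) ∧ (∀ s, v * x s * v⁻¹ = x (b s)) ∧ (∀ s, f * x s * f⁻¹ = x (c s)) ∧ f * u * f⁻¹ = v ∧ f * v * f⁻¹ = u⁻¹ ∧ (∀ s, i * x s * i⁻¹ = (x s)⁻¹) ∧ i * u * i⁻¹ = u ∧ i * v * i⁻¹ = v ∧ finrank k (J (fun s => ρ (x s)) 1) = 12 ∧ finrank k (J (fun s => ρ (x s * (x 0)⁻¹)) 1) = 16 ∧ ∀ w, ρ u w = w → ρ (x 0 * x 1 * x 2) w = w → ρ (x 4 * (x 3)⁻¹) w = w → ρ (x 5 * (x 3)⁻¹) w = w → ρ (x 3) w = w := by
  obtain ⟨s, h1, h2, h4⟩ := liftP (l := 3) (by decide) (Ω := Om) (by simpa using hr) P8 P8_p φ hφ hK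
  obtain ⟨r1', r2, r3, r4, r5, r6, r7, r8⟩ := rel
  obtain ⟨s1, s2, s3, s4, s5, s6, s7, s8⟩ := rel2
  obtain ⟨f, hf⟩ := h4 _ s1 c4_norm
  obtain ⟨i, hi⟩ := h4 _ s2 iv_norm
  have p3 : ∀ {m : ℕ} (g : Multiplicative (Fin m → ZMod 3) →* P8) a, g a ^ 3 = 1 := fun g a => by
    rw [← map_pow, pow_l, map_one]
  let n : Fin 7 → ℕ := fun j => finrank k (Eg (ρ (s (hE (rp j)))) 1)
  have hn : ∀ (g : P8) σ t, g ^ 3 = 1 → (∀ s y, (g : Perm Om) (s, y) = (σ s, t s + y)) →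
      finrank k (Eg ((ρ.comp s) g) 1) = n (wt σ t) := fun g σ t hg e => by
    obtain ⟨c, hc⟩ := isConj_iff.1 (h2 g (hE (rp (wt σ t))) (p3 _ _)
      (ac3 g (congrArg Subtype.val hg) _ (supp g σ t e)))
    change _ = finrank k (Eg (ρ (s (hE (rp (wt σ t))))) 1)
    rw [← hc, rk_conj]; rfl
  have n0 : n 0 = 248 := by
    change finrank k (Eg (ρ (s (hE 1))) 1) = _
    rw [map_one, map_one, map_one, rk_one, hV]
  have nj : ∀ j, j ≠ 0 → n j ∈ [80, 86, 92, 134] := fun j hj => h _ (orderOf_eq_prime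
    (by rw [← map_pow, p3, map_one]) fun q => by
      have q1 := rp_supp j
      rw [show tl 3 6 (rp j) = 1 from congrArg Subtype.val (h1 (q.trans (map_one s).symm)), support_one,
        Finset.card_empty] at q1
      exact hj (Fin.ext (by omega)))
  have eE := cw h3 (ρ.comp s) n hn hE (fun _ => 1) (fun a => a.toAdd) (fun _ _ _ => rfl) _ wE
  have eK := cw h3 (ρ.comp s) n hn (hE.comp kK.toMultiplicative) (fun _ => 1) (fun a => kK a.toAdd) (fun _ _ _ => rfl) _ wK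
  have eB := cw h3 (ρ.comp s) n hn hB (fun a => r1 (a.toAdd 0)) (fun a => tB a.toAdd) (fun _ _ _ => rfl) _ wB
  have eS := cw h3 (ρ.comp s) n hn (hB.comp kS.toMultiplicative) (fun a => r1 (kS a.toAdd 0)) (fun a => tB (kS a.toAdd))
    (fun _ _ _ => rfl) _ wS
  have le : J (fun a => (ρ.comp s) (hB a)) 1 ≤ J (fun a => (ρ.comp s) ((hB.comp kS.toMultiplicative) a)) 1 :=
    fun w hw a => hw _
  obtain ⟨a1, a2, a3⟩ := ar2 n n0 nj hV eE eK eB eS (Submodule.finrank_mono le)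
  have gE := gen ((ρ.comp s).comp hE)
  have gK := gen ((ρ.comp s).comp (hE.comp kK.toMultiplicative))
  have gS := gen ((ρ.comp s).comp (hB.comp kS.toMultiplicative))
  refine ⟨fun j => s (xs j), s uu, s vv, f, i, c1, c2, c4, fun a b => ?_, fun a => by rw [← map_pow, xs, p3, map_one],
    by rw [← map_pow, r1', map_one], by rw [← map_pow, r2, map_one], by rw [← map_mul, r3, map_mul],
    fun a => by beta_reduce; rw [← r4, map_mul, map_mul, map_inv],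
    fun a => by beta_reduce; rw [← r5, map_mul, map_mul, map_inv],
    fun a => hf _ _ (s3 a), hf _ _ s4, (hf _ _ s5).trans (map_inv _ _), fun a => (hi _ _ (s6 a)).trans (map_inv _ _),
    hi _ _ s7, hi _ _ s8, ?_, ?_, fun w q1 q2 q3 q4 => ?_⟩
  · rw [← map_mul, ← map_mul, xs, xs, ← map_mul hE, ← map_mul hE, mul_comm]
  · exact (congrArg (fun W : Submodule k V => finrank k W) gE.symm).trans a1
  · rw [show (fun j => ρ (s (xs j) * (s (xs 0))⁻¹)) = fun j => ((ρ.comp s).comp (hE.comp kK.toMultiplicative))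
      (.ofAdd (Pi.single j 1)) from funext fun j => by rw [← map_inv, ← map_mul, ← r6]; rfl, ← gK]
    exact a2
  · have q : w ∈ J (fun a => (ρ.comp s) ((hB.comp kS.toMultiplicative) a)) 1 := gS.ge fun j => by
      change ρ (s (hB (kS.toMultiplicative (.ofAdd (Pi.single j 1))))) w = (1 : k) • w
      rw [r8, one_smul]
      fin_cases j
      · exact q1
      · simp only [← map_mul] at q2; exact q2
      · simp only [← map_mul, ← map_inv] at q3; exact q3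
      · simp only [← map_mul, ← map_inv] at q4; exact q4
    rw [← Submodule.eq_of_le_of_finrank_eq le a3] at q
    beta_reduce
    rw [← r7]
    exact (q _).trans (one_smul k w)

end H28.Ed
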