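import Cfsg.Agent.H28.Ec2
import Cfsg.Agent.H28.Ed3
import Cfsg.Agent.H12.NoL2
import Cfsg.Agent.H12.E8c
import Cfsg.Agent.H17.Sr8

/-!
# Alternating sections of the groups of type `E₈`
-/

set_option autoImplicit false

open Module

namespace H28.Ec
open H11 Cfsg Cfsg.Lie StSys H28.Al H28.Ea

universe u v

theorem final8 {F : Type u} [Field F] [Fintype F] (p : ℕ) [hp : Fact p.Prime] [CharP F p] {r : ℕ} (H : Subgroup (chevE8.group F))
    (π : H →* alternatingGroup (Fin r)) (hπ : Function.Surjective π) : r ≤ 17 + (if p = 3 then 1 else 0) := by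
  split_ifs with q
  · subst q; exact char3 H π hπ
  obtain ⟨Ω, _, _, _, _, σ, j, T, hj, hr⟩ := exists_sg (D := chevE8) F p fun _ _ => torS_E8 _
  obtain ⟨_, θ, -, hθ⟩ := sg_cov8 F
  have : Fact (Nat.Prime 3) := ⟨Nat.prime_three⟩
  have h4 : ¬ p ∣ 3 := fun e => q ((Nat.prime_dvd_prime_iff_eq hp.out Nat.prime_three).1 e)
  by_contra! h
  obtain ⟨M, φ, h5, h6⟩ := H12.NoL.noL' (l := 3) (a := 5) (b := 8) (by decide) (by omega) (by omega)
    (H17.sr8 F fun e => h4 ((CharP.cast_eq_zero_iff F p 3).1 (by exact_mod_cast e)))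
    (H.comap θ) (π.comp (θ.subgroupComap H)) (hπ.comp (θ.subgroupComap_surjective_of_surjective H hθ))
  have h7 : (3 : Ω) ≠ 0 := fun e => h4 ((CharP.cast_eq_zero_iff Ω p 3).1 (by exact_mod_cast e))
  obtain ⟨x, u, v, f, i, a, b, c, e⟩ := H28.Ed.c1' φ h5 (((ad8 Ω).comp j).comp M.subtype) rk248 (by omega) h7 h6 fun y hy =>
    rat3 T hj hr p q (y : chevE8.SteinbergGroup F) ((Subgroup.orderOf_coe y).trans hy)
  exact H12.E8c.c2 _ h7 x u v f i a b c e

end H28.Ec
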