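import Cfsg.Agent.H22.Cn1
import Cfsg.Agent.H28.Fa1

/-!
# Fixed space counts for the `3`-local subgroup of `A₁₈`
-/

set_option autoImplicit false

open Module Equiv Equiv.Perm

namespace H28.Ed
open H28.Al H28.Ea H22.Cn

universe u v

section LA
variable {k V : Type*} [Field k] [AddCommGroup V] [Module k V]

theorem diag_J {ι κ : Type*} [Fintype ι] (b : Basis ι k V) (T : κ → End k V) (a : ι → κ → k)
    (h : ∀ i x, T x (b i) = a i x • b i) (P : ι → Prop) [DecidablePred P] (hP : ∀ i, P i ↔ ∀ x, a i x = 1) :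
    finrank k (J T 1) = (Finset.univ.filter P).card := by
  classical
  have h1 : ∀ x v i, b.repr (T x v) i = a i x * b.repr v i := fun x v i => by
    conv_lhs => rw [← b.sum_repr v]
    simp only [map_sum, map_smul, h, Finsupp.finset_sum_apply, Finsupp.smul_apply, b.repr_self, smul_eq_mul]
    rw [Finset.sum_eq_single i (fun j _ hj => by simp [hj]) (by simp)]
    simp [mul_comm]
  have h2 : J T 1 = Submodule.span k (Set.range fun i : {i // P i} => b i) := by
    rw [show (Set.range fun i : {i // P i} => b i) = b '' {i | P i} from (Set.image_eq_range _ _).symm]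
    ext v
    rw [mem_J, b.mem_span_image]
    constructor
    · intro q i hi
      refine (hP i).2 fun x => ?_
      have q1 := h1 x v i
      rw [q, map_smul, Finsupp.smul_apply, smul_eq_mul] at q1
      exact (mul_right_cancel₀ (Finsupp.mem_support_iff.1 hi) q1).symm
    · intro q x
      refine b.repr.injective (Finsupp.ext fun i => ?_)
      rw [h1, map_smul, Finsupp.smul_apply, smul_eq_mul]
      by_cases q1 : b.repr v i = 0
      · rw [q1, mul_zero, mul_zero]
      · rw [(hP i).1 (q (Finsupp.mem_support_iff.2 q1))]; rfl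
  rw [h2, finrank_span_eq_card (b := fun i : {i // P i} => b i) (b.linearIndependent.comp _ Subtype.val_injective),
    Fintype.card_subtype]

variable [IsAlgClosed k] [FiniteDimensional k V]

theorem cntF {l : ℕ} [Fact l.Prime] (hl : (l : k) ≠ 0) {E : Type*} [CommGroup E] [Fintype E] (hE : ∀ a : E, a ^ l = 1)
    (σ : E →* End k V) : l * ∑ a, finrank k (Eg (σ a) 1) + Fintype.card E * finrank k (J (fun a => σ a) 1) =
      Fintype.card E * (finrank k V + l * finrank k (J (fun a => σ a) 1)) := by
  classical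
  obtain ⟨s, h1, h3, h4⟩ := exists_linearIndependent k {v | ∀ a, ∃ c : k, σ a v = c • v}
  rw [H22.Cn.eig_span hl σ (fun a b => by rw [← map_mul, mul_comm, map_mul])
    fun a => by rw [← map_pow, hE, map_one]] at h3
  let b : Basis s k V := Basis.mk h4 (by rw [Subtype.range_coe, h3])
  have := h4.finite
  have := Fintype.ofFinite s
  have hb : ∀ i a, ∃ c : k, σ a (b i) = c • b i := fun i => by rw [Basis.mk_apply]; exact h1 i.2
  choose c hc using hb
  let ε : s → E →* k := fun i =>
    { toFun := c i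
      map_one' := smul_left_injective k (b.ne_zero i) (by
        change c i 1 • b i = (1 : k) • b i
        rw [← hc, map_one, one_smul]; rfl)
      map_mul' := fun x y => smul_left_injective k (b.ne_zero i) (by
        change c i (x * y) • b i = (c i x * c i y) • b i
        rw [← hc, map_mul, Module.End.mul_apply, hc, map_smul, hc, smul_smul, mul_comm]) }
  have ht : ∀ a, finrank k (Eg (σ a) 1) = ∑ i, if ε i a = 1 then 1 else 0 := fun a => by
    rw [diag_rk b (σ a) (fun i => c i a) (fun i => hc i a) 1 (fun i => ε i a = 1) fun i => Iff.rfl,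
      Finset.card_filter]
  have hk : ∀ i, l * (∑ a, if ε i a = 1 then 1 else 0) + Fintype.card E * (if ε i = 1 then 1 else 0) =
      Fintype.card E * (1 + l * if ε i = 1 then 1 else 0) := fun i => by
    by_cases q : ε i = 1
    · simp [q]; ring
    · simp only [q, if_false, mul_zero, add_zero, mul_one]
      let χ := (ε i).toHomUnits
      have e1 : (∑ a, if ε i a = 1 then 1 else 0) = Nat.card χ.ker := by
        rw [← Finset.card_filter, Nat.card_eq_fintype_card, Fintype.card_subtype]
        congr 1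
        ext a
        simp [χ, Units.ext_iff]
      have e2 : Nat.card χ.range = l := by
        have c1 : IsCyclic χ.range := isCyclic_subgroup_units _
        obtain ⟨g, hg⟩ := c1.exists_ofOrder_eq_natCard
        have c2 : orderOf g ∣ l := orderOf_dvd_of_pow_eq_one (by
          obtain ⟨_, a, rfl⟩ := g
          exact Subtype.ext (by change χ a ^ l = 1; rw [← map_pow, hE, map_one]))
        rw [hg] at c2
        refine ((Nat.dvd_prime Fact.out).1 c2).resolve_left fun c3 => q (MonoidHom.ext fun a => ?_)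
        have c4 := (Subgroup.card_eq_one.1 c3).le (MonoidHom.mem_range.2 ⟨a, rfl⟩)
        exact congrArg Units.val (Subgroup.mem_bot.1 c4)
      rw [e1, ← e2, ← Subgroup.index_ker, mul_comm, Subgroup.card_mul_index, Nat.card_eq_fintype_card]
  rw [diag_J b (fun a => σ a) c hc (fun i => ε i = 1) fun i => MonoidHom.ext_iff, Finset.card_filter]
  simp only [ht]
  rw [Finset.sum_comm, finrank_eq_card_basis b, Finset.mul_sum, Finset.mul_sum, Finset.mul_sum, ← Finset.sum_add_distrib,
    Finset.sum_congr rfl fun i _ => hk i, ← Finset.mul_sum, Finset.sum_add_distrib]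
  simp

omit [IsAlgClosed k] [FiniteDimensional k V] in
theorem gen {m : ℕ} (σ : Multiplicative (Fin m → ZMod 3) →* End k V) :
    J (fun a => σ a) 1 = J (fun i => σ (.ofAdd (Pi.single i 1))) 1 := by
  refine le_antisymm (fun v hv i => hv _) fun v hv a => ?_
  let S : AddSubmonoid (Fin m → ZMod 3) :=
    { carrier := {a | σ (.ofAdd a) v = v}
      zero_mem' := by change σ 1 v = v; rw [map_one]; rfl
      add_mem' := fun {a b} ha hb => by
        change σ (.ofAdd a * .ofAdd b) v = v
        rw [map_mul, Module.End.mul_apply, show σ (.ofAdd b) v = v from hb]; exact ha }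
  have h : a.toAdd ∈ S := by
    rw [← Finset.univ_sum_single a.toAdd]
    refine S.sum_mem fun i _ => ?_
    rw [show Pi.single i (a.toAdd i) = (a.toAdd i).val • (Pi.single i 1 : Fin m → ZMod 3) by
      rw [← Pi.single_smul]; simp]
    exact S.nsmul_mem ((hv i).trans (one_smul k v)) _
  exact Eq.trans h (one_smul k v).symm

end LA

theorem liftP {G : Type v} [Group G] [Finite G] {r l : ℕ} [Fact l.Prime] (hl : l ≠ 2) {Ω : Type} [Fintype Ω] [DecidableEq Ω]
    (hr : Fintype.card Ω ≤ r) (P : Subgroup (Perm Ω)) (hP : IsPGroup l P) (φ : G →* alternatingGroup (Fin r))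
    (hφ : Function.Surjective φ) (hK : ¬ l ∣ Nat.card φ.ker) : ∃ s : P →* G, Function.Injective s ∧
      (∀ a b : P, b ^ l = 1 → AC (a : Perm Ω) b → IsConj (s a) (s b)) ∧ ∀ F : Perm Ω, sign F = 1 →
        (∀ a ∈ P, F * a * F⁻¹ ∈ P) → ∃ f : G, ∀ a b : P, F * a * F⁻¹ = b → f * s a * f⁻¹ = s b := by
  classical
  obtain ⟨e⟩ : Nonempty (Ω ↪ Fin r) := Function.Embedding.nonempty_of_card_le (by simpa using hr)
  have sg : ∀ σ, sign (viaEmbeddingHom e σ) = sign σ := fun σ => by
    rw [viaEmbeddingHom_apply, viaEmbedding]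
    convert sign_extendDomain σ _
  have sP : ∀ a : P, sign (a : Perm Ω) = 1 := fun a => by
    obtain ⟨n, hn⟩ := hP a
    have h1 : sign (a : Perm Ω) ^ l ^ n = 1 := by rw [← map_pow, ← Subgroup.coe_pow, hn, Subgroup.coe_one, map_one]
    rcases Int.units_eq_one_or (sign (a : Perm Ω)) with h | h
    · exact h
    · rw [h, (((Fact.out : l.Prime).odd_of_ne_two hl).pow).neg_one_pow] at h1
      exact absurd h1 (by decide)
  let ι : P →* alternatingGroup (Fin r) := ((viaEmbeddingHom e).comp P.subtype).codRestrict _ fun a => by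
    rw [mem_alternatingGroup, MonoidHom.comp_apply, sg]; exact sP a
  obtain ⟨Q, -, h1, h2, h3, -⟩ := H28.Fa.fr φ ((Subgroup.normalizer (ι.range : Set (alternatingGroup (Fin r)))).comap φ) (V := ι.range)
    (hP.of_surjective _ ι.rangeRestrict_surjective) (fun _ h => h) fun v hv =>
      let ⟨x, hx⟩ := hφ v; ⟨x, show φ x ∈ _ from hx ▸ Subgroup.le_normalizer hv, hx⟩
  have h4 : ∀ x ∈ Q, ∀ y ∈ Q, φ x = φ y → x = y := fun x hx y hy h => by
    obtain ⟨n, hn⟩ := h1 ⟨_, Q.mul_mem hx (Q.inv_mem hy)⟩
    exact mul_inv_eq_one.1 (injP φ hK (n := n) (congrArg Subtype.val hn) (by rw [map_mul, map_inv, h, mul_inv_cancel]))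
  have h5 : ∀ a, ∃ x ∈ Q, φ x = ι a := fun a => h2.ge ⟨a, rfl⟩
  choose s0 h6 h7 using h5
  let s : P →* G := .mk' s0 fun a b => h4 _ (h6 _) _ (Q.mul_mem (h6 _) (h6 _)) (by rw [map_mul, h7, h7, h7, map_mul])
  have h8 : ∀ a, (φ (s a) : Perm (Fin r)) = viaEmbeddingHom e a := fun a => congrArg Subtype.val (h7 a)
  refine ⟨s, fun a b h => Subtype.ext (viaEmbeddingHom_injective e (by rw [← h8, h, h8])), ?_, fun F hF h => ?_⟩
  · rintro x y hy ⟨g, hg, q⟩
    obtain ⟨a, ha⟩ := hφ ⟨viaEmbeddingHom e g, by rw [mem_alternatingGroup, sg, hg]⟩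
    have hx : x ^ l = 1 := Subtype.ext (by
      have := congrArg Subtype.val hy
      rw [Subgroup.coe_pow, ← q, conj_pow, Subgroup.coe_one, mul_inv_eq_one, mul_eq_left] at this
      exact this)
    refine (isConj_iff.2 ⟨a, rfl⟩).trans (liftConj φ hK (by rw [conj_pow, ← map_pow, hx, map_one, mul_one, mul_inv_cancel])
      (by rw [← map_pow, hy, map_one]) (Subtype.ext ?_))
    rw [map_mul, map_mul, map_inv, ha, h8, ← q, map_mul, map_mul, map_inv, ← h8]
    rfl
  · let F' : alternatingGroup (Fin r) := ⟨viaEmbeddingHom e F, by rw [mem_alternatingGroup, sg, hF]⟩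
    have h9 : F' ∈ Subgroup.normalizer (ι.range : Set (alternatingGroup (Fin r))) := Subgroup.mem_normalizer_fintype (by
      rintro _ ⟨a, rfl⟩
      exact ⟨⟨_, h a a.2⟩, Subtype.ext (by
        change viaEmbeddingHom e (F * a * F⁻¹) = viaEmbeddingHom e F * viaEmbeddingHom e a * (viaEmbeddingHom e F)⁻¹
        rw [map_mul, map_mul, map_inv])⟩)
    obtain ⟨x, hx⟩ := hφ F'
    obtain ⟨f, ⟨hf, -⟩, ef⟩ := h3 ⟨x, show φ x ∈ _ from hx ▸ h9, hx⟩
    refine ⟨f, fun a b q => h4 _ ((Subgroup.mem_normalizer_iff.1 hf _).1 (h6 a)) _ (h6 b) (Subtype.ext ?_)⟩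
    rw [map_mul, map_mul, map_inv, ef, h8, ← q, map_mul, map_mul, map_inv, ← h8]
    rfl

end H28.Ed
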