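import Cfsg.Agent.H28.Ed1

/-!
# The `3`-local subgroup of `A₁₈` and its fixed spaces
-/

set_option autoImplicit false

open Module Equiv Equiv.Perm

namespace H28.Ed
open H28.Al H28.Ea H22.Cn

universe u v

attribute [local instance] Nat.fact_prime_three

/-- the eighteen points -/
abbrev Om := Fin 6 × ZMod 3

/-- block permutations -/
def bl (σ : Perm (Fin 6)) : Perm Om := prodCongr σ (Equiv.refl _)

def c1 : Perm (Fin 6) := swap 0 2 * swap 0 1
def c2 : Perm (Fin 6) := swap 3 5 * swap 3 4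
def c4 : Perm (Fin 6) := swap 0 3 * (swap 1 5 * swap 1 2 * swap 1 4)
def iv : Perm Om := prodCongr (Equiv.refl _) (Equiv.neg _)

/-- the block group -/
def A9 : Subgroup (Perm (Fin 6)) where
  carrier := {σ | σ ∈ [1, c1, c1 * c1, c2, c1 * c2, c1 * c1 * c2, c2 * c2, c1 * c2 * c2, c1 * c1 * c2 * c2]}
  one_mem' := by decide +kernel
  mul_mem' := fun {a b} ha hb => (by decide +kernel : ∀ a ∈ [1, c1, c1 * c1, c2, c1 * c2, c1 * c1 * c2, c2 * c2, c1 * c2 * c2, c1 * c1 * c2 * c2], ∀ b ∈ [1, c1, c1 * c1, c2, c1 * c2, c1 * c1 * c2, c2 * c2, c1 * c2 * c2, c1 * c1 * c2 * c2], a * b ∈ [1, c1, c1 * c1, c2, c1 * c2, c1 * c1 * c2, c2 * c2, c1 * c2 * c2, c1 * c1 * c2 * c2]) a ha b hb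
  inv_mem' := fun {a} ha => (by decide +kernel : ∀ a ∈ [1, c1, c1 * c1, c2, c1 * c2, c1 * c1 * c2, c2 * c2, c1 * c2 * c2, c1 * c1 * c2 * c2], a⁻¹ ∈ [1, c1, c1 * c1, c2, c1 * c2, c1 * c1 * c2, c2 * c2, c1 * c2 * c2, c1 * c1 * c2 * c2]) a ha

theorem A9_pow : ∀ a ∈ [1, c1, c1 * c1, c2, c1 * c2, c1 * c1 * c2, c2 * c2, c1 * c2 * c2, c1 * c1 * c2 * c2],
    (∀ s, a (a (a s)) = s) ∧ c4 * a * c4⁻¹ ∈ [1, c1, c1 * c1, c2, c1 * c2, c1 * c1 * c2, c2 * c2, c1 * c2 * c2, c1 * c1 * c2 * c2] := by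
  decide +kernel

/-- the `3`-group -/
def P8 : Subgroup (Perm Om) where
  carrier := {g | ∃ σ ∈ A9, ∃ t : Fin 6 → ZMod 3, ∀ s y, g (s, y) = (σ s, t s + y)}
  one_mem' := ⟨1, A9.one_mem, 0, fun s y => by simp⟩
  mul_mem' := by
    rintro a b ⟨σ, h1, t, h2⟩ ⟨τ, h3, w, h4⟩
    exact ⟨σ * τ, A9.mul_mem h1 h3, fun s => t (τ s) + w s, fun s y => by rw [mul_apply, h4, h2, add_assoc]; rfl⟩
  inv_mem' := by
    rintro a ⟨σ, h1, t, h2⟩
    exact ⟨σ⁻¹, A9.inv_mem h1, fun s => -t (σ⁻¹ s), fun s y => by rw [inv_eq_iff_eq, h2]; simp⟩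

theorem P8_p : IsPGroup 3 P8 := by
  rintro ⟨g, σ, h1, t, h2⟩
  refine ⟨2, Subtype.ext (Equiv.ext fun ⟨s, y⟩ => ?_)⟩
  have h3 : ∀ y, (g ^ 3) (s, y) = (s, (t (σ (σ s)) + t (σ s) + t s) + y) := fun y => by
    change g (g (g (s, y))) = _
    rw [h2, h2, h2, (A9_pow σ h1).1, add_assoc, add_assoc]
  change (g ^ (3 * 3)) (s, y) = (s, y)
  rw [pow_mul]
  change (g ^ 3) ((g ^ 3) ((g ^ 3) (s, y))) = _
  rw [h3, h3, h3]
  exact congrArg (Prod.mk s) ((by decide : ∀ y z : ZMod 3, z + (z + (z + y)) = y) _ _)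

theorem tl_mem (x : Multiplicative (Fin 6 → ZMod 3)) : tl 3 6 x ∈ P8 := ⟨1, A9.one_mem, x.toAdd, fun _ _ => rfl⟩

theorem bl_mem {σ : Perm (Fin 6)} (h : σ ∈ A9) : bl σ ∈ P8 := ⟨σ, h, 0, fun _ _ => by simp [bl]⟩

theorem c4_norm : ∀ a ∈ P8, bl c4 * a * (bl c4)⁻¹ ∈ P8 := by
  rintro g ⟨σ, h1, t, h2⟩
  exact ⟨_, (A9_pow σ h1).2, fun s => t (c4⁻¹ s), fun s y => by
    change bl c4 (g (c4⁻¹ s, y)) = _
    rw [h2]; rfl⟩

theorem iv_norm : ∀ a ∈ P8, iv * a * iv⁻¹ ∈ P8 := by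
  rintro g ⟨σ, h1, t, h2⟩
  exact ⟨_, h1, fun s => -t s, fun s y => by
    change iv (g (s, -y)) = _
    rw [h2]
    change (σ s, -(t s + -y)) = _
    rw [neg_add, neg_neg]⟩

/-- representatives -/
def rp (j : Fin 7) : Multiplicative (Fin 6 → ZMod 3) := .ofAdd fun s => if s.val < j.val then 1 else 0

theorem rp_supp : ∀ j : Fin 7, (tl 3 6 (rp j)).support.card = 3 * j.val := by decide +kernel

theorem ac3 (g : Perm Om) (hg : g ^ 3 = 1) (j : Fin 7) (h : g.support.card = 3 * j.val) : AC g (tl 3 6 (rp j)) := by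
  have h1 : ∀ g : Perm Om, g ^ 3 = 1 → g.support.card = 3 * j.val → g.cycleType = Multiset.replicate j.val 3 :=
    fun g hg h => by
      have q := Multiset.eq_replicate_card.2 (pow_prime_eq_one_iff.1 hg)
      have q2 := g.sum_cycleType
      rw [q, Multiset.sum_replicate, smul_eq_mul, h] at q2
      rw [q, show g.cycleType.card = j.val by omega]
  obtain ⟨c, hc⟩ := isConj_iff.1 (isConj_iff_cycleType_eq.2 ((h1 g hg h).trans
    (h1 _ (by rw [← map_pow, pow_l, map_one]) (rp_supp j)).symm))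
  obtain ⟨d, h2, h3⟩ : ∃ d : Perm Om, sign d = -1 ∧ d * tl 3 6 (rp j) = tl 3 6 (rp j) * d := by
    by_cases q : j = 6
    · subst q; exact odd1 (by decide) _ 0 1 (by decide) rfl
    · exact odd0 _ 5 (if_neg (by have := j.2; have : j.val ≠ 6 := fun e => q (Fin.ext e); simp; omega))
  exact AC.of (g := c) (by rw [← hc, inv_mul_cancel_right]) h2 h3

theorem supp (g : Perm Om) (σ : Perm (Fin 6)) (t : Fin 6 → ZMod 3) (h : ∀ s y, g (s, y) = (σ s, t s + y)) :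
    g.support.card = 3 * (Finset.univ.filter fun s => σ s ≠ s ∨ t s ≠ 0).card := by
  rw [show g.support = (Finset.univ.filter fun s => σ s ≠ s ∨ t s ≠ 0) ×ˢ Finset.univ by
    ext ⟨s, y⟩
    simp [h, Prod.ext_iff, imp_iff_not_or], Finset.card_product, mul_comm]
  rfl

/-- weight -/
def wt (σ : Perm (Fin 6)) (t : Fin 6 → ZMod 3) : Fin 7 :=
  ⟨(Finset.univ.filter fun s => σ s ≠ s ∨ t s ≠ 0).card, Nat.lt_succ_of_le (Finset.card_filter_le _ _)⟩

theorem wE : ∀ j : Fin 7, (Finset.univ.filter fun a : Multiplicative (Fin 6 → ZMod 3) => wt 1 a.toAdd = j).card =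
    ![1, 12, 60, 160, 240, 192, 64] j := by decide +kernel

/-- the sum zero map -/
def kK : (Fin 6 → ZMod 3) →+ (Fin 6 → ZMod 3) :=
  .mk' (fun a s => if s = 0 then -(a 1 + a 2 + a 3 + a 4 + a 5) else a s) fun a b => by
    ext s
    by_cases q : s = 0
    · simp only [q, if_true, Pi.add_apply]; ring
    · simp only [q, if_false, Pi.add_apply]

theorem wK : ∀ j : Fin 7, (Finset.univ.filter fun a : Multiplicative (Fin 6 → ZMod 3) => wt 1 (kK a.toAdd) = j).card =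
    ![3, 0, 90, 120, 270, 180, 66] j := by decide +kernel

/-- rotation of the first three blocks -/
def r1 (j : ZMod 3) : Perm (Fin 6) := c1 ^ j.val

/-- translation part -/
def tB (a : Fin 5 → ZMod 3) : Fin 6 → ZMod 3 := ![a 1, a 1, a 1, a 2, a 3, a 4]

theorem r1_add : ∀ i j : ZMod 3, r1 (i + j) = r1 i * r1 j := by decide +kernel

theorem tB_r1 (a : Fin 5 → ZMod 3) : ∀ j s, tB a (r1 j s) = tB a s := by
  intro j s
  fin_cases j <;> fin_cases s <;> rfl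

theorem tB_add (a b : Fin 5 → ZMod 3) (s : Fin 6) : tB (a + b) s = tB a s + tB b s := by
  fin_cases s <;> rfl

/-- the second elementary abelian group -/
def hB : Multiplicative (Fin 5 → ZMod 3) →* P8 :=
  .mk' (fun a => ⟨bl (r1 (a.toAdd 0)) * tl 3 6 (.ofAdd (tB a.toAdd)), P8.mul_mem (bl_mem (A9.pow_mem
    (show c1 ∈ A9 from .tail _ (.head _)) _)) (tl_mem _)⟩) fun a b => Subtype.ext (Equiv.ext fun ⟨s, y⟩ => by
      change (r1 (a.toAdd 0 + b.toAdd 0) s, tB (a.toAdd + b.toAdd) s + y) =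
        (r1 (a.toAdd 0) (r1 (b.toAdd 0) s), tB a.toAdd (r1 (b.toAdd 0) s) + (tB b.toAdd s + y))
      rw [r1_add, tB_r1, tB_add, add_assoc]; rfl)

theorem wB : ∀ j : Fin 7, (Finset.univ.filter fun a : Multiplicative (Fin 5 → ZMod 3) =>
    wt (r1 (a.toAdd 0)) (tB a.toAdd) = j).card = ![1, 6, 12, 16, 48, 96, 64] j := by decide +kernel

/-- a subgroup of index three -/
def kS : (Fin 4 → ZMod 3) →+ (Fin 5 → ZMod 3) :=
  .mk' (fun a => ![a 0, a 1, -(a 2 + a 3), a 2, a 3]) fun a b => by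
    ext s
    fin_cases s <;> simp
    ring

theorem wS : ∀ j : Fin 7, (Finset.univ.filter fun a : Multiplicative (Fin 4 → ZMod 3) =>
    wt (r1 (kS a.toAdd 0)) (tB (kS a.toAdd)) = j).card = ![1, 0, 6, 10, 0, 48, 16] j := by decide +kernel

theorem arith : ∀ a ∈ [80, 86, 92, 134], ∀ b ∈ [80, 86, 92, 134], ∀ c ∈ [80, 86, 92, 134], ∀ d ∈ [80, 86, 92, 134],
    ∀ e ∈ [80, 86, 92, 134], ∀ f ∈ [80, 86, 92, 134],
    (248 + 12 * a + 60 * b + 160 * c + 240 * d + 192 * e + 64 * f) % 486 = 0 →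
    (248 + 30 * b + 40 * c + 90 * d + 60 * e + 22 * f) % 162 = 0 →
    (248 + 6 * a + 12 * b + 16 * c + 48 * d + 96 * e + 64 * f) % 162 = 0 →
    (248 + 6 * b + 10 * c + 48 * e + 16 * f) % 54 = 0 →
    81 * 248 ≤ 248 + 6 * a + 12 * b + 16 * c + 48 * d + 96 * e + 64 * f →
    248 + 6 * a + 12 * b + 16 * c + 48 * d + 96 * e + 64 * f ≤ 3 * (248 + 6 * b + 10 * c + 48 * e + 16 * f) →
    a = 92 ∧ b = 134 ∧ c = 86 ∧ d = 92 ∧ e = 80 ∧ f = 86 := by decide +kernel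

variable {k V : Type u} [Field k] [IsAlgClosed k] [AddCommGroup V] [Module k V] [FiniteDimensional k V]

theorem cw (h3 : (3 : k) ≠ 0) (ρ : P8 →* End k V) (n : Fin 7 → ℕ) (hn : ∀ (g : P8) σ t, g ^ 3 = 1 →
    (∀ s y, (g : Perm Om) (s, y) = (σ s, t s + y)) → finrank k (Eg (ρ g) 1) = n (wt σ t)) {m : ℕ}
    (h : Multiplicative (Fin m → ZMod 3) →* P8) (σ : _ → Perm (Fin 6)) (t : _ → Fin 6 → ZMod 3)
    (e : ∀ a s y, (h a : Perm Om) (s, y) = (σ a s, t a s + y)) (w : Fin 7 → ℕ)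
    (hw : ∀ j, (Finset.univ.filter fun a => wt (σ a) (t a) = j).card = w j) :
    3 * ∑ j, w j * n j + 3 ^ m * finrank k (J (fun a => ρ (h a)) 1) =
      3 ^ m * (finrank k V + 3 * finrank k (J (fun a => ρ (h a)) 1)) := by
  have q := cntF (l := 3) (by exact_mod_cast h3) pow_l (ρ.comp h)
  simp only [MonoidHom.comp_apply] at q
  rw [show Fintype.card (Multiplicative (Fin m → ZMod 3)) = 3 ^ m by simp,
    Finset.sum_congr rfl fun a _ => hn (h a) _ _ (by rw [← map_pow, pow_l, map_one]) (e a),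
    ← Finset.sum_fiberwise _ fun a => wt (σ a) (t a)] at q
  refine Eq.trans ?_ q
  congr 2
  refine Finset.sum_congr rfl fun j _ => ?_
  rw [Finset.sum_congr rfl fun a ha => congrArg n (Finset.mem_filter.1 ha).2, Finset.sum_const, hw, smul_eq_mul]

end H28.Ed
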