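import Mathlib
import Cfsg.Agent.H28.El20

/-!
# Unitary spaces : elements of projective prime order (namespace `H28.El`)
-/

set_option autoImplicit false

open Module Polynomial H24.Sim H10 H10.Form

namespace H28.El

theorem two_pow_dvd {o n : ℕ} (h0 : n ≠ 0) (h1 : o ∣ 2 * n) (h2 : ¬ o ∣ n) : 2 ^ (padicValNat 2 n + 1) ∣ o := by
  have h3 : o ≠ 0 := by rintro rfl; simp at h1; omega
  rw [padicValNat_dvd_iff_le h3]
  by_contra h4
  refine h2 ((Nat.factorization_prime_le_iff_dvd h3 h0).1 fun p hp => ?_)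
  by_cases h5 : p = 2
  · subst h5; rw [Nat.factorization_def _ hp, Nat.factorization_def _ hp]; omega
  · have := (Nat.factorization_prime_le_iff_dvd h3 (by omega)).2 h1 p hp
    rwa [Nat.factorization_mul two_ne_zero h0, Finsupp.add_apply, Nat.prime_two.factorization, Finsupp.single_eq_of_ne h5,
      zero_add] at this

section
variable {F V : Type*} [Field F] [AddCommGroup V] [Module F V] {φ : Form F V} {U W X Y Z A B : Submodule F V}
  {g x y : End F V} {r q : ℕ}

theorem det_invol [FiniteDimensional F V] (h : y ^ 2 = 1) : LinearMap.det y = (-1) ^ finrank F (mv y) := by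
  rw [LinearMap.det_eq_det_mul_det (mv y) y inv_mv, show y.restrict (inv_mv (g := y)) = (-1 : F) • 1 from
    LinearMap.ext fun v => Subtype.ext ((neg_of_mem_mv h v.2).trans (by simp)), show (mv y).mapQ (mv y) y inv_mv = 1 from
    Submodule.linearMap_qext _ (LinearMap.ext fun v => (Submodule.Quotient.eq _).2 (mem_mv.2 ⟨v, rfl⟩))]
  simp

theorem swap_rank [FiniteDimensional F V] (h : Disjoint A B) (h1 : A.map g ≤ B) {c : F} (hc : c ≠ 0) :
    finrank F A ≤ finrank F (LinearMap.range (g - c • 1)) := by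
  rw [← LinearMap.finrank_range_of_inj (f := (g - c • 1).domRestrict A) ((injective_iff_map_eq_zero _).2 fun v hv => by
    have h2 : g v = c • (v : V) := by simpa [sub_eq_zero] using hv
    have := Submodule.disjoint_def.1 h _ (A.smul_mem c v.2) (h2 ▸ h1 ⟨v, v.2, rfl⟩)
    simpa [hc] using this)]
  exact Submodule.finrank_mono (by rintro _ ⟨v, rfl⟩; exact ⟨v, rfl⟩)

variable (h : φ.IsUnitary q)
include h

theorem norm_iff {a : F} : φ.σ a * a = 1 ↔ a ^ (q + 1) = 1 := by rw [h.σ_eq, pow_succ]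

theorem pow_qq (a : F) : (a ^ q) ^ q = a := by rw [← h.σ_eq, ← h.σ_eq, φ.σσ]

theorem pow_q_odd (a : F) {k : ℕ} (hk : Odd k) : φ.σ a = a ^ q ^ k := by
  obtain ⟨k, rfl⟩ := hk
  induction k with
  | zero => simpa using h.σ_eq a
  | succ k ih => rw [ih, show q ^ (2 * (k + 1) + 1) = q ^ (2 * k + 1) * q * q by ring, pow_mul, pow_mul, pow_qq h]

theorem card_mu : Nat.card (powMonoidHom (q + 1) : Fˣ →* Fˣ).ker = q + 1 := by
  haveI := h.finite
  have := h.two_le
  rw [IsCyclic.card_powMonoidHom_ker, Nat.card_units, h.card, Nat.gcd_eq_right]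
  exact ⟨q - 1, by rw [← Nat.sq_sub_sq]⟩

theorem exists_nonpow_mu [hr : Fact r.Prime] (hd : r ∣ q + 1) {s : ℕ} (hs : s ≠ 0) :
    (∃ z : F, z ^ (q + 1) = 1 ∧ (∀ w : F, w ^ (q + 1) = 1 → w ^ r ≠ z) ∧ z ^ s = 1) ↔ padicValNat r (q + 1) ≤ padicValNat r s := by
  haveI := h.finite
  have h1 := exists_nonpow_iff (C := (powMonoidHom (q + 1) : Fˣ →* Fˣ).ker) ((card_mu h).symm ▸ hd) hs
  have h2 : ∀ w : F, w ^ (q + 1) = 1 → ∃ u : (powMonoidHom (q + 1) : Fˣ →* Fˣ).ker, ((u : Fˣ) : F) = w := fun w hw =>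
    ⟨⟨Units.mk0 w (by rintro rfl; simp at hw), Units.ext (by simpa using hw)⟩, rfl⟩
  rw [card_mu h] at h1
  rw [← h1]
  refine ⟨fun ⟨z, k1, k2, k3⟩ => ?_, fun ⟨z, k1, k2⟩ => ⟨z.1, by simpa using congrArg Units.val z.2, fun w hw k3 => ?_,
    by simpa using congrArg (fun u => ((u : Fˣ) : F)) (congrArg Subtype.val k2)⟩⟩
  · obtain ⟨z, rfl⟩ := h2 z k1
    exact ⟨z, fun w hw => k2 w.1 (by simpa using congrArg Units.val w.2) (by simp [← hw]),
      Subtype.ext (Units.ext (by simpa using k3))⟩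
  · obtain ⟨w, rfl⟩ := h2 w hw
    exact k1 w (Subtype.ext (Units.ext (by simpa using k3)))

theorem exists_mu_order {k : ℕ} (hk : k ∣ q + 1) : ∃ w : F, IsPrimitiveRoot w k ∧ w ^ (q + 1) = 1 := by
  haveI := h.finite
  obtain ⟨γ, hγ⟩ := IsCyclic.exists_generator (α := (powMonoidHom (q + 1) : Fˣ →* Fˣ).ker)
  have h1 := (orderOf_eq_card_of_forall_mem_zpowers hγ).trans (card_mu h)
  obtain ⟨l, hl⟩ := hk
  have h2 : IsPrimitiveRoot ((γ : Fˣ) : F) (q + 1) := by
    have := IsPrimitiveRoot.orderOf γ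
    rw [h1] at this
    rwa [IsPrimitiveRoot.coe_units_iff, IsPrimitiveRoot.coe_submonoidClass_iff]
  exact ⟨_, h2.pow (by omega) (hl.trans (mul_comm _ _)), by rw [← pow_mul, mul_comm, pow_mul, h2.pow_eq_one, one_pow]⟩

theorem exists_neg_pow (h2 : (2 : F) ≠ 0) {n : ℕ} (hn : n ≠ 0) :
    (∃ w : F, w ^ (q + 1) = 1 ∧ w ^ n = -1) ↔ ¬ padicValNat 2 (q + 1) ≤ padicValNat 2 n := by
  rw [not_le, Nat.lt_iff_add_one_le, ← padicValNat_dvd_iff_le (by omega)]
  refine ⟨fun ⟨w, k1, k2⟩ => (two_pow_dvd hn (orderOf_dvd_of_pow_eq_one (by rw [pow_mul', k2]; simp)) fun k3 => h2 ?_).trans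
    (orderOf_dvd_of_pow_eq_one k1), fun k => ?_⟩
  · rw [orderOf_dvd_iff_pow_eq_one.1 k3] at k2; linear_combination k2
  · obtain ⟨w, k1, k2⟩ := exists_mu_order h k
    refine ⟨w, k2, (mul_self_eq_one_iff.1 ?_).resolve_left fun k3 => pow_succ_padicValNat_not_dvd hn (k1.dvd_of_pow_eq_one n k3)⟩
    rw [← pow_add, ← two_mul, k1.pow_eq_one_iff_dvd, pow_succ']
    exact Nat.mul_dvd_mul_left 2 pow_padicValNat_dvd

theorem norm_of_root [hr : Fact r.Prime] (ho : Odd r) (hd : r ∣ q + 1) {w : F} (hw : (w ^ r) ^ (q + 1) = 1) :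
    w ^ (q + 1) = 1 := by
  have h0 : w ≠ 0 := by rintro rfl; simp [hr.out.ne_zero] at hw
  have h1 := h.two_le
  have h2 : (w ^ (q + 1)) ^ (q - 1) = 1 := mul_left_cancel₀ (pow_ne_zero (q + 1) h0) (by
    rw [mul_one, ← pow_succ', show q - 1 + 1 = q by omega, pow_succ w, mul_pow, pow_qq h, mul_comm])
  have h3 : (r.gcd (q - 1)) = 1 := (Nat.coprime_primes hr.out hr.out).1.mt (by simp) |> fun _ =>
    (hr.out.coprime_iff_not_dvd).2 fun h4 => by
      have := (Nat.dvd_sub hd h4)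
      rw [show q + 1 - (q - 1) = 2 by omega, Nat.prime_dvd_prime_iff_eq hr.out Nat.prime_two] at this
      exact absurd (this ▸ ho) (by decide)
  have := pow_gcd_eq_one.2 ⟨show (w ^ (q + 1)) ^ r = 1 by rw [← pow_mul, mul_comm, pow_mul, hw], h2⟩
  rwa [h3, pow_one] at this

theorem isom_smul' (hx : φ.IsIsom x) {c : F} (hc : c ^ (q + 1) = 1) : φ.IsIsom ⇑(c • x) := isom_smul hx ((norm_iff h).2 hc)

theorem mono_isom {ι : Type*} [DecidableEq ι] (b : Basis ι F V) (hb : ∀ i j, φ.B (b i) (b j) = if i = j then 1 else 0)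
    (π : Equiv.Perm ι) {a : ι → F} (ha : ∀ i, a i ^ (q + 1) = 1) : φ.IsIsom (b.constr F fun i => a i • b (π i)) := by
  refine h.herm.isIsom fun u v => ?_
  have h1 : ∀ i, (φ.B (b.constr F (fun i => a i • b (π i)) (b i))).comp (b.constr F fun i => a i • b (π i)) = φ.B (b i) :=
    fun i => b.ext fun j => by
      simp only [LinearMap.comp_apply, Basis.constr_basis, B_smul_left, B_smul_right, hb, π.injective.eq_iff]
      split_ifs with k
      · rw [k, mul_one, mul_comm, (norm_iff h).2 (ha j)]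
      · simp
  exact LinearMap.congr_fun (b.ext fun i => LinearMap.congr_fun (h1 i) v :
    (φ.B.flip (b.constr F (fun i => a i • b (π i)) v)).comp (b.constr F fun i => a i • b (π i)) = φ.B.flip v) u

/-- the standard hermitian form on coordinate vectors -/
noncomputable def stdH (ι : Type*) [Fintype ι] : Form F (ι → F) :=
  ofHerm φ.σ φ.σσ (by simpa [h.herm.T_eq] using h.exists_T_eq (c := 1) (map_one _))
    (LinearMap.mk₂'ₛₗ φ.σ (RingHom.id F) (fun u v => ∑ i, φ.σ (u i) * v i) (by simp [add_mul, Finset.sum_add_distrib])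
      (by simp [Finset.mul_sum, mul_assoc]) (by simp [mul_add, Finset.sum_add_distrib]) (by simp [Finset.mul_sum, mul_left_comm]))
    ⟨fun u v => by simp [φ.σσ, mul_comm]⟩

theorem stdH_unit (ι : Type*) [Fintype ι] : (stdH h ι).IsUnitary q := ⟨isHerm_ofHerm .., h.card, h.σ_eq⟩

theorem stdH_nondeg (ι : Type*) [Fintype ι] : (stdH h ι).Nondeg := ⟨fun u hu => funext fun i => by
  classical
  have : ∑ j, φ.σ (u j) * (Pi.single i 1 : ι → F) j = 0 := hu _
  simpa [Pi.single_apply] using this⟩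

theorem ti_ts' (hX : X ≤ φ.perp X) : φ.TS X := h.herm.ts fun u hu v hv => φ.mem_perp.1 (hX hv) u hu

variable [FiniteDimensional F V] [φ.Nondeg]

theorem norm_det (hx : φ.IsIsom g) : LinearMap.det g ^ (q + 1) = 1 := by
  have := φ.σ_det_mul_det (φ.toIsom g)
  rwa [coe_det, φ.toIsom_coe hx, norm_iff h] at this

omit [FiniteDimensional F V] in
theorem norm_scalar [Nontrivial V] (hx : φ.IsIsom g) {z : F} (hz : g ^ r = z • 1) : z ^ (q + 1) = 1 :=
  (norm_iff h).1 (norm_of_smul (hz ▸ isom_pow hx r))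

theorem cj_unit (hU : φ.NondegOn U) (hW : φ.NondegOn W) (hd : finrank F U = finrank F W) : Cj φ U W :=
  haveI := hU.nondeg
  haveI := hW.nondeg
  cj_iff.2 ((h.restrict U).exists_isEquiv (h.restrict W) hd)

theorem nb_unit (hU : φ.NondegOn U) {k : ℕ} (hk : k ≤ finrank F U) : ∃ W ≤ U, φ.NondegOn W ∧ finrank F W = k :=
  nb_one (fun v hv => h.herm.Q_eq v ▸ hv) h.exists_T hU hk

theorem pe_unit [Nontrivial V] [hr : Fact r.Prime] (hd : ¬ r ∣ q + 1) {P : End F V → Prop}
    (hP : ∀ (c : F) g, c ≠ 0 → P g → P (c • g)) : (∀ g : End F V, φ.IsIsom g → LinearMap.det g = 1 → PE r g → P g) ↔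
      ∀ y : End F V, φ.IsIsom y → y ^ r = 1 → y ≠ 1 → P y := by
  have hc := (hr.out.coprime_iff_not_dvd).2 hd
  have h1 : ∀ z : F, z ^ r = 1 → z ^ (q + 1) = 1 → z = 1 := fun z k1 k2 => by
    have := pow_gcd_eq_one.2 ⟨k1, k2⟩
    rwa [hc, pow_one] at this
  refine ⟨fun H y hx hy k => H y hx (h1 _ (by rw [← map_pow, hy, map_one]) (norm_det h hx)) ⟨⟨1, by simpa⟩, ?_⟩,
    fun H g hx _ k => ?_⟩
  · rintro z rfl
    rw [_root_.smul_pow, one_pow] at hy
    exact k (by rw [h1 z (smul_left_injective F one_ne_zero (hy.trans (one_smul _ _).symm))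
      (norm_scalar h hx (r := 1) (pow_one _)), one_smul])
  · obtain ⟨z, hz⟩ := k.1
    have k1 := norm_scalar h hx hz
    obtain ⟨m, -, hm⟩ := Nat.exists_mul_mod_eq_one_of_coprime hc (by have := h.two_le; omega)
    have k2 : (z ^ m) ^ r = z := by rw [← pow_mul, mul_comm, pow_eq_pow_mod _ k1, hm, pow_one]
    have k3 : (z ^ m) ^ (q + 1) = 1 := by rw [← pow_mul, mul_comm, pow_mul, k1, one_pow]
    have k4 : z ^ m ≠ 0 := fun k => by simp [k] at k3
    have := hP _ _ k4 (H _ (isom_smul' h hx (c := (z ^ m)⁻¹) (by rw [inv_pow, k3, _root_.inv_one])) (by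
      rw [_root_.smul_pow, hz, smul_smul, inv_pow, k2, inv_mul_cancel₀ (by rintro rfl; simp at k1), one_smul])
      (k.smul (inv_ne_zero k4)).ne_one)
    rwa [smul_smul, mul_inv_cancel₀ k4, one_smul] at this

theorem exists_nonsplit_unit (hr : 0 < r) {z : F} (hz : z ^ (q + 1) = 1) {s : ℕ} (hs : finrank F V = r * s) :
    ∃ g : End F V, φ.IsIsom g ∧ g ^ r = z • 1 := by
  haveI : NeZero r := ⟨hr.ne'⟩
  obtain ⟨b, hb⟩ := h.exists_orthonormal_basis
  let e : Fin (finrank F V) ≃ ZMod r × Fin s := Fintype.equivOfCardEq (by simp [hs])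
  let π : Equiv.Perm (ZMod r × Fin s) := (Equiv.addRight 1).prodCongr (Equiv.refl _)
  let a : ZMod r × Fin s → F := fun i => if i.1 = 0 then z else 1
  refine ⟨_, mono_isom h (b.reindex e) (by simp [hb]) π (a := a) fun i => by simp only [a]; split_ifs <;> simp [hz],
    (b.reindex e).ext fun ⟨i, j⟩ => ?_⟩
  have h1 : ∀ t, (((b.reindex e).constr F fun i => a i • b.reindex e (π i)) ^ t) (b.reindex e (i, j)) =
      (∏ l ∈ Finset.range t, a (i + l, j)) • b.reindex e (i + t, j) := fun t => by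
    induction t with
    | zero => simp
    | succ t ih => rw [pow_succ', End.mul_apply, ih, map_smul, Basis.constr_basis, smul_smul, Finset.prod_range_succ]; simp [π, add_assoc]
  rw [h1, Finset.prod_nbij (t := Finset.univ) (g := fun k => a (k, j)) (fun l : ℕ => i + l) (by simp) (fun k hk l hl k1 => by
    simpa [(ZMod.natCast_eq_natCast_iff' _ _ _), Nat.mod_eq_of_lt (by simpa using hk), Nat.mod_eq_of_lt (by simpa using hl)]
      using k1) (fun k _ => ⟨(k - i).val, by simpa using ZMod.val_lt _, by simp⟩) fun _ _ => rfl]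
  simp [a]

theorem exists_diag {a : Fin (finrank F V) → F} (ha : ∀ i, a i ^ (q + 1) = 1) : ∃ y : End F V, φ.IsIsom y ∧
    LinearMap.det y = ∏ i, a i ∧ (∀ k, (∀ i, a i ^ k = 1) → y ^ k = 1) ∧ (∀ z : F, y = z • 1 → ∀ i, a i = z) ∧
    ∀ s : Finset (Fin (finrank F V)), (∀ i ∈ s, ∀ j, j ≠ i → a j ≠ a i) → ∀ W, Inv y W → φ.TS W →
      2 * finrank F W + s.card ≤ finrank F V := by
  classical
  obtain ⟨b, hb⟩ := h.exists_orthonormal_basis
  obtain ⟨y, hx, hy⟩ : ∃ y : End F V, φ.IsIsom y ∧ ∀ i, y (b i) = a i • b i :=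
    ⟨_, mono_isom h b hb 1 ha, fun i => by simp⟩
  have h1 : ∀ (P : F[X]) i, aeval y P (b i) = P.eval (a i) • b i := fun P i =>
    End.aeval_apply_of_hasEigenvector ⟨End.mem_eigenspace_iff.2 (hy i), b.ne_zero i⟩
  refine ⟨y, hx, ?_, fun k hk => b.ext fun i => by simpa [hk] using h1 (X ^ k) i, ?_, fun s hs W k1 k2 => ?_⟩
  · rw [← LinearMap.det_toMatrix b, ← Matrix.det_diagonal]
    congr 1
    ext i j
    simp [LinearMap.toMatrix_apply, hy, Matrix.diagonal_apply, Finsupp.single_apply, eq_comm]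
    split_ifs with k <;> simp [k]
  · rintro z rfl i
    exact (smul_left_injective F (b.ne_zero i) (hy i)).symm
  have h2 : ∀ i w, φ.B (b i) w = b.repr w i := fun i w =>
    (congrArg (φ.B (b i)) (b.sum_repr w)).symm.trans (by rw [map_sum]; simp [hb])
  have h3 : ∀ i ∈ s, ∀ w ∈ W, b.repr w i = 0 := fun i hi w hw => by
    let P : F[X] := ∏ j ∈ Finset.univ.erase i, (X - C (a j))
    have k3 : aeval y P w = (b.repr w i * P.eval (a i)) • b i := by
      refine (congrArg (aeval y P) (b.sum_repr w)).symm.trans ?_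
      rw [map_sum, Finset.sum_eq_single i (fun j _ hj => by
        rw [map_smul, h1, eval_prod, Finset.prod_eq_zero (Finset.mem_erase.2 ⟨hj, Finset.mem_univ j⟩) (by simp)]; simp) (by simp),
        map_smul, h1, smul_smul]
    have k4 := k2.B _ (k1.aeval P w hw) _ (k1.aeval P w hw)
    have k5 : P.eval (a i) ≠ 0 := by
      rw [eval_prod, Finset.prod_ne_zero_iff]
      exact fun j hj => by simpa [sub_eq_zero] using (hs i hi j (Finset.mem_erase.1 hj).1).symm
    simpa [k3, hb, k5] using k4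
  have h4 : finrank F (Submodule.span F (b '' s)) = s.card := by
    rw [← Finset.coe_image, finrank_span_finset_eq_card, Finset.card_image_of_injective _ b.injective]
    rw [Finset.coe_image]
    exact (b.linearIndependent.linearIndepOn _).id_image
  have h5 := finrank_sup_of_disjoint (show Disjoint W (Submodule.span F (b '' s)) from Submodule.disjoint_def.2 fun w k3 k4 =>
    b.repr.injective (Finsupp.ext fun i => by
      by_contra k5
      exact k5 (by simpa using h3 i (b.mem_span_image.1 k4 (by simpa using k5)) w k3)))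
  have h6 : finrank F ↥(W ⊔ Submodule.span F (b '' s)) ≤ _ := Submodule.finrank_mono (sup_le k2.le_perp (φ.le_perp_comm.1
    fun w hw => φ.mem_perp.2 fun u hu => Submodule.span_induction (by rintro _ ⟨i, hi, rfl⟩; rw [h2, h3 i hi w hw])
      (by simp) (by simp +contextual) (by simp +contextual) hu))
  have := φ.finrank_perp W
  omega

end

end H28.El
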