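import Mathlib
import Cfsg.Agent.H28.El21
import Cfsg.Agent.H16.Eo5

/-!
# Unitary groups : fixed subspaces of elements of projective prime order (namespace `H28.El`)
-/

set_option autoImplicit false

open Module Polynomial H24.Sim H10 H10.Form

namespace H28.El

theorem mul_dvd_pow_add {r q : ℕ} (ho : Odd r) (hd : r ∣ q + 1) : r * (q + 1) ∣ q ^ r + 1 := by
  have h1 := sq_dvd_add_pow_sub_sub ((q : ℤ) + 1) (-1) r
  have h2 : Even (r - 1) := by obtain ⟨k, rfl⟩ := ho; simp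
  rw [h2.neg_one_pow, ho.neg_one_pow, show -1 + ((q : ℤ) + 1) = q by ring] at h1
  have h3 : (r : ℤ) * (q + 1) ∣ (q + 1) ^ 2 := by rw [sq]; exact mul_dvd_mul_right (by exact_mod_cast hd) _
  have := (h3.trans h1).add (dvd_refl ((r : ℤ) * (q + 1)))
  rw [show (q : ℤ) ^ r - 1 * (q + 1) * r - -1 + r * (q + 1) = q ^ r + 1 by ring] at this
  exact_mod_cast this

theorem sum_sym {n l : ℕ} (h : l ≤ n) : ∑ i : Fin n, (if (i : ℕ) < l then 2 * (i : ℤ) + 1 - l else 0) = 0 := by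
  rw [Fin.sum_univ_eq_sum_range (fun i => if i < l then 2 * (i : ℤ) + 1 - l else 0), ← Finset.sum_filter,
    show (Finset.range n).filter (· < l) = Finset.range l by ext; simp; omega, Finset.sum_sub_distrib]
  have : ∀ k : ℕ, ∑ i ∈ Finset.range k, (2 * (i : ℤ) + 1) = k * k := fun k => by
    induction k with
    | zero => simp
    | succ k ih => rw [Finset.sum_range_succ, ih]; push_cast; ring
  simp [this]

theorem prod_zpow' {F ι : Type*} [Field F] {a : F} (h : a ≠ 0) (s : Finset ι) (e : ι → ℤ) :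
    ∏ i ∈ s, a ^ e i = a ^ ∑ i ∈ s, e i := by
  induction s using Finset.cons_induction with
  | empty => simp
  | cons i s hi ih => rw [Finset.prod_cons, Finset.sum_cons, ih, zpow_add₀ h]

section
variable {F V : Type*} [Field F] [AddCommGroup V] [Module F V] {φ : Form F V} {U W X Y Z A B : Submodule F V}
  {g x y : End F V} {r q : ℕ} [Fintype F] (h : φ.IsUnitary q)
include h

theorem card_F : Fintype.card F = q ^ 2 := Nat.card_eq_fintype_card.symm.trans h.card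

theorem odd_q (h2 : (2 : F) ≠ 0) : q % 2 = 1 := by
  have := odd_card h2
  rw [card_F h, ← Nat.odd_iff, Nat.odd_pow_iff two_ne_zero] at this
  exact Nat.odd_iff.1 this

theorem dvd_q {p : ℕ} [hp : Fact p.Prime] [CharP F p] : p ∣ q := hp.out.dvd_of_dvd_pow (card_F h ▸ dvd_card_field)

theorem not_dvd_succ {p : ℕ} [hp : Fact p.Prime] [CharP F p] : ¬ p ∣ q + 1 := fun k =>
  hp.out.one_lt.ne' (Nat.dvd_one.1 ((Nat.dvd_add_right (dvd_q h)).1 k))

theorem sq_of_norm (h2 : (2 : F) ≠ 0) {z : F} (hz : z ^ (q + 1) = 1) : ∃ w : F, w ^ 2 = z := by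
  obtain ⟨c, h0, rfl⟩ := h.exists_h90 ((norm_iff h).2 hz)
  have := odd_q h h2
  refine ⟨(c ^ (q / 2))⁻¹, ?_⟩
  rw [h.σ_eq, inv_pow, ← pow_mul]
  conv_rhs => rw [show q = q / 2 * 2 + 1 by omega, pow_succ, mul_inv, mul_left_comm, mul_inv_cancel₀ h0, mul_one]

variable [hr : Fact r.Prime]

local notation "bb" => orderOf ((Fintype.card F : ℕ) : ZMod r)
local notation "ii" => orderOf ((q : ℕ) : ZMod r)
local notation "tu" => ite (ii % 4 = 2) ((r - 1) / bb) 0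
local notation "cu" => ite (ii % 4 = 2) bb (2 * bb)

theorem bb_eq : bb = if Even ii then ii / 2 else ii := by
  rw [card_F h, Nat.cast_pow, orderOf_pow' _ two_ne_zero]
  split_ifs with he
  · rw [Nat.gcd_eq_right he.two_dvd]
  · rw [Nat.coprime_two_right.2 (Nat.not_even_iff_odd.1 he), Nat.div_one]

theorem ii_pos (h0 : (r : F) ≠ 0) : 0 < ii := by
  have := ord_pos h0
  rw [bb_eq h] at this
  split_ifs at this <;> omega

omit h in
theorem ii_two (ho : Odd r) : ii = 2 ↔ r ∣ q + 1 := by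
  rw [CharP.orderOf_eq_two_iff r (by rintro rfl; exact absurd ho (by decide)), ← ZMod.natCast_eq_zero_iff, Nat.cast_succ,
    eq_neg_iff_add_eq_zero]

theorem scase_unit (h0 : (r : F) ≠ 0) (hi : ii % 4 = 2) : SCase F r φ.σ :=
  exists_pe (n := 1) (k := ii / 2) (card_F h) (by
    rw [← ZMod.natCast_eq_zero_iff, Nat.cast_succ, Nat.cast_pow, half_pow (by omega) (by omega), neg_add_cancel])
    fun a => pow_q_odd h a (Nat.odd_iff.2 (by omega))

theorem tc_unit (h0 : (r : F) ≠ 0) : (ii % 4 = 2 ∧ cu = bb ∧ tu = (r - 1) / bb ∧ 1 ≤ (r - 1) / bb) ∨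
    (¬ ii % 4 = 2 ∧ cu = 2 * bb ∧ tu = 0) := by
  by_cases hi : ii % 4 = 2
  · exact Or.inl ⟨hi, if_pos hi, if_pos hi, Nat.div_pos (Nat.le_of_dvd (by have := hr.out.two_le; omega) (ord_dvd h0)) (ord_pos h0)⟩
  · exact Or.inr ⟨hi, if_neg hi, if_neg hi⟩

variable [FiniteDimensional F V]

theorem par_unit (h0 : (r : F) ≠ 0) (ho : Odd r) : Par φ r tu cu := by
  by_cases hi : ii % 4 = 2
  · exact Or.inr ⟨scase_unit h h0 hi, if_pos hi, if_pos hi⟩
  refine Or.inl ⟨fun y hx hy X h1 h2 h3 => ?_, if_neg hi, if_neg hi⟩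
  classical
  haveI := h3.nondeg
  have h4 := blk_mv h0 hy X h1 h2
  have h5 := cnt_modEq hx h0 hy h2.1 h1 1
  have h6 := congrArg (Int.cast : ℤ → ZMod r) ((h.restrict X).cnt_ne_zero one_ne_zero (map_one _))
  have h7 := ii_pos h h0
  have h8 : (q : ZMod r) ≠ 0 := fun k => by simp [k] at h7
  push_cast at h6
  rw [h5, if_neg one_ne_zero, mul_zero, eq_comm, mul_eq_zero, or_iff_right (pow_ne_zero _ h8), sub_eq_zero, h4, bb_eq h] at h6
  split_ifs at h6 with he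
  · rw [(Nat.even_iff.2 (by obtain ⟨k, hk⟩ := he; omega) : Even (ii / 2)).neg_one_pow] at h6
    have := Nat.le_of_dvd (by obtain ⟨k, hk⟩ := he; omega) (orderOf_dvd_of_pow_eq_one h6)
    omega
  · rw [(Nat.not_even_iff_odd.1 he).neg_one_pow, pow_orderOf_eq_one] at h6
    exact two_ne_zmod ho (by linear_combination h6)

variable [φ.Nondeg]

theorem hasA_unit (h0 : (r : F) ≠ 0) (ho : Odd r) (hU : φ.NondegOn U) {a : ℕ} (ha : a ≤ tu) (hd : finrank F U = a * bb) :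
    HasA φ r U := by
  by_cases hi : ii % 4 = 2
  swap
  · rw [if_neg hi, Nat.le_zero] at ha
    rw [Submodule.finrank_eq_zero.1 (by rw [hd, ha, zero_mul] : finrank F U = 0)]; exact hasA_bot
  haveI := stdH_nondeg h (ZMod r)
  have h1 := stdH_unit h (ZMod r)
  have h2 : (stdH h (ZMod r)).IsIsom (sh F r) := h1.herm.isIsom fun u v => sum_sh fun i => φ.σ (u i) * v i
  refine hasA_of_perm h0 ho _ h2 (nd_mv h2 (H24.Adj.semisimple_of_pow h0 sh_pow)) (scase_unit h1 h0 hi) (a := a)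
    (by rwa [if_pos hi] at ha) hU fun g A _ _ _ _ k1 k2 => ?_
  haveI := k1.nondeg
  haveI := hU.nondeg
  exact ((h1.restrict _).restrict A).exists_isEquiv (h.restrict U) (k2.trans hd.symm)

theorem real_unit (h0 : (r : F) ≠ 0) (ho : Odd r) {a k : ℕ} (ha : a ≤ tu) (hn : (a + 2 * k) * bb ≤ finrank F V) :
    ∃ y : End F V, φ.IsIsom y ∧ y ^ r = 1 ∧ Str φ y bb a k := by
  rw [add_mul, mul_assoc] at hn
  refine exists_real (kd_unit h) h0 (by omega) (fun k => pl_unit h (nondegOn_top φ) (by rw [finrank_top, ← k]; simp))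
    fun H h1 _ h3 => ?_
  have := φ.finrank_perp H
  obtain ⟨A, k1, k2, k3⟩ := nb_unit h h1.perp (k := a * bb) (by omega)
  exact ⟨A, k1, k2, k3, hasA_unit h h0 ho k2 ha k3⟩

theorem ts_unit_odd (h0 : (r : F) ≠ 0) (ho : Odd r) {m : ℕ} (hb : bb ≤ m) (hm : 2 * m ≤ finrank F V) :
    (∀ y : End F V, φ.IsIsom y → y ^ r = 1 → y ≠ 1 → ∃ W, Inv y W ∧ φ.TS W ∧ finrank F W = m) ↔
      2 * (m % bb) ≤ finrank F V % cu ∧ (¬ ii % 4 = 2 ∨ (r - 1) / bb + 2 * (m / bb) ≤ finrank F V / bb) :=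
  (ts_crit (kd_unit h) (par_unit h h0 ho) h0 ho (S := fun _ => True) (fun _ _ _ hx hy _ _ he =>
    iff_true_intro (pl_unit h (nd_fx hx (H24.Adj.semisimple_of_pow h0 hy)) he))
    (fun _ _ k1 k2 _ => real_unit h h0 ho k1 k2) m).trans (tc_any (ord_pos h0) hb hm (tc_unit h h0))

theorem nd_unit_odd (h0 : (r : F) ≠ 0) (ho : Odd r) {m : ℕ} (h1 : 0 < m) (h2 : m < finrank F V)
    (hΩ : r ∣ Nat.card {W // φ.NondegOn W ∧ finrank F W = m}) :
    ((∀ y : End F V, φ.IsIsom y → y ^ r = 1 → y ≠ 1 → ∃ W, Inv y W ∧ φ.NondegOn W ∧ finrank F W = m) ↔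
      cu ≤ m ∧ m % cu ≤ finrank F V % cu) := by
  have hP := par_unit h h0 ho
  have := nd_main (nd_crit hP h0 ho (R := fun _ => True) (A := fun _ => True) (B := fun _ _ => True)
    (p := fun W => φ.NondegOn W ∧ finrank F W = m) (fun _ h => h) (fun y k j X hx hy k1 k2 k3 k4 k5 k6 => ?_)
    fun k hk => ?_) (hP.pos h0) h1 h2 (by simp) (nd_le hP h0 ho (fun _ h => h)
      (fun g W k => ⟨(cj_map g).nd k.1, (cj_map g).finrank_eq.symm.trans k.2⟩)
      ((nb_unit h (nondegOn_top φ) (k := m) (by rw [finrank_top]; omega)).imp fun _ k => k.2)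
      (fun W W' k1 k2 => (cj_unit h k1.1 k2.1 (k1.2.trans k2.2.symm)).equiv) hΩ)
  · exact ⟨fun h => by simpa using this.1 h, fun h => this.2 (by simp [h.2])⟩
  · have k7 := nd_fx hx (H24.Adj.semisimple_of_pow h0 hy)
    have k8 : fx y ≤ φ.perp X := (perp_mv hx).ge.trans (φ.perp_anti k2)
    simp only [imp_true_iff, and_true]
    refine ⟨fun ⟨Y, l1, l2, l3⟩ => ?_, fun k => ?_⟩
    · have := l3.2
      have := Submodule.finrank_mono l1
      rw [finrank_sup_perp k4 (l1.trans k8)] at *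
      omega
    · obtain ⟨Y, l1, l2, l3⟩ := nb_unit h k7 k
      exact ⟨Y, l1, l2, nd_sup k4 l2 (l1.trans k8), by rw [finrank_sup_perp k4 (l1.trans k8)]; omega⟩
  · obtain ⟨a, l, k1, k2⟩ : ∃ a l, a ≤ tu ∧ (a + 2 * l) * bb = k * cu := by
      rcases tc_unit h h0 with ⟨-, l2, l3, l4⟩ | ⟨-, l2, l3⟩
      · exact ⟨k % 2, k / 2, by omega, by rw [l2, Nat.mod_add_div]⟩
      · exact ⟨0, k, by omega, by rw [l2]; ring⟩
    obtain ⟨y, hx, hy, k4⟩ := real_unit h h0 ho k1 (k2 ▸ hk)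
    exact iff_of_true (fun _ => trivial) ⟨y, hx, hy, k4.1.trans k2⟩

theorem su_one [Nontrivial V] (ho : Odd r) (hd : r ∣ q + 1) {P : End F V → Prop} {R : Prop}
    (hP : ∀ (c : F) g, c ≠ 0 → P g → P (c • g)) (h1 : ∀ y : End F V, φ.IsIsom y → y ^ r = 1 → y ≠ 1 → P y)
    (h2 : ∀ (g : End F V) z, φ.IsIsom g → (∀ w : F, w ^ r ≠ z) → g ^ r = z • 1 → (P g ↔ R)) :
    (∀ g : End F V, φ.IsIsom g → LinearMap.det g = 1 → PE r g → P g) ↔
      (R ∨ padicValNat r (finrank F V) ≤ padicValNat r (q + 1)) := by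
  have h3 : Even (r + 1) := ho.add_one
  have h4 : 0 < finrank F V := finrank_pos
  refine ⟨fun H => or_iff_not_imp_right.2 fun k => ?_, fun H g hx k1 k2 => ?_⟩
  · obtain ⟨s, hs⟩ : r ∣ finrank F V := dvd_of_one_le_padicValNat (by omega)
    have h5 : s ≠ 0 := by rintro rfl; omega
    rw [hs, val_mul_self h5] at k
    obtain ⟨z, k1, k2, k3⟩ := (exists_nonpow_mu h hd h5).2 (by omega)
    have k4 : ∀ w : F, w ^ r ≠ z := fun w hw => k2 w (norm_of_root h ho hd (hw ▸ k1)) hw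
    obtain ⟨g, hx, hg⟩ := exists_nonsplit_unit h hr.out.pos k1 hs
    obtain ⟨s', k5, k6⟩ := det_nonsplit hr.out k4 hg
    obtain rfl : s = s' := Nat.eq_of_mul_eq_mul_left hr.out.pos (hs.symm.trans k5)
    exact (h2 g z hx k4 hg).1 (H g hx (by rw [k6, h3.neg_one_pow, one_mul, k3]) (pe_of_nonsplit k4 hg))
  rcases k2.cases hr.out.ne_zero (k1 ▸ one_ne_zero) with ⟨w, y, l1, rfl, l2, l3⟩ | ⟨z, l1, l2⟩
  · have l4 := norm_of_root h ho hd (norm_scalar h hx (by rw [_root_.smul_pow, l2]))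
    have l5 := isom_smul' h hx (c := w⁻¹) (by rw [inv_pow, l4, _root_.inv_one])
    rw [smul_smul, inv_mul_cancel₀ l1, one_smul] at l5
    exact hP _ _ l1 (h1 y l5 l2 l3.ne_one)
  · refine (h2 g z hx l1 l2).2 (H.resolve_right fun k => ?_)
    obtain ⟨s, l3, l4⟩ := det_nonsplit hr.out l1 l2
    have h5 : s ≠ 0 := by rintro rfl; omega
    rw [h3.neg_one_pow, one_mul, k1] at l4
    have := (exists_nonpow_mu h hd h5).1 ⟨z, norm_scalar h hx l2, fun w _ => l1 w, l4.symm⟩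
    rw [l3, val_mul_self h5] at k
    omega

theorem nonsplit_S [Nontrivial V] (ho : Odd r) (hd : r ∣ q + 1) (hx : φ.IsIsom g) {z : F} (hg : g ^ r = z • 1) :
    ∃ p e : ℕ, p.Prime ∧ CharP F p ∧ g ^ (p ^ e + 1) = 1 ∧ ∀ a, φ.σ a = a ^ p ^ e := by
  obtain ⟨p, e, k1, k2, ⟨l, k3⟩, k4⟩ : SCase F (r * (q + 1)) φ.σ :=
    exists_pe (n := 1) (card_F h) (mul_dvd_pow_add ho hd) fun a => pow_q_odd h a ho
  exact ⟨p, e, k1, k2, by rw [k3, pow_mul, pow_mul, hg, _root_.smul_pow, norm_scalar h hx hg]; simp, k4⟩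

theorem nonsplit_nd [Nontrivial V] (ho : Odd r) (hd : r ∣ q + 1) (hx : φ.IsIsom g) {z : F} (hz : ∀ w : F, w ^ r ≠ z)
    (hg : g ^ r = z • 1) {m : ℕ} (hm : m ≤ finrank F V) : (∃ W, Inv g W ∧ φ.NondegOn W ∧ finrank F W = m) ↔ r ∣ m := by
  obtain ⟨p, e, k1, k2, k3, k4⟩ := nonsplit_S h ho hd hx hg
  haveI := Fact.mk k1
  have hN := nb_of_S hx k3 k4 (ss_nonsplit hr.out hz hg) (blk_nonsplit hr.out hz hg) (Or.inl h.exists_σ_ne)
  refine ⟨fun ⟨W, l1, l2, l3⟩ => l3 ▸ hN.dvd hx hr.out.pos le_top l1 l2, fun ⟨j, hj⟩ => ?_⟩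
  obtain ⟨W, -, l⟩ := hN.exists_sub hx hr.out.pos j le_top inv_top (nondegOn_top φ) (by rw [finrank_top, mul_comm]; omega)
  exact ⟨W, by rwa [hj, mul_comm]⟩

theorem nonsplit_ts [Nontrivial V] (ho : Odd r) (hd : r ∣ q + 1) (hx : φ.IsIsom g) {z : F} (hz : ∀ w : F, w ^ r ≠ z)
    (hg : g ^ r = z • 1) {m : ℕ} (hm : 2 * m ≤ finrank F V) : (∃ W, Inv g W ∧ φ.TS W ∧ finrank F W = m) ↔ r ∣ m := by
  obtain ⟨p, e, k1, k2, k3, k4⟩ := nonsplit_S h ho hd hx hg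
  haveI := Fact.mk k1
  have hss := ss_nonsplit hr.out hz hg
  have hb := blk_nonsplit hr.out hz hg
  refine ⟨fun ⟨W, k1, _, k2⟩ => k2 ▸ hb.dvd hss k1 le_top, fun ⟨j, hj⟩ => ?_⟩
  obtain ⟨Z, A, -, -, l3, l4, l5, l6, l7, l8, -⟩ := exists_aniso hx hss inv_top (nondegOn_top φ)
  have h5 := aniso_le hx k3 k4 hss l4 l6 (Or.inl h.exists_σ_ne) (fun Y m1 m2 m3 => l8 Y m1 m2 (ti_ts' h m3))
    (P := Polynomial.X ^ r - C z) (X_pow_sub_C_ne_zero hr.out.pos z) (by simp [hg, Algebra.algebraMap_eq_smul_one])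
  rw [natDegree_X_pow_sub_C] at h5
  obtain ⟨k, hk⟩ := hb.dvd hss l3 le_top
  rw [finrank_top] at l7
  have h6 : j ≤ k := by
    by_contra h7
    have := Nat.mul_le_mul_left r (show k + 1 ≤ j by omega)
    have := hr.out.pos
    rw [mul_add] at *
    omega
  obtain ⟨W, m1, m2, m3⟩ := hb.exists_sub hss l3 le_top j (by rw [hk, mul_comm]; exact Nat.mul_le_mul_left r h6)
  exact ⟨W, m2, l5.mono m1, by rw [m3, hj, mul_comm]⟩

theorem exists_sym (ho : Odd r) (hd : r ∣ q + 1) {l : ℕ} (h1 : 0 < l) (h2 : 2 * l < r) (h3 : 2 * l ≤ finrank F V) :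
    ∃ y : End F V, φ.IsIsom y ∧ LinearMap.det y = 1 ∧ PE r y ∧ ∀ W, Inv y W → φ.TS W → 2 * finrank F W + 2 * l ≤ finrank F V := by
  obtain ⟨ζ, k1, k2⟩ := exists_mu_order h hd
  have k0 : ζ ≠ 0 := k1.ne_zero hr.out.ne_zero
  let e : Fin (finrank F V) → ℤ := fun i => if (i : ℕ) < 2 * l then 2 * (i : ℤ) + 1 - (2 * l : ℕ) else 0
  have k3 : ∀ k : ℕ, ζ ^ k = 1 → ∀ i, (ζ ^ e i) ^ k = 1 := fun k hk i => by
    rw [← zpow_natCast, ← zpow_mul, mul_comm, zpow_mul, zpow_natCast, hk, one_zpow]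
  have k4 : ∀ i : Fin (finrank F V), (i : ℕ) < 2 * l → ∀ j, j ≠ i → ζ ^ e j ≠ ζ ^ e i := fun i hi j hj k => by
    have k5 : (r : ℤ) ∣ e j - e i := (k1.zpow_eq_one_iff_dvd _).1 (by rw [zpow_sub₀ k0, k, div_self (zpow_ne_zero _ k0)])
    have k6 : (j : ℕ) ≠ i := fun k => hj (Fin.ext k)
    obtain ⟨t, ht⟩ := ho
    simp only [e, if_pos hi] at k5
    split_ifs at k5 with k7
    · have k8 : (r : ℤ) ∣ (j : ℤ) - i := (Int.Prime.dvd_mul' hr.out (show (r : ℤ) ∣ 2 * ((j : ℤ) - i) by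
        convert k5 using 1; ring)).resolve_left fun k => by have := Int.le_of_dvd two_pos k; omega
      have := Int.eq_zero_of_abs_lt_dvd k8 (by rw [abs_lt]; omega)
      omega
    · have := Int.eq_zero_of_abs_lt_dvd k5 (by rw [abs_lt]; omega)
      omega
  obtain ⟨y, l1, l2, l3, l4, l5⟩ := exists_diag h (k3 _ k2)
  refine ⟨y, l1, by rw [l2, prod_zpow' k0, sum_sym h3, zpow_zero], ⟨⟨1, by rw [l3 r (k3 r k1.pow_eq_one), one_smul]⟩,
    fun z hz => k4 ⟨0, by omega⟩ (by simp; omega) ⟨1, by omega⟩ (by simp) (by rw [l4 z hz, l4 z hz])⟩, fun W m1 m2 => ?_⟩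
  have := l5 (Finset.univ.filter fun i => (i : ℕ) < 2 * l) (fun i hi => k4 i (by simpa using hi)) W m1 m2
  rwa [Fin.card_filter_val_lt, min_eq_right h3] at this

end

end H28.El
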