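import Mathlib
import Cfsg.Agent.H10.Family
import Cfsg.Agent.H28.El22

/-!
# Unitary groups : involutions and the main criteria (namespace `H28.El`)
-/

set_option autoImplicit false

open Module Polynomial H24.Sim H10 H10.Form
open scoped Pointwise

namespace H28.El

theorem prod_two_mul {M : Type*} [CommMonoid M] (f : ℕ → M) (d : ℕ) :
    ∏ i ∈ Finset.range (2 * d), f i = (∏ i ∈ Finset.range d, f (2 * i)) * ∏ i ∈ Finset.range d, f (2 * i + 1) := by
  induction d with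
  | zero => simp
  | succ d ih => rw [mul_add, mul_one, Finset.prod_range_succ, Finset.prod_range_succ, ih, Finset.prod_range_succ,
      Finset.prod_range_succ]; ac_rfl

section
variable {F V : Type*} [Field F] [AddCommGroup V] [Module F V] {φ : Form F V} {U W X Y Z A B A' B' : Submodule F V}
  {g x y : End F V} {r q : ℕ}

variable (φ) in
/-- fixing an unordered pair of complementary totally singular subspaces -/
def FP (g : End F V) : Prop := ∃ A B, φ.TSPair A B ∧ ((A.map g = A ∧ B.map g = B) ∨ (A.map g = B ∧ B.map g = A))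

theorem FP.smul (c : F) (g : End F V) (hc : c ≠ 0) (h : FP φ g) : FP φ (c • g) := by
  simpa only [FP, Submodule.map_smul _ _ _ hc] using h

theorem pe_invol (h : y ^ 2 = 1) (h1 : y ≠ 1) (h2 : y ≠ -1) : PE 2 y := ⟨⟨1, by simpa⟩, by
  rintro c rfl
  obtain ⟨v, hv⟩ : ∃ v : V, v ≠ 0 := by
    by_contra! k
    exact h1 (LinearMap.ext fun v => (k _).trans (k _).symm)
  have := LinearMap.congr_fun h v
  rw [_root_.smul_pow, one_pow, LinearMap.smul_apply, sq] at this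
  rcases mul_self_eq_one_iff.1 (smul_left_injective F hv (this.trans (one_smul _ _).symm)) with rfl | rfl
  · exact h1 (one_smul _ _)
  · exact h2 (neg_one_smul _ _)⟩

variable [FiniteDimensional F V] [φ.Nondeg]

theorem tsPair_of (k1 : φ.TS A) (k2 : φ.TS B) (k3 : A ⊔ B = ⊤) : φ.TSPair A B := by
  have := k1.finrank_le
  have := k2.finrank_le
  have := Submodule.finrank_sup_add_finrank_inf_eq A B
  rw [k3, finrank_top] at this
  exact ⟨k1, k2, disjoint_iff.2 (Submodule.finrank_eq_zero.1 (by omega)), codisjoint_iff.2 k3⟩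

theorem not_fp (hx : φ.IsIsom y) (h1 : finrank F (mv y) = 1) (hn : 4 ≤ finrank F V) : ¬ FP φ y := by
  have key : ∀ A B, φ.TSPair A B → Inv y A → Inv y B → A ≤ fx y := fun A B h k1 k2 a ha => by
    by_contra k
    have k3 : mv y ≤ A := by
      rw [← Submodule.eq_of_le_of_finrank_eq ((Submodule.span_singleton_le_iff_mem _ _).2 (mem_mv.2 ⟨a, rfl⟩))
        ((finrank_span_singleton fun l => k (mem_fx.2 (sub_eq_zero.1 l))).trans h1.symm), Submodule.span_singleton_le_iff_mem]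
      exact A.sub_mem (k1 a ha) ha
    have k4 : ⊤ ≤ φ.perp (mv y) := h.compl.sup_eq_top.ge.trans (sup_le (h.ts₁.le_perp.trans (φ.perp_anti k3))
      fun b hb => (perp_mv hx).ge (mem_fx.2 (sub_eq_zero.1 (Submodule.disjoint_def.1 h.compl.disjoint _
        (k3 (mem_mv.2 ⟨b, rfl⟩)) (B.sub_mem (k2 b hb) hb)))))
    have := φ.finrank_perp (mv y)
    rw [top_le_iff.1 k4, finrank_top] at this
    omega
  rintro ⟨A, B, h, ⟨k1, k2⟩ | ⟨k1, -⟩⟩
  · have k3 : ⊤ ≤ fx y := h.compl.sup_eq_top.ge.trans (sup_le (key A B h (inv_iff.2 k1.le) (inv_iff.2 k2.le))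
      (key B A h.symm (inv_iff.2 k2.le) (inv_iff.2 k1.le)))
    rw [fx_eq_top.1 (top_le_iff.1 k3), mv_one, finrank_bot] at h1
    omega
  · have := swap_rank h.compl.disjoint k1.le one_ne_zero
    have := h.two_mul
    rw [one_smul] at *
    unfold mv at h1
    omega

variable (h : φ.IsUnitary q)
include h

theorem pair_in (j : ℕ) (hU : φ.NondegOn U) (hj : finrank F U = 2 * j) : ∃ A B, φ.TS A ∧ φ.TS B ∧ A ⊔ B = U := by
  induction j generalizing U with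
  | zero => exact ⟨⊥, ⊥, TS.bot, TS.bot, by rw [Submodule.finrank_eq_zero.1 hj, bot_sup_eq]⟩
  | succ j ih =>
    haveI := hU.nondeg
    obtain ⟨e, f, k⟩ := (h.restrict U).exists_hyp_of_two_le (by omega)
    have k1 : φ.IsHyp e f := ⟨k.Qe, k.Qf, k.Bef⟩
    have k2 := pair_le e.2 f.2
    obtain ⟨A, B, l1, l2, l3⟩ := ih (rel_nd hU k1.nondegOn k2) (by
      have := finrank_inf_perp hU k2
      rw [k1.finrank_span] at this; omega)
    have k3 := l3.le.trans inf_le_right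
    exact ⟨_, _, (TS.singleton k1.Qe).sup l1 (le_sup_left.trans (k3.trans (φ.perp_anti (Submodule.span_mono (by simp))))),
      (TS.singleton k1.Qf).sup l2 (le_sup_right.trans (k3.trans (φ.perp_anti (Submodule.span_mono (by simp))))),
      by rw [sup_sup_sup_comm, ← Submodule.span_insert, l3, rel_sup hU k1.nondegOn k2]⟩

theorem su_trans (h1 : φ.TSPair A B) (h2 : φ.TSPair A' B') (h0 : A ≠ ⊥) :
    ∃ k ∈ φ.SIsom, A.map (k.1 : V →ₗ[F] V) = A' ∧ B.map (k.1 : V →ₗ[F] V) = B' := by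
  have := h1.two_mul
  have := h2.two_mul
  obtain ⟨k, k1, k2⟩ := exists_levi' h1 h2 (LinearEquiv.ofFinrankEq _ _ (by omega))
  obtain ⟨e, f, hyp, k3⟩ := h1.exists_rot h0
  obtain ⟨c, hc, k4⟩ := h.exists_h90 (φ.σ_det_mul_det k⁻¹)
  refine ⟨k * φ.rot e f c, ?_, ?_, ?_⟩
  · rw [SIsom, MonoidHom.mem_ker, map_mul, ← Units.val_eq_one, Units.val_mul, coe_det φ (φ.rot _ _ _), φ.det_rot hyp hc, k4]
    simp
  · exact (Submodule.map_comp _ _ _).trans (by rw [φ.mem_stab_iff_map.1 (k3 c hc).1, map_eq_of_glue k1])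
  · exact (Submodule.map_comp _ _ _).trans (by rw [φ.mem_stab_iff_map.1 (k3 c hc).2, k2])

variable [Fintype F]

theorem unit_two [Nontrivial V] (h2 : (2 : F) ≠ 0) (hx : φ.IsIsom g) {z : F} (hg : g ^ 2 = z • 1) :
    (∃ (w : F) (y : End F V), w ^ (q + 1) = 1 ∧ w ^ 2 = z ∧ g = w • y ∧ φ.IsIsom y ∧ y ^ 2 = 1) ∨
    ((∀ w : F, w ^ (q + 1) = 1 → w ^ 2 ≠ z) ∧ ∃ A B, φ.TSPair A B ∧ (∀ Y ≤ A, Inv g Y) ∧ (∀ Y ≤ B, Inv g Y) ∧
      LinearMap.det g = (-z) ^ finrank F A ∧ NB φ g ⊤ 2) := by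
  have hz := norm_scalar h hx hg
  have key : ∀ w : F, w ^ 2 = z → w ≠ 0 ∧ g = w • (w⁻¹ • g) ∧ (w⁻¹ • g) ^ 2 = 1 := fun w hw => by
    have h0 : w ≠ 0 := by rintro rfl; simp [← hw] at hz
    exact ⟨h0, by rw [smul_smul, mul_inv_cancel₀ h0, one_smul], by
      rw [_root_.smul_pow, hg, smul_smul, inv_pow, ← hw, inv_mul_cancel₀ (pow_ne_zero _ h0), one_smul]⟩
  by_cases H : ∃ w : F, w ^ (q + 1) = 1 ∧ w ^ 2 = z
  · obtain ⟨w, k1, k2⟩ := H
    exact Or.inl ⟨w, _, k1, k2, (key w k2).2.1, isom_smul' h hx (by rw [inv_pow, k1, _root_.inv_one]), (key w k2).2.2⟩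
  refine Or.inr ⟨fun w k1 k2 => H ⟨w, k1, k2⟩, ?_⟩
  obtain ⟨w, hw⟩ := sq_of_norm h h2 hz
  obtain ⟨h0, k1, k2⟩ := key w hw
  generalize w⁻¹ • g = y at k1 k2
  subst k1
  have k3 : φ.σ w * w = -1 := by
    rw [h.σ_eq, ← pow_succ]
    exact (mul_self_eq_one_iff.1 (by rw [← mul_pow, ← sq, hw, hz])).resolve_left fun k => H ⟨w, k, hw⟩
  have k4 : ∀ (c : F) (A : Submodule F V), c * c = 1 → φ.σ c = c → (∀ v ∈ A, y v = c • v) → φ.TS A := fun c A hc hc' hA =>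
    h.herm.ts fun u hu v hv => by
      have := hx.B u v
      simp only [LinearMap.smul_apply, hA u hu, hA v hv, B_smul_left, B_smul_right, hc'] at this
      exact (mul_eq_zero.1 (by linear_combination -this + φ.B u v * c * c * k3 - φ.B u v * hc : 2 * φ.B u v = 0)).resolve_left h2
  have hs := H24.Adj.semisimple_of_pow (n := 2) h2 k2
  have k5 : φ.TSPair (fx y) (mv y) := ⟨k4 1 _ (by simp) (by simp) fun v hv => by simpa using mem_fx.1 hv,
    k4 (-1) _ (by simp) (by simp) fun v hv => by simpa using neg_of_mem_mv k2 hv, isCompl_fx hs⟩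
  have k6 : ∀ X, Irr (w • y) X → ∃ u, u ≠ 0 ∧ φ.B u u = 0 ∧ X = F ∙ u := fun X hX => by
    obtain ⟨v, hv, l⟩ := Submodule.exists_mem_ne_zero_of_ne_bot hX.2.1
    obtain ⟨u, l1, l2, l3⟩ : ∃ u ∈ X, u ≠ 0 ∧ (u ∈ fx y ∨ u ∈ mv y) := by
      by_cases l1 : y v = v
      · exact ⟨v, hv, l, Or.inl (mem_fx.2 l1)⟩
      · exact ⟨_, X.sub_mem ((inv_smul_iff h0).1 hX.1 v hv) hv, sub_ne_zero.2 l1, Or.inr (mem_mv.2 ⟨v, rfl⟩)⟩
    refine ⟨u, l2, l3.elim (fun k => k5.ts₁.B _ k _ k) fun k => k5.ts₂.B _ k _ k, ((hX.2.2 _ (by simpa) (Inv.smul (l3.elim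
      (fun k => inv_of_le_fx (by simpa)) fun k => inv_of_le_mv k2 (by simpa)) w)).resolve_left (by simpa)).symm⟩
  refine ⟨_, _, k5, fun Y hY => (inv_of_le_fx hY).smul w, fun Y hY => (inv_of_le_mv k2 hY).smul w, ?_,
    nb_of_N (b := 1) hx (End.IsSemisimple_smul w hs) (fun X _ hX => ?_) fun X _ hX k => ?_⟩
  · rw [LinearMap.det_smul, det_invol k2, ← k5.two_mul, pow_mul, hw, ← k5.finrank_eq, ← mul_pow, mul_neg_one]
  · obtain ⟨u, l1, -, rfl⟩ := k6 X hX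
    exact finrank_span_singleton l1
  · obtain ⟨u, l1, l2, rfl⟩ := k6 X hX
    exact hX.2.1 (NondegOn.eq_bot k (ti_ts' h (X := F ∙ u) (by
      rw [Submodule.span_singleton_le_iff_mem, φ.mem_perp_singleton]; exact l2)).le_perp)

omit [FiniteDimensional F V] [φ.Nondeg] in
theorem exists_type2 (h2 : (2 : F) ≠ 0) {d : ℕ} (hd : d ≠ 0) :
    (∃ z : F, z ^ (q + 1) = 1 ∧ (∀ w : F, w ^ (q + 1) = 1 → w ^ 2 ≠ z) ∧ (-z) ^ d = 1) ↔
      ¬ (padicValNat 2 (2 * d) ≤ padicValNat 2 (q + 1) ∧ q % 4 = 3) := by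
  have h1 := odd_q h h2
  have h3 : Even (q + 1) := Nat.even_iff.2 (by omega)
  by_cases h4 : q % 4 = 3
  swap
  · refine iff_of_true ⟨-1, h3.neg_one_pow, fun w k1 k2 => h2 ?_, by simp⟩ (by simp [h4])
    rw [show q + 1 = 2 * (2 * (q / 4) + 1) by omega, pow_mul, k2, (by simp : Odd (2 * (q / 4) + 1)).neg_one_pow] at k1
    linear_combination -k1
  obtain ⟨i, k1, k2⟩ := exists_mu_order h (k := 4) (by omega)
  have k3 : i ^ 2 = -1 := (k1.pow (a := 2) (b := 2) (by omega) rfl).eq_neg_one_of_two_right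
  have key : ∀ z : F, z ^ (q + 1) = 1 → (∀ w : F, w ^ (q + 1) = 1 → w ^ 2 ≠ z) → (-z) ^ (q + 1) = 1 ∧
      ∀ w : F, w ^ (q + 1) = 1 → w ^ 2 ≠ -z := fun z l1 l2 =>
    ⟨by rw [h3.neg_pow, l1], fun w l3 l4 => l2 (i * w) (by rw [mul_pow, k2, l3, one_mul]) (by rw [mul_pow, k3, l4]; ring)⟩
  rw [val_mul_self hd, and_iff_left h4, not_le, Nat.lt_succ_iff, ← exists_nonpow_mu h h3.two_dvd hd]
  exact ⟨fun ⟨z, l1, l2, l3⟩ => ⟨-z, (key z l1 l2).1, (key z l1 l2).2, l3⟩,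
    fun ⟨z, l1, l2, l3⟩ => ⟨-z, (key z l1 l2).1, (key z l1 l2).2, by rwa [neg_neg]⟩⟩

theorem su_two [Nontrivial V] (h2 : (2 : F) ≠ 0) {P : End F V → Prop} {R : Prop} (hP : ∀ (c : F) g, c ≠ 0 → P g → P (c • g))
    (h1 : ∀ (g : End F V) A B, φ.IsIsom g → φ.TSPair A B → (∀ Y ≤ A, Inv g Y) → (∀ Y ≤ B, Inv g Y) → NB φ g ⊤ 2 → (P g ↔ R)) :
    (∀ g : End F V, φ.IsIsom g → LinearMap.det g = 1 → PE 2 g → P g) ↔
      (∀ y : End F V, φ.IsIsom y → y ^ 2 = 1 → y ≠ 1 → y ≠ -1 →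
        (Odd (finrank F (mv y)) → ¬ padicValNat 2 (q + 1) ≤ padicValNat 2 (finrank F V)) → P y) ∧
      (Even (finrank F V) → ¬ (padicValNat 2 (finrank F V) ≤ padicValNat 2 (q + 1) ∧ q % 4 = 3) → R) := by
  have hn : 0 < finrank F V := finrank_pos
  refine ⟨fun H => ⟨fun y hx hy k1 k2 k3 => ?_, fun he k => ?_⟩, fun H g hx k1 k2 => ?_⟩
  · rcases (finrank F (mv y)).even_or_odd with k4 | k4
    · exact H y hx (by rw [det_invol hy, k4.neg_one_pow]) (pe_invol hy k1 k2)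
    obtain ⟨w, l1, l2⟩ := (exists_neg_pow h h2 hn.ne').2 (k3 k4)
    have l3 : w ≠ 0 := by rintro rfl; simp at l1
    have := hP w⁻¹ _ (inv_ne_zero l3) (H _ (isom_smul' h hx l1)
      (by rw [LinearMap.det_smul, det_invol hy, k4.neg_one_pow, l2]; simp) ((pe_invol hy k1 k2).smul l3))
    rwa [smul_smul, inv_mul_cancel₀ l3, one_smul] at this
  · obtain ⟨d, hd⟩ := he.two_dvd
    obtain ⟨z, l1, l2, l3⟩ := (exists_type2 h h2 (d := d) (by omega)).2 (hd ▸ k)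
    obtain ⟨g, hx, hg⟩ := exists_nonsplit_unit h two_pos l1 hd
    obtain ⟨w, -, m1, m2, -⟩ | ⟨-, A, B, m1, m2, m3, m4, m5⟩ := unit_two h h2 hx hg
    · exact absurd m2 (l2 w m1)
    have := m1.two_mul
    refine (h1 g A B hx m1 m2 m3 m5).1 (H g hx (by rw [m4, show finrank F A = d by omega, l3]) ⟨⟨z, hg⟩, ?_⟩)
    rintro c rfl
    rw [_root_.smul_pow, one_pow] at hg
    exact l2 c (norm_scalar h hx (r := 1) (pow_one _)) (smul_left_injective F one_ne_zero hg)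
  obtain ⟨z, hz⟩ := k2.1
  obtain ⟨w, y, m1, -, rfl, m2, m3⟩ | ⟨m0, A, B, m1, m2, m3, m4, m5⟩ := unit_two h h2 hx hz
  · refine hP w y (by rintro rfl; simp at m1) (H.1 y m2 m3 (by rintro rfl; exact k2.2 w rfl)
      (by rintro rfl; exact k2.2 (-w) (by simp)) fun k => (exists_neg_pow h h2 hn.ne').1 ⟨w, m1, ?_⟩)
    rw [LinearMap.det_smul, det_invol m3, k.neg_one_pow] at k1
    linear_combination -k1
  · have := m1.two_mul
    refine (h1 g A B hx m1 m2 m3 m5).2 (H.2 ⟨finrank F A, by omega⟩ (this ▸ (exists_type2 h h2 (by omega)).1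
      ⟨z, norm_scalar h hx hz, m0, m4.symm.trans k1⟩))

theorem exists_refl (h2 : (2 : F) ≠ 0) (hn : 2 ≤ finrank F V) :
    ∃ y : End F V, φ.IsIsom y ∧ y ^ 2 = 1 ∧ y ≠ 1 ∧ y ≠ -1 ∧ finrank F (mv y) = 1 := by
  obtain ⟨U, -, k1, k2⟩ := nb_unit h (nondegOn_top φ) (k := 1) (by rw [finrank_top]; omega)
  obtain ⟨y, k3, k4, rfl⟩ := exists_neg h2 k1
  refine ⟨y, k3, k4, ?_, ?_, k2⟩ <;> rintro rfl
  · rw [mv_one, finrank_bot] at k2; omega
  · rw [mv_neg_one h2, finrank_top] at k2; omega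

theorem ts_invol (h2 : (2 : F) ≠ 0) (hx : φ.IsIsom y) (hy : y ^ 2 = 1) (m : ℕ) :
    (∃ W, Inv y W ∧ φ.TS W ∧ finrank F W = m) ↔ m ≤ finrank F (mv y) / 2 + (finrank F V - finrank F (mv y)) / 2 := by
  have k3 := nd_mv hx (H24.Adj.semisimple_of_pow h2 hy)
  have := φ.finrank_perp (mv y)
  rw [invol_iff h2 hy, ← perp_mv hx, ts_sum_iff (kd_unit h) k3]
  exact ⟨fun ⟨a, b, k, k1, k2, _⟩ => by omega, fun k => ⟨min (finrank F (mv y) / 2) m, m - min (finrank F (mv y) / 2) m,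
    by omega, ⟨by omega, fun l => pl_unit h k3 (by rw [← l]; simp)⟩, by omega, fun l => pl_unit h k3.perp (by rw [← l]; simp)⟩⟩

variable {p : ℕ} [hp : Fact p.Prime] [CharP F p]

theorem not_dvd_ts_unit {k : ℕ} (hk : φ.HasTS k) : ¬ p ∣ Nat.card {X // φ.TS X ∧ finrank F X = k} := by
  obtain ⟨W, h1, h2⟩ := hk
  refine not_dvd_ts hp.out h1 h2 fun U k1 k2 => ?_
  haveI := k1.nondeg
  refine ⟨q ^ (finrank F U * (finrank F U - 1) / 2), ∏ i ∈ Finset.range (finrank F V),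
    (if Even i then q ^ (i + 1) + 1 else q ^ (i + 1) - 1), (h.restrict U).card_Isom ▸ dvd_mul_right _ _, ?_, ?_⟩
  · rw [hp.out.prime.dvd_finset_prod_iff]
    rintro ⟨i, -, k⟩
    have k3 : p ∣ q ^ (i + 1) := dvd_pow (dvd_q h) (by omega)
    have k4 : 1 ≤ q ^ (i + 1) := Nat.one_le_pow _ _ (by have := h.two_le; omega)
    split_ifs at k
    · exact hp.out.one_lt.ne' (Nat.dvd_one.1 ((Nat.dvd_add_right k3).1 k))
    · exact hp.out.one_lt.ne' (Nat.dvd_one.1 ((Nat.dvd_add_right k).1 (by rwa [Nat.sub_add_cancel k4])))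
  · rw [h.card_Isom, h.card_ker_T, h.card, guOrd, ← pow_mul, ← pow_add, ← pow_add, ← k2]
    congr 2
    generalize finrank F U = u
    have := (Nat.even_mul_pred_self u).two_dvd
    have : (u + 2 * k) * (u + 2 * k - 1) = 2 * (2 * (k * u + k * (k - 1)) + k) + u * (u - 1) := by
      cases k <;> cases u <;> simp [mul_add, ← add_assoc] <;> ring
    omega

variable [hr : Fact r.Prime]

local notation "bb" => orderOf ((Fintype.card F : ℕ) : ZMod r)
local notation "ii" => orderOf ((q : ℕ) : ZMod r)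
local notation "cu" => ite (ii % 4 = 2) bb (2 * bb)

theorem ts_unit {m : ℕ} (hm0 : 1 ≤ m) (hm : 2 * m ≤ finrank F V) (hΩ : r ∣ Nat.card {W // φ.TS W ∧ finrank F W = m}) :
    (∀ g : End F V, φ.IsIsom g → LinearMap.det g = 1 → PE r g → ∃ W, Inv g W ∧ φ.TS W ∧ finrank F W = m) ↔
      ((r = 2 ∧ p ≠ 2 ∧ (2 * m < finrank F V ∨ padicValNat 2 (q + 1) ≤ padicValNat 2 (finrank F V))) ∨
      (r ≠ p ∧ 2 < r ∧ bb ≤ m ∧ 2 * (m % bb) ≤ finrank F V % cu ∧ (ii % 4 ≠ 2 ∨ (ii % 4 = 2 ∧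
        (r - 1) / bb + 2 * (m / bb) ≤ finrank F V / bb ∧
        (2 < ii ∨ (ii = 2 ∧ (r ∣ m ∨ padicValNat r (finrank F V) ≤ padicValNat r (q + 1)))))))) := by
  haveI : Nontrivial V := nontrivial_of_finrank_pos (R := F) (by omega)
  have h1 : φ.HasTS m := h.hasTS (by omega)
  have hrp : r ≠ p := by rintro rfl; exact not_dvd_ts_unit h h1 hΩ
  have h0 := natCast_ne_zero (F := F) hr.out hrp
  have hP : ∀ (c : F) (g : End F V), c ≠ 0 → (∃ W, Inv g W ∧ φ.TS W ∧ finrank F W = m) →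
    ∃ W, Inv (c • g) W ∧ φ.TS W ∧ finrank F W = m := fun c g _ k => k.imp fun W k => ⟨k.1.smul c, k.2⟩
  by_cases h2 : r = 2
  · subst h2
    rw [su_two h h0 hP (R := True) fun g A B _ k1 k2 _ _ => iff_true_intro (by
      have := k1.two_mul
      obtain ⟨W, l1, l2⟩ := exists_le_finrank_eq A (k := m) (by omega)
      exact ⟨W, k2 W l1, k1.ts₁.mono l1, l2⟩)]
    simp only [hrp.symm, ne_eq, not_false_iff, true_and, lt_irrefl, false_and, and_false, or_false, imp_true_iff, and_true]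
    refine ⟨fun H => by_contra fun k => ?_, fun H y hx hy _ _ k => (ts_invol h h0 hx hy m).2 ?_⟩
    · obtain ⟨y, k1, k2, k3, k4, k5⟩ := exists_refl h h0 (by omega)
      have := (ts_invol h h0 k1 k2 m).1 (H y k1 k2 k3 k4 fun _ l => k (Or.inr l))
      omega
    · have := Submodule.finrank_le (mv y)
      rw [Nat.odd_iff] at k
      omega
  have ho := odd_of_ne_two h2
  simp only [h2, hrp, two_lt_of_ne h2, false_and, false_or, ne_eq, not_false_iff, true_and]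
  by_cases hd : r ∣ q + 1
  · have hi := (ii_two ho).2 hd
    have hb : bb = 1 := by rw [bb_eq h, hi]; rfl
    have h3 := ts_unit_odd h h0 ho (m := m) (hb ▸ hm0) hm
    simp only [hi, hb, Nat.mod_one, Nat.div_one, hm0, mul_zero, zero_le, true_and, not_true, false_or, lt_irrefl] at h3 ⊢
    by_cases h4 : r - 1 + 2 * m ≤ finrank F V
    · rw [su_one h ho hd hP (h3.2 h4) fun g z k1 k2 k3 => nonsplit_ts h ho hd k1 k2 k3 hm, and_iff_right h4]
    · refine iff_of_false (fun H => ?_) fun k => h4 k.1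
      have := two_lt_of_ne h2
      obtain ⟨t, ht⟩ := id ho
      obtain ⟨y, k1, k2, k3, k4⟩ := exists_sym h ho hd (l := min t (finrank F V / 2)) (by omega) (by omega) (by omega)
      obtain ⟨W, l1, l2, l3⟩ := H y k1 k2 k3
      have := k4 W l1 l2
      omega
  have hi : ii ≠ 2 := fun k => hd ((ii_two ho).1 k)
  rw [pe_unit h hd hP]
  refine ⟨fun H => ?_, fun H => (ts_unit_odd h h0 ho H.1 hm).2 ⟨H.2.1, H.2.2.imp_right fun k => k.2.1⟩⟩
  have h3 := ts_le h0 h1 hΩ H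
  have h4 := (ts_unit_odd h h0 ho h3 hm).1 H
  exact ⟨h3, h4.1, by omega⟩

theorem nd_unit {m : ℕ} (hm0 : 1 ≤ m) (hm : m < finrank F V) (hΩ : r ∣ Nat.card {W // φ.NondegOn W ∧ finrank F W = m}) :
    (∀ g : End F V, φ.IsIsom g → LinearMap.det g = 1 → PE r g → ∃ W, Inv g W ∧ φ.NondegOn W ∧ finrank F W = m) ↔
      ((r = p ∧ 2 < p ∧ (∀ μ : Multiset ℕ, (∀ a ∈ μ, 0 < a ∧ a ≤ p) → μ.sum = finrank F V → ∃ ν, ν ≤ μ ∧ ν.sum = m)) ∨
      (r = p ∧ p = 2 ∧ (Odd (finrank F V) ∨ Even m)) ∨ (r = 2 ∧ p ≠ 2 ∧ (Odd (finrank F V) ∨ Even m ∨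
        (padicValNat 2 (finrank F V) ≤ padicValNat 2 (q + 1) ∧ q % 4 = 3))) ∨
      (r ≠ p ∧ 2 < r ∧ ((ii ≠ 2 ∧ cu ≤ m ∧ m % cu ≤ finrank F V % cu) ∨
        (ii = 2 ∧ (r ∣ m ∨ padicValNat r (finrank F V) ≤ padicValNat r (q + 1)))))) := by
  haveI : Nontrivial V := nontrivial_of_finrank_pos (R := F) (by omega)
  have hP : ∀ (c : F) (g : End F V), c ≠ 0 → (∃ W, Inv g W ∧ φ.NondegOn W ∧ finrank F W = m) →
    ∃ W, Inv (c • g) W ∧ φ.NondegOn W ∧ finrank F W = m := fun c g _ k => k.imp fun W k => ⟨k.1.smul c, k.2⟩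
  by_cases hrp : r = p
  · subst hrp
    rw [pe_unit h (not_dvd_succ h) hP, H16.Eo.unip_unit h hm.le]
    by_cases h2 : r = 2
    · subst h2; simpa using part_two hm.le
    · simp [h2, two_lt_of_ne h2]
  have h0 := natCast_ne_zero (F := F) hr.out hrp
  by_cases h2 : r = 2
  · subst h2
    rw [su_two h h0 hP (R := Even m) fun g A B hx _ _ _ k => ⟨fun ⟨W, l1, l2, l3⟩ =>
      even_iff_two_dvd.2 (l3 ▸ k.dvd hx two_pos le_top l1 l2), fun ⟨j, hj⟩ => (k.exists_sub hx two_pos j le_top inv_top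
        (nondegOn_top φ) (by rw [finrank_top]; omega)).imp fun W l => ⟨l.2.1, l.2.2.1, by omega⟩⟩,
      and_iff_right fun y hx hy _ _ _ => ?_]
    · simp only [hrp, Ne.symm hrp, ← Nat.not_even_iff_odd]; tauto
    have k3 := nd_mv hx (H24.Adj.semisimple_of_pow h0 hy)
    have := φ.finrank_perp (mv y)
    obtain ⟨A, l1, l2, l3⟩ := nb_unit h k3 (min_le_left _ m)
    obtain ⟨B, l4, l5, l6⟩ := nb_unit h k3.perp (k := m - min (finrank F (mv y)) m) (by omega)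
    have l7 := l4.trans (φ.perp_anti l1)
    exact (invol_iff h0 hy).2 ⟨A, l1, B, perp_mv hx ▸ l4, nd_sup l2 l5 l7, by rw [finrank_sup_perp l2 l7]; omega⟩
  have ho := odd_of_ne_two h2
  simp only [h2, hrp, two_lt_of_ne h2, false_and, false_or, ne_eq, not_false_iff, true_and]
  have h3 := nd_unit_odd h h0 ho hm0 hm hΩ
  by_cases hd : r ∣ q + 1
  · have hi := (ii_two ho).2 hd
    have hb : bb = 1 := by rw [bb_eq h, hi]; rfl
    simp only [hi, hb, Nat.mod_one, hm0, le_refl, and_self, iff_true, if_true, not_true, false_and, false_or, true_and] at h3 ⊢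
    exact su_one h ho hd hP h3 fun g z k1 k2 k3 => nonsplit_nd h ho hd k1 k2 k3 hm.le
  have hi : ii ≠ 2 := fun k => hd ((ii_two ho).1 k)
  rw [pe_unit h hd hP, h3]
  simp [hi]

theorem lp_unit {d : ℕ} (hd : finrank F V = 2 * d) (h2 : 2 ≤ d) (hAB : φ.TSPair A B)
    (hΩ : r ∣ Nat.card {P : Submodule F V × Submodule F V // φ.TSPair P.1 P.2}) :
    (∀ g : End F V, φ.IsIsom g → LinearMap.det g = 1 → PE r g → FP φ g) ↔
      (r = 2 ∧ Odd q ∧ padicValNat 2 (q + 1) ≤ padicValNat 2 (finrank F V)) := by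
  haveI : Nontrivial V := nontrivial_of_finrank_pos (R := F) (by omega)
  obtain ⟨p, _⟩ := CharP.exists F
  haveI := Fact.mk (CharP.char_is_prime F p)
  have h1 := hAB.two_mul
  by_cases hrp : r = p
  · subst hrp
    refine iff_of_false ?_ fun k => absurd (k.1 ▸ dvd_q (p := r) h) (by have := Nat.odd_iff.1 k.2.1; omega)
    obtain ⟨e, he, h0⟩ := Submodule.exists_mem_ne_zero_of_ne_bot (p := A) (by rintro rfl; rw [finrank_bot] at h1; omega)
    obtain ⟨t, ht, ht'⟩ := h.exists_skew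
    have k1 := hAB.ts₁.Q e he
    have k2 := φ.quasi_apply (h.quasi_cond k1 ht')
    have k3 : mv ((φ.quasi e t).1 : End F V) = F ∙ e := by
      obtain ⟨w, hw⟩ := φ.exists_B_eq_one h0
      refine le_antisymm (fun v hv => ?_) ((Submodule.span_singleton_le_iff_mem _ _).2 (mem_mv.2 ⟨t⁻¹ • w, by simp [k2, hw, ht]⟩))
      obtain ⟨u, rfl⟩ := mem_mv.1 hv
      exact Submodule.mem_span_singleton.2 ⟨t * φ.B e u, by simp [k2]⟩
    have k4 : finrank F (mv ((φ.quasi e t).1 : End F V)) = 1 := by rw [k3, finrank_span_singleton h0]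
    rw [pe_unit h (not_dvd_succ h) FP.smul]
    refine fun H => not_fp (φ.quasi e t).2 k4 (by omega) (H _ (φ.quasi e t).2 (pow_char_iff.2 ?_) fun k => ?_)
    · refine pow_eq_zero_of_le hr.out.two_le (LinearMap.ext fun v => ?_)
      simp [sq, k2, φ.B_self_eq_zero k1]
    · rw [k, mv_one, finrank_bot] at k4; omega
  have h0 := natCast_ne_zero (F := F) hr.out hrp
  by_cases hr2 : r = 2
  · subst hr2
    rw [su_two h h0 FP.smul (R := True) fun g A B hx k1 k2 k3 _ => iff_true_intro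
      ⟨A, B, k1, Or.inl ⟨(k2 A le_rfl).map_eq hx.injective, (k3 B le_rfl).map_eq hx.injective⟩⟩]
    simp only [Nat.odd_iff.2 (odd_q h h0), true_and, imp_true_iff, and_true]
    refine ⟨fun H => by_contra fun k => ?_, fun H y hx hy _ _ k => ?_⟩
    · obtain ⟨y, k1, k2, k3, k4, k5⟩ := exists_refl h h0 (by omega)
      exact not_fp k1 k5 (by omega) (H y k1 k2 k3 k4 fun _ => k)
    obtain ⟨j, hj⟩ := (Nat.not_odd_iff_even.1 fun l => k l H).two_dvd
    have hs := H24.Adj.semisimple_of_pow h0 hy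
    have := finrank_fx_add (g := y)
    obtain ⟨A, B, k1, k2, k3⟩ := pair_in h j (nd_mv hx hs) hj
    obtain ⟨A', B', k4, k5, k6⟩ := pair_in h (d - j) (nd_fx hx hs) (by omega)
    have k7 : ∀ {X Y}, X ≤ mv y → Y ≤ fx y → Y ≤ φ.perp X ∧ (X ⊔ Y).map y = X ⊔ Y := fun l1 l2 =>
      ⟨l2.trans ((perp_mv hx).ge.trans (φ.perp_anti l1)), ((inv_of_le_mv hy l1).sup (inv_of_le_fx l2)).map_eq hx.injective⟩
    have k8 := k7 (le_sup_left.trans k3.le) (le_sup_left.trans k6.le)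
    have k9 := k7 (le_sup_right.trans k3.le) (le_sup_right.trans k6.le)
    exact ⟨_, _, tsPair_of (k1.sup k4 k8.1) (k2.sup k5 k9.1) (by
      rw [sup_sup_sup_comm, k3, k6, sup_comm, (isCompl_fx hs).sup_eq_top]), Or.inl ⟨k8.2, k9.2⟩⟩
  have ho := odd_of_ne_two hr2
  refine iff_of_false (fun H => ?_) fun k => hr2 k.1
  have key : ∀ g : End F V, φ.IsIsom g → LinearMap.det g = 1 → PE r g → ∃ W, Inv g W ∧ φ.TS W ∧ finrank F W = d :=
    fun g hx k1 k2 => by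
      obtain ⟨U, W, l1, l2⟩ := H g hx k1 k2
      obtain ⟨z, hz⟩ := k2.1
      have := l1.two_mul
      exact ⟨U, (pair_inv ho (by rintro rfl; simpa using norm_scalar h hx hz) hz l1.compl l2).1, l1.ts₁, by omega⟩
  by_cases h3 : r ∣ q + 1
  · obtain ⟨y, k1, k2, k3, k4⟩ := exists_sym h ho h3 (l := 1) one_pos (two_lt_of_ne hr2) (by omega)
    obtain ⟨W, l1, l2, l3⟩ := key y k1 k2 k3
    have := k4 W l1 l2
    omega
  have h4 := card_pairs' hAB
  have hq := h.two_le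
  rw [h.card_Isom, card_linearEquiv_self (k := d) (by omega), prod_gl, h.card, hd, guOrd, prod_two_mul] at h4
  simp only [even_two_mul, if_true, Nat.even_add_one, not_true, if_false, ← pow_mul, mul_add, add_assoc, mul_one,
    one_add_one_eq_two] at h4
  rw [← mul_assoc, mul_comm (_ * _) (∏ _ ∈ _, _), mul_left_comm (Nat.card _)] at h4
  replace h4 := Nat.eq_of_mul_eq_mul_left (Finset.prod_pos fun i _ => Nat.sub_pos_of_lt (one_lt_pow₀ hq (Nat.succ_ne_zero _))) h4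
  have h5 : ¬ r ∣ q := fun k => by
    have := ii_pos h h0
    rw [(ZMod.natCast_eq_zero_iff _ _).2 k] at this
    simp at this
  obtain ⟨i, hi, h6⟩ := (hr.out.prime.dvd_finset_prod_iff _).1 (((hr.out.dvd_mul).1 (h4 ▸ hΩ.mul_right _)).resolve_left
    fun k => h5 (hr.out.dvd_of_dvd_pow k))
  obtain ⟨h7, h8⟩ := even_of_dvd_add ho (Nat.succ_pos _) h6
  have h9 := Nat.le_of_dvd (by omega) h7
  rw [Finset.mem_range] at hi
  have he : Even ii := by
    by_contra he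
    exact h8 ((Nat.coprime_two_right.2 (Nat.not_even_iff_odd.1 he)).dvd_of_dvd_mul_left h7)
  have h10 : ii % 4 = 2 := by
    have : ii % 4 ≠ 0 := fun k => by have := (Nat.dvd_of_mod_eq_zero k).trans h7; omega
    have := Nat.even_iff.1 he
    omega
  have hb := bb_eq (r := r) h
  rw [if_pos he] at hb
  obtain ⟨y, hx, hy, k1⟩ := real_unit h h0 ho (a := 1) (k := 0)
    ((tc_unit h h0).elim (fun k => k.2.2.2.trans k.2.2.1.ge) fun k => absurd h10 k.1) (by omega)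
  obtain ⟨j, k6, -, Z, k7, k8⟩ := (k1.ts_iff h0 hx hy _).1 ((pe_unit h h3 fun c g _ k => k.imp fun W k =>
    ⟨k.1.smul c, k.2⟩).1 key y hx hy ((k1.ne_one_iff h0).2 one_pos))
  haveI := (nd_fx hx (H24.Adj.semisimple_of_pow h0 hy)).nondeg
  have := k7.finrank_le
  have := finrank_fx_add (g := y)
  have := ord_pos h0
  have := k1.1
  obtain rfl : j = 0 := by omega
  omega

omit hr in
theorem index_pairs (hAB : φ.TSPair A B) (h0 : A ≠ ⊥) {H : Subgroup φ.Isom} (hH : φ.stab A ⊓ φ.stab B ≤ H) :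
    H.relIndex φ.SIsom ∣ Nat.card {P : Submodule F V × Submodule F V // φ.TSPair P.1 P.2} := by
  have h1 : MulAction.stabilizer φ.SIsom (A, B) ≤ H.subgroupOf φ.SIsom := fun k hk =>
    hH ⟨φ.mem_stab_iff_map.2 (congrArg Prod.fst hk), φ.mem_stab_iff_map.2 (congrArg Prod.snd hk)⟩
  refine (Subgroup.index_dvd_of_le h1).trans (dvd_of_eq ?_)
  rw [MulAction.index_stabilizer, ← Nat.card_coe_set_eq]
  refine Nat.card_congr (Equiv.subtypeEquivRight fun P => ⟨?_, fun k => ?_⟩)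
  · rintro ⟨k, rfl⟩
    exact tsPair_map hAB k.1
  · obtain ⟨k, l1, l2, l3⟩ := su_trans h hAB k h0
    exact ⟨⟨k, l1⟩, Prod.ext l2 l3⟩

end

section bridge
variable {F : Type*} [Field F] [Finite F] {q n r : ℕ} (hF : Nat.card F = q ^ 2)

theorem ts_u {W : Submodule F (Fin n → F)} : (∀ u ∈ W, ∀ v ∈ W, Cfsg.hermForm n F q u v = 0) ↔ (stdU hF n).TS W :=
  ⟨fun h => (stdU_isUnitary hF n).herm.ts fun u hu v hv => h v hv u hu, fun h u hu v hv => h.B v hv u hu⟩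

theorem nd_u {W : Submodule F (Fin n → F)} :
    (∀ u ∈ W, u ≠ 0 → ∃ v ∈ W, Cfsg.hermForm n F q u v ≠ 0) ↔ (stdU hF n).NondegOn W := by
  rw [← nd_iff]
  exact forall₃_congr fun u _ _ => exists_congr fun v => and_congr_right fun _ => not_congr
    ⟨fun h => (stdU hF n).B_symm_zero h, fun h => (stdU hF n).B_symm_zero h⟩

theorem su_iff (P : End F (Fin n → F) → Prop) : (∀ x : Matrix.SpecialLinearGroup (Fin n) F, x ∈ Cfsg.SU n F q →
    (∃ c : F, ((x ^ r : Matrix.SpecialLinearGroup (Fin n) F) : Matrix (Fin n) (Fin n) F) = c • (1 : Matrix (Fin n) (Fin n) F)) →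
    (∀ c : F, (x : Matrix (Fin n) (Fin n) F) ≠ c • (1 : Matrix (Fin n) (Fin n) F)) →
    P (Matrix.toLin' (x : Matrix (Fin n) (Fin n) F))) ↔
    ∀ g : End F (Fin n → F), (stdU hF n).IsIsom g → LinearMap.det g = 1 → PE r g → P g := by
  refine ⟨fun H g h1 h2 h3 => ?_, fun H x h1 h2 h3 => H _ ⟨fun u v => h1 v u, fun u => h1 u u⟩
    (by rw [LinearMap.det_toLin', x.det_coe]) (pe_toLin'.2 ⟨h2, h3⟩)⟩
  obtain ⟨A, rfl⟩ := Matrix.toLin'.surjective g
  exact H ⟨A, by rwa [LinearMap.det_toLin'] at h2⟩ (fun u v => h1.B v u) (pe_toLin'.1 h3).1 (pe_toLin'.1 h3).2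

theorem su_iff' {D : Fin 2 → Submodule F (Fin n → F)} (hD : (stdU hF n).TSPair (D 0) (D 1)) (h0 : D 0 ≠ ⊥) :
    (∀ x ∈ Cfsg.GU n F q ⊓ Cfsg.Geo.specialLinear (Fin n) F,
      (∃ z : F, ((x ^ r : GL (Fin n) F) : Matrix (Fin n) (Fin n) F) = z • (1 : Matrix (Fin n) (Fin n) F)) →
      (∀ z : F, (x : Matrix (Fin n) (Fin n) F) ≠ z • (1 : Matrix (Fin n) (Fin n) F)) →
      ∃ g ∈ Cfsg.GU n F q ⊓ Cfsg.Geo.specialLinear (Fin n) F, g⁻¹ * x * g ∈ Cfsg.Geo.decompositionStabilizer D) ↔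
    ∀ g : End F (Fin n → F), (stdU hF n).IsIsom g → LinearMap.det g = 1 → PE r g → FP (stdU hF n) g := by
  have key : ∀ x : (stdU hF n).Isom, (∃ g ∈ (stdU hF n).SIsom.map (stdU hF n).toGL,
      g⁻¹ * (stdU hF n).toGL x * g ∈ Cfsg.Geo.decompositionStabilizer D) ↔ FP (stdU hF n) x.1 := fun x => by
    have k : ∀ (k : (stdU hF n).Isom) (A B : Submodule F (Fin n → F)), A.map ((k⁻¹ * x * k).1 : End F (Fin n → F)) = B ↔
        (A.map (k.1 : End F (Fin n → F))).map (x.1 : End F (Fin n → F)) = B.map (k.1 : End F (Fin n → F)) := fun k A B =>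
      (show (k⁻¹ * x * k) • A = B ↔ x • k • A = k • B by rw [mul_smul, mul_smul, inv_smul_eq_iff])
    refine ⟨?_, fun ⟨A, B, l1, l2⟩ => ?_⟩
    · rintro ⟨_, ⟨g, -, rfl⟩, l⟩
      rw [← map_inv, ← map_mul, ← map_mul, toGL_mem_decomp_two] at l
      simp only [k] at l
      exact ⟨_, _, tsPair_map hD g, l⟩
    · obtain ⟨g, l3, rfl, rfl⟩ := su_trans (stdU_isUnitary hF n) hD l1 h0
      refine ⟨_, ⟨g, l3, rfl⟩, ?_⟩
      rw [← map_inv, ← map_mul, ← map_mul, toGL_mem_decomp_two]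
      simpa only [k] using l2
  rw [SU_eq hF]
  refine ⟨fun H g h1 h2 h3 => ?_, ?_⟩
  · rw [← (stdU hF n).toIsom_coe h1] at h2 h3 ⊢
    rw [← toLin'_toGL, pe_toLin'] at h3
    exact (key _).1 (H _ ⟨_, (stdU hF n).mem_SIsom.2 h2, rfl⟩ h3.1 h3.2)
  · rintro H _ ⟨x, h1, rfl⟩ h2 h3
    exact (key x).2 (H _ x.2 ((stdU hF n).mem_SIsom.1 h1) (toLin'_toGL x ▸ pe_toLin'.2 ⟨h2, h3⟩))

end bridge

end H28.El
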