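import Mathlib
import Cfsg.Agent.H16.Cc3
import Cfsg.Agent.H28.El23

/-!
# Diagonalisable maps, conjugacy into subgroups of `GL` (namespace `H28.El`)
-/

set_option autoImplicit false

open Module Polynomial H24.Sim H10

namespace H28.El

theorem sym_three : ∀ a b c : ZMod 3, a + b + c = 0 → (a = b ∧ a = c) ∨ ({a, b, c} : Multiset (ZMod 3)) = {0, 1, 2} := by
  decide +kernel

theorem sym_five : ∀ a b c d e : ZMod 5, a + (b + (c + (d + e))) = 0 → ∃ t, (0 : ZMod 5) ∈ [a + t, b + t, c + t, d + t, e + t] ∧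
    [-(a + t), -(b + t), -(c + t), -(d + t), -(e + t)].Perm [a + t, b + t, c + t, d + t, e + t] := by
  decide +kernel

theorem sym_exc {r : ℕ} (hr : r = 3 ∨ r = 5) {M : Multiset (ZMod r)} (h1 : M.card = r) (h2 : M.sum = 0) :
    ∃ t, 0 ∈ M.map (· + t) ∧ (M.map (· + t)).map (-·) = M.map (· + t) := by
  rcases hr with rfl | rfl
  · obtain ⟨a, b, c, rfl⟩ := Multiset.card_eq_three.1 h1
    rcases sym_three a b c (by simpa [add_assoc] using h2) with ⟨rfl, rfl⟩ | h
    · exact ⟨-a, by simp, by simp⟩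
    · exact ⟨0, by rw [h]; decide, by rw [h]; decide⟩
  · induction M using Quotient.inductionOn with | _ l => ?_
    match l, h1, h2 with
    | [a, b, c, d, e], _, h2 =>
      obtain ⟨t, k1, k2⟩ := sym_five a b c d e (by simpa using h2)
      exact ⟨t, k1, Quotient.sound k2⟩

section
variable {F V V' : Type*} [Field F] [AddCommGroup V] [Module F V] [AddCommGroup V'] [Module F V'] {g y : End F V}
  {y' : End F V'} {N : Multiset F} {r : ℕ}

/-- diagonalisable with the given eigenvalues -/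
def Dg (y : End F V) (N : Multiset F) : Prop := HasTyp y (N.map fun a => X - C a)

/-- dimension of an eigenspace -/
noncomputable def ed (g : End F V) (c : F) : ℕ := kd g (X - C c)

theorem ed_eq (g : End F V) (c : F) : ed g c = finrank F (LinearMap.ker (g - c • 1)) := by
  rw [ed, kd, show aeval g (X - C c) = g - c • 1 by simp [Algebra.algebraMap_eq_smul_one]]

theorem aev_pow (g : End F V) (k : ℕ) (z : F) : aeval g (X ^ k - C z) = g ^ k - z • 1 := by
  simp [Algebra.algebraMap_eq_smul_one]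

theorem ed_one : ed g 1 = finrank F (fx g) := by rw [ed_eq, one_smul, fx]

theorem iso_ed (h : Iso y y') (c : F) : ed y c = ed y' c := h.kd _

theorem iso_pow (h : Iso y y') {k : ℕ} {z : F} : y ^ k = z • 1 ↔ y' ^ k = z • 1 := by
  have := (h.aeval (X ^ k - C z)).eq_zero_iff
  rwa [aev_pow, aev_pow, sub_eq_zero, sub_eq_zero] at this

theorem iso_pow_one (h : Iso y y') {k : ℕ} : y ^ k = 1 ↔ y' ^ k = 1 := by simpa using iso_pow h (k := k) (z := 1)

theorem iso_smul (h : Iso y y') (c : F) : Iso (c • y) (c • y') := h.imp fun e he v => by simp [he]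

theorem ed_le {e : V →ₗ[F] V'} [FiniteDimensional F V'] (he : Function.Injective e) (h : ∀ v, e (y v) = y' (e v)) (c : F) :
    ed y c ≤ ed y' c := by
  rw [ed_eq, ed_eq, ← (Submodule.equivMapOfInjective e he _).finrank_eq.symm]
  refine Submodule.finrank_mono ?_
  rintro _ ⟨v, hv, rfl⟩
  simpa [← h] using congrArg e (LinearMap.mem_ker.1 hv)

theorem Dg.ne_zero : ∀ f ∈ N.map fun a => X - C a, f ≠ 0 := fun f hf => by
  obtain ⟨a, -, rfl⟩ := Multiset.mem_map.1 hf; exact X_sub_C_ne_zero a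

theorem Dg.card (h : Dg y N) : N.card = finrank F V := by simp [h.finrank Dg.ne_zero]

theorem Dg.pow_iff (h : Dg y N) {k : ℕ} {z : F} : y ^ k = z • 1 ↔ ∀ a ∈ N, a ^ k = z := by
  have := h.aeval_eq_zero_iff (X ^ k - C z)
  rw [aev_pow, sub_eq_zero] at this
  simp only [this, Multiset.forall_mem_map_iff, dvd_iff_isRoot, IsRoot, eval_sub, eval_pow, eval_X, eval_C, sub_eq_zero]

theorem Dg.pe (h : Dg y N) {z a b : F} (h1 : ∀ a ∈ N, a ^ r = z) (ha : a ∈ N) (hb : b ∈ N) (hab : a ≠ b) : PE r y :=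
  ⟨⟨z, h.pow_iff.2 h1⟩, fun c hc => hab (by
    have := h.pow_iff.1 ((pow_one y).trans hc)
    rw [← pow_one a, this a ha, ← this b hb, pow_one])⟩

variable [FiniteDimensional F V]

theorem ed_add (g : End F V) (c : F) : ed g c + finrank F (LinearMap.range (g - c • 1)) = finrank F V := by
  rw [ed_eq, add_comm, LinearMap.finrank_range_add_finrank_ker]

theorem ed_smul {c : F} (hc : c ≠ 0) (d : F) : ed (c • y) (d * c) = ed y d := H16.Cc.kd_smul hc d

theorem iso_mv [FiniteDimensional F V'] (h : Iso y y') : finrank F (mv y) = finrank F (mv y') := by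
  have := iso_ed h 1
  have := h.finrank
  have := finrank_fx_add (g := y)
  have := finrank_fx_add (g := y')
  rw [ed_one, ed_one] at *
  omega

theorem Dg.ed [DecidableEq F] (h : Dg y N) (a : F) : ed y a = N.count a := H16.Cc.kd_lin Function.injective_id h a

theorem Dg.charpoly (h : Dg y N) : y.charpoly = (N.map fun a => X - C a).prod :=
  HasTyp.charpoly h fun f hf => by obtain ⟨a, -, rfl⟩ := Multiset.mem_map.1 hf; exact monic_X_sub_C a

theorem Dg.det (h : Dg y N) : LinearMap.det y = N.prod := by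
  rw [LinearMap.det_eq_sign_charpoly_coeff, h.charpoly, coeff_zero_eq_eval_zero, eval_multiset_prod, Multiset.map_map,
    ← h.card]
  simp [Multiset.prod_map_neg, ← mul_assoc, ← mul_pow]

theorem exists_dg' (h : N.card = finrank F V) : ∃ y : End F V, Dg y N := exists_end_typ Dg.ne_zero (by simpa)

theorem exists_dg (hr : r.Prime) {ζ : F} (hζ : IsPrimitiveRoot ζ r) (hy : y ^ r = 1) : ∃ N, Dg y N := by
  haveI : NeZero r := ⟨hr.ne_zero⟩
  obtain ⟨M, h1, h2⟩ := exists_hasTyp y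
  have h3 := (h2.aeval_eq_zero_iff (X ^ r - C (1 ^ r))).1 (by simp [hy])
  have h4 := (separable_X_pow_sub_C ((1 : F) ^ r) hζ.neZero'.out (by simp)).squarefree
  refine (?_ : ∀ f ∈ M, ((fun a => X - C a) ∘ fun f : F[X] => -f.coeff 0) f = id f) |> fun k => ⟨M.map fun f => -f.coeff 0, by
    rwa [Dg, Multiset.map_map, Multiset.map_congr rfl k, Multiset.map_id]⟩
  intro f hf
  obtain ⟨p, e, k1, k2, k3, rfl⟩ := h1 f hf
  obtain rfl : e = 1 := by
    by_contra hne
    exact k2.not_isUnit (h4 p (((pow_two p).symm.dvd.trans (pow_dvd_pow p (by omega))).trans (h3 _ hf)))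
  obtain ⟨c, -, rfl⟩ := H16.Cc.lin_of_dvd hr hζ k1 k2 ((pow_one p).symm.dvd.trans (h3 _ hf))
  simp

theorem Dg.smul (hr : r.Prime) {ζ : F} (hζ : IsPrimitiveRoot ζ r) (hy : y ^ r = 1) (h : Dg y N) {c : F} (hc : c ^ r = 1) :
    Dg (c • y) (N.map (· * c)) := by
  classical
  have h0 : c ≠ 0 := by rintro rfl; simp [hr.ne_zero] at hc
  obtain ⟨N', h'⟩ := exists_dg hr hζ (y := c • y) (by rw [_root_.smul_pow, hc, hy, one_smul])
  convert h'
  ext a
  obtain ⟨d, rfl⟩ : ∃ d, a = d * c := ⟨a / c, by field_simp⟩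
  rw [← h'.ed, ed_smul h0, h.ed, Multiset.count_map_eq_count' _ _ (mul_left_injective₀ h0)]

theorem rank_sub_one {ι : Type*} [Fintype ι] [DecidableEq ι] (A : Matrix ι ι F) :
    (A - 1).rank = finrank F (mv (Matrix.toLin' A)) := by
  rw [mv, Matrix.rank, ← Matrix.toLin'_apply', map_sub, Matrix.toLin'_one]; rfl

theorem ed_neg_one (h2 : (2 : F) ≠ 0) (h : y ^ 2 = 1) : ed y (-1) = finrank F (mv y) := by
  rw [ed_eq]
  refine congrArg (fun W : Submodule F V => finrank F W) (a₂ := mv y) ?_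
  refine le_antisymm (fun v hv => mem_mv.2 ⟨(-2 : F)⁻¹ • v, ?_⟩) fun v hv => by simp [neg_of_mem_mv h hv]
  have : y v = -v := by simpa [add_eq_zero_iff_eq_neg] using hv
  rw [map_smul, this, ← smul_sub, ← neg_add', ← two_smul F, ← neg_smul, smul_smul, inv_mul_cancel₀ (by simpa), one_smul]

theorem iso_invol {y' : End F V} (h : y ^ 2 = 1) (h' : y' ^ 2 = 1) (hd : finrank F (mv y) = finrank F (mv y')) : Iso y y' := by
  by_cases h2 : (2 : F) = 0
  · have key : ∀ y : End F V, y ^ 2 = 1 → ∃ A : Matrix (Fin (finrank F V)) _ F, Iso y (Matrix.toLin' A) ∧ (A - 1) ^ 2 = 0 :=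
      fun y h => ⟨_, iso_toMatrix (finBasis F V) y, by
        have := (iso_pow_one (iso_toMatrix (finBasis F V) y)).1 h
        rw [← Matrix.toLin'_pow, End.one_eq_id, ← Matrix.toLin'_one, Matrix.toLin'.injective.eq_iff] at this
        rw [sq, sub_mul, mul_sub, ← sq, this, mul_one, one_mul, sub_eq_add_neg, neg_sub, ← two_smul F, h2, zero_smul]⟩
    obtain ⟨A, k1, k2⟩ := key y h
    obtain ⟨A', k3, k4⟩ := key y' h'
    exact k1.trans (((isConj_iff_iso _ _).1 (isConj_of_sq_zero k2 k4 (by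
      rw [rank_sub_one, rank_sub_one, ← iso_mv k1, ← iso_mv k3, hd]))).trans k3.symm)
  refine H16.Cc.iso_of_pow Nat.prime_two (ζ := -1) (IsPrimitiveRoot.mk_of_lt _ two_pos (by simp) fun l k1 k2 k3 => h2 ?_)
    one_ne_zero (by simpa) (by simpa) fun c hc => ?_
  · obtain rfl : l = 1 := by omega
    linear_combination -k3
  · rcases mul_self_eq_one_iff.1 (sq c ▸ hc) with rfl | rfl
    · have := finrank_fx_add (g := y)
      have := finrank_fx_add (g := y')
      exact ed_one.trans (Eq.trans (by omega) ed_one.symm)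
    · exact (ed_neg_one h2 h).trans (hd.trans (ed_neg_one h2 h').symm)

theorem iso_nonsplit {y' : End F V} (hr : r.Prime) {z : F} (hz : ∀ w : F, w ^ r ≠ z) (h : y ^ r = z • 1) (h' : y' ^ r = z • 1) :
    Iso y y' :=
  H16.Cc.iso_of_sqfree (X_pow_sub_C_irreducible_of_prime hr hz).squarefree (H16.Cc.aeval_pow_sub h) (H16.Cc.aeval_pow_sub h')
    fun f k1 k2 k3 => by
      rw [eq_of_monic_of_associated k1 (monic_X_pow_sub_C z hr.ne_zero) (k2.associated_of_dvd
        (X_pow_sub_C_irreducible_of_prime hr hz) k3), (kd_eq_finrank_iff _ _).2 (H16.Cc.aeval_pow_sub h),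
        (kd_eq_finrank_iff _ _).2 (H16.Cc.aeval_pow_sub h')]

/-- two eigenvalues with ratio `ζ` are determined by their multiplicities -/
def Asy (g : End F V) (ζ : F) : Prop := ∃ α, α ≠ 0 ∧ (∀ c, ed g c = ed g α → c = α) ∧ ∀ c, ed g c = ed g (α * ζ) → c = α * ζ

theorem asy_of {α ζ γ z : F} {a b c : ℕ} (h0 : α ≠ 0) (h1 : ζ ≠ 1) (h2 : γ ≠ α) (h3 : γ ≠ α * ζ) (ha : 0 < a) (hb : 0 < b)
    (h4 : a ≠ b) (h5 : a ≠ c) (h6 : b ≠ c) (hn : a + b + c = finrank F V) (h7 : α ^ r = z) (h8 : ζ ^ r = 1)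
    (h9 : c ≠ 0 → γ ^ r = z) (hd : α ^ a * (α * ζ) ^ b * γ ^ c = 1) :
    ∃ g : End F V, LinearMap.det g = 1 ∧ PE r g ∧ Asy g ζ := by
  classical
  have k0 : α ≠ α * ζ := fun k => h1 (mul_left_cancel₀ h0 (k.symm.trans (mul_one _).symm))
  obtain ⟨g, hg⟩ := exists_dg' (V := V) (N := .replicate a α + .replicate b (α * ζ) + .replicate c γ) (by simpa)
  refine ⟨g, by simpa [hg.det], hg.pe (z := z) (fun x hx => ?_) (by simp [Multiset.mem_replicate, ha.ne']) (by simp [Multiset.mem_replicate, hb.ne']) k0, α, h0,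
    fun x hx => ?_, fun x hx => ?_⟩
  · simp only [Multiset.mem_add, Multiset.mem_replicate] at hx
    rcases hx with (⟨-, rfl⟩ | ⟨-, rfl⟩) | ⟨k, rfl⟩
    exacts [h7, by rw [mul_pow, h7, h8, mul_one], h9 k]
  all_goals
    simp only [hg.ed, Multiset.count_add, Multiset.count_replicate, k0, k0.symm, h2, h3, if_true, if_false] at hx
    by_contra k
    split_ifs at hx with k1 k2 k3 <;> first | omega | (subst_vars; contradiction)

variable [Fintype F] [hr : Fact r.Prime]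

local notation "qq" => Fintype.card F

omit [FiniteDimensional F V] hr in
theorem exists_prim {k : ℕ} (hk : k ∣ qq - 1) : ∃ ζ : F, IsPrimitiveRoot ζ k := by
  obtain ⟨γ, hγ⟩ := IsCyclic.exists_ofOrder_eq_natCard (α := Fˣ)
  obtain ⟨l, hl⟩ := hk
  have h1 : IsPrimitiveRoot (γ : F) (qq - 1) := by
    rw [IsPrimitiveRoot.coe_units_iff, ← card_units', ← hγ]; exact IsPrimitiveRoot.orderOf γ
  exact ⟨_, h1.pow (by have := Fintype.one_lt_card (α := F); omega) (hl.trans (mul_comm _ _))⟩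

omit [FiniteDimensional F V] in
theorem exists_root_pow {n : ℕ} (hn : n ≠ 0) (h : padicValNat r n < padicValNat r (qq - 1)) :
    ∃ w ζ : F, w ≠ 0 ∧ ζ ≠ 1 ∧ ζ ^ r = 1 ∧ w ^ n * ζ = 1 := by
  obtain ⟨w, hw⟩ := exists_prim (F := F) ((padicValNat_dvd_iff_le (by have := Fintype.one_lt_card (α := F); omega)).2 h)
  have h0 := hw.ne_zero (pow_ne_zero _ hr.out.ne_zero)
  refine ⟨w, (w ^ n)⁻¹, h0, fun k => pow_succ_padicValNat_not_dvd hn (hw.dvd_of_pow_eq_one n (inv_eq_one.1 k)), ?_,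
    mul_inv_cancel₀ (pow_ne_zero _ h0)⟩
  rw [inv_pow, ← pow_mul, inv_eq_one, hw.pow_eq_one_iff_dvd, pow_succ]
  exact Nat.mul_dvd_mul_right pow_padicValNat_dvd r

theorem exists_asy (ho : Odd r) (hd : r ∣ qq - 1) (hn : 3 ≤ finrank F V) (hv : padicValNat r (finrank F V) ≤ padicValNat r (qq - 1))
    (h6 : ¬ (finrank F V = 6 ∧ r = 3)) (hex : ¬ ((r = 3 ∨ r = 5) ∧ finrank F V = r ∧ padicValNat r (qq - 1) = 1)) :
    ∃ (g : End F V) (ζ : F), ζ ≠ 1 ∧ ζ ^ r = 1 ∧ LinearMap.det g = 1 ∧ PE r g ∧ Asy g ζ := by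
  rcases hv.lt_or_eq with hv | hv
  · obtain ⟨w, ζ, k1, k2, k3, k4⟩ := exists_root_pow (by omega) hv
    obtain ⟨g, hg⟩ := asy_of (V := V) (a := finrank F V - 1) (b := 1) (c := 0) (γ := 0) k1 k2 k1.symm
      (mul_ne_zero k1 (by rintro rfl; simp at k4)).symm (by omega) one_pos (by omega)
      (by omega) (by omega) (by omega) rfl k3 (by simp) (by rw [pow_one, ← mul_assoc, ← pow_succ, Nat.sub_add_cancel (by omega), k4]; simp)
    exact ⟨g, ζ, k2, k3, hg⟩
  obtain ⟨ζ, hζ⟩ := exists_prim hd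
  have h0 := hζ.ne_zero hr.out.ne_zero
  have h1 := hζ.ne_one hr.out.one_lt
  obtain ⟨s, hs⟩ : r ∣ finrank F V := dvd_of_one_le_padicValNat (hv ▸ one_le_padicValNat_of_dvd
    (by have := Fintype.one_lt_card (α := F); omega) hd)
  have h2 : finrank F V = r → padicValNat r (qq - 1) = 1 := fun k => by rw [← hv, k, padicValNat_self]
  refine (?_ : ∃ g : End F V, LinearMap.det g = 1 ∧ PE r g ∧ Asy g ζ).elim fun g hg => ⟨g, ζ, h1, hζ.pow_eq_one, hg⟩
  by_cases h3 : r = 3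
  · subst h3
    exact asy_of (a := finrank F V - 3) (b := 3) (c := 0) (γ := 0) one_ne_zero h1 zero_ne_one (by simpa using h0.symm)
      (by omega) (by omega) (by omega) (by omega) (by omega) (by omega) (one_pow _) hζ.pow_eq_one (by simp) (by simp [hζ.pow_eq_one])
  have h4 := hr.out.two_le
  have h5 : ¬ r ∣ 2 ∧ ¬ r ∣ 3 := ⟨fun k => by have := Nat.le_of_dvd two_pos k; obtain ⟨t, ht⟩ := ho; omega,
    fun k => h3 ((Nat.prime_dvd_prime_iff_eq hr.out Nat.prime_three).1 k)⟩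
  have h7 : 5 < finrank F V := by
    obtain ⟨t, ht⟩ := ho
    rcases (show s = 0 ∨ s = 1 ∨ 2 ≤ s by omega) with rfl | rfl | k
    · omega
    · omega
    · have := Nat.mul_le_mul_left r k; omega
  exact asy_of (a := finrank F V - 3) (b := 2) (c := 1) (γ := (ζ ^ 2)⁻¹) one_ne_zero h1
    (fun k => h5.1 (hζ.dvd_of_pow_eq_one 2 (inv_eq_one.1 k))) (fun k => h5.2 (hζ.dvd_of_pow_eq_one 3 (by
      rw [pow_succ, ← mul_inv_cancel₀ (pow_ne_zero 2 h0), k, one_mul]))) (by omega) (by omega) (by omega) (by omega)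
    (by omega) (by omega) (one_pow _) hζ.pow_eq_one (fun _ => by rw [inv_pow, ← pow_mul, mul_comm, pow_mul, hζ.pow_eq_one]; simp)
    (by simp [h0])

theorem exc_split (ho : Odd r) {ζ : F} (hζ : IsPrimitiveRoot ζ r) (hn : finrank F V = r) (hv : padicValNat r (qq - 1) = 1)
    (h1 : LinearMap.det g = 1) (h2 : PE r g) : ∃ (w : F) (y : End F V) (M : Multiset (ZMod r)), w ≠ 0 ∧ g = w • y ∧ y ^ r = 1 ∧
      PE r y ∧ Dg y (M.map (AddChar.zmodChar r hζ.pow_eq_one)) ∧ M.card = r ∧ M.sum = 0 := by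
  haveI := h2.nontrivial
  have hd := dvd_of_one_le_padicValNat hv.ge
  obtain ⟨w, y, k1, rfl, k2, k3⟩ | ⟨z, k1, k2⟩ := h2.cases hr.out.ne_zero (h1 ▸ one_ne_zero)
  swap
  · exact absurd ⟨by rw [hn, hv, padicValNat_self], fun k => absurd (k ▸ ho) (by decide)⟩
      ((exists_nonsplit_iff hd).1 ⟨g, z, h1, k1, k2⟩)
  obtain ⟨N, hN⟩ := exists_dg hr.out hζ k2
  haveI : CanLift F (ZMod r) (AddChar.zmodChar r hζ.pow_eq_one) (· ^ r = 1) := ⟨fun x hx => by
    obtain ⟨i, -, rfl⟩ := hζ.eq_pow_of_pow_eq_one hx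
    exact ⟨i, AddChar.zmodChar_apply' _ i⟩⟩
  lift N to Multiset (ZMod r) using hN.pow_iff.1 (k2.trans (one_smul _ _).symm) with M
  refine ⟨w, y, M, k1, rfl, k2, k3, hN, by simpa [hn] using hN.card, ?_⟩
  have k4 : (M.map (AddChar.zmodChar r hζ.pow_eq_one)).prod = ζ ^ M.sum.val := by
    rw [← AddChar.zmodChar_apply hζ.pow_eq_one]
    clear hN
    induction M using Multiset.induction_on with
    | empty => simp
    | cons a M ih => simp [ih, AddChar.map_add_eq_mul]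
  rw [LinearMap.det_smul, hN.det, k4, hn] at h1
  have k5 : w ^ (r * r) = 1 := by
    rw [pow_mul, eq_inv_of_mul_eq_one_left h1, inv_pow, ← pow_mul, mul_comm, pow_mul, hζ.pow_eq_one]; simp
  have k6 : w ^ r = 1 := by
    obtain ⟨i, hi, k⟩ := (Nat.dvd_prime_pow hr.out).1 (sq r ▸ orderOf_dvd_of_pow_eq_one k5)
    have : i ≤ 1 := hv ▸ (padicValNat_dvd_iff_le (by have := Fintype.one_lt_card (α := F); omega)).1
      (k ▸ orderOf_dvd_of_pow_eq_one (FiniteField.pow_card_sub_one_eq_one w k1))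
    rw [← orderOf_dvd_iff_pow_eq_one, k]
    exact (pow_dvd_pow r this).trans (pow_one r).dvd
  rw [k6, one_mul, hζ.pow_eq_one_iff_dvd] at h1
  exact (ZMod.val_eq_zero _).1 (Nat.eq_zero_of_dvd_of_lt h1 (ZMod.val_lt _))

theorem exc_sym (h35 : r = 3 ∨ r = 5) (hn : finrank F V = r) (hv : padicValNat r (qq - 1) = 1) (h1 : LinearMap.det g = 1)
    (h2 : PE r g) : ∃ (w : F) (y : End F V) (N : Multiset F), w ≠ 0 ∧ g = w • y ∧ y ^ r = 1 ∧ Dg y N ∧ 1 ∈ N ∧ N.map (·⁻¹) = N := by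
  obtain ⟨ζ, hζ⟩ := exists_prim (dvd_of_one_le_padicValNat hv.ge)
  obtain ⟨w, y, M, k1, rfl, k2, -, k3, k4, k5⟩ := exc_split (by rcases h35 with rfl | rfl <;> decide) hζ hn hv h1 h2
  obtain ⟨t, k6, k7⟩ := sym_exc h35 k4 k5
  set χ := AddChar.zmodChar r hζ.pow_eq_one
  have k8 : χ t ^ r = 1 := by rw [← AddChar.map_nsmul_eq_pow]; simp
  have k9 : χ t ≠ 0 := fun k => by simp [k, hr.out.ne_zero] at k8
  refine ⟨w / χ t, χ t • y, (M.map (· + t)).map χ, div_ne_zero k1 k9, by rw [smul_smul, div_mul_cancel₀ _ k9],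
    by rw [_root_.smul_pow, k8, k2, one_smul], by simpa [AddChar.map_add_eq_mul] using k3.smul hr.out hζ k2 k8,
    Multiset.mem_map.2 ⟨0, k6, by simp⟩, ?_⟩
  conv_rhs => rw [← k7]
  simp only [Multiset.map_map, Function.comp_def, AddChar.map_neg_eq_inv]

end

section gl
open Matrix Cfsg.Geo
variable {ι : Type} [Fintype ι] [DecidableEq ι] {F : Type*} [Field F] {H S : Subgroup (GL ι F)} {g : End F (ι → F)} {r : ℕ}

/-- conjugate in the general linear group into `H` -/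
def GC (H : Subgroup (GL ι F)) (g : End F (ι → F)) : Prop := ∃ x ∈ H, Iso g (toLin' x.1)

/-- conjugate in the special linear group into `H` -/
def SC (H : Subgroup (GL ι F)) (g : End F (ι → F)) : Prop :=
  ∃ x s : GL ι F, toLin' x.1 = g ∧ s ∈ specialLinear ι F ∧ s⁻¹ * x * s ∈ H

theorem sc_gl {x : GL ι F} : (∃ s ∈ specialLinear ι F, s⁻¹ * x * s ∈ H) ↔ SC H (toLin' x.1) :=
  ⟨fun ⟨s, h⟩ => ⟨x, s, rfl, h⟩, fun ⟨_, s, h, k⟩ => ⟨s, Units.ext (toLin'.injective h) ▸ k⟩⟩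

theorem sc_sl {x : SpecialLinearGroup ι F} :
    (∃ P : SpecialLinearGroup ι F, P⁻¹ * x * P ∈ H.comap SpecialLinearGroup.toGL) ↔ SC H (toLin' x.1) := by
  refine Iff.trans ⟨fun ⟨P, h⟩ => ⟨_, H09.mem_specialLinear.2 P.2, by simpa using h⟩, fun ⟨s, h, k⟩ => ?_⟩
    (sc_gl (x := SpecialLinearGroup.toGL x))
  obtain ⟨P, rfl⟩ := exists_toGL_eq h
  exact ⟨P, by simpa using k⟩

theorem sl_iff' (P : End F (ι → F) → Prop) : (∀ x ∈ specialLinear ι F,
    (∃ c : F, ((x ^ r : GL ι F) : Matrix ι ι F) = c • (1 : Matrix ι ι F)) → (∀ c : F, (x : Matrix ι ι F) ≠ c • (1 : Matrix ι ι F)) →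
    P (toLin' x.1)) ↔ ∀ g : End F (ι → F), LinearMap.det g = 1 → PE r g → P g := by
  refine ⟨fun h g h1 h2 => ?_, fun h x h1 h2 h3 => h _ (by rw [LinearMap.det_toLin', H09.mem_specialLinear.1 h1])
    (pe_toLin'.2 ⟨h2, h3⟩)⟩
  obtain ⟨A, rfl⟩ := toLin'.surjective g
  rw [LinearMap.det_toLin'] at h1
  exact h (SpecialLinearGroup.toGL ⟨A, h1⟩) (H09.mem_specialLinear.2 h1) (pe_toLin'.1 h2).1 (pe_toLin'.1 h2).2

theorem SC.gc (h : SC H g) : GC H g := by
  obtain ⟨x, s, rfl, -, h⟩ := h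
  exact ⟨_, h, (isConj_iff_iso _ _).1 ((isConj_GL_iff _ _).1 (isConj_iff.2 ⟨s⁻¹, by simp⟩))⟩

theorem GC.sc (h : GC H g) (hD : ∀ c : F, c ≠ 0 → ∃ B : Matrix ι ι F, ∃ k ∈ H, Commute (toLin' B) g ∧ B.det * k.1.det = c) :
    SC H g := by
  obtain ⟨A, rfl⟩ := toLin'.surjective g
  obtain ⟨x, h1, h2⟩ := h
  obtain ⟨P, hP⟩ := (isConj_iff_GL _ _).1 ((isConj_iff_iso _ _).2 h2)
  obtain ⟨B, k, h3, h4, h5⟩ := hD _ (GeneralLinearGroup.det_ne_zero P)
  obtain ⟨b, rfl⟩ := (isUnit_iff_isUnit_det B).2 (left_ne_zero_of_mul (h5 ▸ GeneralLinearGroup.det_ne_zero P)).isUnit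
  have h6 : (P⁻¹ * x * P).1 = A := by simp [← hP, mul_assoc]
  have h7 : Commute b (P⁻¹ * x * P) := Units.ext (toLin'.injective (by simpa only [Units.val_mul b, Units.val_mul _ b, h6, toLin'_mul, End.mul_eq_comp] using h4.eq))
  refine ⟨P⁻¹ * x * P, b * P⁻¹ * k, by rw [h6], H09.mem_specialLinear.2 ?_, ?_⟩
  · rw [Units.val_mul, Units.val_mul, det_mul, det_mul, mul_right_comm, h5, ← det_mul, Units.mul_inv, det_one]
  · rw [show (b * P⁻¹ * k)⁻¹ * (P⁻¹ * x * P) * (b * P⁻¹ * k) = k⁻¹ * (P * (b⁻¹ * ((P⁻¹ * x * P) * b)) * P⁻¹) * k by group,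
      ← h7.eq]
    simpa [mul_assoc] using H.mul_mem (H.mul_mem (H.inv_mem h3) h1) h3

theorem GC.iso {g' : End F (ι → F)} (h : GC H g) (h' : Iso g' g) : GC H g' := h.imp fun _ k => ⟨k.1, h'.trans k.2⟩

theorem GC.smul (hH : scalars ι F ≤ H) (c : F) (g : End F (ι → F)) (hc : c ≠ 0) (h : GC H g) : GC H (c • g) := by
  obtain ⟨x, h1, h2⟩ := h
  refine ⟨_, H.mul_mem (hH ⟨Units.mk0 c hc, rfl⟩) h1, (iso_smul h2 c).trans ?_⟩
  convert Iso.refl _
  rw [← map_smul]
  congr 1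
  simp [smul_eq_diagonal_mul]

theorem SC.smul (hH : scalars ι F ≤ H) (c : F) (g : End F (ι → F)) (hc : c ≠ 0) (h : SC H g) : SC H (c • g) := by
  obtain ⟨x, s, rfl, h1, h2⟩ := h
  let u : GL ι F := Units.map (Matrix.scalar ι : F →+* Matrix ι ι F).toMonoidHom (Units.mk0 c hc)
  refine ⟨u * x, s, by rw [← map_smul]; congr 1; simp [u, smul_eq_diagonal_mul], h1, ?_⟩
  rw [show s⁻¹ * (u * x) * s = s⁻¹ * u * s * (s⁻¹ * x * s) by group]
  exact H.mul_mem (hH ((inferInstance : (scalars ι F).Normal).conj_mem' _ ⟨_, rfl⟩ s)) h2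

variable [Fintype F] [hr : Fact r.Prime]

local notation "qq" => Fintype.card F

theorem ds_ss [Nonempty ι] (h0 : (r : F) ≠ 0) {z : F} (hz : z ≠ 0) (h : g ^ r = z • 1) (c : F) :
    ∃ B : Matrix ι ι F, Commute (toLin' B) g ∧ B.det = c := by
  obtain ⟨A, rfl⟩ := toLin'.surjective g
  obtain ⟨p, _⟩ := CharP.exists F
  haveI := Fact.mk (CharP.char_is_prime F p)
  obtain ⟨f, hf⟩ := typ_nonempty A
  obtain ⟨B, k1, k2⟩ := exists_commute_det_irred hf (irred_of_pow_eq_one p (m := r * (qq ^ 1 - 1)) (Nat.Coprime.mul_left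
    ((Nat.coprime_primes hr.out Fact.out).2 (by rintro rfl; exact h0 (CharP.cast_eq_zero F r)))
    (coprime_card_pow_sub_one p one_pos)) (toLin'.injective (by
      rw [toLin'_pow, pow_mul, h, _root_.smul_pow, pow_one, FiniteField.pow_card_sub_one_eq_one z hz, toLin'_one]; simp; rfl)) f hf) c
  exact ⟨B, by rw [Commute, SemiconjBy, End.mul_eq_comp, End.mul_eq_comp, ← toLin'_mul, ← toLin'_mul, k1.eq], k2⟩

omit [Fintype F] hr in
theorem ds_part {μ : Multiset ℕ} (h0 : ∀ e ∈ μ, 0 < e) (h : HasTyp g (utyp F μ)) {e : ℕ} (he : e ∈ μ) (c : F) :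
    ∃ B : Matrix ι ι F, Commute (toLin' B) g ∧ B.det = c ^ e := by
  obtain ⟨A, rfl⟩ := toLin'.surjective g
  obtain ⟨B, k1, k2⟩ := exists_commute_det_pow (typ_eq_of_hasTyp (isTyp_utyp h0) h ▸ mem_utyp.2 he) c
  exact ⟨B, by rw [Commute, SemiconjBy, End.mul_eq_comp, End.mul_eq_comp, ← toLin'_mul, ← toLin'_mul, k1.eq],
    by rwa [natDegree_X_sub_one_pow] at k2⟩

theorem sc_iff (h : (r : F) ≠ 0 ∨ r = 2) :
    (∀ g, LinearMap.det g = 1 → PE r g → SC H g) ↔ ∀ g, LinearMap.det g = 1 → PE r g → GC H g := by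
  refine ⟨fun k g h1 h2 => (k g h1 h2).gc, fun k g h1 h2 => (k g h1 h2).sc fun c _ => ?_⟩
  haveI := h2.nontrivial
  haveI : Nonempty ι := by
    by_contra! k
    exact not_subsingleton (ι → F) inferInstance
  refine (?_ : ∃ B : Matrix ι ι F, Commute (toLin' B) g ∧ B.det = c).imp fun B k => ⟨1, H.one_mem, by simpa using k⟩
  by_cases h0 : (r : F) = 0
  · obtain rfl := h.resolve_left (not_not.2 h0)
    haveI : CharP F 2 := (CharP.charP_iff_prime_eq_zero Nat.prime_two).2 h0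
    have h3 : ¬ 2 ∣ qq - 1 := by simpa using not_dvd_pow_sub_one (F := F) (p := 2) one_pos
    obtain ⟨w, y, -, rfl, k1, -⟩ | ⟨z, k1, -⟩ := h2.cases two_ne_zero (h1 ▸ one_ne_zero)
    · obtain ⟨μ, k2, k3⟩ := exists_utyp' (pow_char_iff.1 k1)
      obtain ⟨e, he⟩ := Multiset.exists_mem_of_ne_zero (s := μ) (by
        rintro rfl; exact finrank_pos.ne (HasTyp.sum_utyp k3))
      obtain ⟨d, rfl⟩ : ∃ d, d ^ e = c := by
        obtain rfl | rfl : e = 1 ∨ e = 2 := by have := k2 e he; omega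
        exacts [⟨c, pow_one c⟩, exists_root h3 c]
      exact (ds_part (fun e he => (k2 e he).1) k3 he d).imp fun B k => ⟨k.1.smul_right w, k.2⟩
    · exact (exists_root h3 z).elim fun w hw => absurd hw (k1 w)
  · obtain ⟨z, hz⟩ := h2.1
    refine ds_ss h0 (fun k => ?_) hz c
    have := congrArg LinearMap.det hz
    rw [map_pow, h1, k, zero_smul, LinearMap.det_zero'' (R := F) (M := ι → F)] at this
    simp at this

omit [Fintype F] hr in
theorem index_comap_sl : (H.comap (SpecialLinearGroup.toGL : SpecialLinearGroup ι F →* GL ι F)).index =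
    H.relIndex (specialLinear ι F) := by
  rw [Subgroup.index_comap]
  congr 1
  ext x
  exact ⟨by rintro ⟨s, rfl⟩; exact H09.mem_specialLinear.2 s.2, exists_toGL_eq⟩

omit hr in
theorem idx_dvd [Nonempty ι] (h : r ∣ H.relIndex (specialLinear ι F)) (h1 : S ≤ H) (h2 : S ≤ specialLinear ι F) :
    r * Nat.card S * (qq - 1) ∣ (∏ i ∈ Finset.range (Fintype.card ι), (qq ^ (i + 1) - 1)) *
      qq ^ ∑ i ∈ Finset.range (Fintype.card ι), i := by
  rw [← prod_gl, ← H09.card_GL, ← H09.card_SL_mul, Nat.card_congr (H09.slEquivKerDet (ι := ι) (R := F)).toEquiv, mul_comm (qq - 1)]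
  refine Nat.mul_dvd_mul_right ?_ _
  refine (Nat.mul_dvd_mul h ?_).trans (H.subgroupOf (specialLinear ι F)).index_mul_card.dvd
  rw [← Nat.card_congr (Subgroup.subgroupOfEquivOfLe h2).toEquiv]
  exact Subgroup.card_dvd_of_le (Subgroup.comap_mono h1)

end gl

end H28.El
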