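import Mathlib
import Cfsg.Agent.H10.Sim
import Cfsg.Agent.H16.Eo5
import Cfsg.Agent.H28.El24

/-!
# Elements conjugate to similarities of a form (namespace `H28.El`)
-/

set_option autoImplicit false

open Module Polynomial H24.Sim H10 H10.Form

namespace H28.El

theorem dvd_cancel {r A B C : ℕ} (h : r * (A * B) ∣ B * C) (hB : B ≠ 0) : r ∣ C :=
  Nat.dvd_of_mul_dvd_mul_left (Nat.pos_of_ne_zero hB) ((Dvd.intro A (by ring)).trans h)

theorem dvd_cancel' {r A a b E O K : ℕ} (h : r * (A * a * E) ∣ 2 * (E * (a * b) * O * K)) (ha : a ≠ 0) (hE : E ≠ 0) :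
    r ∣ 2 * (O * K) * b := dvd_cancel (A := A) (by convert h using 1 <;> ring) (mul_ne_zero ha hE)

theorem ord_dvd_iff {r q k : ℕ} (hq : 0 < q) : orderOf (q : ZMod r) ∣ k ↔ r ∣ q ^ k - 1 := by
  rw [orderOf_dvd_iff_pow_eq_one, ← Nat.modEq_iff_dvd' (Nat.one_le_pow _ _ hq), ← ZMod.natCast_eq_natCast_iff, eq_comm]
  simp

section
variable {F V : Type*} [Field F] [AddCommGroup V] [Module F V] {φ : Form F V} {U W : Submodule F V} {g x y : End F V}
  {c z : F} {r : ℕ}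

variable (φ) in
/-- similarity with multiplier `c` -/
def Sm (g : End F V) (c : F) : Prop := ∀ u v, φ.B (g u) (g v) = c * φ.B u v

variable (φ) in
/-- linearly conjugate to a similarity -/
def GS (g : End F V) : Prop := ∃ y c, Iso g y ∧ c ≠ 0 ∧ Sm φ y c

theorem Sm.pow (h : Sm φ g c) (k : ℕ) : Sm φ (g ^ k) (c ^ k) := by
  induction k with
  | zero => exact fun u v => by simp
  | succ k ih => exact fun u v => by rw [pow_succ', End.mul_apply, End.mul_apply, h, ih]; ring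

theorem GS.smul (c : F) (g : End F V) (hc : c ≠ 0) (h : GS φ g) : GS φ (c • g) := by
  obtain ⟨y, d, h1, h2, h3⟩ := h
  exact ⟨_, φ.σ c * c * d, iso_smul h1 c, by simp [hc, h2], fun u v => by simp [h3 u v]; ring⟩

theorem gs_of_isom (hx : φ.IsIsom y) (h : Iso g y) : GS φ g := ⟨y, 1, h, one_ne_zero, fun u v => by rw [hx.B, one_mul]⟩

theorem isom_alt (hA : H09.IsAltF φ) (x : End F V) (h : Sm φ x 1) : φ.IsIsom x :=
  ⟨fun u v => by rw [h, one_mul], fun u => by rw [hA.Q_eq, hA.Q_eq]⟩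

theorem isom_quad (hQ : φ.IsQuad) (h2 : (2 : F) ≠ 0) (x : End F V) (h : Sm φ x 1) : φ.IsIsom x :=
  hQ.isIsom fun u => mul_left_cancel₀ h2 (by rw [← hQ.B_self, h, one_mul, hQ.B_self])

theorem isom_herm (hH : φ.IsHerm) (x : End F V) (h : Sm φ x 1) : φ.IsIsom x := hH.isIsom fun u v => by rw [h, one_mul]

variable [φ.Nondeg]

theorem Sm.unique [Nontrivial V] (h : Sm φ g c) (h' : Sm φ g z) : c = z := by
  obtain ⟨u, hu⟩ := exists_ne (0 : V)
  obtain ⟨v, hv⟩ := φ.exists_B_ne_zero hu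
  exact mul_right_cancel₀ hv ((h u v).symm.trans (h' u v))

theorem Sm.pow_eq [Nontrivial V] (h : Sm φ g c) (hz : g ^ r = z • 1) : c ^ r = φ.σ z * z :=
  (h.pow r).unique fun u v => by simp [hz]; ring

theorem Sm.sigma [Nontrivial V] (h : Sm φ g c) : φ.σ c = c :=
  Sm.unique (fun u v => by rw [φ.symm, h, map_mul, φ.symm v u]; ring) h

theorem GS.root [Nontrivial V] (h : GS φ g) {m : ℕ} (hm : m.Coprime r) (hσ : ∀ a, φ.σ a * a = a ^ m) (hz : g ^ r = z • 1) :
    ∃ w, w ^ r = z := by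
  obtain ⟨y, c, h1, -, h2⟩ := h
  obtain ⟨w, k, -⟩ := (pow_eq_pow_iff_of_coprime hm).1 ((hσ z).symm.trans (h2.pow_eq ((iso_pow h1).1 hz)).symm)
  exact ⟨w, k.symm⟩

theorem GS.isom [Nontrivial V] (h : GS φ y) (hI : ∀ x : End F V, Sm φ x 1 → φ.IsIsom x) (hc : ∀ c : F, c ^ r = 1 → c = 1)
    (hy : y ^ r = 1) : ∃ x : End F V, Iso y x ∧ φ.IsIsom x ∧ x ^ r = 1 := by
  obtain ⟨x, c, h1, -, h2⟩ := h
  have h3 := (iso_pow_one h1).1 hy
  obtain rfl := hc c (by simpa using h2.pow_eq (h3.trans (one_smul F _).symm))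
  exact ⟨x, h1, hI x h2, h3⟩

variable [FiniteDimensional F V]

theorem Sm.ed_le (h : Sm φ g c) {a b : F} (hab : φ.σ a * b = c) (ha : a ≠ 0) : ed g a ≤ ed g b := by
  have h1 : LinearMap.range (g - b • 1) ≤ φ.perp (LinearMap.ker (g - a • 1)) := by
    rintro _ ⟨v, rfl⟩
    refine φ.mem_perp.2 fun u hu => mul_left_cancel₀ (φ.σ_eq_zero.not.2 ha) ?_
    have := h u v
    rw [show g u = a • u by simpa [sub_eq_zero] using hu, φ.B_smul_left] at this
    simp [mul_sub, this, ← hab, mul_assoc]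
  have := Submodule.finrank_mono h1
  have := φ.finrank_perp (LinearMap.ker (g - a • 1))
  have := ed_add g b
  rw [ed_eq g a]; omega

theorem Sm.ed_eq [Nontrivial V] (h : Sm φ g c) {a b : F} (hab : φ.σ a * b = c) (hc : c ≠ 0) : ed g b = ed g a :=
  le_antisymm (h.ed_le (by rw [← h.sigma, ← hab, map_mul, φ.σ_σ, mul_comm]) (right_ne_zero_of_mul (hab ▸ hc)))
    (h.ed_le hab (by rintro rfl; simp [← hab] at hc))

theorem GS.asy [Nontrivial V] (h : GS φ g) {ζ : F} (h' : Asy g ζ) (hζ : ζ ≠ 0) : φ.σ ζ * ζ = 1 := by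
  obtain ⟨y, c, h1, h2, h3⟩ := h
  obtain ⟨α, k0, k1, k2⟩ := h'
  have key : ∀ a, a ≠ 0 → (∀ b, ed g b = ed g a → b = a) → φ.σ a * a = c := fun a ha k => by
    have : φ.σ a * (c / φ.σ a) = c := mul_div_cancel₀ _ (by simpa)
    rwa [k (c / φ.σ a) (by rw [iso_ed h1, iso_ed h1, h3.ed_eq this h2])] at this
  have := (key _ (mul_ne_zero k0 hζ) k2).trans (key _ k0 k1).symm
  rw [map_mul] at this
  exact mul_left_cancel₀ (a := φ.σ α * α) (by simpa) (by linear_combination this)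

theorem exists_isom_sym [Finite F] (hK : Kd φ) (hr : r.Prime) (ho : Odd r) {ζ : F} (hζ : IsPrimitiveRoot ζ r)
    (hσ : ∀ a, a ^ r = 1 → φ.σ a = a) {N : Multiset F} (h1 : Dg y N) (hy : y ^ r = 1) (h2 : 1 ∈ N) (h3 : N.map (·⁻¹) = N) :
    GS φ y := by
  classical
  letI := linearOrderOfSTO (@WellOrderingRel F)
  haveI : NeZero r := ⟨hr.ne_zero⟩
  have hN := h1.pow_iff.1 (hy.trans (one_smul _ _).symm)
  have k1 : ∀ a, N.count a⁻¹ = N.count a := fun a => by
    conv_lhs => rw [← h3]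
    exact Multiset.count_map_eq_count' _ _ inv_injective a
  have k2 : ∀ a ∈ N, a = a⁻¹ → a = 1 := fun a ha k => (pow_eq_one_iff_of_coprime (Nat.coprime_two_right.2 ho)).1 ⟨hN a ha, by
    rw [sq, ← mul_inv_cancel₀ (show a ≠ 0 by rintro rfl; simpa [hr.ne_zero] using hN _ ha), ← k]⟩
  set A := N.filter fun a => a < a⁻¹ with hA
  have k3 : 2 * A.card + N.count 1 = finrank F V := by
    rw [← h1.card, show N.card = (A + A.map (·⁻¹) + .replicate (N.count 1) 1).card from congrArg _ (Multiset.ext.2 fun a => ?_)]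
    · simp [two_mul]
    rw [Multiset.count_add, Multiset.count_add, ← inv_inv a, Multiset.count_map_eq_count' _ _ inv_injective, inv_inv,
      Multiset.count_replicate, Multiset.count_filter, Multiset.count_filter, inv_inv, k1]
    rcases lt_trichotomy a a⁻¹ with k | k | k
    · rw [if_pos k, if_neg k.not_gt, if_neg (by rintro rfl; simp at k)]; rfl
    · rw [if_neg k.not_lt, if_neg k.not_gt]
      split_ifs with l
      · simp [l]
      · exact Multiset.count_eq_zero.2 fun ha => l (k2 a ha k).symm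
    · rw [if_pos k, if_neg k.not_gt, if_neg (by rintro rfl; simp at k)]; simp
  have := Multiset.count_pos.2 h2
  obtain ⟨Z, -, l1, l2⟩ := hK ⊤ H16.Eo.nd_top A.card (by rw [finrank_top]; omega)
  obtain ⟨H, -, l3, l4, l5⟩ := exists_hull H16.Eo.nd_top l1 le_top
  obtain ⟨s, hs⟩ := exists_dg' l2.symm
  obtain ⟨x, m1, m2, m3, m4⟩ := exists_levi l4 l1 l3 l5 hζ.neZero'.out (g := s) (k := r)
    ((hs.pow_iff.2 fun a ha => hN a (Multiset.mem_of_mem_filter ha)).trans (one_smul _ _))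
  obtain ⟨N', hN'⟩ := exists_dg hr hζ m2
  have m5 : ∀ a, a < a⁻¹ → N.count a ≤ ed x a := fun a ha => by
    rw [← Multiset.count_filter_of_pos (p := fun a => a < a⁻¹) ha, ← hs.ed]
    exact ed_le Z.injective_subtype (fun v => (m3 v).symm) a
  obtain rfl : N = N' := Multiset.eq_of_le_of_card_le (Multiset.le_iff_count.2 fun a => by
    by_cases ha : a ∈ N
    swap; · simp [ha]
    have h0 : a ≠ 0 := by rintro rfl; simpa [hr.ne_zero] using hN _ ha
    rw [← hN'.ed]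
    rcases lt_trichotomy a a⁻¹ with k | k | k
    · exact m5 a k
    · have := φ.finrank_perp H
      have := Submodule.finrank_mono (show φ.perp H ≤ fx x from fun v hv => mem_fx.2 (m4 v hv))
      rw [k2 a ha k, ed_one]; omega
    · exact (k1 a).ge.trans ((m5 _ (by simpa)).trans (Sm.ed_le (φ := φ) (c := 1) (fun u v => by rw [m1.B, one_mul])
        (by rw [map_inv₀, hσ a (hN a ha), inv_mul_cancel₀ h0]) (inv_ne_zero h0)))) (hN'.card.trans h1.card.symm).le
  exact gs_of_isom m1 (h1.iso hN')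

theorem exists_sm_sq (hσ : ∀ a, φ.σ a = a) (h : ∀ U, φ.NondegOn U → 2 ≤ finrank F U → ∃ e ∈ U, ∃ f ∈ U,
    φ.B e e * φ.B f f - φ.B e f * φ.B f e ≠ 0 ∧ φ.B f f = c * φ.B e e ∧ z * φ.B f e = c * φ.B e f ∧
    z * φ.B e f = c * φ.B f e) (hc : c * c = z * z)
    (d : ℕ) : ∀ U, φ.NondegOn U → finrank F U = 2 * d → ∃ g : End F V, Inv g U ∧ (∀ u ∈ U, g (g u) = z • u) ∧
      ∀ u ∈ U, ∀ v ∈ U, φ.B (g u) (g v) = c * φ.B u v := by
  induction d with
  | zero => exact fun U _ k => ⟨0, by simp [finrank_eq_zero_iff_of_free, Submodule.finrank_eq_zero.1 k, inv_bot]⟩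
  | succ d ih =>
    intro U hU k
    obtain ⟨e, he, f, hf, k1, k2, k3, k3'⟩ := h U hU (by omega)
    have k4 := φ.nondegOn_pair k1
    have k5 := φ.linearIndependent_pair_of_gram k1
    have k6 := finrank_inf_perp hU (pair_le he hf)
    rw [finrank_span_pair_of_li k5] at k6
    obtain ⟨g, l1, l2, l3⟩ := ih _ (rel_nd hU k4 (pair_le he hf)) (by omega)
    obtain ⟨s, hs⟩ := ((Basis.span k5).constr F ![f, z • e]).exists_extend
    have l4 : ∀ i, s (![e, f] i) = ![f, z • e] i := fun i => by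
      rw [← (Basis.span k5).constr_basis F ![f, z • e], ← hs, Basis.span_apply]; rfl
    have he' : e ∈ Submodule.span F {e, f} := Submodule.subset_span (by simp)
    have hf' : f ∈ Submodule.span F {e, f} := Submodule.subset_span (by simp)
    set t := LinearMap.ofIsCompl k4.isCompl_perp (s.domRestrict _) (g.domRestrict _)
    have l5 : ∀ (a b : F), ∀ w ∈ φ.perp (Submodule.span F {e, f}), t (a • e + b • f + w) = (b * z) • e + a • f + g w :=
      fun a b w hw => by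
        rw [map_add, map_add, map_smul, map_smul, show t e = f from (LinearMap.ofIsCompl_apply_left _ ⟨e, he'⟩).trans (l4 0),
          show t f = z • e from (LinearMap.ofIsCompl_apply_left _ ⟨f, hf'⟩).trans (l4 1),
          show t w = g w from LinearMap.ofIsCompl_apply_right _ ⟨w, hw⟩, smul_smul, add_comm (a • f)]
    have l6 : ∀ u ∈ U, ∃ (a b : F), ∃ w ∈ U ⊓ φ.perp (Submodule.span F {e, f}), u = a • e + b • f + w := fun u hu => by
      obtain ⟨v, hv, w, hw, rfl⟩ := Submodule.mem_sup.1 ((rel_sup hU k4 (pair_le he hf)).ge hu)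
      obtain ⟨a, b, rfl⟩ := Submodule.mem_span_pair.1 hv
      exact ⟨a, b, w, hw, rfl⟩
    refine ⟨t, fun u hu => ?_, fun u hu => ?_, fun u hu v hv => ?_⟩ <;> obtain ⟨a, b, w, hw, rfl⟩ := l6 u hu
    · rw [l5 a b w hw.2]
      exact add_mem (add_mem (U.smul_mem _ he) (U.smul_mem _ hf)) (l1 w hw).1
    · rw [l5 a b w hw.2, l5 _ _ _ (l1 w hw).2, l2 w hw]; module
    · obtain ⟨a', b', w', hw', rfl⟩ := l6 v hv
      have m1 := fun w hw => φ.mem_perp_pair.1 (show w ∈ φ.perp (Submodule.span F {e, f}) from hw)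
      rw [l5 a b w hw.2, l5 a' b' w' hw'.2]
      simp only [map_add, LinearMap.add_apply, φ.B_smul_left, φ.B_smul_right, hσ, l3 w hw w' hw', m1 _ hw'.2,
        m1 _ (l1 w' hw').2, φ.B_symm_zero (m1 _ hw.2).1, φ.B_symm_zero (m1 _ hw.2).2, φ.B_symm_zero (m1 _ (l1 w hw).2).1,
        φ.B_symm_zero (m1 _ (l1 w hw).2).2]
      linear_combination (a * a' - b * b' * c) * k2 + a * b' * k3 + b * a' * k3' - b * b' * φ.B e e * hc

theorem gs_sq (hσ : ∀ a, φ.σ a = a) (h : ∀ U, φ.NondegOn U → 2 ≤ finrank F U → ∃ e ∈ U, ∃ f ∈ U,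
    φ.B e e * φ.B f f - φ.B e f * φ.B f e ≠ 0 ∧ φ.B f f = c * φ.B e e ∧ z * φ.B f e = c * φ.B e f ∧
    z * φ.B e f = c * φ.B f e) (hc : c * c = z * z) (hz : ∀ w : F, w ^ 2 ≠ z) (hg : g ^ 2 = z • 1) : GS φ g := by
  obtain ⟨d, hd, -⟩ := det_nonsplit Nat.prime_two hz hg
  obtain ⟨x, -, h1, h2⟩ := exists_sm_sq hσ h hc d ⊤ H16.Eo.nd_top (by simpa)
  exact ⟨x, c, iso_nonsplit Nat.prime_two hz hg (LinearMap.ext fun v => h1 v trivial), by
    rintro rfl; exact hz 0 (by simpa [eq_comm] using hc), fun u v => h2 u trivial v trivial⟩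

theorem gs_sq_alt (hA : H09.IsAltF φ) (hz : ∀ w : F, w ^ 2 ≠ z) (hg : g ^ 2 = z • 1) : GS φ g :=
  gs_sq (c := -z) hA.σ_eq (fun U hU k => by
    obtain ⟨e, he, f, hf, k1⟩ := exists_B_ne hU (by rintro rfl; simp at k)
    refine ⟨e, he, f, hf, ?_⟩
    simp [φ.B_self_eq_zero (hA.Q_eq _), φ.symm e f, H16.Eo.eps_of_alt hA, hA.σ_eq, k1]) (by ring) hz hg

theorem gs_sq_quad [Finite F] (hQ : φ.IsQuad) (h2 : (2 : F) ≠ 0) (hz : ∀ w : F, w ^ 2 ≠ z) (hg : g ^ 2 = z • 1) : GS φ g :=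
  gs_sq (c := z) hQ.σ_eq (fun U hU k => by
    obtain ⟨e, he, k1⟩ := hQ.exists_Q_eq hU k 1
    obtain ⟨f, hf, k2⟩ := hQ.exists_Q_eq hU k z
    refine ⟨e, he, f, hf, fun k3 => hz (φ.B e f / 2) ?_, ?_⟩
    · rw [hQ.B_self, hQ.B_self, k1, k2, hQ.B_comm f e] at k3
      field_simp; linear_combination -k3
    · simp [hQ.B_self, k1, k2, hQ.B_comm f e, mul_comm]) rfl hz hg

theorem gs_neg (h2 : (2 : F) ≠ 0) (hy : y ^ 2 = 1) (hU : φ.NondegOn U) (h : finrank F U = finrank F (mv y)) : GS φ y := by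
  obtain ⟨x, k1, k2, rfl⟩ := exists_neg h2 hU
  exact gs_of_isom k1 (iso_invol hy k2 h.symm)

omit [φ.Nondeg] [FiniteDimensional F V] in
theorem aev_one (y : End F V) (k : ℕ) : aeval y ((X - 1 : F[X]) ^ k) = (y - 1) ^ k := by simp

omit [φ.Nondeg] in
theorem exists_one_block {e : ℕ} (he : 2 ≤ e) (hn : e ≤ finrank F V) : ∃ y : End F V, (y - 1) ^ e = 0 ∧
    finrank F (LinearMap.range ((y - 1) ^ (e - 1))) = 1 := by
  obtain ⟨y, hy⟩ := exists_of_utyp' (F := F) (V := V) (μ := e ::ₘ .replicate (finrank F V - e) 1) (by simp [hn])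
  refine ⟨y, (pow_iff_utyp hy e).2 (by simp [Multiset.mem_replicate]; omega), ?_⟩
  have h1 := hy.kd utyp_ne_zero ((X - 1) ^ (e - 1))
  have h2 := LinearMap.finrank_range_add_finrank_ker ((y - 1) ^ (e - 1))
  rw [kd, aev_one] at h1
  simp only [utyp, Multiset.map_cons, Multiset.map_replicate, kd1_pow_pow,
    natDegree_X_sub_one, Multiset.sum_cons, Multiset.sum_replicate, smul_eq_mul] at h1
  rw [h1, min_eq_right (by omega), min_eq_left (by omega)] at h2
  omega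

theorem not_gs_unip [Fintype F] {p e : ℕ} [hp : Fact p.Prime] [CharP F p] (h2 : (2 : F) ≠ 0) (hI : ∀ x : End F V, Sm φ x 1 → φ.IsIsom x)
    (he : 2 ≤ e) (hn : e ≤ finrank F V) (hep : e ≤ p) (hb : H16.Eo.Bad φ e) :
    ¬ ∀ g, LinearMap.det g = 1 → PE p g → GS φ g := fun h => by
  haveI : Nontrivial V := nontrivial_of_finrank_pos (R := F) (by omega)
  have hd : ¬ p ∣ Fintype.card F - 1 := by simpa using not_dvd_pow_sub_one (F := F) (p := p) one_pos
  obtain ⟨y, k1, k2⟩ := exists_one_block he hn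
  have k3 := pow_char_iff.2 (pow_eq_zero_of_le hep k1)
  obtain ⟨x, l1, l2, l3⟩ := ((lin_two hd GS.smul).1 h y k3 (by
    rintro rfl; rw [sub_self, zero_pow (by omega), LinearMap.range_zero, finrank_bot] at k2; omega)).isom hI (fun _ => eq_one_of_pow_eq_one hd) k3
  obtain ⟨μ, l4, l5⟩ := H16.Eo.exists_jt (g := φ.toIsom x) (fun _ => h2) (by rwa [φ.toIsom_coe l2])
  have l6 : ∀ k, H16.Eo.rk μ k = finrank F (LinearMap.range ((y - 1) ^ k)) := fun k => by
    have := (l1.aeval ((X - 1) ^ k)).finrank_ker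
    rw [aev_one, aev_one] at this
    have := LinearMap.finrank_range_add_finrank_ker ((y - 1) ^ k)
    have := LinearMap.finrank_range_add_finrank_ker ((x - 1) ^ k)
    rw [← l4.2, H24.Wall.N, φ.toIsom_coe l2, Submodule.map_top, ← End.one_eq_id]
    omega
  have l7 := H16.Eo.rk_count μ (e - 1)
  rw [l6, l6, l6, k2, Nat.sub_add_cancel (by omega), k1, pow_eq_zero_of_le (by omega) k1] at l7
  rw [LinearMap.range_zero, finrank_bot] at l7
  obtain ⟨t, ht⟩ := l5 e hb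
  omega

variable [Fintype F] [hr : Fact r.Prime]

local notation "bb" => orderOf ((Fintype.card F : ℕ) : ZMod r)
local notation "qq" => Fintype.card F

theorem sim_one (hK : Kd φ) (ho : Odd r) (hd : r ∣ qq - 1) (hn : 3 ≤ finrank F V) (h6 : ¬ (finrank F V = 6 ∧ r = 3))
    {m : ℕ} (hm : m.Coprime r) (hσ : ∀ a, φ.σ a * a = a ^ m) (hσ' : ∀ a, a ^ r = 1 → φ.σ a = a) :
    (∀ g, LinearMap.det g = 1 → PE r g → GS φ g) ↔ (r = 3 ∨ r = 5) ∧ finrank F V = r ∧ padicValNat r (qq - 1) = 1 := by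
  haveI : Nontrivial V := nontrivial_of_finrank_pos (R := F) (by omega)
  refine ⟨fun h => ?_, fun ⟨h1, h2, h3⟩ g k1 k2 => ?_⟩
  · by_contra hex
    by_cases hv : padicValNat r (finrank F V) ≤ padicValNat r (qq - 1)
    · obtain ⟨g, ζ, k1, k2, k3, k4, k5⟩ := exists_asy ho hd hn hv h6 hex
      exact k1 ((pow_eq_one_iff_of_coprime hm).1 ⟨(hσ ζ).symm.trans
        ((h g k3 k4).asy k5 (by rintro rfl; simp [hr.out.ne_zero] at k2)), k2⟩)
    · obtain ⟨g, z, k1, k2, k3⟩ := (exists_nonsplit_iff (V := V) hd).2 fun k => hv k.1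
      obtain ⟨w, hw⟩ := (h g k1 (pe_of_nonsplit k2 k3)).root hm hσ k3
      exact k2 w hw
  · obtain ⟨w, y, N, l1, rfl, l2, l3, l4, l5⟩ := exc_sym h1 h2 h3 k1 k2
    obtain ⟨ζ, hζ⟩ := exists_prim hd
    exact (exists_isom_sym hK hr.out ho hζ hσ' l3 l2 l4 l5).smul _ _ l1

theorem not_gs (h0 : (r : F) ≠ 0) (hd : ¬ r ∣ qq - 1) (hI : ∀ x : End F V, Sm φ x 1 → φ.IsIsom x) {s : ℕ} (hs : 0 < s)
    (hn : s * bb ≤ finrank F V) (h : ∀ x : End F V, φ.IsIsom x → x ^ r = 1 → finrank F (mv x) ≠ s * bb) :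
    ¬ ∀ g, LinearMap.det g = 1 → PE r g → GS φ g := fun H => by
  have := Nat.mul_pos hs (ord_pos h0)
  haveI : Nontrivial V := nontrivial_of_finrank_pos (R := F) (by omega)
  obtain ⟨y, -, k1, k2, -⟩ := exists_ord h0 hn
  obtain ⟨x, l1, l2, l3⟩ := ((lin_two hd GS.smul).1 H y k1 (by
    rintro rfl; rw [mv_one, finrank_bot] at k2; omega)).isom hI (fun _ => eq_one_of_pow_eq_one hd) k1
  exact h x l2 l3 ((iso_mv l1).symm.trans k2)

theorem not_gs_odd {t c : ℕ} (hP : Par φ r t c) (hc : c = 2 * bb) (h0 : (r : F) ≠ 0) (ho : Odd r) (hd : ¬ r ∣ qq - 1)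
    (hI : ∀ x : End F V, Sm φ x 1 → φ.IsIsom x) (hn : bb ≤ finrank F V) : ¬ ∀ g, LinearMap.det g = 1 → PE r g → GS φ g :=
  not_gs h0 hd hI one_pos (by simpa) fun x h1 h2 h3 => by
    have := Nat.le_of_dvd (by have := ord_pos h0; omega) ((hP.nb h0 ho h1 h2).dvd h1 (hP.pos h0) le_rfl inv_mv
      (nd_mv h1 (H24.Adj.semisimple_of_pow h0 h2)))
    have := ord_pos h0
    omega

omit [FiniteDimensional F V] [φ.Nondeg] in
theorem odd_ord (h0 : (r : F) ≠ 0) {d k : ℕ} (ho : Odd r) (h : r ∣ 2 * ((∏ i ∈ Finset.range d, (qq ^ (2 * i + 1) - 1)) * qq ^ k)) :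
    cc F r = 2 * bb ∧ bb < 2 * d := by
  obtain ⟨i, hi, h1⟩ := (hr.out.prime.dvd_finset_prod_iff _).1 (dvd_of_dvd_mul_pow hr.out h0
    ((Nat.coprime_two_right.2 ho).dvd_of_dvd_mul_left h))
  have h2 := (ord_dvd_iff Fintype.card_pos).2 h1
  have := Nat.le_of_dvd (Nat.succ_pos _) h2
  rw [Finset.mem_range] at hi
  exact ⟨if_neg (Nat.not_even_iff_odd.2 (Odd.of_dvd_nat ⟨i, rfl⟩ h2)), by omega⟩

omit hr [Fintype F] in
theorem isom_dvd (hσ : ∀ a, φ.σ a = a) : Nat.card φ.Isom ∣ 2 * Nat.card φ.SIsom := by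
  rw [← φ.SIsom.index_mul_card, SIsom, Subgroup.index_ker]
  refine Nat.mul_dvd_mul_right ((Subgroup.card_dvd_of_le (K := Subgroup.zpowers (-1)) ?_).trans ?_) _
  · rintro _ ⟨g, rfl⟩
    have := φ.σ_det_mul_det g
    rw [hσ, mul_self_eq_one_iff] at this
    rcases this with k | k
    · exact (Units.val_eq_one.1 k).symm ▸ one_mem _
    · exact (Units.ext k : φ.det g = -1) ▸ Subgroup.mem_zpowers _
  · rw [Nat.card_zpowers]; exact orderOf_dvd_of_pow_eq_one (by simp)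

variable {p k : ℕ} [hp : Fact p.Prime] [CharP F p]

local notation "PP" => ∏ i ∈ Finset.range (finrank F V), (qq ^ (i + 1) - 1)

omit hr hp in
theorem pp_ne (f : ℕ → ℕ) (d : ℕ) : ∏ i ∈ Finset.range d, (qq ^ (f i + 1) - 1) ≠ 0 :=
  Finset.prod_ne_zero_iff.2 fun _ _ => Nat.sub_ne_zero_of_lt (one_lt_pow₀ Fintype.one_lt_card (Nat.succ_ne_zero _))

theorem pp_even (q d : ℕ) : ∏ i ∈ Finset.range (2 * d), (q ^ (i + 1) - 1) =
    (∏ i ∈ Finset.range d, (q ^ (2 * (i + 1)) - 1)) * ∏ i ∈ Finset.range d, (q ^ (2 * i + 1) - 1) :=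
  (prod_two_mul _ d).trans (mul_comm _ _)

omit hr in
theorem sim_alt_two (hA : H09.IsAltF φ) (hn : 4 ≤ finrank F V) :
    (∀ g, LinearMap.det g = 1 → PE 2 g → GS φ g) ↔ padicValNat 2 (qq - 1) ≤ padicValNat 2 (finrank F V) := by
  haveI : Nontrivial V := nontrivial_of_finrank_pos (R := F) (by omega)
  obtain ⟨d, hd⟩ := even_of_alt hA H16.Eo.nd_top
  rw [finrank_top, ← two_mul] at hd
  by_cases h2 : (2 : F) = 0
  · haveI : CharP F 2 := (CharP.charP_iff_prime_eq_zero Nat.prime_two).2 h2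
    have h3 : ¬ 2 ∣ qq - 1 := by simpa using not_dvd_pow_sub_one (F := F) (p := 2) one_pos
    refine iff_of_true ((lin_two h3 GS.smul).2 fun y k1 k2 => ?_) (by simp [padicValNat.eq_zero_of_not_dvd h3])
    have := finrank_fx_add (g := y)
    have := Submodule.finrank_mono (mv_le_fx h2 k1)
    have := Submodule.finrank_eq_zero.not.2 (mv_ne_bot k2)
    obtain ⟨x, l1, l2, -⟩ := H24.Wall.exists_nonalt_altF hA hd (k := finrank F (mv y) - 1) (by omega)
    exact gs_of_isom x.2 (iso_invol k1 ((mul_self_iff' x).1 l1) (Eq.trans (by omega) l2.symm))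
  have h3 : (∃ w : F, w ^ finrank F V = -1) ↔ ¬ padicValNat 2 (qq - 1) ≤ padicValNat 2 (finrank F V) := by
    refine ⟨fun ⟨w, hw⟩ k => ?_, fun k => ?_⟩
    · have k1 : w ≠ 0 := by rintro rfl; rw [zero_pow (by omega)] at hw; simp at hw
      have := Fintype.one_lt_card (α := F)
      refine pow_succ_padicValNat_not_dvd (p := 2) (n := qq - 1) (by omega) ((pow_dvd_pow 2 (by omega)).trans
        ((two_pow_dvd (n := finrank F V) (by omega) (orderOf_dvd_of_pow_eq_one ?_) fun k => h2 ?_).trans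
        (orderOf_dvd_of_pow_eq_one (FiniteField.pow_card_sub_one_eq_one w k1))))
      · rw [pow_mul', hw]; simp
      · linear_combination (orderOf_dvd_iff_pow_eq_one.1 k).symm.trans hw
    · obtain ⟨w, ζ, -, k1, k2, k3⟩ := exists_root_pow (F := F) (r := 2) (n := finrank F V) (by omega) (not_le.1 k)
      obtain rfl := (mul_self_eq_one_iff.1 (sq ζ ▸ k2)).resolve_left k1
      exact ⟨w, by linear_combination -k3⟩
  refine ⟨fun h => by_contra fun k => ?_, fun h g k1 k2 => ?_⟩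
  · obtain ⟨w, hw⟩ := h3.2 k
    have k1 : w ≠ 0 := by rintro rfl; rw [zero_pow (by omega)] at hw; simp at hw
    obtain ⟨y, k2⟩ := exists_dg' (V := V) (N := -1 ::ₘ .replicate (finrank F V - 1) (1 : F)) (by simp; omega)
    have k3 : (-1 : F) ≠ 1 := fun k => h2 (by linear_combination -k)
    have k4 : y ^ 2 = (1 : F) • 1 := k2.pow_iff.2 (by simp [Multiset.mem_replicate])
    obtain ⟨x, c, l1, l2, l3⟩ := (h (w • y) (by simp [k2.det, hw]) ((k2.pe (k2.pow_iff.1 k4) (Multiset.mem_cons_self _ _)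
      (by simp [Multiset.mem_replicate]; omega) k3).smul k1)).smul w⁻¹ _ (inv_ne_zero k1)
    rw [inv_smul_smul₀ k1] at l1
    have l4 := l3.pow_eq ((iso_pow l1).1 k4)
    classical
    have l5 : ed x 1 = finrank F V - 1 := by simp [← iso_ed l1, k2.ed, k3.symm]
    rcases mul_self_eq_one_iff.1 (sq c ▸ l4.trans (by simp)) with rfl | rfl
    · have l6 := isom_alt hA x l3
      obtain ⟨t, ht⟩ := even_of_alt hA (nd_fx l6 (H24.Adj.semisimple_of_pow h2 (((iso_pow l1).1 k4).trans (one_smul _ _))))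
      rw [← ed_one] at ht; omega
    · have := l3.ed_le (a := 1) (b := -1) (by simp) one_ne_zero
      rw [l5, ← iso_ed l1, k2.ed] at this
      simp [Multiset.count_replicate, k3.symm] at this; omega
  · obtain ⟨w, y, l1, rfl, l2, -⟩ | ⟨z, l1, l2⟩ := k2.cases two_ne_zero (k1 ▸ one_ne_zero)
    · obtain ⟨t, ht⟩ : Even (finrank F (mv y)) := by_contra fun k => h3.1 ⟨w, by
        rw [LinearMap.det_smul, det_invol l2, (Nat.not_even_iff_odd.1 k).neg_one_pow] at k1; linear_combination -k1⟩ h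
      obtain ⟨U, -, l3, l4⟩ := exists_nd_alt hA H16.Eo.nd_top (k := t) (by
        rw [two_mul, ← ht]; exact Submodule.finrank_mono le_top)
      exact (gs_neg h2 l2 l3 (by omega)).smul _ _ l1
    · exact gs_sq_alt hA l1 l2

theorem sim_alt (hA : H09.IsAltF φ) (ho : Odd r) (hn : 4 ≤ finrank F V) (h6 : ¬ (finrank F V = 6 ∧ r = 3))
    (h : r * Nat.card φ.SIsom * (qq - 1) ∣ PP * qq ^ k) : ¬ ∀ g, LinearMap.det g = 1 → PE r g → GS φ g := by
  obtain ⟨d, hd⟩ := even_of_alt hA H16.Eo.nd_top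
  rw [finrank_top, ← two_mul] at hd
  by_cases h0 : (r : F) = 0
  · haveI : CharP F r := (CharP.charP_iff_prime_eq_zero hr.out).2 h0
    have h1 : r ≠ 2 := by rintro rfl; exact absurd ho (by decide)
    have h2 : (2 : F) ≠ 0 := natCast_ne_zero (p := r) Nat.prime_two h1.symm
    exact not_gs_unip h2 (isom_alt hA) (e := 3) (by omega) (by omega) (two_lt_of_ne h1) ((H16.Eo.bad_alt hA h2 3).2 (by decide))
  by_cases h1 : r ∣ qq - 1
  · rw [sim_one (kd_alt hA) ho h1 (by omega) h6 (Nat.coprime_two_left.2 ho) (fun a => by rw [hA.σ_eq, sq]) fun a _ => hA.σ_eq a]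
    obtain ⟨t, ht⟩ := ho
    omega
  have h2 := ((Nat.mul_dvd_mul_left r (isom_dvd hA.σ_eq)).trans (Dvd.intro (qq - 1) (by ring))).trans (Nat.mul_dvd_mul_left 2 h)
  rw [hA.card_Isom hd, hd, pp_even, Nat.card_eq_fintype_card, mul_assoc, mul_left_comm 2] at h2
  have h3 := odd_ord h0 ho (dvd_cancel h2 (pp_ne (2 * · + 1) d))
  exact not_gs_odd (par_alt h0 hA) h3.1 h0 ho h1 (isom_alt hA) (by omega)

theorem sim_quad (hQ : φ.IsQuad) (h2 : (2 : F) ≠ 0) (hn : 3 ≤ finrank F V) (h6 : ¬ (finrank F V = 6 ∧ r = 3))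
    (h : r * Nat.card φ.SIsom * (qq - 1) ∣ PP * qq ^ k) : (∀ g, LinearMap.det g = 1 → PE r g → GS φ g) ↔
      r = 2 ∨ (r = 3 ∨ r = 5) ∧ finrank F V = r ∧ padicValNat r (qq - 1) = 1 := by
  by_cases hr2 : r = 2
  · subst hr2
    refine iff_of_true (fun g k1 k2 => ?_) (.inl rfl)
    obtain ⟨w, y, l1, rfl, l2, -⟩ | ⟨z, l1, l2⟩ := k2.cases two_ne_zero (k1 ▸ one_ne_zero)
    · obtain ⟨U, -, l3, l4⟩ := nb_quad hQ h2 H16.Eo.nd_top (Submodule.finrank_mono (le_top (a := mv y)))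
      exact (gs_neg h2 l2 l3 l4).smul _ _ l1
    · exact gs_sq_quad hQ h2 l1 l2
  have ho := odd_of_ne_two hr2
  rw [or_iff_right hr2]
  by_cases h1 : r ∣ qq - 1
  · exact sim_one (kd_quad hQ) ho h1 hn h6 (Nat.coprime_two_left.2 ho) (fun a => by rw [hQ.σ_eq, sq]) fun a _ => hQ.σ_eq a
  refine iff_of_false ?_ fun k => h1 (dvd_of_one_le_padicValNat k.2.2.ge)
  by_cases h0 : (r : F) = 0
  · haveI : CharP F r := (CharP.charP_iff_prime_eq_zero hr.out).2 h0
    exact not_gs_unip h2 (isom_quad hQ h2) (e := 2) le_rfl (by omega) hr.out.two_le ((H16.Eo.bad_quad hQ h2 2).2 (by decide))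
  have h3 := ((Nat.mul_dvd_mul_left r (isom_dvd hQ.σ_eq)).trans (Dvd.intro (qq - 1) (by ring))).trans (Nat.mul_dvd_mul_left 2 h)
  have hP := par_quad h0 ho hQ
  obtain ⟨d, hd | hd⟩ : ∃ d, finrank F V = 2 * d + 1 ∨ finrank F V = 2 * d + 2 := ⟨(finrank F V - 1) / 2, by omega⟩
  · rw [hQ.card_Isom_odd hd, hd, Finset.prod_range_succ, pp_even, Nat.card_eq_fintype_card, oOdd, mul_assoc (∏ _ ∈ _, _),
      ← Finset.prod_range_succ fun i => qq ^ (2 * i + 1) - 1, mul_assoc (∏ _ ∈ _, _), mul_left_comm 2] at h3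
    have h4 := odd_ord h0 ho (dvd_cancel h3 (pp_ne (2 * · + 1) d))
    have := (tc_facts (r := r) h0).resolve_left fun k => by have := ord_pos h0; omega
    exact not_gs_odd hP h4.1 h0 ho h1 (isom_quad hQ h2) (by have := Nat.not_even_iff_odd.1 this.1; grind)
  have h4 : qq ^ (2 * (d + 1)) - 1 = (qq ^ (d + 1) - 1) * (qq ^ (d + 1) + 1) := by rw [pow_mul', mul_comm, ← Nat.sq_sub_sq, one_pow]
  have h5 := pp_ne (F := F) (2 * · + 1) d
  have h6 := Nat.sub_ne_zero_of_lt (one_lt_pow₀ (Fintype.one_lt_card (α := F)) d.succ_ne_zero)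
  have key : ∀ a, r ∣ 2 * ((∏ i ∈ Finset.range (d + 1), (qq ^ (2 * i + 1) - 1)) * qq ^ k) * a →
      (r ∣ a → Even bb → ∃ j, finrank F V = j * bb ∧ ¬ (Pl φ ⊤ ↔ Even j)) → (r ∣ a → bb ∣ 2 * (d + 1)) →
      ¬ ∀ g, LinearMap.det g = 1 → PE r g → GS φ g := fun a k1 k2 k3 => by
    rcases (tc_facts (r := r) h0) with l | l
    · obtain ⟨j, l1, l2⟩ := k2 ((hr.out.dvd_mul.1 k1).resolve_left fun k => by
        have := odd_ord h0 ho k; have := ord_pos h0; omega) l.1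
      refine not_gs h0 h1 (isom_quad hQ h2) (s := j) (Nat.pos_of_ne_zero (by rintro rfl; omega)) l1.ge fun x m1 m2 m3 => l2 ?_
      rw [← Submodule.eq_top_of_finrank_eq (m3.trans l1.symm), pl_mv h0 ho hQ m1 m2 inv_mv le_rfl
        (nd_mv m1 (H24.Adj.semisimple_of_pow h0 m2)) (m3.trans (by rw [l.2.1])), imp_iff_right l.1]
    · exact not_gs_odd hP l.2.1 h0 ho h1 (isom_quad hQ h2) ((hr.out.dvd_mul.1 k1).elim (fun k => by
        have := odd_ord h0 ho k; omega) fun k => hd ▸ Nat.le_of_dvd (by omega) (k3 k))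
  rw [hd, show 2 * d + 2 = 2 * (d + 1) from rfl, pp_even, Finset.prod_range_succ, h4] at h3
  by_cases hp : φ.HasTS (d + 1)
  · rw [hQ.card_Isom_plus hd hp, oPlus, Nat.card_eq_fintype_card, Nat.add_sub_cancel] at h3
    refine key (qq ^ (d + 1) + 1) (dvd_cancel' h3 h6 h5) (fun k _ => ?_) fun k => (even_of_dvd_add ho d.succ_pos k).1
    obtain ⟨⟨j, l1⟩, l2⟩ := even_of_dvd_add ho d.succ_pos k
    refine ⟨j, by rw [hd, mul_comm j, ← l1]; rfl, fun l => ?_⟩
    obtain ⟨t, rfl⟩ := l.1 ((pl_top hd).2 hp)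
    exact l2 ⟨t, by rw [mul_add] at l1; omega⟩
  · rw [hQ.card_Isom_minus hd hp, oMinus, Nat.card_eq_fintype_card, Nat.add_sub_cancel, mul_comm (_ - 1)] at h3
    refine key (qq ^ (d + 1) - 1) (dvd_cancel' h3 (Nat.succ_ne_zero _) h5) (fun k _ => ?_) fun k => ((ord_dvd_iff Fintype.card_pos).2 k).mul_left 2
    obtain ⟨j, l1⟩ := (ord_dvd_iff Fintype.card_pos).2 k
    exact ⟨2 * j, by rw [hd, mul_assoc, mul_comm j, ← l1]; rfl, fun l => hp ((pl_top hd).1 (l.2 (even_two_mul j)))⟩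

theorem sim_unit {q : ℕ} (hU : φ.IsUnitary q) (hn : 3 ≤ finrank F V) (h6 : ¬ (finrank F V = 6 ∧ r = 3)) (hrp : r = 2 ∨ r ≠ p)
    (h : r * Nat.card φ.SIsom * (qq - 1) ∣ PP * qq ^ k) : (∀ g, LinearMap.det g = 1 → PE r g → GS φ g) ↔
      (r = 2 ∧ (p = 2 ∨ padicValNat 2 (finrank F V) ≤ padicValNat 2 (qq - 1))) ∨
      (r = 3 ∨ r = 5) ∧ finrank F V = r ∧ padicValNat r (q - 1) = 1 := by
  haveI : Nontrivial V := nontrivial_of_finrank_pos (R := F) (by omega)
  have hq := card_F hU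
  have hq2 := hU.two_le
  by_cases hr2 : r = 2
  · subst hr2
    rw [or_iff_left (by omega), and_iff_right rfl]
    by_cases hp2 : p = 2
    · subst hp2
      have h3 : ¬ 2 ∣ qq - 1 := by simpa using not_dvd_pow_sub_one (F := F) (p := 2) one_pos
      refine iff_of_true ((lin_two h3 GS.smul).2 fun y k1 _ => ?_) (.inl rfl)
      have := finrank_fx_add (g := y)
      have := Submodule.finrank_mono (mv_le_fx (CharP.cast_eq_zero F 2) k1)
      obtain ⟨x, -, l⟩ := H16.Eo.real_unit' hU H16.Eo.nd_top (μ := .replicate (finrank F (mv y)) 2 +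
        .replicate (finrank F V - 2 * finrank F (mv y)) 1) (by simp +contextual [Multiset.mem_replicate, or_imp]) (by simp; omega)
      refine gs_of_isom x.2 (iso_invol k1 (l.pow_char.2 (by simp +contextual [Multiset.mem_replicate, or_imp])) ?_)
      have := l.2 1
      rw [pow_one, Submodule.map_top] at this
      exact Eq.trans (by simp [H16.Eo.rk]) this.symm
    have h2 : (2 : F) ≠ 0 := natCast_ne_zero (p := p) Nat.prime_two (Ne.symm hp2)
    have h3 := odd_q hU h2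
    have h4 : qq % 4 = 1 := by
      obtain ⟨t, rfl⟩ : ∃ t, q = 2 * t + 1 := ⟨q / 2, by omega⟩
      rw [hq, show (2 * t + 1) ^ 2 = 1 + 4 * (t * t + t) by ring, Nat.add_mul_mod_self_left]
    rw [lin_one (R := False) (by omega) GS.smul (fun y k1 => ?_) fun g z k1 k2 => iff_false_intro ?_]
    · simp [hp2, h4]
    · obtain ⟨U, -, l3, l4⟩ := nb_unit hU H16.Eo.nd_top (Submodule.finrank_mono (le_top (a := mv y)))
      exact gs_neg h2 k1 l3 l4
    · rintro ⟨x, c, l1, l2, l3⟩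
      obtain ⟨a, ha⟩ := hU.exists_norm l3.sigma
      have l4 := l3.pow_eq ((iso_pow l1).1 k2)
      have l5 : a ≠ 0 := by rintro rfl; simp [← ha] at l2
      obtain ⟨w, hw⟩ := sq_of_norm hU h2 (z := z / a ^ 2) ((norm_iff hU).1 (by
        rw [map_div₀, map_pow, div_mul_div_comm, ← l4, ← ha, ← mul_pow, div_self (by simp [l5])]))
      exact k1 (w * a) (by rw [mul_pow, hw, div_mul_cancel₀ _ (pow_ne_zero _ l5)])
  have ho := odd_of_ne_two hr2
  have h0 : (r : F) ≠ 0 := natCast_ne_zero hr.out (hrp.resolve_left hr2)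
  rw [or_iff_right fun k => hr2 k.1]
  have h1 : ∀ i, (q ^ 2) ^ (i + 1) - 1 = (if Even i then q ^ (i + 1) + 1 else q ^ (i + 1) - 1) *
      if Even i then q ^ (i + 1) - 1 else q ^ (i + 1) + 1 := fun i => by
    rw [← pow_mul, pow_mul', ← one_pow 2, Nat.sq_sub_sq]; split_ifs <;> simp [mul_comm]
  have h2 : q ^ 2 - 1 = (q + 1) * (q - 1) := by simpa using h1 0
  obtain ⟨i, hi, h3⟩ : ∃ i ∈ Finset.range (finrank F V), r ∣ if Even i then q ^ (i + 1) - 1 else q ^ (i + 1) + 1 := by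
    rw [← hr.out.prime.dvd_finset_prod_iff]
    refine dvd_of_dvd_mul_pow (k := k) hr.out h0 ?_
    rw [hq, h2, mul_assoc, ← mul_assoc (Nat.card _), mul_comm (Nat.card _), hU.card_SIsom, hU.card_Isom, guOrd, mul_right_comm] at h
    simp only [h1, Finset.prod_mul_distrib, mul_assoc (∏ _ ∈ _, _)] at h
    refine hq ▸ dvd_cancel h (Finset.prod_ne_zero_iff.2 fun i _ => ?_)
    have := one_lt_pow₀ (show 1 < q by omega) i.add_one_ne_zero
    split_ifs <;> omega
  rw [Finset.mem_range] at hi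
  have h4 := bb_eq (r := r) hU
  have h5 : ¬ orderOf (q : ZMod r) % 4 = 2 ∧ bb ≤ i + 1 := by
    split_ifs at h3 with he
    · have k1 := (ord_dvd_iff (by omega)).2 h3
      have k2 := Odd.of_dvd_nat he.add_one k1
      rw [if_neg (Nat.not_even_iff_odd.2 k2)] at h4
      exact ⟨by obtain ⟨t, ht⟩ := k2; omega, h4 ▸ Nat.le_of_dvd i.succ_pos k1⟩
    · obtain ⟨k1, k2⟩ := even_of_dvd_add ho i.succ_pos h3
      obtain ⟨t, ht⟩ := (Nat.not_even_iff_odd.1 he).add_one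
      have := Nat.le_of_dvd (by omega) k1
      refine ⟨fun k => k2 ?_, by split_ifs at h4 with l; · omega
                                 exact absurd ((Nat.coprime_two_right.2 (Nat.not_even_iff_odd.1 l)).dvd_of_dvd_mul_left k1) k2⟩
      obtain ⟨s, hs⟩ : ∃ s, orderOf (q : ZMod r) = 2 * (2 * s + 1) := ⟨orderOf (q : ZMod r) / 4, by omega⟩
      rw [hs] at k1 ⊢
      rw [Nat.succ_eq_add_one, ht, ← two_mul] at k1 ⊢
      exact Nat.mul_dvd_mul_left 2 ((Nat.coprime_two_right.2 ⟨s, rfl⟩).dvd_of_dvd_mul_left (Nat.dvd_of_mul_dvd_mul_left two_pos k1))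
  have h7 : ¬ r ∣ q + 1 := fun k => h5.1 (by rw [(ii_two ho).2 k])
  by_cases h8 : r ∣ qq - 1
  · have h9 : r ∣ q - 1 := (hr.out.dvd_mul.1 (h2 ▸ hq ▸ h8)).resolve_left h7
    rw [sim_one (kd_unit hU) ho h8 hn h6 ((Nat.Prime.coprime_iff_not_dvd hr.out).2 h7).symm (fun a => by rw [hU.σ_eq, pow_succ])
      fun a ha => by obtain ⟨t, ht⟩ := h9; rw [hU.σ_eq, show q = r * t + 1 by omega, pow_succ, pow_mul, ha, one_pow, one_mul],
      hq, h2, padicValNat.mul (by omega) (by omega), padicValNat.eq_zero_of_not_dvd h7, zero_add]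
  · exact iff_of_false (not_gs_odd (par_unit hU h0 ho) (if_neg h5.1) h0 ho h8 (isom_herm hU.herm) (by omega))
      fun k => h8 (hq ▸ h2 ▸ (dvd_of_one_le_padicValNat k.2.2.ge).mul_left _)

end

section gl
open Matrix Cfsg.Geo
variable {ι : Type} [Fintype ι] [DecidableEq ι] {F : Type*} [Field F] {H : Subgroup (GL ι F)} {φ : Form F (ι → F)} [φ.Nondeg]
  [Nonempty ι] {r : ℕ} (hH : ∀ g : GL ι F, g ∈ H ↔ ∃ c, ∀ x y, φ.B (g.1 *ᵥ x) (g.1 *ᵥ y) = c * φ.B x y)
include hH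

theorem gc_iff {g : End F (ι → F)} : GC H g ↔ GS φ g := by
  refine ⟨fun ⟨x, h1, h2⟩ => ?_, fun ⟨y, c, h1, h2, h3⟩ => ?_⟩
  · obtain ⟨c, hc⟩ := (hH x).1 h1
    refine ⟨_, c, h2, ?_, hc⟩
    rintro rfl
    obtain ⟨u, hu⟩ := exists_ne (0 : ι → F)
    exact hu ((glEquiv x).map_eq_zero_iff.1 (φ.eq_zero_of_B_left fun v => by
      simpa [glEquiv_apply, ← glEquiv_apply x ((glEquiv x).symm v)] using hc u ((glEquiv x).symm v)))
  · obtain ⟨A, rfl⟩ := toLin'.surjective y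
    obtain ⟨x, rfl⟩ := mulVec_injective_iff_isUnit.1 ((injective_iff_map_eq_zero (toLin' A)).2 fun u hu =>
      φ.eq_zero_of_B_left fun v => by simpa [hu, h2] using (h3 u v).symm)
    exact ⟨x, (hH x).2 ⟨c, h3⟩, h1⟩

theorem idx_sim [Fintype F] (h : r ∣ H.relIndex (specialLinear ι F)) : r * Nat.card φ.SIsom * (Fintype.card F - 1) ∣
    (∏ i ∈ Finset.range (finrank F (ι → F)), (Fintype.card F ^ (i + 1) - 1)) *
      Fintype.card F ^ ∑ i ∈ Finset.range (Fintype.card ι), i := by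
  rw [← Subgroup.card_map_of_injective toGL_injective, finrank_fintype_fun_eq_card]
  refine idx_dvd h ?_ ?_ <;> rintro _ ⟨g, hg, rfl⟩
  · exact (hH _).2 ⟨1, fun x y => by simp [toGL_mulVec]⟩
  · exact H09.mem_specialLinear.2 ((det_toGL g).trans (φ.mem_SIsom.1 hg))

end gl

theorem mem_quadSim {ι : Type} [Fintype ι] [DecidableEq ι] [Nonempty ι] {F : Type*} [Field F] {Q : QuadraticForm F (ι → F)}
    [(ofQuad Q).Nondeg] (h2 : (2 : F) ≠ 0) (g : GL ι F) : g ∈ Cfsg.Geo.quadSimilarityGroup Q ↔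
      ∃ c, ∀ x y, (ofQuad Q).B (g.1.mulVec x) (g.1.mulVec y) = c * (ofQuad Q).B x y := by
  rw [← mem_similarityGroup_iff (f := QuadraticMap.polar Q) fun _ _ => QuadraticMap.polar_comm _ _ _]
  exact ⟨fun ⟨c, h⟩ => ⟨c, fun u v => by rw [QuadraticMap.polar, ← Matrix.mulVec_add, h, h, h, QuadraticMap.polar]; ring⟩,
    fun ⟨c, h⟩ => ⟨c, fun v => mul_left_cancel₀ h2 (by
      have := h v v; simp only [QuadraticMap.polar_self, nsmul_eq_mul, Nat.cast_ofNat] at this; linear_combination this)⟩⟩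

end H28.El
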