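import Mathlib
import Cfsg.Agent.H11.StBN

/-!
# Simply laced root data: combinatorics and commutator relations (namespace `H28.Ex`)
-/

set_option autoImplicit false

open Cfsg.Lie H11 H11.StSys

namespace H28.Ex

variable {D : ChevalleyDatum} [Good D]

/-- simply laced -/
def SL (D : ChevalleyDatum) : Prop := ∀ r s : Root D, pair r s = pair s r

/-- height -/
def ht (r : Root D) : ℤ := ∑ i, cor r i

theorem sl_of (h : ∀ i j : Node D, ip (sroot i) (sroot i) = ip (sroot j) (sroot j)) : SL D := fun r s => by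
  have k : ∀ r : Root D, ∀ j, ip r r = ip (sroot j) (sroot j) := fun r =>
    root_induction (C := fun r => ∀ j, ip r r = ip (sroot j) (sroot j)) h (fun i s a j => (ip_refl _ _ _).trans (a j)) r
  obtain ⟨-, j, -⟩ := exists_weyl_sroot r
  have := pair_mul_ip r s
  rw [k r j, k s j] at this
  exact mul_right_cancel₀ (ip_self_pos _).ne' this

theorem ip_eq {i j : Node D} (h : wt (sroot i) j = -1 ∧ wt (sroot j) i = -1) :
    ip (sroot i) (sroot i) = ip (sroot j) (sroot j) := by
  have := pair_mul_ip (sroot i) (sroot j)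
  rw [pair_sroot, pair_sroot, h.1, h.2] at this
  linarith

theorem pair_lin (a : Root D) {u r s : Root D} {i j : ℤ} (e : wt u = i • wt r + j • wt s) :
    pair a u = i * pair a r + j * pair a s := fv_lin (cor a) e

theorem ht_rev (r : Root D) : ht r.rev = -ht r := by simp [ht]

theorem ht_sroot (i : Node D) : ht (sroot i) = 1 := by simp [ht, cor_sroot]

theorem pos_ht {r : Root D} : IsPos r ↔ 0 < ht r := by
  have k : ∀ r : Root D, IsPos r → 0 < ht r := fun r h => by
    obtain ⟨i, -, hi⟩ := exists_wt_pos h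
    exact Finset.sum_pos' (fun j _ => isPos_iff_cor.1 h j) ⟨i, Finset.mem_univ _, hi⟩
  refine ⟨k r, fun h => (isPos_or r).resolve_right fun h' => ?_⟩
  have := k _ h'
  rw [ht_rev] at this
  omega

theorem pos_of_cor {r : Root D} {i : Node D} (h : 0 < cor r i) : IsPos r := (isPos_or r).resolve_right fun h' => by
  have := isPos_iff_cor.1 h' i
  simp at this
  omega

theorem eq_sroot {r : Root D} (h : ht r = 1) : ∃ i, r = sroot i := by
  have hp : IsPos r := pos_ht.2 (by omega)
  obtain ⟨i, -, hi⟩ := exists_wt_pos hp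
  refine ⟨i, cor_injective (funext fun j => ?_)⟩
  have h1 := isPos_iff_cor.1 hp
  rw [ht, ← Finset.add_sum_erase _ _ (Finset.mem_univ i)] at h
  have h2 : 0 ≤ ∑ x ∈ Finset.univ.erase i, cor r x := Finset.sum_nonneg fun j _ => h1 j
  rw [cor_sroot]
  by_cases e : j = i
  · subst e; simp; omega
  · rw [Pi.single_eq_of_ne e]
    exact (Finset.sum_eq_zero_iff_of_nonneg (s := Finset.univ.erase i) fun j _ => h1 j).1 (by omega) j (by simpa using e)

variable (hs : SL D)
include hs

theorem SL.le {r s : Root D} (h : s ≠ r) : pair r s ≤ 1 := by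
  by_cases e : s = r.rev
  · simp [e]
  have := pair_mul_pair_le h e
  rw [← hs r s] at this
  nlinarith

theorem SL.ge {r s : Root D} (h : s ≠ r.rev) : -1 ≤ pair r s := by
  have := hs.le (r := r.rev) h
  simp at this
  omega

theorem SL.eq {r s : Root D} (h : 2 ≤ pair r s) : s = r := by_contra fun e => by
  have := hs.le e
  omega

theorem SL.le2 (r s : Root D) : pair r s ≤ 2 := by
  by_cases e : s = r
  · simp [e]
  · have := hs.le e; omega

theorem SL.cor_lin {u r s : Root D} {i j : ℤ} (e : wt u = i • wt r + j • wt s) (k : Node D) :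
    cor u k = i * cor r k + j * cor s k := by
  have : cor u - (i • cor r + j • cor s) = 0 := eq_zero_of_dot_sroot fun l => by
    have := pair_lin (sroot l) e
    rw [hs _ u, hs _ r, hs _ s] at this
    simp only [sub_dotProduct, add_dotProduct, smul_dotProduct, smul_eq_mul]
    exact sub_eq_zero.2 this
  simpa [sub_eq_zero] using congrFun this k

theorem SL.ht_lin {u r s : Root D} {i j : ℤ} (e : wt u = i • wt r + j • wt s) : ht u = i * ht r + j * ht s := by
  simp only [ht, hs.cor_lin e, Finset.sum_add_distrib, Finset.mul_sum]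

theorem SL.cor_refl (r s : Root D) (k : Node D) : cor (refl r s) k = cor s k - pair r s * cor r k := by
  simp [H11.cor_refl, hs s r]

theorem SL.ht_refl (r s : Root D) : ht (refl r s) = ht s - pair r s * ht r := by
  simp only [ht, hs.cor_refl, Finset.sum_sub_distrib, Finset.mul_sum]

theorem SL.sum {u r s : Root D} {i j : ℤ} (hi : 1 ≤ i) (hj : 1 ≤ j) (e : wt u = i • wt r + j • wt s) (h : s ≠ r.rev) :
    pair r s = -1 ∧ u = refl r s := by
  have h1 := pair_lin u e
  have h2 := pair_lin r e
  have h3 := pair_lin s e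
  have h4 := hs.ge h
  rw [hs u r, hs u s, h2, h3, hs s r] at h1
  simp only [pair_self] at h1
  have h5 : pair r s = -1 := by
    by_contra c
    have : 0 ≤ i * j * pair r s := by have : 0 ≤ pair r s := by omega
                                      positivity
    nlinarith
  rw [h5] at h1
  have h6 : i = 1 := by nlinarith [sq_nonneg (i - j)]
  have h7 : j = 1 := by nlinarith [sq_nonneg (i - j)]
  exact ⟨h5, (refl_eq (by rw [e, h5, h6, h7]; simp [add_comm])).symm⟩

theorem SL.cl {r : Root D} {T : Set (Root D)} (h0 : r.rev ∉ T) (h : ∀ s ∈ T, pair r s = -1 → refl r s ∈ T) : Cl r T :=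
  fun s a _ _ _ hi hj e => by
    obtain ⟨b, rfl⟩ := hs.sum hi hj e fun c => h0 (c ▸ a)
    exact h s a b

theorem SL.closed {T : Set (Root D)} (h0 : ∀ r ∈ T, r.rev ∉ T) (h : ∀ r ∈ T, ∀ s ∈ T, pair r s = -1 → refl r s ∈ T) :
    Closed T := fun r a => hs.cl (h0 r a) (h r a)

theorem SL.nc {r s : Root D} (h : Nc r s ≠ 0) : pair r s = -1 ∧ radd r s = refl r s :=
  hs.sum le_rfl le_rfl (by simpa using wt_radd h) (ne_rev_of_Nc h)

theorem SL.nc' {r s : Root D} (h : pair r s = -1) : Nc r s ≠ 0 :=
  Nc_ne_of_pair_neg (by rintro rfl; simp at h) (by omega)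

theorem SL.clen_le (r s : Root D) : clen r s ≤ 1 := by
  by_contra! c
  have h0 : Nc r s ≠ 0 := clen_pos_iff.1 c.le
  have h1 := (hs.nc (chain_step le_rfl c).1).1
  rw [show chainR r s 1 = refl r s from (hs.nc h0).2, pair_refl_self, (hs.nc h0).1] at h1
  omega

theorem SL.exists_ht : ∃ ψ, ∃ d : ℤ, 0 < d ∧ ∀ r : Root D, fv ψ r = d * ht r := by
  obtain ⟨C, d, h0, h⟩ := Good.cartan_inv (D := D)
  refine ⟨∑ i, C i, d, h0, fun r => root_induction (C := fun r => fv (∑ i, C i) r = d * ht r) (fun j => ?_) (fun j s a => ?_) r⟩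
  · simp [fv, sum_dotProduct, h, ht_sroot]
  · rw [fv_lin _ (a := 1) (r := s) (b := -pair (sroot j) s) (s := sroot j) (by simp [wt_refl, sub_eq_add_neg]), a, hs.ht_refl]
    simp [fv, sum_dotProduct, h, ht_sroot]
    ring

variable {K G : Type*} [Field K] [Group G] (S : StSys D K G)

theorem SL.comm0 {r s : Root D} (h : s ≠ r.rev) (h' : pair r s ≠ -1) (t u : K) : Commute (S.x r t) (S.x s u) := by
  by_cases e : s = r
  · rw [e, Commute, SemiconjBy, S.add, S.add, add_comm]
  have h1 : Nc r s = 0 := by_contra fun c => h' (hs.nc c).1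
  have := S.comm r s e h t u
  rw [ChevalleyDatum.commWord, commTerms_nil (clen_eq_zero_iff.2 h1) (clen_eq_zero_iff.2 (by rw [Nc_antisymm, h1, neg_zero]))] at this
  exact (by simpa using this.symm : _ = _)

theorem SL.comm0' {r s : Root D} (h : 0 ≤ pair r s) (t u : K) : Commute (S.x r t) (S.x s u) :=
  hs.comm0 S (by rintro rfl; simp at h) (by omega) t u

theorem SL.comm1 {r s : Root D} (h : pair r s = -1) :
    ∃ n : ℤ, n * n = 1 ∧ ∀ t u : K, S.x s u * S.x r t = S.x r t * S.x s u * S.x (refl r s) (n * t * u) := by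
  have h0 := hs.nc' h
  have h1 := ne_of_Nc h0
  have h2 := ne_rev_of_Nc h0
  have h3 := jac_a h1 h2
  rw [show Nc r.rev s = 0 from by_contra fun c => by have := (hs.nc c).1; simp at this; omega, h] at h3
  refine ⟨-Nc r s, ?_, fun t u => ?_⟩
  · rcases Int.eq_one_or_neg_one_of_mul_eq_one (show Nc r s * Nc r.rev (radd r s) = 1 by linarith) with e | e <;> simp [e]
  · rw [S.comm r s h1 h2, ChevalleyDatum.commWord, commTerms_one (le_antisymm (hs.clen_le _ _) (clen_pos_iff.2 h0)) (hs.clen_le _ _),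
      (hs.nc h0).2]
    simp

theorem SL.norm {r : Root D} {T : Set (Root D)} (h0 : r.rev ∉ T) (h : ∀ s ∈ T, pair r s = -1 → refl r s ∈ T) (t : K) :
    S.x r t ∈ Subgroup.normalizer (S.US T : Set G) := x_mem_normalizer h0 (hs.cl h0 h) t

theorem SL.cz {r a : Root D} {T : Set (Root D)} (h0 : a ≠ r.rev) (h : pair r a = -1 → refl r a ∈ T) (s t : K) :
    (S.x a t)⁻¹ * ((S.x r s)⁻¹ * S.x a t * S.x r s) ∈ S.US T := by
  by_cases e : pair r a = -1
  · obtain ⟨n, -, hn⟩ := hs.comm1 S e
    rw [mul_assoc _ (S.x a t), hn]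
    simpa [mul_assoc] using x_mem_US (h e) _
  · rw [mul_assoc _ (S.x a t), ← (hs.comm0 S h0 e s t).eq]
    simp

end H28.Ex
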