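import Cfsg.Agent.H28.Ex1
import Cfsg.Agent.H11.StFix

/-!
# Fixed points of an involutory automorphism of a simply laced Chevalley group (namespace `H28.Ex`)
-/

set_option autoImplicit false

open Cfsg.Lie H11 H11.StSys

namespace H28.Ex

/-- the fixed field -/
abbrev Ff {K : Type*} [Field K] (θ : K ≃+* K) : Subfield K := RingHom.eqLocusField (θ : K →+* K) (RingHom.id K)

/-- a simply laced system with an automorphism of order at most two -/
structure Cx (D : ChevalleyDatum) (K G : Type*) [Field K] [Group G] where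
  S : StSys D K G
  σ : MulAut G
  θ : K ≃+* K
  R : Root D → Root D
  ρ : Equiv.Perm (Node D)
  ε : Root D → K
  sl : SL D
  act : ∀ r t, σ (S.x r t) = S.x (R r) (ε r * θ t)
  cor_R : ∀ r i, cor (R r) (ρ i) = cor r i
  wt_R : ∀ r i, wt (R r) (ρ i) = wt r i
  RR : ∀ r, R (R r) = r
  θθ : ∀ t, θ (θ t) = t
  εε : ∀ r, ε (R r) * θ (ε r) = 1
  ε1 : ∀ r, R r = r → ε r = 1
  εs : ∀ i : Node D, ∀ r : Root D, D.simple i = r ∨ D.simple i = r.rev → ε r = 1
  orth : ∀ r, R r ≠ r → pair r (R r) = 0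
  big : ∀ r, R r ≠ r → Nat.card K = Nat.card (Ff θ) ^ 2 ∧ ∃ a, a + θ a = 1
  tor : ∀ r, R r ≠ r → ∃ h ∈ fixS σ, ∃ χ : Root D → K, (∀ s t, h * S.x s t * h⁻¹ = S.x s (χ s * t)) ∧
    (∀ s, R s = s → χ s = 1) ∧ χ r ≠ 1

variable {D : ChevalleyDatum} {K G : Type*} [Field K] [Group G] (c : Cx D K G)

namespace Cx

/-- relative root elements -/
noncomputable def y (r : Root D) (t : K) : G := if c.R r = r then c.S.x r t else c.S.x r t * c.S.x (c.R r) (c.ε r * c.θ t)

/-- admissible parameters -/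
def ok (r : Root D) (t : K) : Prop := c.R r = r → c.θ t = t

/-- relative trace -/
noncomputable def tr (r : Root D) (t : K) : K := if c.R r = r then t else t + c.θ t

/-- stable sets -/
def St (T : Set (Root D)) : Prop := ∀ r ∈ T, c.R r ∈ T

theorem pair_R (r s : Root D) : pair (c.R r) (c.R s) = pair r s := by
  rw [pair, pair, dotProduct, dotProduct, ← Equiv.sum_comp c.ρ]
  simp [c.cor_R, c.wt_R]

theorem ht_R (r : Root D) : ht (c.R r) = ht r := by
  rw [ht, ht, ← Equiv.sum_comp c.ρ]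
  simp [c.cor_R]

theorem R_inj {r s : Root D} (h : c.R r = c.R s) : r = s := by rw [← c.RR r, h, c.RR]

variable {c}

theorem pair_R1 {a : Root D} (h : c.R a = a) (s : Root D) : pair a (c.R s) = pair a s := by
  rw [← c.pair_R a s, h]

theorem pair_R2 {a : Root D} (h : c.R a = a) (s : Root D) : pair (c.R s) a = pair s a := by
  rw [← c.pair_R s a, h]

theorem y_long {r : Root D} (h : c.R r = r) (t : K) : c.y r t = c.S.x r t := if_pos h

theorem y_short {r : Root D} (h : c.R r ≠ r) (t : K) : c.y r t = c.S.x r t * c.S.x (c.R r) (c.ε r * c.θ t) := if_neg h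

theorem y_mem {T : Set (Root D)} {r : Root D} (h : r ∈ T) (h' : c.R r ∈ T) (t : K) : c.y r t ∈ c.S.US T := by
  unfold y; split_ifs
  exacts [x_mem_US h _, mul_mem (x_mem_US h _) (x_mem_US h' _)]

theorem y_mem' {M : Subgroup G} {r : Root D} (h : ∀ t, c.S.x r t ∈ M) (h' : ∀ t, c.S.x (c.R r) t ∈ M) (t : K) : c.y r t ∈ M := by
  unfold y; split_ifs
  exacts [h _, mul_mem (h _) (h' _)]

theorem y_zero (r : Root D) : c.y r 0 = 1 := by unfold y; simp

theorem x_fix {r : Root D} (h : c.R r = r) {t : K} (ht : c.θ t = t) : c.S.x r t ∈ fixS c.σ := by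
  rw [mem_fixS, c.act, h, c.ε1 r h, ht, one_mul]

theorem σ_US {T : Set (Root D)} (hT : c.St T) {g : G} (hg : g ∈ c.S.US T) : c.σ g ∈ c.S.US T :=
  US_induction (C := fun g => c.σ g ∈ c.S.US T) (by simp) (fun r a t => c.act r t ▸ x_mem_US (hT r a) _)
    (fun _ _ _ _ a b => map_mul c.σ _ _ ▸ mul_mem a b) hg

theorem εθ (r : Root D) (t : K) : c.ε (c.R r) * c.θ (c.ε r * c.θ t) = t := by
  rw [map_mul, c.θθ, ← mul_assoc, c.εε, one_mul]

variable [Good D]

theorem R_refl (r s : Root D) : c.R (refl r s) = refl (c.R r) (c.R s) :=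
  (refl_eq (funext fun i => by
    obtain ⟨i, rfl⟩ := c.ρ.surjective i
    simp [c.wt_R, wt_refl, c.pair_R])).symm

theorem R_rev (r : Root D) : c.R r.rev = (c.R r).rev := wt_injective (funext fun i => by
  obtain ⟨i, rfl⟩ := c.ρ.surjective i
  simp [c.wt_R])

theorem R_sroot (i : Node D) : c.R (sroot i) = sroot (c.ρ i) := cor_injective (funext fun j => by
  obtain ⟨j, rfl⟩ := c.ρ.surjective j
  simp [c.cor_R, cor_sroot, Pi.single_apply])

theorem cor_R1 {i : Node D} (h : c.R (sroot i) = sroot i) (r : Root D) : cor (c.R r) i = cor r i := by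
  rw [← c.cor_R r i, sroot_injective ((R_sroot i).symm.trans h)]

theorem comm_R {r : Root D} (h : c.R r ≠ r) (t u : K) : Commute (c.S.x r t) (c.S.x (c.R r) u) :=
  c.sl.comm0' c.S (c.orth r h).ge t u

theorem y_fix {r : Root D} {t : K} (h : c.ok r t) : c.y r t ∈ fixS c.σ := by
  by_cases e : c.R r = r
  · exact y_long e t ▸ x_fix e (h e)
  · rw [mem_fixS, y_short e, map_mul, c.act, c.act, c.RR, εθ, (comm_R e _ _).eq]

theorem y_add (r : Root D) (t u : K) : c.y r (t + u) = c.y r t * c.y r u := by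
  by_cases e : c.R r = r
  · simp only [y_long e, c.S.add]
  · simp only [y_short e, map_add, mul_add, ← c.S.add]
    rw [mul_assoc, mul_assoc, ← mul_assoc (c.S.x r u), (comm_R e u _).eq, mul_assoc]

theorem y_R {r : Root D} (h : c.R r ≠ r) (t : K) : c.y (c.R r) t = c.y r (c.ε (c.R r) * c.θ t) := by
  have := εθ (c := c) (c.R r) t
  rw [c.RR] at this
  rw [y_short h, y_short (by rw [c.RR]; exact h.symm), c.RR, this, (comm_R h _ _).eq]

theorem y_comm {r s : Root D} (h : ∀ a b, a = r ∨ a = c.R r → b = s ∨ b = c.R s → ∀ t u, Commute (c.S.x a t) (c.S.x b u))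
    (t u : K) : Commute (c.y r t) (c.y s u) := by
  have k : ∀ a, a = r ∨ a = c.R r → ∀ t, Commute (c.S.x a t) (c.y s u) := fun a ha t => by
    unfold y; split_ifs
    exacts [h _ _ ha (.inl rfl) _ _, (h _ _ ha (.inl rfl) _ _).mul_right (h _ _ ha (.inr rfl) _ _)]
  by_cases e : c.R r = r
  · exact y_long e t ▸ k _ (.inl rfl) _
  · exact y_short e t ▸ (k _ (.inl rfl) _).mul_left (k _ (.inr rfl) _)

theorem uniq {ψ : Node D → ℤ} {T A B : Set (Root D)} (hT : Closed T) (hp : ∀ r ∈ T, 0 < fv ψ r) (hA : Closed A) (hB : Closed B)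
    (h1 : A ⊆ T) (h2 : B ⊆ T) (hd : A ∩ B = ∅) {a a' b b' : G} (ha : a ∈ c.S.US A) (ha' : a' ∈ c.S.US A) (hb : b ∈ c.S.US B)
    (hb' : b' ∈ c.S.US B) (e : a * b = a' * b') : a = a' ∧ b = b' := by
  have k : a'⁻¹ * a ∈ c.S.US A ⊓ c.S.US B := Subgroup.mem_inf.2 ⟨mul_mem (inv_mem ha') ha, by
    rw [show a'⁻¹ * a = b' * b⁻¹ by rw [inv_mul_eq_iff_eq_mul, ← mul_assoc, ← e]; simp]; exact mul_mem hb' (inv_mem hb)⟩
  rw [US_inf hT hp hA hB h1 h2, hd, US_empty, Subgroup.mem_bot, inv_mul_eq_one] at k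
  exact ⟨k.symm, by simpa [k] using e⟩

theorem _root_.H28.Ex.SL.closed_one (hs : SL D) (r : Root D) : Closed {r} := hs.closed (by simpa using rev_ne r) (by simp)

/-- generation of the fixed points by relative root elements -/
theorem gen {P : Subgroup G} {T : Set (Root D)} (hT : Closed T) (hp : ∀ r ∈ T, 0 < ht r) (hR : c.St T)
    (h : ∀ r ∈ T, ∀ t, c.ok r t → c.y r t ∈ P) {g : G} (hg : g ∈ c.S.US T) (hf : g ∈ fixS c.σ) : g ∈ P := by
  obtain ⟨ψ, d, d0, hψ⟩ := c.sl.exists_ht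
  induction hn : T.ncard using Nat.strong_induction_on generalizing T g with | _ n ih => ?_
  rcases T.eq_empty_or_nonempty with rfl | h0
  · rw [US_empty, Subgroup.mem_bot] at hg; exact hg ▸ one_mem P
  obtain ⟨r, hr, hm⟩ := T.toFinite.exists_minimalFor ht T h0
  have hp' : ∀ r ∈ T, 0 < fv ψ r := fun r a => hψ r ▸ mul_pos d0 (hp r a)
  have s1 : {r, c.R r} ⊆ T := by rintro _ (rfl | rfl); exacts [hr, hR r hr]
  have c0 : ∀ u (i j : ℤ) a b, 1 ≤ i → 1 ≤ j → a ∈ T → b ∈ T → wt u = i • wt a + j • wt b → ht u ≠ ht r := fun u i j a b hi hj ha hb e e' => by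
    have h1 := c.sl.ht_lin e
    have h2 := hp a ha
    have h3 := hp b hb
    have h4 : ht a < ht r := by nlinarith
    exact absurd (hm ha h4.le) (by omega)
  have c1 : Closed {r, c.R r} := c.sl.closed (fun a ha hb => by
    have := hp _ (s1 ha); have := hp _ (s1 hb); rw [ht_rev] at this; omega) fun a ha b hb e => by
      by_cases k : c.R r = r
      · simp only [k, Set.mem_insert_iff, Set.mem_singleton_iff, or_self] at ha hb; simp [ha, hb] at e
      · have := c.orth r k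
        rcases ha with rfl | rfl <;> rcases hb with rfl | rfl <;> simp [this, c.sl (c.R _)] at e
  have c2 : Closed (T \ {r, c.R r}) := fun a ha b hb u i j hi hj e => ⟨hT a ha.1 b hb.1 u i j hi hj e, fun k =>
    c0 u i j a b hi hj ha.1 hb.1 e (by rcases k with rfl | rfl; exacts [rfl, c.ht_R r])⟩
  have r1 : c.St {r, c.R r} := by rintro _ (rfl | rfl) <;> simp [c.RR]
  have r2 : c.St (T \ {r, c.R r}) := fun a ha => ⟨hR a ha.1, fun k => ha.2 (c.RR a ▸ r1 _ k)⟩
  obtain ⟨a, ha, b, hb, rfl⟩ := exists_mul_of_union hT hp' (Set.union_diff_cancel s1).symm hg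
  obtain ⟨e1, e2⟩ := uniq hT hp' c1 c2 s1 Set.diff_subset (by simp) (σ_US r1 ha) ha (σ_US r2 hb) hb (by rw [← map_mul]; exact hf)
  refine mul_mem ?_ (ih _ (hn ▸ Set.ncard_lt_ncard ⟨Set.diff_subset, fun k => (k hr).2 (.inl rfl)⟩) c2 (fun r a => hp r a.1) r2
    (fun r a => h r a.1) hb e2 rfl)
  by_cases k : c.R r = r
  · rw [k, Set.pair_eq_singleton, mem_US_singleton] at ha
    obtain ⟨t, rfl⟩ := ha
    rw [c.act, k, c.ε1 r k, one_mul] at e1
    exact y_long k t ▸ h r hr t fun _ => x_inj (congrArg c.S.θ e1)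
  · obtain ⟨_, h1, _, h2, rfl⟩ := exists_mul_of_union c1 (fun r a => hp' r (s1 a)) (A := {r}) (B := {c.R r}) rfl ha
    obtain ⟨t, rfl⟩ := mem_US_singleton.1 h1
    obtain ⟨u, rfl⟩ := mem_US_singleton.1 h2
    rw [map_mul, c.act, c.act, c.RR, ← (comm_R k _ _).eq] at e1
    have e3 := uniq (c := c) (A := {r}) (B := {c.R r}) c1 (fun r a => hp' r (s1 a)) (c.sl.closed_one r) (c.sl.closed_one _) (by simp)
      (by simp) (by simpa using k) (x_mem_US (Set.mem_singleton _) _) h1 (x_mem_US (Set.mem_singleton _) _) h2 e1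
    rw [← e3.2, ← y_short k]
    exact h r hr t fun e => absurd e k

theorem long_refl {a b : Root D} (ha : c.R a = a) (hb : c.R b = b) : c.R (refl a b) = refl a b := by rw [R_refl, ha, hb]

theorem nu_inj {a a' b : Root D} (h : pair a b = 1) (h' : pair a' b = 1) (e : refl a b = refl a' b) : a = a' := by
  have := congrArg wt e
  rw [wt_refl, wt_refl, h, h'] at this
  exact wt_injective (by simpa using this)

theorem _root_.H28.Ex.SL.nu_nu (hs : SL D) {a b : Root D} (h : pair a b = 1) : pair (refl a b) b = 1 ∧ refl (refl a b) b = a := by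
  have k : pair (refl a b) b = 1 := by rw [pair_refl_left, hs b a, h]; simp
  exact ⟨k, refl_eq (by rw [k, wt_refl, h]; simp)⟩

theorem long_nu {a b : Root D} (hb : c.R b = b) (h : pair a b = 1) : c.R (refl a b) = refl a b ↔ c.R a = a :=
  ⟨fun e => nu_inj ((pair_R2 hb a).trans h) h (by rw [← e, R_refl, hb]), fun e => long_refl e hb⟩

theorem comm_of {a a' b : Root D} (h : pair a b = 1) (h' : pair a' b = 1) (e : a' ≠ refl a b) (t u : K) :
    Commute (c.S.x a t) (c.S.x a' u) := c.sl.comm0 c.S (by rintro rfl; simp [h] at h') (fun k => e (by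
  rw [← c.sl.eq (r := b) (s := refl a a') (by rw [pair_refl_right, k, c.sl b, c.sl b, h, h']; simp), refl_refl])) t u

theorem comm_yx {a b : Root D} (hb : c.R b = b) (h : 0 ≤ pair a b) (t u : K) : Commute (c.y a t) (c.S.x b u) := by
  unfold y; split_ifs
  exacts [c.sl.comm0' _ h _ _, (c.sl.comm0' _ h _ _).mul_left (c.sl.comm0' _ ((pair_R2 hb a).symm ▸ h) _ _)]

/-- the Heisenberg relation -/
theorem heisY {a b : Root D} (hb : c.R b = b) (h : pair a b = 1) : ∃ n : ℤ, n * n = 1 ∧ ∀ t u,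
    c.y (refl a b) u * c.y a t = c.y a t * c.y (refl a b) u * c.S.x b (c.tr a (n * t * u)) := by
  obtain ⟨n, h1, h2⟩ := c.sl.comm1 c.S (r := a) (s := refl a b) (by simp [h])
  rw [refl_refl] at h2
  refine ⟨n, h1, fun t u => ?_⟩
  by_cases k : c.R a = a
  · rw [y_long k, y_long (long_refl k hb), tr, if_pos k, h2]
  have k' := mt (long_nu hb h).1 k
  have h3 := congrArg c.σ (h2 t u)
  simp only [map_mul, c.act, hb, c.ε1 b hb, one_mul] at h3
  have p1 := (pair_R2 hb a).trans h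
  have p2 := (c.sl.nu_nu h).1
  have p3 := (pair_R2 hb _).trans p2
  have c1 := fun t u => (comm_of (c := c) h p3 k' t u).eq
  have c3 := fun t u => (comm_of (c := c) p1 p2 (fun e => k' (by rw [R_refl, hb]; exact e.symm)) t u).eq
  have c4 := fun a (h : pair a b = 1) t u => (c.sl.comm0' c.S (r := a) (s := b) (by omega) t u).eq
  rw [y_short k, y_short k', tr, if_neg k, ← c.S.add, mul_assoc, ← mul_assoc (c.S.x (c.R (refl a b)) _), ← c1, ← mul_assoc, ← mul_assoc,
    h2, mul_assoc, h3]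
  simp only [mul_assoc, map_mul]
  rw [← mul_assoc (c.S.x (c.R a) _) (c.S.x (refl a b) _), c3, mul_assoc, ← mul_assoc (c.S.x b _), ← c4 _ p1, mul_assoc,
    ← mul_assoc (c.S.x b _), ← c4 _ p3, mul_assoc]

theorem tr_fix {a : Root D} {t : K} (h : c.ok a t) : c.θ (c.tr a t) = c.tr a t := by
  unfold tr; split_ifs with k
  exacts [h k, by rw [map_add, c.θθ, add_comm]]

theorem tr_surj (a : Root D) {t : K} (h : c.θ t = t) : ∃ u, c.ok a u ∧ c.tr a u = t := by
  unfold tr; split_ifs with k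
  · exact ⟨t, fun _ => h, rfl⟩
  · obtain ⟨u, hu⟩ := (c.big a k).2
    exact ⟨t * u, fun e => absurd e k, by rw [map_mul, h, ← mul_add, hu, mul_one]⟩

end Cx

end H28.Ex
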