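import Mathlib
import Cfsg.Agent.H28.Wl1
import Cfsg.Agent.L.SLRep

/-!
# Averaging operators, positivity and integrality of traces (namespace `H28.Om`)
-/

set_option autoImplicit false
set_option linter.style.haveILetI false

open Module Finset L.Wt
open scoped ComplexOrder

namespace H28.Om

variable {M : Type*} [AddCommGroup M] [Module ℂ M]

section av
variable {A : Type*} [AddCommGroup A] [Fintype A] {f : A → End ℂ M} {χ : AddChar A ℂ}

/-- averaging operator -/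
noncomputable def av (f : A → End ℂ M) (χ : AddChar A ℂ) : End ℂ M :=
  (Fintype.card A : ℂ)⁻¹ • ∑ a, χ (-a) • f a

theorem mul_av (fa : ∀ a b, f (a + b) = f a * f b) (b : A) : f b * av f χ = χ b • av f χ := by
  rw [av, mul_smul_comm, smul_comm (χ b)]
  congr 1
  rw [mul_sum, smul_sum]
  refine Fintype.sum_equiv (Equiv.addLeft b) _ _ fun a => ?_
  rw [mul_smul_comm, Equiv.coe_addLeft, fa, smul_smul, ← AddChar.map_add_eq_mul, neg_add,
    add_neg_cancel_left]

theorem av_apply {y : M} (h : ∀ a, f a y = χ a • y) : av f χ y = y := by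
  simp [av, h, smul_smul, ← AddChar.map_add_eq_mul, ← Nat.cast_smul_eq_nsmul ℂ]

theorem isProj_av (fa : ∀ a b, f (a + b) = f a * f b) {W : Submodule ℂ M}
    (hW : ∀ y, y ∈ W ↔ ∀ a, f a y = χ a • y) : LinearMap.IsProj W (av f χ) :=
  ⟨fun y => (hW _).2 fun a => by rw [← End.mul_apply, mul_av fa]; rfl, fun y hy => av_apply ((hW y).1 hy)⟩

theorem av_conj {B : Type*} [AddCommGroup B] [Fintype B] {f' : B → End ℂ M} {χ' : AddChar B ℂ} {g : End ℂ M}
    (e : A ≃ B) (h : ∀ a, g * f a = f' (e a) * g) (h' : ∀ a, χ' (-e a) = χ (-a)) :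
    g * av f χ = av f' χ' * g := by
  rw [av, av, mul_smul_comm, smul_mul_assoc, mul_sum, sum_mul, Fintype.card_congr e]
  exact congrArg _ (Fintype.sum_equiv e _ _ fun a => by rw [mul_smul_comm, smul_mul_assoc, h, h'])

theorem comm_av {g : End ℂ M} (h : ∀ a, g * f a = f a * g) : g * av f χ = av f χ * g :=
  av_conj (Equiv.refl A) h fun _ => rfl

theorem trace_av (X : End ℂ M) : LinearMap.trace ℂ M (X * av f χ) =
    (Fintype.card A : ℂ)⁻¹ * ∑ a, χ (-a) * LinearMap.trace ℂ M (X * f a) := by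
  simp [av, mul_sum]

theorem trace_av_const {X : End ℂ M} {c : ℂ} (h : ∀ a, LinearMap.trace ℂ M (X * f a) = c) :
    LinearMap.trace ℂ M (X * av f 1) = c := by
  simp [trace_av, h]

end av

theorem isProj_mul {W W' : Submodule ℂ M} {e e' : End ℂ M} (h : LinearMap.IsProj W e) (h' : LinearMap.IsProj W' e')
    (hc : e * e' = e' * e) : LinearMap.IsProj (W ⊓ W') (e * e') :=
  ⟨fun y => ⟨h.map_mem _, hc ▸ h'.map_mem _⟩, fun y hy => by rw [End.mul_apply, h'.map_id _ hy.2, h.map_id _ hy.1]⟩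

theorem proj_idem {W : Submodule ℂ M} {e : End ℂ M} (h : LinearMap.IsProj W e) : e * e = e :=
  LinearMap.ext fun y => h.map_id _ (h.map_mem y)

section sy
variable {G : Type*} [Group G] {ρ : G →* End ℂ M}

/-- symmetric for all invariant sesquilinear forms -/
def Sy (ρ : G →* End ℂ M) (X : End ℂ M) : Prop :=
  ∀ H : M →ₗ⋆[ℂ] M →ₗ[ℂ] ℂ, (∀ g x y, H (ρ g x) (ρ g y) = H x y) → ∀ x y, H (X x) y = H x (X y)

theorem Sy.mul {X Y : End ℂ M} (hX : Sy ρ X) (hY : Sy ρ Y) (h : X * Y = Y * X) : Sy ρ (X * Y) :=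
  fun H hH x y => by rw [End.mul_apply, hX H hH, hY H hH, h, End.mul_apply]

theorem sy_av {A : Type*} [AddCommGroup A] [Fintype A] (s : A → G) (hs : ∀ a, s (-a) * s a = 1) (χ : AddChar A ℂ) :
    Sy ρ (av (fun a => ρ (s a)) χ) := fun H hH x y => by
  simp only [av, LinearMap.smul_apply, LinearMap.sum_apply, map_smul, map_sum, map_smulₛₗ, smul_eq_mul, map_inv₀,
    map_natCast, RingHom.id_apply]
  refine congrArg _ (Fintype.sum_equiv (Equiv.neg A) _ _ fun a => ?_)
  rw [Equiv.neg_apply, ← AddChar.map_neg_eq_conj, ← hH (s (-a)), ← End.mul_apply, ← map_mul, hs, map_one,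
    End.one_apply]

theorem tr_nonneg [Finite G] [FiniteDimensional ℂ M] {X Y : End ℂ M} (hX : Sy ρ X) (hY : Sy ρ Y) (iX : X * X = X)
    (iY : Y * Y = Y) : 0 ≤ LinearMap.trace ℂ M (X * Y) := by
  classical
  haveI := Fintype.ofFinite G
  let b := ((Module.finBasis ℂ M).equivFun.trans (WithLp.linearEquiv 2 ℂ _).symm : M ≃ₗ[ℂ] EuclideanSpace ℂ _)
  let H : M →ₗ⋆[ℂ] M →ₗ[ℂ] ℂ := ∑ g, ((innerₛₗ ℂ).comp (b.toLinearMap ∘ₗ ρ g)).compl₂ (b.toLinearMap ∘ₗ ρ g)
  have e : ∀ x y, H x y = ∑ g, inner ℂ (b (ρ g x)) (b (ρ g y)) := fun x y => by simp [H]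
  have hH : ∀ g x y, H (ρ g x) (ρ g y) = H x y := fun g x y => by
    rw [e, e]
    exact Fintype.sum_equiv (Equiv.mulRight g) _ _ fun k => by simp
  let c : InnerProductSpace.Core ℂ M :=
    { inner := fun x y => H x y
      conj_inner_symm := fun x y => by simp [e]
      re_inner_nonneg := fun x => by rw [e, map_sum]; exact sum_nonneg fun g _ => inner_self_nonneg
      add_left := fun x y z => by simp
      smul_left := fun x y r => by simp
      definite := fun x hx => by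
        rw [e, sum_eq_zero_iff_of_nonneg fun g _ => by rw [inner_self_eq_norm_sq_to_K]; positivity] at hx
        simpa using hx 1 (mem_univ _) }
  letI := c.toNormedAddCommGroup
  letI := InnerProductSpace.ofCore c.toCore
  have : (Y * X * Y).IsPositive := ⟨fun x y => by
    change H (Y (X (Y x))) y = H x (Y (X (Y y)))
    rw [hY H hH, hX H hH, hY H hH], fun x => by
    change 0 ≤ RCLike.re (H (Y (X (Y x))) x)
    rw [hY H hH, ← iX, End.mul_apply, hX H hH]
    exact c.re_inner_nonneg _⟩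
  have h1 := this.trace_nonneg
  rwa [mul_assoc, LinearMap.trace_mul_comm, mul_assoc, iY] at h1

end sy

theorem isIntegral_trace [FiniteDimensional ℂ M] {T : End ℂ M} (hT : IsIntegral ℤ T) :
    IsIntegral ℤ (LinearMap.trace ℂ M T) := by
  rw [End.trace_eq_sum_roots_charpoly_of_splits (IsAlgClosed.splits _)]
  refine IsIntegral.multiset_sum fun μ hμ => ?_
  obtain ⟨v, hv⟩ := ((End.hasEigenvalue_iff_isRoot_charpoly T μ).2
    (Polynomial.isRoot_of_mem_roots hμ)).exists_hasEigenvector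
  obtain ⟨q, hq, hqT⟩ := hT
  refine ⟨q, hq, ?_⟩
  have h2 := End.aeval_apply_of_hasEigenvector (p := q.map (algebraMap ℤ ℂ)) hv
  rw [Polynomial.aeval_map_algebraMap, Polynomial.aeval_def, hqT, Polynomial.eval_map] at h2
  exact (smul_eq_zero.1 h2.symm).resolve_right hv.2

theorem isIntegral_proj [FiniteDimensional ℂ M] {G : Type*} [Group G] [Finite G] (ρ : G →* End ℂ M) (g : G)
    {W : Submodule ℂ M} {e : End ℂ M} (h : LinearMap.IsProj W e) (hg : ∀ y ∈ W, ρ g y ∈ W) :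
    IsIntegral ℤ (LinearMap.trace ℂ M (ρ g * e)) := by
  have k : ∀ n, (ρ g * e) ^ (n + 1) = ρ (g ^ (n + 1)) * e := fun n => by
    induction n with
    | zero => simp
    | succ n ih =>
      rw [pow_succ', ih, pow_succ' g (n + 1), map_mul, mul_assoc, mul_assoc]
      refine congrArg _ (LinearMap.ext fun y => h.map_id _ ?_)
      rw [← ih, pow_succ', mul_assoc, End.mul_apply]
      exact hg _ (h.map_mem _)
  refine isIntegral_trace ⟨Polynomial.X ^ (orderOf g + 1) - Polynomial.X, Polynomial.Monic.sub_of_left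
    (Polynomial.monic_X_pow _) ?_, by
      simp only [Polynomial.eval₂_sub, Polynomial.eval₂_X_pow, Polynomial.eval₂_X, k]; simp [pow_succ]⟩
  rw [Polynomial.degree_X, Polynomial.degree_X_pow]
  exact_mod_cast Nat.lt_add_of_pos_left (orderOf_pos g)

theorem isIntegral_psi {F : Type*} [Field F] [Finite F] (ψ : AddChar F ℂ) (a : F) : IsIntegral ℤ (ψ a) :=
  IsIntegral.of_pow (n := addOrderOf a) (addOrderOf_pos a) (by
    rw [← AddChar.map_nsmul_eq_pow, addOrderOf_nsmul_eq_zero, AddChar.map_zero_eq_one]; exact isIntegral_one)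

theorem ex_nat {z : ℂ} (h0 : 0 ≤ z) (h1 : IsIntegral ℤ z) {r : ℚ} (h2 : z = r) : ∃ k : ℕ, z = k := by
  subst h2
  rw [show (r : ℂ) = algebraMap ℚ ℂ r from rfl, isIntegral_algebraMap_iff (algebraMap ℚ ℂ).injective] at h1
  obtain ⟨z, rfl⟩ := IsIntegrallyClosed.isIntegral_iff.1 h1
  lift z to ℕ using by simpa using h0
  exact ⟨z, by simp⟩

section heis
variable [FiniteDimensional ℂ M] {F : Type*} [Field F] [Fintype F] {ψ : AddChar F ℂ} (hψ : ψ ≠ 1)
include hψ

theorem sum_eig {f : F → End ℂ M} (f0 : f 0 = 1) (fa : ∀ a b, f (a + b) = f a * f b) (W : Submodule ℂ M)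
    (hW : ∀ c, ∀ y ∈ W, f c y ∈ W) : finrank ℂ W = ∑ b, finrank ℂ ↥(W ⊓ Wl.eig f ψ b) := by
  classical
  haveI : Fintype (Dual F F) := Fintype.ofEquiv F (LinearMap.ringLmapEquivSelf F F F).symm.toEquiv
  rw [L.SR.finrank_eq_sum_dual hψ Wl.qne f f0 fa W hW]
  refine Fintype.sum_equiv (LinearMap.ringLmapEquivSelf F F F).toEquiv _ _ fun l => ?_
  rw [show (fun a => ψ (l a)) = fun c => ψ (c * l 1) from funext fun c => by rw [← smul_eq_mul, ← map_smul]; simp]
  rfl

theorem heis_aux {g h : F → End ℂ M} (g0 : g 0 = 1) (ga : ∀ a b, g (a + b) = g a * g b) (h0 : h 0 = 1)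
    (ha : ∀ a b, h (a + b) = h a * h b) {W : Submodule ℂ M} (hg : ∀ c, ∀ y ∈ W, g c y ∈ W)
    (hh : ∀ c, ∀ y ∈ W, h c y ∈ W) {ε : F} (hε : ε ≠ 0)
    (hc : ∀ c t, ∀ y ∈ W, g t (h c y) = ψ (t * (ε * c)) • h c (g t y)) :
    finrank ℂ W = Fintype.card F * finrank ℂ ↥(W ⊓ Wl.eig g ψ 0) := by
  have le : ∀ b b', finrank ℂ ↥(W ⊓ Wl.eig g ψ b) ≤ finrank ℂ ↥(W ⊓ Wl.eig g ψ b') := fun b b' =>
    finrank_wt_le (h ((b' - b) / ε)) (fun x y e => by
      simpa [← End.mul_apply, ← ha, h0] using congrArg (h (-((b' - b) / ε))) e) fun y hy hy' => ⟨hh _ y hy, fun t => by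
        rw [hc _ _ y hy, hy' t, map_smul, smul_smul, ← AddChar.map_add_eq_mul]
        congr 2; field_simp; ring⟩
  rw [sum_eig hψ g0 ga W hg, sum_congr rfl fun b _ => le_antisymm (le b 0) (le 0 b)]
  simp

theorem heis_eq {g h : F → End ℂ M} (g0 : g 0 = 1) (ga : ∀ a b, g (a + b) = g a * g b) (h0 : h 0 = 1)
    (ha : ∀ a b, h (a + b) = h a * h b) {W : Submodule ℂ M} (hg : ∀ c, ∀ y ∈ W, g c y ∈ W)
    (hh : ∀ c, ∀ y ∈ W, h c y ∈ W) (hc : ∀ c t, ∀ y ∈ W, g t (h c y) = ψ (t * c) • h c (g t y)) :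
    finrank ℂ ↥(W ⊓ Wl.eig g ψ 0) = finrank ℂ ↥(W ⊓ Wl.eig h ψ 0) :=
  Nat.eq_of_mul_eq_mul_left Fintype.card_pos ((heis_aux hψ g0 ga h0 ha hg hh one_ne_zero (by simpa using hc)).symm.trans
    (heis_aux hψ h0 ha g0 ga hh hg (neg_ne_zero.2 one_ne_zero) fun c t y hy => by
      rw [hc _ _ y hy, smul_smul, ← AddChar.map_add_eq_mul]; simp [mul_comm]))

end heis

end H28.Om
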