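import Cfsg.Agent.H28.Ex2
import Cfsg.Agent.H28.Om1

/-!
# Representations: eigenspaces of long root subgroups and Heisenberg dimension formulas (namespace `H28.Ex`)
-/

set_option autoImplicit false

open Cfsg.Lie H11 H11.StSys Module

namespace H28.Ex

variable {D : ChevalleyDatum} {K G : Type*} [Field K] [Group G]

/-- a representation of the fixed point group -/
structure Rp (c : Cx D K G) (V : Type*) [AddCommGroup V] [Module ℂ V] where
  e : G → End ℂ V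
  one : e 1 = 1
  mul : ∀ a ∈ fixS c.σ, ∀ b ∈ fixS c.σ, e (a * b) = e a * e b
  ψ : AddChar (Ff c.θ) ℂ
  ne : ψ ≠ 1

namespace Rp
open Cx

variable {c : Cx D K G} {V : Type*} [AddCommGroup V] [Module ℂ V] (p : Rp c V)

theorem mul' {a b : G} (ha : a ∈ fixS c.σ) (hb : b ∈ fixS c.σ) (v : V) : p.e (a * b) v = p.e a (p.e b v) := by
  rw [p.mul a ha b hb, End.mul_apply]

theorem inv {a : G} (ha : a ∈ fixS c.σ) (v : V) : p.e a⁻¹ (p.e a v) = v := by
  rw [← p.mul' (inv_mem ha) ha, inv_mul_cancel, p.one, End.one_apply]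

theorem inj {a : G} (ha : a ∈ fixS c.σ) : Function.Injective (p.e a) := fun x y e => by rw [← p.inv ha x, e, p.inv ha]

/-- eigenspaces of a long root subgroup -/
noncomputable def Eg (r : Root D) (b : Ff c.θ) : Submodule ℂ V := Wl.eig (fun t : Ff c.θ => p.e (c.S.x r t)) p.ψ b

/-- stabiliser of a vector -/
def Fx (v : V) : Subgroup G where
  carrier := {g | g ∈ fixS c.σ ∧ p.e g v = v}
  one_mem' := ⟨one_mem _, by simp [p.one]⟩
  mul_mem' a b := ⟨mul_mem a.1 b.1, by rw [p.mul' a.1 b.1, b.2, a.2]⟩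
  inv_mem' {g} a := ⟨inv_mem a.1, by nth_rw 1 [← a.2]; rw [p.inv a.1]⟩

/-- stabiliser of a line -/
def Ln (v : V) : Subgroup G where
  carrier := {g | g ∈ fixS c.σ ∧ ∃ a : ℂ, a ≠ 0 ∧ p.e g v = a • v}
  one_mem' := ⟨one_mem _, 1, one_ne_zero, by simp [p.one]⟩
  mul_mem' := fun ⟨a, s, s0, hs⟩ ⟨b, t, t0, ht⟩ => ⟨mul_mem a b, t * s, mul_ne_zero t0 s0, by
    rw [p.mul' a b, ht, map_smul, hs, smul_smul]⟩
  inv_mem' := fun ⟨a, s, s0, hs⟩ => ⟨inv_mem a, s⁻¹, inv_ne_zero s0, by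
    rw [eq_inv_smul_iff₀ s0, ← map_smul, ← hs, p.inv a]⟩

/-- vectors fixed by relative root elements -/
def C (T : Set (Root D)) : Submodule ℂ V where
  carrier := {v | ∀ r ∈ T, ∀ t, c.ok r t → p.e (c.y r t) v = v}
  zero_mem' := by simp
  add_mem' a b r h t k := by rw [map_add, a r h t k, b r h t k]
  smul_mem' a v b r h t k := by rw [map_smul, b r h t k]

/-- vectors fixed by a unipotent subgroup -/
def Cf (T : Set (Root D)) : Submodule ℂ V where
  carrier := {v | ∀ g ∈ c.S.US T, g ∈ fixS c.σ → p.e g v = v}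
  zero_mem' := by simp
  add_mem' a b r h k := by rw [map_add, a r h k, b r h k]
  smul_mem' a v b r h k := by rw [map_smul, b r h k]

variable {p}

theorem mem_Eg {r : Root D} {b : Ff c.θ} {v : V} : v ∈ p.Eg r b ↔ ∀ t : Ff c.θ, p.e (c.S.x r t) v = p.ψ (t * b) • v := Iff.rfl

theorem mem_Eg0 {r : Root D} {v : V} : v ∈ p.Eg r 0 ↔ ∀ t : Ff c.θ, p.e (c.S.x r t) v = v := by simp [mem_Eg]

theorem Fx_le (v : V) : p.Fx v ≤ p.Ln v := fun _ h => ⟨h.1, 1, one_ne_zero, by simp [h.2]⟩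

theorem comm_mem {v : V} {a b u : G} (ha : a ∈ p.Ln v) (hb : b ∈ p.Ln v) (e : b * a = a * b * u) : u ∈ p.Fx v := by
  obtain ⟨a1, s, s0, hs⟩ := inv_mem ha
  obtain ⟨b1, t, t0, ht⟩ := inv_mem hb
  rw [show u = b⁻¹ * (a⁻¹ * (b * a)) by rw [e]; group]
  have a2 := inv_mem_iff.1 a1
  have b2 := inv_mem_iff.1 b1
  refine ⟨mul_mem b1 (mul_mem a1 (mul_mem b2 a2)), ?_⟩
  have k : p.e a (p.e b v) = p.e b (p.e a v) := by
    obtain ⟨-, s, -, hs⟩ := ha
    obtain ⟨-, t, -, ht⟩ := hb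
    rw [ht, hs, map_smul, map_smul, hs, ht, smul_comm]
  rw [p.mul' b1 (mul_mem a1 (mul_mem b2 a2)), p.mul' a1 (mul_mem b2 a2), p.mul' b2 a2, ← k, p.inv a2, p.inv b2]

theorem Cf_norm {T : Set (Root D)} {g : G} (hg : g ∈ Subgroup.normalizer (c.S.US T : Set G)) (hf : g ∈ fixS c.σ) {v : V}
    (hv : v ∈ p.Cf T) : p.e g v ∈ p.Cf T := fun a ha af => by
  have k : g⁻¹ * a * g ∈ c.S.US T := by simpa using (Subgroup.mem_normalizer_iff.1 (inv_mem hg) a).1 ha
  have k' := mul_mem (mul_mem (inv_mem hf) af) hf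
  rw [← p.mul' af hf, show a * g = g * (g⁻¹ * a * g) by group, p.mul' hf k', hv _ k k']

theorem Eg_map {r : Root D} (hr : c.R r = r) {b : Ff c.θ} {g : G} (hf : g ∈ fixS c.σ) {v : V} (hv : v ∈ p.Eg r b)
    (h : ∀ t : Ff c.θ, p.e ((c.S.x r t)⁻¹ * (g⁻¹ * c.S.x r t * g)) v = v) : p.e g v ∈ p.Eg r b := fun t => by
  have x := x_fix hr t.2
  have k := mul_mem (inv_mem x) (mul_mem (mul_mem (inv_mem hf) x) hf)
  rw [← p.mul' x hf, show c.S.x r t * g = g * (c.S.x r t * ((c.S.x r t)⁻¹ * (g⁻¹ * c.S.x r t * g))) by group,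
    p.mul' hf (mul_mem x k), p.mul' x k, h, mem_Eg.1 hv, map_smul]

theorem Eg_comm {r : Root D} (hr : c.R r = r) {b : Ff c.θ} {g : G} (hf : g ∈ fixS c.σ) {v : V} (hv : v ∈ p.Eg r b)
    (h : ∀ t, Commute g (c.S.x r t)) : p.e g v ∈ p.Eg r b := Eg_map hr hf hv fun t => by
  rw [mul_assoc g⁻¹, ← (h t).eq, ← mul_assoc g⁻¹, inv_mul_cancel, one_mul, inv_mul_cancel, p.one, End.one_apply]

theorem Eg_conj {r s : Root D} (hr : c.R r = r) (hs : c.R s = s) {g : G} (hf : g ∈ fixS c.σ) {a : Ff c.θ}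
    (h : ∀ t, g * c.S.x r t * g⁻¹ = c.S.x s (a * t)) {b b' : Ff c.θ} (hb : b' = a * b) {v : V} (hv : v ∈ p.Eg s b) :
    p.e g⁻¹ v ∈ p.Eg r b' := fun t => by
  have x := x_fix hr t.2
  rw [← p.mul' x (inv_mem hf), show c.S.x r t * g⁻¹ = g⁻¹ * (g * c.S.x r t * g⁻¹) by group, h,
    show c.S.x s (a * t) = c.S.x s (a * t : Ff c.θ) from rfl, p.mul' (inv_mem hf) (x_fix hs (a * t).2), mem_Eg.1 hv, map_smul, hb,
    mul_comm a t, mul_assoc]

variable [Good D]

theorem C_le {T : Set (Root D)} (hT : Closed T) (hp : ∀ r ∈ T, 0 < ht r) (hR : c.St T) : p.C T ≤ p.Cf T := fun v hv _ hg hf =>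
  (gen (P := p.Fx v) hT hp hR (fun r a t k => ⟨y_fix k, hv r a t k⟩) hg hf).2

theorem C_comm {T : Set (Root D)} {g : G} (hf : g ∈ fixS c.σ) (h : ∀ r ∈ T, ∀ t, Commute g (c.y r t)) {v : V} (hv : v ∈ p.C T) :
    p.e g v ∈ p.C T := fun r a t k => by
  rw [← p.mul' (y_fix k) hf, ← (h r a t).eq, p.mul' hf (y_fix k), hv r a t k]

theorem conj_fix {r s : Root D} (hr : c.R r = r) (hs : c.R s = s) {g : G} (hf : g ∈ fixS c.σ) {a : K}
    (h : ∀ t, g * c.S.x r t * g⁻¹ = c.S.x s (a * t)) : c.θ a = a := by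
  have := mem_fixS.1 (mul_mem (mul_mem hf (x_fix hr (map_one c.θ))) (inv_mem hf))
  rw [h, c.act, hs, c.ε1 s hs, mul_one, one_mul] at this
  exact x_inj (congrArg c.S.θ this)

variable [FiniteDimensional ℂ V]

theorem rank_conj {r s : Root D} (hr : c.R r = r) (hs : c.R s = s) {g : G} (hf : g ∈ fixS c.σ) {a : K} (ha : a ≠ 0)
    (h : ∀ t, g * c.S.x r t * g⁻¹ = c.S.x s (a * t)) :
    ∃ a' : Ff c.θ, a'.1 = a ∧ ∀ b, finrank ℂ (p.Eg s b) = finrank ℂ (p.Eg r (a' * b)) := by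
  let a' : Ff c.θ := ⟨a, conj_fix hr hs hf h⟩
  have a0 : a' ≠ 0 := fun e => ha (congrArg Subtype.val e)
  have k : ∀ {g} (hf : g ∈ fixS c.σ) {A B : Submodule ℂ V}, (∀ v ∈ A, p.e g v ∈ B) → finrank ℂ A ≤ finrank ℂ B := fun hf _ _ h =>
    LinearMap.finrank_le_finrank_of_injective (f := LinearMap.restrict _ h) fun x y e =>
      Subtype.ext (p.inj hf (congrArg Subtype.val e))
  refine ⟨a', rfl, fun b => le_antisymm (k (inv_mem hf) fun v => Eg_conj hr hs hf (a := a') h rfl)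
    (k (inv_mem (inv_mem hf)) fun v => Eg_conj hs hr (inv_mem hf) (a := a'⁻¹) (fun t => ?_) (by simp [a0]))⟩
  rw [show t = a * (a⁻¹ * t) by simp [ha], ← h]
  simp [mul_assoc, a', ha]

variable [Fintype K] [Fintype (Ff c.θ)]

theorem step {a β : Root D} (hβ : c.R β = β) (h : pair a β = 1) {b : Ff c.θ} (hb : b ≠ 0) {W : Submodule ℂ V} (hW : W ≤ p.Eg β b)
    (h1 : ∀ t, c.ok a t → ∀ v ∈ W, p.e (c.y a t) v ∈ W) (h2 : ∀ t, c.ok (refl a β) t → ∀ v ∈ W, p.e (c.y (refl a β) t) v ∈ W) :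
    finrank ℂ W = Fintype.card (Ff c.θ) ^ (if c.R a = a then 1 else 2) * finrank ℂ ↥(W ⊓ p.C {a}) := by
  obtain ⟨n, hn, hc⟩ := heisY hβ (c.sl.nu_nu h).1
  rw [(c.sl.nu_nu h).2] at hc
  have n0 : (n : K) ≠ 0 := fun e => by simpa [e] using congrArg (Int.cast (R := K)) hn
  have ya : ∀ r t u, c.ok r t → c.ok r u → p.e (c.y r (t + u)) = p.e (c.y r t) * p.e (c.y r u) := fun r t u a b => by
    rw [y_add, p.mul _ (y_fix a) _ (y_fix b)]
  have key : ∀ t u (h1 : c.ok (refl a β) t) (h2 : c.ok a u) (s : Ff c.θ), s.1 = c.tr (refl a β) (n * t * u) → ∀ v ∈ W,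
      p.e (c.y a u) (p.e (c.y (refl a β) t) v) = p.ψ (s * b) • p.e (c.y (refl a β) t) (p.e (c.y a u) v) := fun t u h1 h2 s e v hv => by
    rw [← p.mul' (y_fix h2) (y_fix h1), hc, ← e, p.mul' (mul_mem (y_fix h1) (y_fix h2)) (x_fix hβ s.2), mem_Eg.1 (hW hv), map_smul,
      p.mul' (y_fix h1) (y_fix h2)]
  by_cases k : c.R a = a
  · have k' := long_refl k hβ
    rw [if_pos k, pow_one, Om.heis_aux p.ne (g := fun t : Ff c.θ => p.e (c.y a t)) (h := fun t : Ff c.θ => p.e (c.y (refl a β) t))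
      (by simp [y_zero, p.one]) (fun s t => ya _ _ _ (fun _ => s.2) fun _ => t.2) (by simp [y_zero, p.one])
      (fun s t => ya _ _ _ (fun _ => s.2) fun _ => t.2) (fun s => h1 _ fun _ => s.2) (fun s => h2 _ fun _ => s.2)
      (mul_ne_zero (show (n : Ff c.θ) ≠ 0 from fun e => n0 (by simpa using congrArg Subtype.val e)) hb) fun s t v hv => ?_]
    · refine congrArg (fun A : Submodule ℂ V => _ * finrank ℂ ↥(W ⊓ A)) (Submodule.ext fun v => ?_)
      simp only [Wl.mem_eig, mul_zero, AddChar.map_zero_eq_one, one_smul]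
      exact ⟨fun a r e t o => by subst e; exact a ⟨t, o k⟩, fun a t => a _ rfl _ fun _ => t.2⟩
    · rw [key _ _ (fun _ => s.2) (fun _ => t.2) (n * s * t) (by simp [tr, k']) v hv]
      congr 2; ring
  · have k' := mt (long_nu hβ h).1 k
    let τ : K →+ Ff c.θ := .mk' (fun s => ⟨s + c.θ s, show c.θ _ = _ by simp [c.θθ, add_comm]⟩) fun a b => Subtype.ext (by simp; ring)
    have hψ : p.ψ.compAddMonoidHom τ ≠ 1 := fun e => p.ne (AddChar.ext _ _ fun t => by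
      obtain ⟨u, -, hu⟩ := tr_surj a t.2
      simpa [show τ u = t from Subtype.ext (by simpa [tr, k, τ] using hu)] using DFunLike.congr_fun e u)
    rw [if_neg k, ← Nat.card_eq_fintype_card, ← (c.big a k).1, Nat.card_eq_fintype_card,
      Om.heis_aux hψ (g := fun t => p.e (c.y a t)) (h := fun t => p.e (c.y (refl a β) t))
      (by simp [y_zero, p.one]) (fun s t => ya _ _ _ (absurd · k) (absurd · k)) (by simp [y_zero, p.one])
      (fun s t => ya _ _ _ (absurd · k') (absurd · k')) (fun s => h1 _ (absurd · k)) (fun s => h2 _ (absurd · k'))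
      (mul_ne_zero n0 (show b.1 ≠ 0 by simpa using hb)) fun s t v hv => ?_]
    · refine congrArg (fun A : Submodule ℂ V => _ * finrank ℂ ↥(W ⊓ A)) (Submodule.ext fun v => ?_)
      simp only [Wl.mem_eig, mul_zero, AddChar.map_zero_eq_one, one_smul]
      exact ⟨fun a r e t o => by subst e; exact a t, fun a t => a _ rfl _ (absurd · k)⟩
    · rw [key _ _ (absurd · k') (absurd · k) (τ (n * s * t)) (by simp [tr, k', τ]) v hv]
      exact congrArg (fun a => p.ψ a • _) (Subtype.ext (by simp [τ, show c.θ b = b from b.2]; ring))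

theorem heisL {β : Root D} (hβ : c.R β = β) {b : Ff c.θ} (hb : b ≠ 0) {W : Submodule ℂ V} (hW : W ≤ p.Eg β b) {L : Finset (Root D)}
    (hR : c.St L) (h : ∀ a ∈ L, pair a β = 1 ∧ refl a β ∉ L)
    (h1 : ∀ a ∈ L, ∀ r, r = a ∨ r = refl a β → ∀ t, c.ok r t → ∀ v ∈ W, p.e (c.y r t) v ∈ W) :
    finrank ℂ W = Fintype.card (Ff c.θ) ^ L.card * finrank ℂ ↥(W ⊓ p.C L) := by
  classical
  induction hn : L.card using Nat.strong_induction_on generalizing L with | _ n ih => ?_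
  rcases L.eq_empty_or_nonempty with rfl | ⟨a, ha⟩
  · rw [← hn, inf_eq_left.2 fun v _ r hr => by simp at hr]; simp
  have s1 : {a, c.R a} ⊆ L := by simpa [Finset.insert_subset_iff] using ⟨ha, hR a ha⟩
  have r2 : c.St ↑(L \ {a, c.R a}) := fun r hr => by
    simp only [Finset.coe_sdiff, Finset.coe_insert, Finset.coe_singleton, Set.mem_diff, Set.mem_insert_iff, Set.mem_singleton_iff,
      not_or] at hr ⊢
    exact ⟨hR r hr.1, fun e => hr.2.2 (by rw [← e, c.RR]), fun e => hr.2.1 (c.R_inj e)⟩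
  have c1 : ∀ r, r = a ∨ r = refl a β → ∀ s ∈ L \ {a, c.R a}, ∀ t u, Commute (c.y r t) (c.y s u) := fun r hr s hs =>
    y_comm fun r' s' e1 e2 => by
      have k1 : s' ∈ L \ {a, c.R a} := by rcases e2 with rfl | rfl; exacts [hs, r2 _ hs]
      have k2 : ∃ a' ∈ ({a, c.R a} : Finset _), r' = a' ∨ r' = refl a' β := by
        rcases hr with rfl | rfl <;> rcases e1 with rfl | rfl <;> simp [R_refl, hβ]
      obtain ⟨a', k2, k3⟩ := k2
      have k4 := h a' (s1 k2)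
      have k5 := Finset.mem_sdiff.1 k1
      rcases k3 with rfl | rfl
      · exact comm_of k4.1 (h _ k5.1).1 fun e => k4.2 (e ▸ k5.1)
      · exact comm_of (c.sl.nu_nu k4.1).1 (h _ k5.1).1 fun e => k5.2 (by rwa [e, (c.sl.nu_nu k4.1).2])
  have c2 : ∀ r, r = a ∨ r = refl a β → ∀ t, c.ok r t → ∀ v ∈ W ⊓ p.C ↑(L \ {a, c.R a}), p.e (c.y r t) v ∈ W ⊓ p.C ↑(L \ {a, c.R a}) :=
    fun r hr t k v hv => ⟨h1 a ha r hr t k v hv.1, C_comm (y_fix k) (fun s hs => c1 r hr s hs t) hv.2⟩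
  have := Finset.card_sdiff_add_card_eq_card s1
  rw [ih _ (hn ▸ Finset.card_lt_card ⟨Finset.sdiff_subset, fun k => by simpa using k ha⟩) r2 (fun r hr =>
      ⟨(h r (Finset.mem_sdiff.1 hr).1).1, fun k => (h r (Finset.mem_sdiff.1 hr).1).2 (Finset.mem_sdiff.1 k).1⟩)
      (fun r hr => h1 r (Finset.mem_sdiff.1 hr).1) rfl,
    step hβ (h a ha).1 hb (inf_le_left.trans hW) (c2 _ (.inl rfl)) (c2 _ (.inr rfl)), ← mul_assoc, ← pow_add, ← hn, ← this]
  refine congrArg₂ (· * ·) (congrArg (_ ^ ·) (congrArg (_ + ·) ?_)) ?_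
  · split_ifs with k
    · simp [k]
    · rw [Finset.card_pair (Ne.symm k)]
  · rw [inf_assoc]
    refine congrArg (fun A : Submodule ℂ V => finrank ℂ ↥(W ⊓ A)) (Submodule.ext fun v => ?_)
    refine ⟨fun ⟨k1, k2⟩ r hr t o => ?_, fun k => ⟨fun r hr => k r (Finset.mem_sdiff.1 hr).1, fun r hr => k r (hr ▸ ha)⟩⟩
    by_cases e : r = a
    · exact k2 r e t o
    by_cases e' : r = c.R a
    · rw [e', y_R (e' ▸ e)]
      exact k2 a rfl _ (absurd · (e' ▸ e))
    · exact k1 r (by simp [e, e', show r ∈ L from hr]) t o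

end Rp

end H28.Ex
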