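import Cfsg.Agent.H28.Ex3

/-!
# Rigidity of multiplicity one: vectors attached to long fundamental roots (namespace `H28.Ex`)
-/

set_option autoImplicit false

open Cfsg.Lie H11 H11.StSys Module

namespace H28.Ex

variable {D : ChevalleyDatum} {K G : Type*} [Field K] [Group G]

/-- the standard Lagrangian of a fundamental root -/
def Lam (i : Node D) : Finset (Root D) := {r | wt r i = 1 ∧ 1 ≤ cor r i}

theorem mem_Lam {i : Node D} {r : Root D} : r ∈ Lam i ↔ wt r i = 1 ∧ 1 ≤ cor r i := by simp [Lam]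

variable [Good D]

/-- a decomposition of the `k`-th fundamental root adapted to the `i`-th one -/
def Gd (i k : Node D) : Prop := ∃ r : Root D, pair r (sroot k) = 1 ∧ IsPos r ∧ wt r i = wt (sroot k) i ∧ cor r i = 0

theorem SL.rf (hs : SL D) {r s : Root D} {a : ℤ} (h : pair r s = a) (i : Node D) : wt (refl r s) i = wt s i - a * wt r i ∧
    cor (refl r s) i = cor s i - a * cor r i ∧ ht (refl r s) = ht s - a * ht r :=
  ⟨by simp [wt_refl, h], by rw [hs.cor_refl, h], by rw [hs.ht_refl, h]⟩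

theorem SL.wt_le (hs : SL D) {r : Root D} {i : Node D} (h : 2 ≤ cor r i ∨ 2 ≤ ht r ∨ cor r i ≤ 0) : wt r i ≤ 1 := by
  rw [← pair_sroot]
  refine hs.le ?_
  rintro rfl
  simp [cor_sroot, ht_sroot] at h

theorem SL.wt_ge (hs : SL D) {r : Root D} {i : Node D} (h : 0 ≤ cor r i) : -1 ≤ wt r i := by
  rw [← pair_sroot]
  refine hs.ge ?_
  rintro rfl
  simp [cor_sroot] at h

theorem wt_self (i : Node D) : wt (sroot i) i = 2 := by rw [← pair_sroot, pair_self]

theorem cor_self (i : Node D) : cor (sroot i) i = 1 := by simp [cor_sroot]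

theorem ht_of_cor {r : Root D} {i : Node D} (h : 1 ≤ cor r i) : 0 < ht r := pos_ht.1 (pos_of_cor (i := i) (by omega))

namespace Rp
open Cx

variable {c : Cx D K G} {V : Type*} [AddCommGroup V] [Module ℂ V] (p : Rp c V) (v : V)

/-- the relative root group stabilises the line -/
def Lk (r : Root D) : Prop := ∀ t, c.ok r t → c.y r t ∈ p.Ln v

/-- the relative root group fixes the vector -/
def Fk (r : Root D) : Prop := ∀ t, c.ok r t → c.y r t ∈ p.Fx v

variable {p v}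

theorem fx_long {a β : Root D} (hβ : c.R β = β) (h : pair a β = 1) (h1 : p.Lk v a) (h2 : p.Lk v (refl a β)) : p.Fk v β := fun t ht => by
  obtain ⟨u, h3, h4⟩ := tr_surj a (ht hβ)
  obtain ⟨n, hn, hc⟩ := heisY hβ h
  have := hc (n * u) 1
  rw [mul_one, ← mul_assoc, ← Int.cast_mul, hn, Int.cast_one, one_mul, h4, ← y_long hβ] at this
  exact comm_mem (h1 _ fun e => by simp [h3 e]) (h2 _ fun _ => map_one _) this

theorem cf_of {T : Set (Root D)} (hT : ∀ r ∈ T, ∀ s ∈ T, pair r s = -1 → refl r s ∈ T) (hp : ∀ r ∈ T, 0 < ht r) (hR : c.St T)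
    (h : ∀ r ∈ T, p.Fk v r) : v ∈ p.Cf T :=
  C_le (c.sl.closed (fun r a b => by have := hp _ a; have := hp _ b; rw [ht_rev] at this; omega) hT) hp hR fun r a t k => (h r a t k).2

section one
variable {i : Node D} (hi : c.R (sroot i) = sroot i) {b : Ff c.θ} (h0 : v ≠ 0) (h1 : v ∈ p.Eg (sroot i) b) (h2 : v ∈ p.C (Lam i))
  (hE : ∀ w ∈ p.Eg (sroot i) b, w ∈ p.C (Lam i) → ∃ a : ℂ, a • v = w)
include hi

theorem wt_R1 (r : Root D) : wt (c.R r) i = wt r i := by rw [← pair_sroot, pair_R1 hi, pair_sroot]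

theorem st_Lam : c.St (Lam i) := fun r hr => by simpa [mem_Lam, wt_R1 hi, cor_R1 hi] using hr

include h0 h1 hE

omit hi h1 in
theorem ln_of {g : G} (hg : g ∈ fixS c.σ) (a : p.e g v ∈ p.Eg (sroot i) b) (a' : p.e g v ∈ p.C (Lam i)) : g ∈ p.Ln v := by
  obtain ⟨s, hs⟩ := hE _ a a'
  exact ⟨hg, s, fun e => h0 (p.inj hg (by rw [← hs, e]; simp)), hs.symm⟩

theorem lk_of {T : Set (Root D)} (hT : ↑(Lam i) ⊆ T) (hv : v ∈ p.Cf T) {r : Root D} (h : ∀ a, a = r ∨ a = c.R r → a.rev ∉ T ∧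
    (∀ s ∈ T, pair a s = -1 → refl a s ∈ T) ∧ sroot i ≠ a.rev ∧ (pair a (sroot i) = -1 → refl a (sroot i) ∈ T)) : p.Lk v r :=
  fun t ht => by
  have hf := y_fix ht
  have n1 := fun a k => c.sl.norm c.S (h a k).1 (h a k).2.1
  have z1 := fun a k => c.sl.cz c.S (h a k).2.2.1 (h a k).2.2.2
  refine ln_of h0 hE hf (Eg_map hi hf h1 fun u => hv _ ?_ ?_) fun s a u k =>
    Cf_norm (y_mem' (n1 _ (.inl rfl)) (n1 _ (.inr rfl)) t) hf hv _ (y_mem (hT a) (hT (st_Lam hi s a)) u) (y_fix k)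
  · unfold y; split_ifs
    · exact z1 _ (.inl rfl) _ _
    · have := mul_mem (z1 _ (.inr rfl) (c.ε r * c.θ t) u) ((Subgroup.mem_normalizer_iff.1 (inv_mem (n1 _ (.inr rfl) (c.ε r * c.θ t))) _).1
        (z1 _ (.inl rfl) t u))
      convert this using 1
      group
  · have x := x_fix hi u.2
    exact mul_mem (inv_mem x) (mul_mem (mul_mem (inv_mem hf) x) hf)

include h2

theorem fx_short {r : Root D} (hr : c.R r ≠ r) (h : p.Lk v r) : p.Fk v r := fun t _ => by
  obtain ⟨g, hg, χ, k1, k2, k3⟩ := c.tor r hr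
  have k4 : ∀ s t, g * c.y s t * g⁻¹ = c.y s (χ s * t) := fun s t => by
    unfold y; split_ifs
    · exact k1 s t
    · have := congrArg c.σ (k1 s t)
      simp only [map_mul, map_inv, mem_fixS.1 hg, c.act] at this
      rw [map_mul c.θ, ← this, ← k1]; group
  have k5 : ∀ s, χ s ≠ 0 := fun s e => one_ne_zero (x_eq_one (S := c.S) (r := s) (t := 1) (by
    have := k1 s 1
    rw [e, zero_mul, x_zero, mul_inv_eq_one, mul_eq_left] at this
    rw [this, map_one]))
  have k6 : g ∈ p.Ln v := ln_of h0 hE hg (Eg_comm hi hg h1 fun t => by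
    have := k1 (sroot i) t
    rwa [k2 _ hi, one_mul, mul_inv_eq_iff_eq_mul] at this) fun s a u k => by
      have o : c.ok s (u / χ s) := fun e => by simpa [k2 s e] using k e
      rw [← p.mul' (y_fix k) hg, show u = χ s * (u / χ s) by field_simp [k5 s], ← k4, inv_mul_cancel_right, p.mul' hg (y_fix o), h2 s a _ o]
  refine comm_mem k6 (h (χ r * (t / (1 - χ r))) (absurd · hr)) ?_
  rw [mul_assoc, ← y_add, ← k4, inv_mul_cancel_right]
  congr 2
  field_simp [sub_ne_zero.2 k3.symm]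
  ring

variable (hA : ∀ s, c.R s = s → wt s i ≤ 0 → 1 ≤ cor s i → ∃ r, pair r s = 1 ∧ wt r i = wt s i ∧ 0 ≤ cor r i ∧ cor r i ≤ cor s i ∧
  (c.R r = r ∨ cor r i = cor s i ∨ wt s i = 0))
include hA

theorem phase1 : (∀ r, IsPos r → p.Lk v r) ∧ (∀ r, IsPos r → 2 ≤ ht r ∨ c.R r ≠ r → p.Fk v r) ∧
    ∀ k, c.R (sroot k) = sroot k → Gd i k → p.Fk v (sroot k) := by
  have w := wt_R1 hi
  have q := cor_R1 hi
  have w2 := wt_self i
  have q1 := cor_self i
  have pw : ∀ a, pair a (sroot i) = wt a i := fun a => by rw [c.sl, pair_sroot]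
  have f0 : ∀ r ∈ Lam i, p.Fk v r := fun r a t k => ⟨y_fix k, h2 r a t k⟩
  have c0 : v ∈ p.Cf (Lam i) := cf_of (fun r a s b e => by
    have := c.sl.rf e i
    have := c.sl.wt_le (r := refl r s) (i := i)
    simp only [Finset.mem_coe, mem_Lam] at a b ⊢; omega) (fun r a => ht_of_cor (mem_Lam.1 a).2) (st_Lam hi) f0
  have la : ∀ r, wt r i = 0 → 0 ≤ cor r i → p.Lk v r := fun r e1 e2 => lk_of hi h0 h1 hE le_rfl c0 fun a k => by
    have e3 : wt a i = 0 ∧ 0 ≤ cor a i := by rcases k with rfl | rfl <;> simp [w, q, e1, e2]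
    refine ⟨by simp [mem_Lam, e3], fun s a e => ?_, fun e => by simp [e, e3] at w2, by simp [pw, e3]⟩
    have := c.sl.rf e i
    simp only [Finset.mem_coe, mem_Lam] at a ⊢; omega
  have fb : ∀ r, 0 ≤ wt r i → wt r i ≤ 1 → 1 ≤ cor r i → p.Fk v r := fun r e1 e2 e3 => by
    by_cases e : wt r i = 1
    · exact f0 r (mem_Lam.2 ⟨e, e3⟩)
    by_cases k : c.R r = r
    · obtain ⟨s, k1, k2, k3, k4, -⟩ := hA r k (by omega) e3
      have := c.sl.rf k1 i
      exact fx_long k k1 (la _ (by omega) k3) (la _ (by omega) (by omega))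
    · exact fx_short hi h0 h1 h2 hE k (la _ (by omega) (by omega))
  have c1 : ∀ k, (∀ r, wt r i ≤ 1 → 1 ≤ cor r i → k < cor r i → p.Fk v r) →
      v ∈ p.Cf {r | 1 ≤ cor r i ∧ wt r i ≤ 1 ∧ (0 ≤ wt r i ∨ k < cor r i)} := fun k h => cf_of (fun r a s b e => by
    have := c.sl.rf e i
    have := c.sl.wt_le (r := refl r s) (i := i)
    simp only [Set.mem_setOf_eq] at a b ⊢; omega) (fun r a => ht_of_cor a.1) (fun r a => by simpa [w, q] using a)
      fun r a => a.2.2.elim (fun k => fb r k a.2.1 a.1) (h r a.2.1 a.1)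
  have ld : ∀ r, c.R r = r → wt r i = -1 → 0 ≤ cor r i → p.Lk v r := fun r k e1 e2 => by
    obtain ⟨m, hm⟩ := (Set.finite_range fun r => cor r i).bddAbove
    refine lk_of hi h0 h1 hE (T := {s | s ∈ Lam i ∨ wt s i = 0 ∧ 1 ≤ cor s i ∧ pair r s = 1}) (fun _ a => .inl a)
      (fun g a => c1 m (fun r _ _ a => absurd (hm ⟨r, rfl⟩) a.not_ge) g (US_mono (fun s a => by
        simp only [Set.mem_setOf_eq, mem_Lam] at a ⊢; omega) a)) fun a o => ?_
    obtain rfl : a = r := by rcases o with rfl | rfl <;> simp [k]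
    refine ⟨by simp [mem_Lam, e1]; omega, fun s a e => ?_, fun e => by simp [e, e1] at w2, fun e => ?_⟩
    · have := c.sl.rf e i
      simp only [Set.mem_setOf_eq, mem_Lam, pair_refl_self] at a ⊢; omega
    · have := c.sl.rf e i
      simp only [Set.mem_setOf_eq, mem_Lam]; omega
  have fe : ∀ r, wt r i ≤ 1 → 1 ≤ cor r i → p.Fk v r := by
    by_contra! h
    obtain ⟨r, ⟨e1, e2, e3⟩, hm⟩ := Set.Finite.exists_maximalFor (fun r => cor r i) {r | wt r i ≤ 1 ∧ 1 ≤ cor r i ∧ ¬p.Fk v r}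
      (Set.toFinite _) h
    have e4 : wt r i = -1 := by
      have := c.sl.wt_ge (r := r) (i := i) (by omega)
      by_contra! e
      exact e3 (fb r (by omega) e1 e2)
    have c2 := c1 (cor r i) fun s a1 a2 a3 => by_contra fun a4 => absurd (hm ⟨a1, a2, a4⟩ a3.le) a3.not_ge
    have l2 : ∀ s, wt s i = -1 → cor s i = cor r i → p.Lk v s := fun s a1 a2 => lk_of hi h0 h1 hE (fun u a => by
      simp only [Finset.mem_coe, Set.mem_setOf_eq, mem_Lam] at a ⊢; omega) c2 fun a k => by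
        have e3 : wt a i = -1 ∧ cor a i = cor r i := by rcases k with rfl | rfl <;> simp [w, q, a1, a2]
        refine ⟨by simp [e3]; omega, fun s a e => ?_, fun e => by simp [e, e3] at w2, fun e => ?_⟩
        · have := c.sl.rf e i
          have := c.sl.wt_le (r := refl _ s) (i := i) (.inl (by rw [this.2.1]; have := a.1; omega))
          simp only [Set.mem_setOf_eq] at a ⊢; omega
        · have := c.sl.rf e i
          simp only [Set.mem_setOf_eq]; omega
    by_cases k : c.R r = r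
    · obtain ⟨s, k1, k2, k3, k4, k5⟩ := hA r k (by omega) e2
      have := c.sl.rf k1 i
      exact e3 (fx_long k k1 (k5.elim (fun a => ld s a (by omega) k3) fun a => l2 s (by omega) (by omega)) (la _ (by omega) (by omega)))
    · exact e3 (fx_short hi h0 h1 h2 hE k (l2 r e4 rfl))
  have lf : ∀ r, IsPos r → p.Lk v r := fun r hr => lk_of hi h0 h1 hE (fun u a => by
      simp only [Finset.mem_coe, Set.mem_setOf_eq, mem_Lam] at a ⊢; omega) (c1 0 fun r a b _ => fe r a b) fun a k => by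
    have e3 : 0 < ht a := by rcases k with rfl | rfl <;> simp [c.ht_R, pos_ht.1 hr]
    have e4 := isPos_iff_cor.1 (pos_ht.2 e3) i
    refine ⟨by simp; omega, fun s a e => ?_, fun e => by have := ht_sroot i; rw [e, ht_rev] at this; omega, fun e => ?_⟩
    · have := c.sl.rf e i
      have := ht_of_cor a.1
      have := c.sl.wt_le (r := refl _ s) (i := i) (.inr (.inl (by rw [(c.sl.rf e i).2.2]; omega)))
      simp only [Set.mem_setOf_eq] at a ⊢; omega
    · have := c.sl.rf e i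
      rw [pw] at e
      simp only [Set.mem_setOf_eq]; omega
  refine ⟨lf, fun r hr h => ?_, fun k hk ⟨r, k1, k2, k3, k4⟩ => ?_⟩
  · by_cases k : c.R r = r
    · obtain ⟨j, s, k1, -, k2, rfl⟩ := exists_decomp hr (by rintro j rfl; simp [ht_sroot, k] at h)
      rw [(c.sl.nc k2).2] at k ⊢
      exact fx_long k (a := sroot j) (by simp [(c.sl.nc k2).1]) (lf _ (isPos_sroot j)) (by rw [refl_refl]; exact lf _ k1)
    · exact fx_short hi h0 h1 h2 hE k (lf r hr)
  · have := c.sl.rf k1 i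
    have := isPos_iff_cor.1 (isPos_sroot k) i
    exact fx_long hk k1 (lf r k2) (la _ (by omega) (by omega))

end one

/-- existence of weight vectors fixed by all higher root groups -/
def PP (p : Rp c V) (β : Root D) : Prop := ∀ b ≠ 0, ∃ v ≠ 0, v ∈ p.Eg β b ∧ v ∈ p.Cf {r | ht β ≤ ht r ∧ r ≠ β}

theorem phase2 [Finite (Ff c.θ)] (hA : ∀ i, c.R (sroot i) = sroot i → ∀ s, c.R s = s → wt s i ≤ 0 → 1 ≤ cor s i →
      ∃ r, pair r s = 1 ∧ wt r i = wt s i ∧ 0 ≤ cor r i ∧ cor r i ≤ cor s i ∧ (c.R r = r ∨ cor r i = cor s i ∨ wt s i = 0))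
    (hC : ∀ i k, c.R (sroot i) = sroot i → c.R (sroot k) = sroot k → i ≠ k → Gd i k ∨ Gd k i)
    (h : ∀ i, c.R (sroot i) = sroot i → ∀ b ≠ 0, finrank ℂ ↥(p.Eg (sroot i) b ⊓ p.C (Lam i)) = 1) {i : Node D}
    (hi : c.R (sroot i) = sroot i) : p.PP (sroot i) := fun b hb => by
  have k : ∀ i (hi : c.R (sroot i) = sroot i) b (hb : b ≠ 0) v (h0 : v ≠ 0) (h1 : v ∈ p.Eg (sroot i) b) (h2 : v ∈ p.C (Lam i)), _ :=
    fun i hi b hb v h0 h1 h2 => phase1 hi h0 h1 h2 (fun w a a' =>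
      ((finrank_eq_one_iff_of_nonzero' (⟨v, h1, h2⟩ : ↥(p.Eg (sroot i) b ⊓ p.C (Lam i))) fun e => h0 (congrArg Subtype.val e)).1
        (h i hi b hb) ⟨w, a, a'⟩).imp fun _ e => congrArg Subtype.val e) (hA i hi)
  obtain ⟨⟨v, h1, h2⟩, h0, -⟩ := finrank_eq_one_iff'.1 (h i hi b hb)
  replace h0 : v ≠ 0 := fun e => h0 (Subtype.ext e)
  obtain ⟨k1, k2, k3⟩ := k i hi b hb v h0 h1 h2
  refine ⟨v, h0, h1, cf_of (fun r a s a' e => ?_) (fun r a => by have := a.1; rw [ht_sroot] at this; omega)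
    (fun r a => ⟨c.ht_R r ▸ a.1, fun e => a.2 (c.R_inj (e.trans hi.symm))⟩) fun r a => ?_⟩
  · have := (c.sl.rf e i).2.2
    simp only [Set.mem_setOf_eq, ht_sroot] at a a' ⊢
    exact ⟨by omega, fun e => by rw [e, ht_sroot] at this; omega⟩
  simp only [Set.mem_setOf_eq, ht_sroot] at a
  have hr := pos_ht.2 (show 0 < ht r by omega)
  by_contra n
  have n1 := mt (k2 r hr) n
  push Not at n1
  obtain ⟨j, rfl⟩ := eq_sroot (r := r) (by omega)
  have hj := n1.2
  choose a' ha' using fun t : Ff c.θ => (k1 _ hr t fun _ => t.2).2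
  simp only [y_long hj] at ha'
  obtain ⟨b', hb'⟩ := L.Wt.exists_eq_mulShift p.ne ⟨a', smul_left_injective ℂ h0 (by simp [← (ha' 0).2, p.one]), fun s t =>
    smul_left_injective ℂ h0 (by
      simp only [← (ha' _).2, Subfield.coe_add, ← c.S.add]
      rw [p.mul' (x_fix hj s.2) (x_fix hj t.2), (ha' t).2, map_smul, (ha' s).2, smul_smul, mul_comm])⟩
  have h3 : v ∈ p.Eg (sroot j) b' := fun t => (ha' t).2.trans (congrArg (· • v) (hb' t))
  by_cases e : b' = 0
  · exact n fun t o => ⟨y_fix o, by rw [y_long hj]; exact mem_Eg0.1 (e ▸ h3) ⟨t, o hj⟩⟩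
  have h4 := (k j hj b' e v h0 h3 fun s a t o => (k2 s (pos_of_cor (mem_Lam.1 a).2) (.inl (by
    have := ht_of_cor (mem_Lam.1 a).2
    by_contra! n
    obtain ⟨l, rfl⟩ := eq_sroot (r := s) (by omega)
    have := mem_Lam.1 a
    by_cases e : j = l
    · rw [e, wt_self] at this; omega
    · simp [cor_sroot, e] at this)) t o).2).2.2 i hi ((hC i j hi hj (fun e => a.2 (e ▸ rfl))).resolve_left fun g => n (k3 j hj g))
  refine hb (L.Wt.eq_of_mulShift p.ne fun t => smul_left_injective ℂ h0 ?_)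
  have := (h4 t fun _ => t.2).2
  rw [y_long hi] at this
  simp [← mem_Eg.1 h1 t, this]

end Rp

end H28.Ex
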