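import Cfsg.Agent.H28.Ex4

/-!
# The dichotomy for the degree (namespace `H28.Ex`)
-/

set_option autoImplicit false

open Cfsg.Lie H11 H11.StSys Module

namespace H28.Ex

theorem indep {ι F V : Type*} [Field F] [Fintype F] [DecidableEq F] [AddCommGroup V] [Module ℂ V] [FiniteDimensional ℂ V]
    {ψ : AddChar F ℂ} (hψ : ψ ≠ 1) (f : ι → F → End ℂ V) (κ : ι → ℤ) (Y : ι → F → Submodule ℂ V) (s : Finset ι) (W : Submodule ℂ V)
    (h1 : ∀ i ∈ s, ∀ b, Y i b ≤ W ⊓ Wl.eig (f i) ψ b) (h2 : ∀ i ∈ s, ∀ j ∈ s, i ≠ j → κ i ≤ κ j → ∀ b, Y i b ≤ Wl.eig (f j) ψ 0) :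
    ∑ i ∈ s, ∑ b ∈ Finset.univ.erase 0, finrank ℂ (Y i b) ≤ finrank ℂ W := by
  classical
  induction s using Finset.induction_on_max_value κ generalizing W with
  | empty => simp
  | insert j s hj hm ih =>
    have k := L.Wt.sum_finrank_le (f j) W (Finset.univ.image fun b t => ψ (t * b))
    rw [Finset.sum_image fun b _ b' _ e => L.Wt.eq_of_mulShift hψ (congrFun e), ← Finset.add_sum_erase _ _ (Finset.mem_univ 0)] at k
    rw [Finset.sum_insert hj, add_comm]
    exact (add_le_add (ih (W ⊓ Wl.eig (f j) ψ 0) (fun i hi b => le_inf (le_inf ((h1 i (by simp [hi]) b).trans inf_le_left)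
      (h2 i (by simp [hi]) j (by simp) (fun e => hj (e ▸ hi)) (hm i hi) b)) ((h1 i (by simp [hi]) b).trans inf_le_right))
      fun i hi i' hi' => h2 i (by simp [hi]) i' (by simp [hi'])) (Finset.sum_le_sum fun b _ =>
        Submodule.finrank_mono (h1 j (by simp) b))).trans k

variable {D : ChevalleyDatum} {K G : Type*} [Field K] [Group G] [Good D] {c : Cx D K G}

namespace Cx

theorem n_fix {r : Root D} (h : c.R r = r) {t : K} (ht : c.θ t = t) : c.S.n r t ∈ fixS c.σ :=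
  mul_mem (mul_mem (x_fix h ht) (x_fix (by rw [R_rev, h]) (by simp [ht]))) (x_fix h ht)

theorem nn_fix {j : Node D} (h : c.R (sroot j) ≠ sroot j) : c.S.n (sroot j) 1 * c.S.n (c.R (sroot j)) 1 ∈ fixS c.σ := by
  have k : ∀ j, c.σ (c.S.n (sroot j) 1) = c.S.n (c.R (sroot j)) 1 := fun j => by
    simp [StSys.n, c.act, R_rev, c.εs j (sroot j) (.inl rfl), c.εs j (sroot j).rev (.inr (by simp))]
  have o := c.orth _ h
  have k1 : ∀ r, pair r (c.R (sroot j)) = 0 → ∀ t, Commute (c.S.x r t) (c.S.n (c.R (sroot j)) 1) := fun r e t =>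
    ((c.sl.comm0' _ e.ge _ _).mul_right (c.sl.comm0' _ (by simp [e]) _ _)).mul_right (c.sl.comm0' _ e.ge _ _)
  rw [mem_fixS, map_mul, k, R_sroot, k, ← R_sroot, c.RR]
  exact (((k1 _ o _).mul_left (k1 _ (by simp [o]) _)).mul_left (k1 _ o _)).eq.symm

variable (c) in
/-- half of the positive decompositions of a root -/
noncomputable def Lb (β : Root D) : Finset (Root D) :=
  {a | pair a β = 1 ∧ IsPos a ∧ IsPos (refl a β) ∧ a.1 + (c.R a).1 < (refl a β).1 + (c.R (refl a β)).1}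

end Cx

namespace Rp
open Cx

variable {V : Type*} [AddCommGroup V] [Module ℂ V] {p : Rp c V}

theorem y_map {β : Root D} (hβ : c.R β = β) {b : Ff c.θ} {T : Set (Root D)} {r : Root D} (h : ∀ a, a = r ∨ a = c.R r → a.rev ∉ T ∧
    (∀ s ∈ T, pair a s = -1 → refl a s ∈ T) ∧ β ≠ a.rev ∧ (pair a β = -1 → refl a β ∈ T)) {t : K} (ht : c.ok r t) {v : V}
    (hv : v ∈ p.Cf T ⊓ p.Eg β b) : p.e (c.y r t) v ∈ p.Cf T ⊓ p.Eg β b := by
  have hf := y_fix ht
  have n1 := fun a k => c.sl.norm c.S (h a k).1 (h a k).2.1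
  have z1 := fun a k => c.sl.cz c.S (h a k).2.2.1 (h a k).2.2.2
  refine ⟨Cf_norm (y_mem' (n1 _ (.inl rfl)) (n1 _ (.inr rfl)) t) hf hv.1, Eg_map hβ hf hv.2 fun u => hv.1 _ ?_ ?_⟩
  · unfold y; split_ifs
    · exact z1 _ (.inl rfl) _ _
    · have := mul_mem (z1 _ (.inr rfl) (c.ε r * c.θ t) u) ((Subgroup.mem_normalizer_iff.1 (inv_mem (n1 _ (.inr rfl) (c.ε r * c.θ t))) _).1
        (z1 _ (.inl rfl) t u))
      convert this using 1
      group
  · have x := x_fix hβ u.2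
    exact mul_mem (inv_mem x) (mul_mem (mul_mem (inv_mem hf) x) hf)

theorem PP_map {β β' : Root D} (hβ : c.R β = β) (hβ' : c.R β' = β') {g : G} (hg : g ∈ fixS c.σ) {w : Equiv.Perm (Root D)}
    (h : c.S.Acts g w) (e : w β = β') (hw : ∀ r, ht β ≤ ht r → ht β' ≤ ht (w r)) (h' : p.PP β') : p.PP β := fun b hb => by
  obtain ⟨χ, -, k⟩ := id h
  have k1 := k β
  rw [e] at k1
  let a : Ff c.θ := ⟨χ β, conj_fix hβ hβ' hg k1⟩
  have a0 : a ≠ 0 := fun e => (χ β).ne_zero (congrArg Subtype.val e)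
  obtain ⟨v, h0, h1, h2⟩ := h' (b / a) (div_ne_zero hb a0)
  refine ⟨p.e g⁻¹ v, fun e => h0 (p.inj (inv_mem hg) (by simp [e])), Eg_conj hβ hβ' hg (a := a) k1 (by field_simp) h1, fun u hu hf => ?_⟩
  have k2 := mul_mem (mul_mem hg hf) (inv_mem hg)
  rw [← p.mul' hf (inv_mem hg), show u * g⁻¹ = g⁻¹ * (g * u * g⁻¹) by group, p.mul' (inv_mem hg) k2,
    h2 _ (h.conj_mem (fun r a => by exact ⟨hw r a.1, fun k => a.2 (w.injective (k.trans e.symm))⟩) hu) k2]

variable [Cert D]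

theorem PP_all (h : ∀ i, c.R (sroot i) = sroot i → p.PP (sroot i)) {β : Root D} (hβ : c.R β = β) (hp : IsPos β) : p.PP β := by
  induction hn : (ht β).toNat using Nat.strong_induction_on generalizing β with | _ n ih => ?_
  have h0 := pos_ht.1 hp
  by_cases e : ht β = 1
  · obtain ⟨i, rfl⟩ := eq_sroot e
    exact h i hβ
  have k0 : ∀ (j : Node D) r, 2 ≤ ht r → ht r - 1 ≤ ht (refl (sroot j) r) := fun j r a => by
    have := c.sl.le (r := sroot j) (s := r) (by rintro rfl; simp [ht_sroot] at a)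
    rw [c.sl.ht_refl, ht_sroot]; omega
  obtain ⟨j, hj, -⟩ := exists_wt_pos hp
  have n1 : ∀ j, β ≠ sroot j := by rintro j rfl; exact e (ht_sroot j)
  have h1 : pair (sroot j) β = 1 := by have := c.sl.le (n1 j); rw [pair_sroot] at this ⊢; omega
  by_cases k : c.R (sroot j) = sroot j
  · have := (c.sl.rf h1 j).2.2
    rw [ht_sroot] at this
    exact PP_map hβ (long_refl k hβ) (n_fix k (map_one _)) (acts_n _ one_ne_zero) rfl (fun r a => by
      have := k0 j r (by omega); simp only [sref_apply]; omega) (ih _ (by omega) (long_refl k hβ) (isPos_refl_sroot hp (n1 j)) rfl)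
  · have o := c.orth _ k
    have h2 := (pair_R2 hβ _).trans h1
    have h3 : pair (sroot j) (refl (c.R (sroot j)) β) = 1 := by rw [pair_refl_right, o, h1]; simp
    have h4 : pair (c.R (sroot j)) (refl (sroot j) β) = 1 := by rw [pair_refl_right, c.sl _ (sroot j), o, h2]; simp
    have h5 : c.R (refl (sroot j) (refl (c.R (sroot j)) β)) = refl (sroot j) (refl (c.R (sroot j)) β) := by
      rw [R_refl, R_refl, c.RR, hβ]
      exact wt_injective (by simp only [wt_refl, h1, h2, h3, h4]; abel)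
    have h6 := (c.sl.rf h2 j).2.2
    have h7 := (c.sl.rf h3 j).2.2
    rw [c.ht_R, ht_sroot] at h6
    rw [ht_sroot] at h7
    have h8 : IsPos (refl (sroot j) (refl (c.R (sroot j)) β)) :=
      isPos_refl_sroot (pos_ht.2 (by omega)) fun e => by simp [e] at h3
    have h9 := pos_ht.1 h8
    exact PP_map hβ h5 (nn_fix k) ((acts_n _ one_ne_zero).mul (sref_mem_RootAut _) (acts_n _ one_ne_zero)) rfl (fun r a => by
      have := k0 (c.ρ j) r (by omega)
      have := k0 j (refl (sroot (c.ρ j)) r) (by omega)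
      simp only [Equiv.Perm.mul_apply, sref_apply, R_sroot] at *; omega) (ih _ (by omega) h5 h8 rfl)

variable [FiniteDimensional ℂ V]

/-- dimensions of the eigenspaces -/
def Mu (p : Rp c V) (β : Root D) (a m : ℕ) : Prop := finrank ℂ (p.Eg β 0) = a ∧ ∀ b ≠ 0, finrank ℂ (p.Eg β b) = m

theorem Mu.refl {r s : Root D} (hr : c.R r = r) (hs : c.R s = s) {a m : ℕ} (h : p.Mu s a m) : p.Mu (refl r s) a m := by
  obtain ⟨u, h1, h2⟩ := rank_conj (p := p) hs (long_refl hr hs) (n_fix hr (map_one _)) (coef_ne_zero r s one_ne_zero)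
    (n_conj r s one_ne_zero)
  have u0 : u ≠ 0 := fun e => coef_ne_zero r s (one_ne_zero (α := K)) (by rw [← h1, e]; rfl)
  exact ⟨by rw [h2, mul_zero, h.1], fun b hb => by rw [h2, h.2 _ (mul_ne_zero u0 hb)]⟩

theorem Mu.pair {r s : Root D} (hr : c.R r = r) (hs : c.R s = s) {a m : ℕ} (h : p.Mu s a m) (e : pair r s = 1 ∨ pair r s = -1) :
    p.Mu r a m := by
  have k : ∀ r, c.R r = r → H11.pair r s = -1 → p.Mu r a m := fun r hr e => by
    have := (h.refl hr hs).refl hs (long_refl hr hs)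
    rwa [show H11.refl r s = H11.refl s r from refl_eq (by simp [wt_refl, e, c.sl s, add_comm]), refl_refl] at this
  refine e.elim (fun e => ?_) (k r hr)
  have hr' : c.R r.rev = r.rev := by rw [R_rev, hr]
  simpa using (k _ hr' (by simp [e])).refl hr' hr'

variable [Fintype K] [Fintype (Ff c.θ)]

omit [Cert D] in
theorem low {β : Root D} (hβ : c.R β = β) (hp : IsPos β) (h : p.PP β) {b : Ff c.θ} (hb : b ≠ 0) :
    Fintype.card (Ff c.θ) ^ (c.Lb β).card ≤ finrank ℂ ↥(p.Cf {r | ht β ≤ ht r ∧ r ≠ β} ⊓ p.Eg β b) := by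
  obtain ⟨v, h0, h1, h2⟩ := h b hb
  have k := L.Wt.one_le_finrank (W := p.Cf {r | ht β ≤ ht r ∧ r ≠ β} ⊓ p.Eg β b) ⟨h2, h1⟩ h0
  have h3 := pos_ht.1 hp
  have e := heisL hβ hb (W := p.Cf {r | ht β ≤ ht r ∧ r ≠ β} ⊓ p.Eg β b) inf_le_right (L := c.Lb β) (fun r a => by
    have : refl (c.R r) β = c.R (refl r β) := by rw [R_refl, hβ]
    simp only [Lb, Finset.coe_filter, Finset.mem_univ, true_and, Set.mem_setOf_eq, pair_R2 hβ, this, pos_ht, c.ht_R, c.RR] at a ⊢
    omega) (fun r a => by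
    simp only [Lb, Finset.mem_filter, Finset.mem_univ, true_and] at a ⊢
    rw [(c.sl.nu_nu a.1).2]; omega) fun a ha r hr t o v => y_map hβ (fun s hs => by
      have k1 : 0 < ht r := by
        simp only [Lb, Finset.mem_filter, Finset.mem_univ, true_and, pos_ht] at ha
        rcases hr with rfl | rfl; exacts [ha.2.1, ha.2.2.1]
      have k2 : 0 < ht s := by rcases hs with rfl | rfl; exacts [k1, c.ht_R r ▸ k1]
      have k3 : ∀ u, ht β ≤ ht u → pair s u = -1 → refl s u ∈ {r | ht β ≤ ht r ∧ r ≠ β} := fun u a e => by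
        have := c.sl.ht_refl s u
        rw [e] at this
        exact ⟨by omega, fun e => by rw [e] at this; omega⟩
      exact ⟨fun a => by have := a.1; rw [ht_rev] at this; omega, fun u a => k3 u a.1,
        fun e => by rw [e, ht_rev] at h3; omega, k3 β le_rfl⟩) o
  rw [e] at k ⊢
  exact Nat.le_mul_of_pos_right _ (Nat.pos_of_mul_pos_left k)

theorem main (hA : ∀ i, c.R (sroot i) = sroot i → ∀ s, c.R s = s → wt s i ≤ 0 → 1 ≤ cor s i →
      ∃ r, pair r s = 1 ∧ wt r i = wt s i ∧ 0 ≤ cor r i ∧ cor r i ≤ cor s i ∧ (c.R r = r ∨ cor r i = cor s i ∨ wt s i = 0))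
    (hC : ∀ i k, c.R (sroot i) = sroot i → c.R (sroot k) = sroot k → i ≠ k → Gd i k ∨ Gd k i) {β : Root D} (hβ : c.R β = β)
    (hD : ∀ i, c.R (sroot i) = sroot i → ∃ r, c.R r = r ∧ pair r β = 1 ∧ (sroot i = r ∨ pair (sroot i) r = 1 ∨ pair (sroot i) r = -1))
    {e : ℕ} (hE : ∀ i, c.R (sroot i) = sroot i → (Lam i).card = e) {i₀ : Node D} (hi : c.R (sroot i₀) = sroot i₀)
    (h0 : p.Eg β 0 ≠ ⊤) {q : ℕ} (hq : Fintype.card (Ff c.θ) = q + 1) :
    2 * (q + 2) * q * (q + 1) ^ e ≤ (q + 1) * finrank ℂ V ∨ (q * ∑ r with c.R r = r ∧ IsPos r, (q + 1) ^ (c.Lb r).card ≤ finrank ℂ V ∧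
      finrank ℂ (p.Eg β 0) + q * (q + 1) ^ e = finrank ℂ V) := by
  classical
  obtain ⟨γ, g1, g2, -⟩ := hD i₀ hi
  have m0 : p.Mu β (finrank ℂ (p.Eg β 0)) (finrank ℂ (p.Eg β 1)) := ⟨rfl, fun b hb => by
    have b0 : b.1 ≠ 0 := by simpa using hb
    obtain ⟨u, h1, h2⟩ := rank_conj (p := p) hβ hβ (g := c.S.h γ b) (mul_mem (n_fix g1 b.2) (n_fix g1 (t := -1) (by simp))) (a := b) b0
      fun t => by simpa [g2] using h_conj (S := c.S) γ β b0 t
    rw [h2 1, mul_one, Subtype.ext h1]⟩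
  generalize finrank ℂ (p.Eg β 0) = a, finrank ℂ (p.Eg β 1) = m at m0
  have sm : ∀ n : ℕ, ∑ _b ∈ Finset.univ.erase (0 : Ff c.θ), n = q * n := fun n => by
    rw [Finset.sum_const, Finset.card_erase_of_mem (Finset.mem_univ _), Finset.card_univ, hq]; rfl
  have d1 : finrank ℂ V = a + q * m := by
    rw [← finrank_top, Om.sum_eig p.ne (f := fun t : Ff c.θ => p.e (c.S.x β t)) (by simp [p.one]) (fun s t => by
      rw [Subfield.coe_add, ← c.S.add, p.mul _ (x_fix hβ s.2) _ (x_fix hβ t.2)]) ⊤ (by simp), ← Finset.add_sum_erase _ _ (Finset.mem_univ 0),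
      ← sm, ← m0.1, top_inf_eq]
    exact congrArg _ (Finset.sum_congr rfl fun b hb => by rw [top_inf_eq]; exact m0.2 b (Finset.ne_of_mem_erase hb))
  have d2 : q * m ≤ (q + 1) * a := by
    have := indep p.ne (fun _ : Unit => fun t : Ff c.θ => p.e (c.S.x β t)) 0 (fun _ b => p.Eg β b ⊓ p.C {γ}) {()} (p.Eg γ 0)
      (fun _ _ b v hv => ⟨mem_Eg0.2 fun t => y_long g1 t.1 ▸ hv.2 γ rfl t fun _ => t.2, hv.1⟩) (by simp)
    rw [(m0.pair g1 hβ (.inl g2)).1, Finset.sum_singleton] at this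
    refine le_trans (le_of_eq ?_) (Nat.mul_le_mul_left _ this)
    rw [Finset.mul_sum, ← sm]
    refine Finset.sum_congr rfl fun b hb => ?_
    rw [← m0.2 b (Finset.ne_of_mem_erase hb), step hβ g2 (Finset.ne_of_mem_erase hb) le_rfl
      (fun t o v hv => Eg_comm hβ (y_fix o) hv (comm_yx hβ (by omega) t))
      (fun t o v hv => Eg_comm hβ (y_fix o) hv (comm_yx hβ (by rw [(c.sl.nu_nu g2).1]; omega) t)), if_pos g1, hq, pow_one]
  have d3 : ∀ i, c.R (sroot i) = sroot i → ∀ b ≠ 0, m = (q + 1) ^ e * finrank ℂ ↥(p.Eg (sroot i) b ⊓ p.C (Lam i)) := fun i hi b hb => by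
    obtain ⟨r, k1, k2, k3⟩ := hD i hi
    have k4 := m0.pair k1 hβ (.inl k2)
    have k5 : ∀ a ∈ Lam i, pair a (sroot i) = 1 := fun a ha => by rw [c.sl, pair_sroot, (mem_Lam.1 ha).1]
    rw [← (k3.elim (fun e => e ▸ k4) (k4.pair hi k1)).2 b hb, heisL hi hb le_rfl (st_Lam hi) (fun a ha => ⟨k5 a ha, fun k => by
      have := (c.sl.rf (k5 a ha) i).2.1
      have := (mem_Lam.1 ha).2
      have := (mem_Lam.1 k).2
      have := cor_self i
      omega⟩) fun a ha r hr t o v hv => Eg_comm hi (y_fix o) hv (comm_yx hi (by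
        rcases hr with rfl | rfl; exacts [by rw [k5 _ ha]; omega, by rw [(c.sl.nu_nu (k5 a ha)).1]; omega]) t), hq, hE i hi]
  have d4 := d3 i₀ hi 1 one_ne_zero
  generalize finrank ℂ ↥(p.Eg (sroot i₀) 1 ⊓ p.C (Lam i₀)) = μ at d4
  rcases μ with _ | _ | μ
  · exact absurd (Submodule.eq_top_of_finrank_eq (by rw [m0.1, d1, d4]; simp)) h0
  · refine .inr ⟨?_, by rw [d1, d4]; simp⟩
    have h1 := fun β => PP_all (β := β) fun i => phase2 hA hC fun i hi b hb =>
      Nat.eq_of_mul_eq_mul_left (by positivity) ((d3 i hi b hb).symm.trans d4)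
    have := indep p.ne (fun r (t : Ff c.θ) => p.e (c.S.x r t)) ht (fun β b => p.Cf {r | ht β ≤ ht r ∧ r ≠ β} ⊓ p.Eg β b)
      {r | c.R r = r ∧ IsPos r} ⊤ (fun _ _ _ => le_inf le_top inf_le_right) fun r _ s hs e k b v hv => mem_Eg0.2 fun t =>
        hv.1 _ (x_mem_US (by exact ⟨k, e.symm⟩) _) (x_fix (Finset.mem_filter.1 hs).2.1 t.2)
    rw [finrank_top] at this
    refine le_trans ?_ this
    rw [Finset.mul_sum]
    refine Finset.sum_le_sum fun r hr => ?_
    have k := (Finset.mem_filter.1 hr).2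
    rw [← sm, ← hq]
    exact Finset.sum_le_sum fun b hb => low k.1 k.2 (h1 r k.1 k.2) (Finset.ne_of_mem_erase hb)
  · left
    have : (q + 1) ^ e * 2 ≤ m := d4 ▸ Nat.mul_le_mul_left _ (by omega)
    have := Nat.mul_le_mul_left ((q + 2) * q) this
    rw [d1]
    nlinarith

end Rp

end H28.Ex
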