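import Cfsg.Agent.H28.Ex5
import Cfsg.Agent.H05.Integral
import Cfsg.Agent.H11.ChevCheck

/-!
# Divisibility and table checks (namespace `H28.Ex`)
-/

set_option autoImplicit false
set_option linter.style.haveILetI false

open Cfsg Cfsg.Lie H11 H11.StSys Module

namespace H28.Ex

theorem dvd_of_irr {H F V : Type*} [Group H] [Finite H] [Field F] [Fintype F] [AddCommGroup V] [Module ℂ V] [FiniteDimensional ℂ V]
    (ρ : Representation ℂ H V) [ρ.IsIrreducible] (ψ : AddChar F ℂ) {z : F → H} (hz : ∀ s t, z (s + t) = z s * z t)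
    (P : Subgroup H) (hP : ∀ g ∈ P, ∀ t, ∃ u, g * z t * g⁻¹ = z u) (hi : Function.Injective z) :
    finrank ℂ V ∣ P.index * (Fintype.card F * finrank ℂ (Wl.eig (fun t => ρ (z t)) ψ 0)) := by
  classical
  haveI : Fintype H := Fintype.ofFinite _
  let f : H → ℂ := fun g => (Finset.univ.filter fun a : H ⧸ P => ∃ t, a.out⁻¹ * g * a.out = z t).card
  have le : ∀ g k : H, (Finset.univ.filter fun a : H ⧸ P => ∃ t, a.out⁻¹ * g * a.out = z t).card ≤
      (Finset.univ.filter fun a : H ⧸ P => ∃ t, a.out⁻¹ * (k * g * k⁻¹) * a.out = z t).card := fun g k =>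
    Finset.card_le_card_of_injOn (fun a => k • a) (fun a ha => by
      simp only [Finset.coe_filter, Finset.mem_univ, true_and, Set.mem_setOf_eq] at ha ⊢
      obtain ⟨t, ht⟩ := ha
      obtain ⟨u, hu⟩ := QuotientGroup.mk_out_eq_mul P (k * a.out)
      obtain ⟨s, hs⟩ := hP _ (inv_mem u.2) t
      exact ⟨s, by rw [← a.out_eq, MulAction.Quotient.smul_mk, smul_eq_mul, hu, ← hs, ← ht]; group⟩)
      fun a _ b _ e => MulAction.injective k e
  have hf : IsClassFunction H f := fun g k => congrArg Nat.cast (le_antisymm (by simpa [mul_assoc] using le (k * g * k⁻¹) k⁻¹) (le g k))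
  have h1 := H05.Cfsg.IsIrrCharacter.isIntegral_sum_div (H05.isIrrCharacter_character ρ) hf fun g => isIntegral_natCast _
  have h2 : ∑ g, f g * ρ.character g = (P.index * (Fintype.card F * finrank ℂ (Wl.eig (fun t => ρ (z t)) ψ 0)) : ℕ) := by
    have k : ∑ t, ρ.character (z t) = Fintype.card F * finrank ℂ (Wl.eig (fun t => ρ (z t)) ψ 0) := by
      rw [← (Om.isProj_av (f := fun t => ρ (z t)) (χ := 1) (fun a b => by rw [hz, map_mul]) fun y => by simp [Wl.mem_eig]).trace]
      simp [Om.av, Representation.character]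
    simp only [f, Finset.card_filter, Nat.cast_sum, Finset.sum_mul]
    rw [Finset.sum_comm, Finset.sum_congr rfl (g := fun _ => ∑ t, ρ.character (z t)), k]
    · simp [Subgroup.index]
    intro a _
    simp only [Nat.cast_ite, Nat.cast_one, Nat.cast_zero, ite_mul, one_mul, zero_mul, ← Finset.sum_filter]
    exact (Finset.sum_bij (fun t _ => a.out * z t * a.out⁻¹) (fun t _ => by simp [mul_assoc]) (fun s _ t _ e => hi (by simpa using e))
      (fun g hg => by
        obtain ⟨t, ht⟩ := (Finset.mem_filter.1 hg).2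
        exact ⟨t, Finset.mem_univ _, by rw [← ht]; group⟩) fun t _ => (Representation.char_conj _ _ _).symm).symm
  rw [h2, Representation.char_one] at h1
  haveI := H05.nontrivial_of_isIrreducible ρ
  have h0 : finrank ℂ V ≠ 0 := finrank_pos.ne'
  generalize P.index * _ = N at h1
  rw [show (N : ℂ) / finrank ℂ V = algebraMap ℚ ℂ (N / finrank ℂ V) by simp, isIntegral_algebraMap_iff (algebraMap ℚ ℂ).injective] at h1
  obtain ⟨y, hy⟩ := IsIntegrallyClosed.isIntegral_iff.1 h1
  refine Int.natCast_dvd_natCast.1 ⟨y, Int.cast_injective (α := ℚ) ?_⟩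
  simp only [algebraMap_int_eq, eq_intCast] at hy
  push_cast; rw [hy]; field_simp

/-- bounded count -/
noncomputable def cnt (n : ℕ) (f : ℕ → Bool) : ℕ := Nat.rec 0 (fun k ih => cond (f k) (Nat.succ ih) ih) n

/-- bounded existential quantifier -/
noncomputable def exLt (n : ℕ) (f : ℕ → Bool) : Bool := Nat.rec false (fun k ih => or (f k) ih) n

theorem exLt_spec {n : ℕ} {f : ℕ → Bool} (h : exLt n f = true) : ∃ k < n, f k = true := by
  induction n with
  | zero => exact absurd h (by simp [exLt])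
  | succ n ih =>
    rcases Bool.or_eq_true_iff.1 (show (f n || exLt n f) = true from h) with e | e
    · exact ⟨n, by omega, e⟩
    · exact (ih e).imp fun k a => ⟨by omega, a.2⟩

theorem cnt_eq (n : ℕ) (f : ℕ → Bool) : (∑ i ∈ Finset.range n, if f i then 1 else 0) = cnt n f := by
  induction n with
  | zero => rfl
  | succ n ih =>
    rw [Finset.sum_range_succ, ih, show cnt (n + 1) f = cond (f n) (cnt n f).succ (cnt n f) from rfl]
    cases f n <;> simp

theorem card_eq_cnt {n : ℕ} {p : Fin n → Prop} [DecidablePred p] {f : ℕ → Bool} (h : ∀ r, p r ↔ f r = true) :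
    (Finset.univ.filter p).card = cnt n f := by
  rw [Finset.card_filter, Finset.sum_congr rfl (g := fun r : Fin n => if f r then 1 else 0) fun r _ => by simp [h],
    Fin.sum_univ_eq_sum_range fun r => if f r then 1 else 0, cnt_eq]

theorem sum_aux (n : ℕ) (f : ℕ → Bool) (g : ℕ → ℕ) (x : ℕ) : (∑ i ∈ Finset.range n, if f i then x ^ g i else 0) =
    (((List.range n).filterMap fun r => cond (f r) (some (g r)) none).map (x ^ ·)).sum := by
  induction n with
  | zero => rfl
  | succ n ih =>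
    rw [Finset.sum_range_succ, ih, List.range_succ, List.filterMap_append]
    cases e : f n <;> simp [e]

theorem sum_eq_list {n : ℕ} {p : Fin n → Prop} [DecidablePred p] (f : ℕ → Bool) (g' : ℕ → ℕ) (h : ∀ r, p r ↔ f r = true)
    {g : Fin n → ℕ} (h' : ∀ r, g r = g' r) (x : ℕ) : ∑ r with p r, x ^ g r =
      ((goRow (fun r => cond (f r) (some (g' r)) none) n []).map (x ^ ·)).sum := by
  rw [Finset.sum_filter, Finset.sum_congr rfl (g := fun r : Fin n => if f r then x ^ g' r else 0) fun r _ => by simp [h, h'],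
    Fin.sum_univ_eq_sum_range fun r => if f r then x ^ g' r else 0, goRow_eq, List.append_nil, sum_aux]

section chk
variable (F : Fast) (R : ℕ → ℕ)

/-- pairing equal to one -/
noncomputable def pn (r s : ℕ) : Bool := !(Nat.beq (Nat.land (F.s0 (F.ng r) s) 7) 4)

/-- first check -/
noncomputable def chkA (i : ℕ) : Bool := allLt F.n fun s => !(Nat.beq (R s) s && decide (F.wt s i ≤ 0) && decide (1 ≤ F.cor s i)) ||
  exLt F.n fun r => pn F s r && decide (F.wt r i = F.wt s i) && decide (0 ≤ F.cor r i) && decide (F.cor r i ≤ F.cor s i) &&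
    (Nat.beq (R r) r || decide (F.cor r i = F.cor s i) || decide (F.wt s i = 0))

/-- second check -/
noncomputable def gd (i k : ℕ) : Bool := exLt F.n fun r => decide (F.wt r k = 1) && Nat.blt (F.ng r) r &&
  decide (F.wt r i = F.wt (F.sim k) i) && decide (F.cor r i = 0)

/-- checks at a node -/
noncomputable def chkN (b e i : ℕ) : Bool := !(Nat.beq (R (F.sim i)) (F.sim i)) || (chkA F R i &&
  allLt F.l (fun k => !(Nat.beq (R (F.sim k)) (F.sim k)) || Nat.beq i k || gd F i k || gd F k i) &&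
  exLt F.n (fun r => Nat.beq (R r) r && pn F r b && (Nat.beq (F.sim i) r || decide (F.wt r i = 1) || decide (F.wt r i = -1))) &&
  Nat.beq (cnt F.n fun r => decide (F.wt r i = 1) && decide (1 ≤ F.cor r i)) e)

/-- membership test -/
noncomputable def lb (r a : ℕ) : Bool := pn F r a && Nat.blt (F.ng a) a && Nat.blt (F.ng (F.I (F.ng a) r)) (F.I (F.ng a) r) &&
  Nat.blt (Nat.add a (R a)) (Nat.add (F.I (F.ng a) r) (R (F.I (F.ng a) r)))

/-- list of exponents -/
noncomputable def expL : List ℕ :=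
  goRow (fun r => cond (Nat.beq (R r) r && Nat.blt (F.ng r) r) (some (cnt F.n (lb F R r))) none) F.n []

end chk

variable {D : ChevalleyDatum} [Good D] {F : Fast} (A : Agree D F)
include A

theorem pn_iff (hs : SL D) (r s : Root D) : pn F r s = true ↔ pair r s = 1 := by
  have k : pair r s = 1 ↔ Nc r.rev s ≠ 0 := ⟨fun e => hs.nc' (by simp [e]), fun e => by simpa using (hs.nc e).1⟩
  rw [k, A.Nc_eq, A.rev_val, Fast.N, cN_eq, pn]
  simp only [Bool.not_eq_true', Bool.eq_false_iff, ne_eq, Nat.beq_eq]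
  omega

theorem refl_val (hs : SL D) {r s : Root D} (h : pair r s = 1) : (refl r s : ℕ) = F.I (F.ng r) s := by
  have k : Nc r.rev s ≠ 0 := hs.nc' (by simp [h])
  rw [← A.rev_val, ← A.radd_eq k, (hs.nc k).2, refl_rev_left]

omit [Good D] in
theorem pos_iff (r : Root D) : IsPos r ↔ Nat.blt (F.ng r) r = true := by rw [Nat.blt_eq, ← A.rev_val]; rfl

variable {K G : Type*} [Field K] [Group G] [Cert D] [Fintype K] [Finite G] (c : Cx D K G) {R : ℕ → ℕ} (hR : ∀ r, (c.R r : ℕ) = R r)
include hR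

theorem bound {V : Type*} [AddCommGroup V] [Module ℂ V] [FiniteDimensional ℂ V] (ρ : Representation ℂ (fixS c.σ) V) [ρ.IsIrreducible]
    (hρ : Function.Injective ρ) (β : Root D) (hβ : c.R β = β) {e : ℕ} (h : ∀ i < F.l, chkN F R β e i = true) (i₀ : Node D)
    (hi : c.R (sroot i₀) = sroot i₀) {q : ℕ} (hq : Nat.card (Ff c.θ) = q + 1) {dl : List ℕ} (hd : expL F R = dl)
    (hb : ∀ i, 0 ≤ wt β i) {J : Set (Node D)} (hJ : ∀ j ∈ J, wt β j = 0) {N : ℕ}
    (hN : Nat.card (fixS c.σ) = N * Nat.card ↥(c.S.PJ J ⊓ fixS c.σ)) :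
    2 * (q + 2) * q * (q + 1) ^ e ≤ (q + 1) * finrank ℂ V ∨
      (q * (dl.map ((q + 1) ^ ·)).sum ≤ finrank ℂ V ∧ finrank ℂ V ∣ N * ((q + 1) * (q * (q + 1) ^ e))) := by
  classical
  haveI := Fintype.ofFinite (Ff c.θ)
  obtain ⟨ψ, hψ⟩ := L.Wt.exists_addChar (K := ℂ) (F := Ff c.θ) (Nat.cast_ne_zero.2 (CharP.ringChar_ne_zero_of_finite _))
  let p : Rp c V := ⟨fun g => if h : g ∈ fixS c.σ then ρ ⟨g, h⟩ else 1, by rw [dif_pos (one_mem _)]; exact map_one ρ, fun a ha b hb => by
    rw [dif_pos ha, dif_pos hb, dif_pos (mul_mem ha hb), ← map_mul]; rfl, ψ, hψ⟩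
  let z : Ff c.θ → fixS c.σ := fun t => ⟨_, Cx.x_fix hβ t.2⟩
  have ez : (fun t : Ff c.θ => p.e (c.S.x β t)) = fun t => ρ (z t) := funext fun t => dif_pos _
  have zi : Function.Injective z := fun s t e => Subtype.ext (x_inj (congrArg c.S.θ (congrArg Subtype.val e)))
  have lg : ∀ r, c.R r = r ↔ Nat.beq (R r) r = true := fun r => by rw [Nat.beq_eq, ← hR, Fin.ext_iff]
  have sv : ∀ i : Node D, (sroot i : ℕ) = F.sim i := fun i => A.simple_eq (A.lt_l i)
  have ex : ∀ {f : ℕ → Bool}, exLt F.n f = true → ∃ r : Root D, f r = true := fun h =>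
    let ⟨k, a, b⟩ := exLt_spec h; ⟨⟨k, A.n_eq ▸ a⟩, b⟩
  have h' : ∀ i, c.R (sroot i) = sroot i → _ := fun i hi => by
    have := h i (A.lt_l i)
    rw [lg, sv] at hi
    simp only [chkN, hi, Bool.not_true, Bool.false_or, Bool.and_eq_true] at this
    exact this
  have gs : ∀ i k : Node D, gd F i k = true → Gd i k := fun i k h => (ex h).imp fun r a => by
    simpa only [Bool.and_eq_true, decide_eq_true_eq, ← pos_iff A, ← sv, ← A.wt_eq, ← A.cor_eq, and_assoc, c.sl r, pair_sroot] using a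
  rw [Nat.card_eq_fintype_card] at hq
  refine (Rp.main (p := p) (fun i hi s h1 h2 h3 => ?_) (fun i k hi hk e => ?_) hβ (fun i hi => ?_) (e := e) (fun i hi => ?_) hi
    (fun e => ?_) hq).imp_right fun ⟨h1, h2⟩ => ⟨?_, ?_⟩
  · have := allLt_spec (h' i hi).1.1.1 (A.lt_n s)
    simp only [(lg s).1 h1, ← A.wt_eq, ← A.cor_eq, h2, h3, decide_true, Bool.and_self, Bool.not_true, Bool.false_or] at this
    exact (ex this).imp fun r a => by
      simpa only [Bool.and_eq_true, Bool.or_eq_true, decide_eq_true_eq, pn_iff A c.sl, ← lg, ← A.wt_eq, ← A.cor_eq, and_assoc, or_assoc,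
        c.sl r] using a
  · have := allLt_spec (h' i hi).1.1.2 (A.lt_l k)
    rw [lg, sv] at hk
    simp only [hk, Bool.not_true, Bool.false_or, Bool.or_eq_true, Nat.beq_eq, Fin.val_inj, e, false_or] at this
    exact this.imp (gs _ _) (gs _ _)
  · exact (ex (h' i hi).1.2).imp fun r a => by
      simpa only [Bool.and_eq_true, Bool.or_eq_true, decide_eq_true_eq, pn_iff A c.sl, ← lg, ← A.wt_eq, and_assoc, or_assoc,
        pair_sroot, ← sv, Nat.beq_eq, Fin.val_inj, ← hR] using a
  · rw [← Nat.eq_of_beq_eq_true (h' i hi).2, ← A.n_eq]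
    exact card_eq_cnt fun r => by simp [A.wt_eq, A.cor_eq]
  · refine one_ne_zero (zi (a₂ := 0) (hρ (LinearMap.ext fun v => ?_)))
    have := Rp.mem_Eg0.1 (show v ∈ p.Eg β 0 from e ▸ trivial)
    exact (congrFun (congrArg _ (congrFun ez 1).symm) v).trans ((this 1).trans ((this 0).symm.trans (congrFun (congrArg _ (congrFun ez 0)) v)))
  · rw [← hd, expL, ← A.n_eq]
    rw [sum_eq_list (p := fun r => c.R r = r ∧ IsPos r) (g := fun r => (c.Lb r).card) (fun r => Nat.beq (R r) r && Nat.blt (F.ng r) r)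
      (fun r => cnt D.nroots (lb F R r)) (fun r => by rw [lg, pos_iff A, Bool.and_eq_true]) fun r => card_eq_cnt fun a => ?_] at h1
    · exact h1
    simp only [lb, Bool.and_eq_true, pn_iff A c.sl, c.sl r, and_assoc, and_congr_right_iff]
    intro k
    rw [← refl_val A c.sl k, ← pos_iff A, ← pos_iff A, Nat.blt_eq, ← hR, ← hR]
    rfl
  · have k : c.S.PJ J ≤ Subgroup.normalizer (c.S.US {β} : Set G) := by
      have k1 : ∀ r, 0 ≤ pair r β → ∀ t, c.S.x r t ∈ Subgroup.normalizer (c.S.US {β} : Set G) := fun r a =>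
        c.sl.norm c.S (fun e => by simp [← show r.rev = β from e] at a) fun s e k => by rw [show s = β from e] at k; omega
      exact PJ_le (sup_le (US_le.2 fun r a => k1 r (cor_dot_nonneg hb a)) (H_le_normalizer _)) fun j hj =>
        n_mem_of (k1 _ (by rw [pair_sroot, hJ j hj])) (k1 _ (by simp [pair_sroot, hJ j hj])) _
    have k2 := dvd_of_irr ρ ψ (z := z) (fun s t => Subtype.ext (c.S.add _ _ _).symm) ((c.S.PJ J).subgroupOf _) (fun g hg t => by
      obtain ⟨u, hu⟩ := mem_US_singleton.1 ((Subgroup.mem_normalizer_iff.1 (k hg) _).1 (x_mem_US (Set.mem_singleton β) t.1))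
      have := mem_fixS.1 (g * z t * g⁻¹).2
      simp only [Subgroup.coe_mul, Subgroup.coe_inv, z] at this
      rw [Subgroup.coe_subtype] at hu
      rw [hu, c.act, hβ, c.ε1 β hβ, one_mul] at this
      exact ⟨⟨u, x_inj (congrArg c.S.θ this)⟩, Subtype.ext hu⟩) zi
    have k3 : ((c.S.PJ J).subgroupOf (fixS c.σ)).index = N := by
      have := ((c.S.PJ J).subgroupOf (fixS c.σ)).index_mul_card
      rw [hN, ← Subgroup.inf_subgroupOf_right, Nat.card_congr (Subgroup.subgroupOfEquivOfLe inf_le_right).toEquiv] at this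
      rw [← Subgroup.inf_subgroupOf_right]
      exact Nat.eq_of_mul_eq_mul_right Nat.card_pos this
    rw [k3, ← ez, hq] at k2
    refine (Nat.dvd_add_right k2).1 ?_
    rw [← mul_add, ← mul_add, show finrank ℂ (Wl.eig _ ψ 0) + _ = _ from h2, ← mul_assoc]
    exact dvd_mul_left _ _

end H28.Ex
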