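import Cfsg.Agent.H28.Ex6
import Cfsg.Agent.H11.TwE6
import Cfsg.Agent.L.MinRep

/-!
# Arithmetic and instances (namespace `H28.Ex`)
-/

set_option autoImplicit false
set_option linter.style.haveILetI false

open Cfsg Cfsg.Lie H11 H11.StSys Module

namespace H28.Ex

theorem arith {q d f r e M : ℕ} (hq : IsPrimePow q) (h1 : f ≤ d + r) (h2 : q ∣ f) (h : d ∣ f * M * q ^ e)
    (h3 : (∀ j ∈ Finset.Icc 1 r, ¬ f - j ∣ f * M * q ^ e) ∨
      r < q ∧ ∃ W, (M + W = q * f ∨ M = q * f + W) ∧ q * r < W ∧ r * r * (W + q * r) + r < f) : f ≤ d := by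
  by_contra! h0
  obtain ⟨j, rfl⟩ := Nat.exists_eq_add_of_le h0.le
  rcases h3 with h3 | ⟨h3, W, h4, h5, h6⟩
  · exact h3 j (Finset.mem_Icc.2 ⟨by omega, by omega⟩) (by simpa using h)
  have a : d ∣ j * M * gcd d (q ^ e) := dvd_mul_gcd_of_dvd_mul ((Nat.dvd_add_right (dvd_mul_right d (M * q ^ e))).1
    (by rwa [add_mul, add_mul, mul_assoc d] at h))
  have b : gcd d (q ^ e) ∣ j := by
    obtain ⟨p, k, hp, -, rfl⟩ := (isPrimePow_nat_iff _).1 hq
    obtain ⟨m, -, hm⟩ := (Nat.dvd_prime_pow hp).1 (pow_mul p k e ▸ gcd_dvd_right d ((p ^ k) ^ e))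
    have c := gcd_dvd_left d ((p ^ k) ^ e)
    rw [← pow_mul, hm] at c ⊢
    rcases le_total m k with l | l
    · exact (Nat.dvd_add_right c).1 ((pow_dvd_pow p l).trans h2)
    · exact absurd (Nat.le_of_dvd (by omega) ((Nat.dvd_add_right ((pow_dvd_pow p l).trans c)).1 h2)) (by omega)
  have b1 := Nat.le_of_dvd (by omega) b
  have b2 := Nat.pos_of_dvd_of_pos b (by omega)
  generalize gcd d (q ^ e) = g at a b1 b2
  have c1 : j * g ≤ r * r := Nat.mul_le_mul (by omega) (by omega)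
  have c2 : 0 < j * g := Nat.mul_pos (by omega) b2
  have c3 : q * j ≤ q * r := Nat.mul_le_mul_left _ (by omega)
  rw [mul_right_comm] at a
  generalize j * g = J at a c1 c2
  have k : ∀ X, 0 < X → X ≤ W + q * r → ¬ d ∣ J * X := fun X x1 x2 x3 => by
    have := Nat.le_of_dvd (Nat.mul_pos c2 x1) x3
    have := Nat.mul_le_mul c1 x2
    omega
  rcases h4 with h4 | rfl
  · obtain ⟨X, rfl⟩ := Nat.exists_eq_add_of_le (c3.trans h5.le)
    refine k X (by omega) (by omega) ((Nat.dvd_add_right a).1 ⟨J * q, ?_⟩)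
    rw [← mul_add, show M + X = q * d by rw [mul_add] at h4; omega]; ring
  · exact k (q * j + W) (by omega) (by omega) ((Nat.dvd_add_right (dvd_mul_left d (J * q))).1 (by rwa [mul_add q, add_assoc, mul_add, ← mul_assoc] at a))

theorem fin {q d f r e M N S : ℕ} (hq : IsPrimePow (q + 1))
    (hb : 2 * (q + 2) * q * (q + 1) ^ e ≤ (q + 1) * d ∨ (S ≤ d ∧ d ∣ N * ((q + 1) * (q * (q + 1) ^ e))))
    (h1 : (q + 1) * f ≤ 2 * (q + 2) * q * (q + 1) ^ e) (h2 : S + r = f) (h3 : N * ((q + 1) * q) = f * M) (h4 : q + 1 ∣ f)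
    (h5 : (∀ j ∈ Finset.Icc 1 r, ¬ f - j ∣ f * M * (q + 1) ^ e) ∨ r < q + 1 ∧ ∃ W, (M + W = (q + 1) * f ∨ M = (q + 1) * f + W) ∧
      (q + 1) * r < W ∧ r * r * (W + (q + 1) * r) + r < f) : f ≤ d :=
  hb.elim (fun a => Nat.le_of_mul_le_mul_left (h1.trans a) q.succ_pos) fun a =>
    arith hq (by omega) h4 (by rw [← h3, mul_assoc, mul_assoc]; exact a.2) h5

variable {K G : Type*} [Field K] [Group G]

section
variable {D : ChevalleyDatum} [Good D]

/-- the untwisted case -/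
noncomputable def cx1 (S : StSys D K G) (sl : SL D) : Cx D K G where
  S := S
  σ := 1
  θ := RingEquiv.refl K
  R := id
  ρ := 1
  ε := 1
  sl := sl
  act := by simp
  cor_R _ _ := rfl
  wt_R _ _ := rfl
  RR _ := rfl
  θθ _ := rfl
  εε := by simp
  ε1 _ _ := rfl
  εs _ _ _ := rfl
  orth _ h := absurd rfl h
  big _ h := absurd rfl h
  tor _ h := absurd rfl h

theorem bound1 [Cert D] [Fintype K] {F : Fast} (A : Agree D F) (sl : SL D) [IsSimpleGroup (D.group K)] {k : ℕ}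
    (ρ : Representation ℂ (D.group K) (Fin k → ℂ)) (h1 : ρ.IsIrreducible) (h2 : 2 ≤ k) (β : Root D) {e : ℕ}
    (h : ∀ i < F.l, chkN F id β e i = true) (i₀ : Node D) {q : ℕ} (hq : Fintype.card K = q + 1) {dl : List ℕ} (hd : expL F id = dl)
    (hb : ∀ i, 0 ≤ wt β i) {J : Set (Node D)} (hJ : ∀ j ∈ J, wt β j = 0) {N : ℕ}
    (hN : poin (D := D) Set.univ (q + 1) = N * poin J (q + 1)) :
    2 * (q + 2) * q * (q + 1) ^ e ≤ (q + 1) * k ∨
      (q * (dl.map ((q + 1) ^ ·)).sum ≤ k ∧ k ∣ N * ((q + 1) * (q * (q + 1) ^ e))) := by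
  haveI := StSys.finite_of_gen (grpSys_grp D K)
  have e1 : fixS (1 : MulAut (D.group K)) = ⊤ := top_unique fun _ _ => rfl
  haveI : Representation.IsIrreducible (G := fixS (cx1 (grpSys D K) sl).σ) (ρ.comp (fixS 1).subtype) :=
    H05.isIrreducible_comp_of_surjective ρ (fixS 1).subtype fun g => ⟨⟨g, rfl⟩, rfl⟩
  rw [← Nat.card_eq_fintype_card] at hq
  simpa using bound A (cx1 (grpSys D K) sl) (fun _ => rfl) (ρ.comp (fixS 1).subtype) (((MonoidHom.ker_eq_bot_iff ρ).1
    (ρ.normal_ker.eq_bot_or_eq_top.resolve_right (L.MR.ker_ne_top ρ h1 h2))).comp Subtype.val_injective) β rfl h i₀ rfl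
    (hq ▸ Nat.card_congr (Equiv.subtypeUnivEquiv fun _ => rfl)) hd hb hJ (N := N) (by
      change Nat.card (fixS 1) = N * Nat.card ↥((grpSys D K).PJ J ⊓ fixS 1)
      rw [e1, inf_top_eq, ← grpSys_grp, ← PJ_univ, card_PJ, card_PJ, hq, hN, mul_left_comm])

end

theorem slE6 : SL chevE6 := sl_of fun i j => by
  have k : ∀ i : Node chevE6, ip (sroot i) (sroot i) = ip (sroot (nd chevE6 3)) (sroot (nd _ 3)) := fun i => by
    have a : ip (sroot (nd chevE6 2)) (sroot (nd _ 2)) = ip (sroot (nd chevE6 3)) (sroot (nd _ 3)) := ip_eq (by decide +kernel)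
    have b : ip (sroot (nd chevE6 4)) (sroot (nd _ 4)) = ip (sroot (nd chevE6 3)) (sroot (nd _ 3)) := ip_eq (by decide +kernel)
    fin_cases i
    exacts [(ip_eq (by decide +kernel)).trans a, ip_eq (by decide +kernel), a, rfl, b, (ip_eq (by decide +kernel)).trans b]
  rw [k i, k j]

theorem slE8 : SL chevE8 := sl_of fun i j => by
  have k : ∀ i : Node chevE8, ip (sroot i) (sroot i) = ip (sroot (nd chevE8 3)) (sroot (nd _ 3)) := fun i => by
    have a : ip (sroot (nd chevE8 2)) (sroot (nd _ 2)) = ip (sroot (nd chevE8 3)) (sroot (nd _ 3)) := ip_eq (by decide +kernel)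
    have b : ip (sroot (nd chevE8 4)) (sroot (nd _ 4)) = ip (sroot (nd chevE8 3)) (sroot (nd _ 3)) := ip_eq (by decide +kernel)
    have c : ip (sroot (nd chevE8 5)) (sroot (nd _ 5)) = _ := (ip_eq (by decide +kernel)).trans b
    have d : ip (sroot (nd chevE8 6)) (sroot (nd _ 6)) = _ := (ip_eq (by decide +kernel)).trans c
    fin_cases i
    exacts [(ip_eq (by decide +kernel)).trans a, ip_eq (by decide +kernel), a, rfl, b, c, d, (ip_eq (by decide +kernel)).trans d]
  rw [k i, k j]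

/-- the graph symmetry on root indices -/
def R6 (r : ℕ) : ℕ := lk 0x47464542374441363f34313c2d2926244340353e33303d322f2e3b2c28253a2b27392a380f1d0e201c0d221f1b0c1918150a17140912070423211e1a0b1613081106031005020100 8 255 r

/-- signs -/
def e6 (r : ℕ) : ℤ := Int.subNatNat (lk 0xaa28822208a2a2288aa2288a8a20888228aa 2 3 r) 1

/-- the graph symmetry -/
def r6 (r : Root chevE6) : Root chevE6 := ⟨R6 r, (by decide +kernel : ∀ r < 72, R6 r < 72) r r.2⟩

variable {q : ℕ} {θ : K ≃+* K} (F : FrF 2 q θ) {σ : MulAut (chevE6.group K)} (h : IsTw (grpSys chevE6 K) σ grE6 θ)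

include F in
theorem exists_ne_fix : ∃ u, θ u ≠ u := by
  by_contra! a
  have := F.card_fix
  rw [Nat.card_congr (Equiv.subtypeUnivEquiv a), F.card] at this
  nlinarith [F.lt]

include F in
theorem exists_tw : ∃ t : Kˣ, Units.map (θ : K →* K) t = t⁻¹ ∧ t ^ 2 ≠ 1 := by
  obtain ⟨u, hu⟩ := exists_ne_fix F
  obtain ⟨v, hv⟩ : ∃ v, θ v ^ 2 ≠ v ^ 2 := by
    by_contra! a
    have a1 := (sq_eq_sq_iff_eq_or_eq_neg.1 (a u)).resolve_left hu
    rcases sq_eq_sq_iff_eq_or_eq_neg.1 (a (u + 1)) with b | b <;> rw [map_add, map_one] at b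
    · exact hu (add_right_cancel b)
    · exact hu (by linear_combination a1 - u * (b - a1))
  have v0 : v ≠ 0 := by rintro rfl; simp at hv
  have v1 : θ v ≠ 0 := by simpa using v0
  refine ⟨Units.mk0 (θ v / v) (div_ne_zero v1 v0), Units.ext ?_, fun e => hv ?_⟩
  · simp [show θ (θ v) = v from F.iter v]
  · simpa [div_pow, div_eq_one_iff_eq, v0] using congrArg Units.val e

/-- the twisted case -/
noncomputable def cx2 : Cx chevE6 K (chevE6.group K) where
  S := grpSys chevE6 K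
  σ := σ
  θ := θ
  R := r6
  ρ := flipE6
  ε r := e6 r
  sl := slE6
  act r t := by
    rw [h, (by decide +kernel : ∀ r < 72, grE6 r = [(R6 r, e6 r, 1)]) r r.2, ← xNat_val (grpSys chevE6 K).x (r6 r)]
    simp [appW, r6]
  cor_R := by decide +kernel
  wt_R := by decide +kernel
  RR := by decide +kernel
  θθ := F.iter
  εε r := by rw [map_intCast, ← Int.cast_mul, (by decide +kernel : ∀ r : Root chevE6, e6 (r6 r) * e6 r = 1) r, Int.cast_one]
  ε1 r a := by rw [(by decide +kernel : ∀ r : Root chevE6, r6 r = r → e6 r = 1) r a, Int.cast_one]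
  εs i r a := by
    rw [(by decide +kernel : ∀ i : Node chevE6, ∀ r : Root chevE6, chevE6.simple i = r ∨ chevE6.simple i = r.rev → e6 r = 1) i r a, Int.cast_one]
  orth := by decide +kernel
  big _ _ := ⟨F.card.trans (congrArg (· ^ 2) F.card_fix.symm), by
    obtain ⟨u, hu⟩ := exists_ne_fix F
    have := sub_ne_zero.2 hu
    have := sub_ne_zero.2 hu.symm
    exact ⟨u / (u - θ u), by rw [map_div₀, map_sub, show θ (θ u) = u from F.iter u]; field_simp; ring⟩⟩
  tor r hr := by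
    haveI := F.finite
    obtain ⟨t, h1, h2⟩ := exists_tw F
    obtain ⟨a, ha⟩ := (by decide +kernel : ∀ r : Root chevE6, r6 r ≠ r → ∃ a, flipE6 (flipE6 a) = a ∧ wt r a - wt r (flipE6 a) ∣ 2 ∧
      ∀ s, r6 s = s → wt s a - wt s (flipE6 a) = 0) r hr
    have k : ∀ s, chiOf (Pi.mulSingle a t * Pi.mulSingle (flipE6 a) t⁻¹) s = t ^ (wt s a - wt s (flipE6 a)) := fun s => by
      rw [chiOf_mul, chiOf_single, chiOf_single, zpow_sub, inv_zpow]
    refine ⟨_, ((TE6.H_inf F h (grpSys_θ_injective _ _)).ge ⟨Pi.mulSingle a t * Pi.mulSingle (flipE6 a) t⁻¹, mem_Tf.2 (by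
      rw [map_mul, twc_single, twc_single, ha.1, mul_comm, map_inv, h1, inv_inv]), rfl⟩).2, _, torS_conj _ _,
      fun s e => by simp [k, ha.2.2 s e], fun e => h2 ?_⟩
    obtain ⟨c, hc⟩ := ha.2.1
    rw [k, Units.val_eq_one] at e
    rw [← zpow_natCast, Nat.cast_ofNat, hc, zpow_mul, e, one_zpow]

end H28.Ex
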