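import Cfsg.Agent.H28.Ex7

/-!
# Joint eigenspaces of root subgroups in representations of groups of type `G₂` (namespace `H28.Gt`)
-/

set_option autoImplicit false

open Cfsg Cfsg.Lie H11 H11.StSys Module

namespace H28.Gt

theorem cts : chevG2.commTerms 5 7 = [] ∧ chevG2.commTerms 5 8 = [(7, 1, 1, 1), (9, -1, 1, 2), (11, 1, 1, 3), (10, 2, 2, 3)] ∧
    chevG2.commTerms 5 9 = [] ∧ chevG2.commTerms 5 10 = [] ∧ chevG2.commTerms 5 11 = [(10, 1, 1, 1)] ∧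
    chevG2.commTerms 6 7 = [(8, 1, 1, 1), (9, 1, 1, 2), (10, -1, 1, 3), (11, -2, 2, 3)] ∧ chevG2.commTerms 6 8 = [] ∧
    chevG2.commTerms 6 9 = [] ∧ chevG2.commTerms 6 10 = [(11, 1, 1, 1)] ∧ chevG2.commTerms 6 11 = [] ∧ chevG2.commTerms 7 5 = [] ∧
    chevG2.commTerms 7 6 = [(8, -1, 1, 1), (9, 1, 2, 1), (10, 1, 3, 1), (11, 1, 3, 2)] ∧
    chevG2.commTerms 7 8 = [(9, -2, 1, 1), (10, -3, 2, 1), (11, 3, 1, 2)] ∧ chevG2.commTerms 7 9 = [(10, 3, 1, 1)] ∧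
    chevG2.commTerms 7 10 = [] ∧ chevG2.commTerms 7 11 = [] ∧ chevG2.commTerms 8 6 = [] ∧
    chevG2.commTerms 8 7 = [(9, 2, 1, 1), (11, 3, 2, 1), (10, -3, 1, 2)] ∧ chevG2.commTerms 8 9 = [(11, 3, 1, 1)] ∧
    chevG2.commTerms 8 10 = [] ∧ chevG2.commTerms 8 11 = [] ∧ chevG2.commTerms 9 5 = [] ∧ chevG2.commTerms 9 6 = [] ∧
    chevG2.commTerms 9 7 = [(10, -3, 1, 1)] ∧ chevG2.commTerms 9 8 = [(11, -3, 1, 1)] ∧ chevG2.commTerms 9 10 = [] ∧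
    chevG2.commTerms 9 11 = [] ∧ chevG2.commTerms 10 5 = [] ∧ chevG2.commTerms 10 6 = [(11, -1, 1, 1)] ∧ chevG2.commTerms 10 7 = [] ∧
    chevG2.commTerms 10 8 = [] ∧ chevG2.commTerms 10 9 = [] ∧ chevG2.commTerms 10 11 = [] ∧ chevG2.commTerms 11 5 = [(10, -1, 1, 1)] ∧
    chevG2.commTerms 11 6 = [] ∧ chevG2.commTerms 11 7 = [] ∧ chevG2.commTerms 11 8 = [] ∧ chevG2.commTerms 11 9 = [] ∧
    chevG2.commTerms 11 10 = [] ∧ chevG2.commTerms 6 0 = [(1, -1, 1, 1)] := by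
  repeat' apply And.intro
  all_goals decide +kernel

/-- Cartan integers -/
def pr (r s : ℕ) : ℤ := (0x544434232221454342423212665443322100634526041230364250614203423425142342243241524324302416052463032140625436001223344566212324243454122232434445 / 16 ^ (12 * r + s) % 16 : ℕ) - 3

/-- reflections -/
def rf (r s : ℕ) : ℕ := 0x53271a4986b61482b0937a51024365879ba5a7390b28416b6894a172350ab9785634201ab9785634201b6894a1723505a7390b284161024365879ba61482b0937a5053271a4986b / 16 ^ (12 * r + s) % 16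

theorem prs :
    pr 6 5 = -2 ∧ pr 6 6 = 2 ∧ pr 6 7 = -1 ∧ pr 6 8 = 1 ∧ pr 6 9 = 0 ∧ pr 6 10 = -1 ∧ pr 6 11 = 1 ∧ pr 7 5 = 3 ∧ pr 7 6 = -3 ∧ pr 7 7 = 2 ∧
    pr 7 8 = -1 ∧ pr 7 9 = 1 ∧ pr 7 10 = 3 ∧ pr 7 11 = 0 ∧ pr 8 5 = -3 ∧ pr 8 6 = 3 ∧ pr 8 7 = -1 ∧ pr 8 8 = 2 ∧ pr 8 9 = 1 ∧ pr 8 10 = 0 ∧
    pr 8 11 = 3 ∧ pr 9 5 = 0 ∧ pr 9 6 = 0 ∧ pr 9 7 = 1 ∧ pr 9 8 = 1 ∧ pr 9 9 = 2 ∧ pr 9 10 = 3 ∧ pr 9 11 = 3 ∧ pr 10 5 = 1 ∧ pr 10 6 = -1 ∧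
    pr 10 7 = 1 ∧ pr 10 8 = 0 ∧ pr 10 9 = 1 ∧ pr 10 10 = 2 ∧ pr 10 11 = 1 ∧ pr 11 5 = -1 ∧ pr 11 6 = 1 ∧ pr 11 7 = 0 ∧ pr 11 8 = 1 ∧
    pr 11 9 = 1 ∧ pr 11 10 = 1 ∧ pr 11 11 = 2 := by
  repeat' apply And.intro
  all_goals decide +kernel

theorem rfs :
    rf 5 5 = 6 ∧ rf 5 6 = 5 ∧ rf 5 7 = 8 ∧ rf 5 8 = 7 ∧ rf 5 9 = 9 ∧ rf 5 10 = 11 ∧ rf 5 11 = 10 ∧ rf 6 5 = 6 ∧ rf 6 6 = 5 ∧ rf 6 7 = 8 ∧
    rf 6 8 = 7 ∧ rf 6 9 = 9 ∧ rf 6 10 = 11 ∧ rf 6 11 = 10 ∧ rf 7 5 = 1 ∧ rf 7 6 = 10 ∧ rf 7 7 = 4 ∧ rf 7 8 = 9 ∧ rf 7 9 = 8 ∧ rf 7 10 = 6 ∧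
    rf 7 11 = 11 ∧ rf 8 5 = 11 ∧ rf 8 6 = 0 ∧ rf 8 7 = 9 ∧ rf 8 8 = 3 ∧ rf 8 9 = 7 ∧ rf 8 10 = 10 ∧ rf 8 11 = 5 ∧ rf 9 5 = 5 ∧ rf 9 6 = 6 ∧
    rf 9 7 = 3 ∧ rf 9 8 = 4 ∧ rf 9 9 = 2 ∧ rf 9 10 = 0 ∧ rf 9 11 = 1 ∧ rf 10 5 = 0 ∧ rf 10 6 = 11 ∧ rf 10 7 = 2 ∧ rf 10 8 = 8 ∧ rf 10 9 = 4 ∧
    rf 10 10 = 1 ∧ rf 10 11 = 6 ∧ rf 11 5 = 10 ∧ rf 11 6 = 1 ∧ rf 11 7 = 7 ∧ rf 11 8 = 2 ∧ rf 11 9 = 3 ∧ rf 11 10 = 5 ∧ rf 11 11 = 0 := by
  repeat' apply And.intro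
  all_goals decide +kernel

theorem pr_eq (r s : Root chevG2) : pair r s = pr r s := by revert r s; decide +kernel

theorem rf_eq (r s : Root chevG2) : (refl r s : ℕ) = rf r s := by
  obtain ⟨u, h, e⟩ := (by decide +kernel : ∀ r s : Root chevG2, ∃ u : Root chevG2, wt u = wt s - pair r s • wt r ∧ u = rf r s) r s
  rw [refl_eq h, e]

/-- a representation -/
structure Rg (F G V : Type*) [Field F] [Group G] [AddCommGroup V] [Module ℂ V] where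
  S : StSys chevG2 F G
  ρ : G →* End ℂ V
  ψ : AddChar F ℂ
  ne : ψ ≠ 1

variable {F G V : Type*} [Field F] [Group G] [AddCommGroup V] [Module ℂ V]

/-- eigenvalue attached to a root -/
def vl (L : List (ℕ × F)) (c : ℕ) : F := (L.lookup c).getD 0

/-- the commutator terms are controlled -/
def Ok (L : List (ℕ × F)) (r s : ℕ) : Prop :=
  r < 12 ∧ s < 12 ∧ s ≠ r ∧ s + r ≠ 11 ∧ (chevG2.commTerms r s).Forall fun c => c.1 ∈ L.map Prod.fst ∨ (c.2.1 : F) = 0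

/-- the value of the commutator -/
def cv (L : List (ℕ × F)) (r s : ℕ) (t u : F) : F :=
  ((chevG2.commTerms r s).map fun c => c.2.1 * (-t) ^ c.2.2.1 * u ^ c.2.2.2 * vl L c.1).sum

theorem vl_mem {L : List (ℕ × F)} {c : ℕ} (h : c ∈ L.map Prod.fst) : (c, vl L c) ∈ L := by
  induction L with
  | nil => simp at h
  | cons a L ih =>
    by_cases e : c = a.1
    · simp [vl, e, List.lookup]
    · rw [vl, List.lookup, show (c == a.1) = false by simpa using e]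
      exact List.mem_cons_of_mem _ (ih (by simpa [e] using h))

namespace Rg
variable (p : Rg F G V)

/-- root elements -/
def X (r : ℕ) (t : F) : G := xNat p.S.x r t

/-- root operators -/
def x (r : ℕ) (t : F) : End ℂ V := p.ρ (p.X r t)

/-- Weyl elements -/
def N (r : ℕ) (c : F) : G := p.X r c * p.X (11 - r) (-c⁻¹) * p.X r c

/-- joint eigenspace -/
def J (L : List (ℕ × F)) : Submodule ℂ V where
  carrier := {v | ∀ e ∈ L, ∀ t, p.x e.1 t v = p.ψ (t * e.2) • v}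
  zero_mem' := by simp
  add_mem' a b e h t := by rw [map_add, a e h t, b e h t, smul_add]
  smul_mem' a v b e h t := by rw [map_smul, b e h t, smul_comm]

/-- dimension of a joint eigenspace -/
noncomputable def d (L : List (ℕ × F)) : ℕ := finrank ℂ (p.J L)

theorem X_add (r : ℕ) (t u : F) : p.X r (t + u) = p.X r t * p.X r u := (p.S.rel.xNat_add r t u).symm

@[simp] theorem X_zero (r : ℕ) : p.X r 0 = 1 := p.S.rel.xNat_zero r

theorem x_add (r : ℕ) (t u : F) : p.x r (t + u) = p.x r t * p.x r u := by rw [x, X_add, map_mul]; rfl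

@[simp] theorem x_zero (r : ℕ) : p.x r 0 = 1 := by simp [x]

theorem inj (g : G) : Function.Injective (p.ρ g) := fun a b e => by
  simpa [← End.mul_apply, ← map_mul] using congrArg (p.ρ g⁻¹) e

theorem X_val (r : Root chevG2) : p.X r = p.S.x r := funext (xNat_val _ r)

theorem N_val (r : Root chevG2) (c : F) : p.N r c = p.S.n r c := by
  rw [N, n, show 11 - (r : ℕ) = r.rev from (by revert r; decide), X_val, X_val]

theorem comm {r s : ℕ} (h : r < 12 ∧ s < 12 ∧ s ≠ r ∧ s + r ≠ 11) (t u : F) :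
    p.X s u * p.X r t = p.X r t * p.X s u * wordG p.S.x (chevG2.commWord F r s t u) := by
  have := p.S.comm ⟨r, h.1⟩ ⟨s, h.2.1⟩ (fun e => h.2.2.1 (congrArg Fin.val e)) (fun e => by
    have := congrArg Fin.val e
    rw [Fin.val_rev] at this
    change s = 12 - (r + 1) at this
    omega) t u
  rwa [← X_val, ← X_val] at this

theorem N_conj {r : ℕ} (hr : r < 12) : ∃ η : ℕ → F, (∀ s, η s * η s = 1) ∧ ∀ s < 12, ∀ c ≠ 0, ∀ t,
    p.N r c * p.X s t * (p.N r c)⁻¹ = p.X (rf r s) (η s * c ^ (-pr r s) * t) := by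
  refine ⟨fun s => if h : s < 12 then eta (D := chevG2) ⟨r, hr⟩ ⟨s, h⟩ else 1, fun s => ?_, fun s hs c hc t => ?_⟩
  · beta_reduce; split_ifs
    · rw [← Int.cast_mul, eta_mul_self, Int.cast_one]
    · simp
  · have := n_conj (S := p.S) ⟨r, hr⟩ ⟨s, hs⟩ hc t
    rwa [← N_val, ← X_val, ← X_val, rf_eq, pr_eq, ← dif_pos (c := s < 12) hs (t := fun h => (eta (D := chevG2) ⟨r, hr⟩ ⟨s, h⟩ : F))
      (e := fun _ => 1)] at this

theorem H_conj {r : ℕ} (hr : r < 12) {c : F} (hc : c ≠ 0) : ∃ g : G, ∀ s < 12, ∀ t, g * p.X s t * g⁻¹ = p.X s (c ^ pr r s * t) :=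
  ⟨p.S.h ⟨r, hr⟩ c, fun s hs t => by
    have := h_conj (S := p.S) ⟨r, hr⟩ ⟨s, hs⟩ hc t
    rwa [← X_val, pr_eq] at this⟩

variable {p} {L L' : List (ℕ × F)} {v : V}

theorem J_mono (h : L' ⊆ L) : p.J L ≤ p.J L' := fun _ hv e he => hv e (h he)

theorem word (hv : v ∈ p.J L) {r s : ℕ} (h : Ok L r s) (t u : F) : p.x s u (p.x r t v) = p.ψ (cv L r s t u) • p.x r t (p.x s u v) := by
  have k : ∀ l : List (ℕ × ℤ × ℕ × ℕ), (∀ c ∈ l, c.1 ∈ L.map Prod.fst ∨ (c.2.1 : F) = 0) →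
      p.ρ (wordG p.S.x (l.map fun c => (c.1, (c.2.1 : F) * (-t) ^ c.2.2.1 * u ^ c.2.2.2))) v =
        p.ψ (l.map fun c => c.2.1 * (-t) ^ c.2.2.1 * u ^ c.2.2.2 * vl L c.1).sum • v := fun l hl => by
    induction l with
    | nil => simp
    | cons a l ih =>
      simp only [List.map_cons, wordG_cons, List.sum_cons, map_mul, End.mul_apply, AddChar.map_add_eq_mul]
      rw [ih fun c hc => hl c (List.mem_cons_of_mem _ hc), map_smul, mul_comm (p.ψ _), mul_smul]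
      refine congrArg _ ((hl a List.mem_cons_self).elim (fun e => hv _ (vl_mem e) _) fun e => ?_)
      simp [e, p.S.rel.xNat_zero]
  rw [x, x, ← End.mul_apply, ← map_mul, p.comm ⟨h.1, h.2.1, h.2.2.1, h.2.2.2.1⟩, map_mul, map_mul, End.mul_apply,
    ChevalleyDatum.commWord, k _ (List.forall_iff_forall_mem.1 h.2.2.2.2), map_smul]
  rfl

theorem mv {r : ℕ} {t : F} (h : L'.Forall fun e => e.1 = r ∧ e ∈ L ∨ Ok L r e.1 ∧ e.1 ∈ L.map Prod.fst ∧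
    ∀ u, u * e.2 = cv L r e.1 t u + u * vl L e.1) : ∀ v ∈ p.J L, p.x r t v ∈ p.J L' := fun v hv e he u => by
  rcases List.forall_iff_forall_mem.1 h e he with ⟨rfl, a⟩ | ⟨a, b, c⟩
  · rw [← End.mul_apply, ← x_add, add_comm, x_add, End.mul_apply, hv e a, map_smul]
  · rw [word hv a, hv _ (vl_mem b), map_smul, smul_smul, c, AddChar.map_add_eq_mul]

theorem cj {g : G} {π : ℕ → ℕ} {c c' : ℕ → F} (h : ∀ s < 12, ∀ t, g * p.X s t * g⁻¹ = p.X (π s) (c s * t)) (h' : ∀ s, c s * c' s = 1)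
    (hL : ∀ e ∈ L, e.1 < 12) : v ∈ p.J L ↔ p.ρ g v ∈ p.J (L.map fun e => (π e.1, c' e.1 * e.2)) := by
  have k : ∀ s < 12, ∀ t, p.x (π s) (c s * t) (p.ρ g v) = p.ρ g (p.x s t v) := fun s hs t => by
    rw [x, ← h s hs, ← End.mul_apply, ← map_mul, inv_mul_cancel_right, map_mul]; rfl
  refine ⟨fun hv => List.forall_mem_map.2 fun e he t => ?_, fun hv e he t => p.inj g ?_⟩
  · have := k _ (hL e he) (c' e.1 * t)
    rw [← mul_assoc, h', one_mul, hv e he, map_smul] at this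
    rw [this, mul_left_comm, mul_assoc]
  · rw [← k _ (hL e he), hv _ (List.mem_map_of_mem he), map_smul, mul_mul_mul_comm, h', one_mul]

theorem cjN {r : ℕ} (hr : r < 12) : ∃ η : ℕ → F, (∀ s, η s * η s = 1) ∧ ∀ c ≠ 0, ∀ L : List (ℕ × F), (∀ e ∈ L, e.1 < 12) → ∀ v,
    v ∈ p.J L ↔ p.ρ (p.N r c) v ∈ p.J (L.map fun e => (rf r e.1, η e.1 * c ^ pr r e.1 * e.2)) :=
  let ⟨η, a, b⟩ := p.N_conj hr
  ⟨η, a, fun c hc _ hL _ => cj (fun s hs => b s hs c hc) (fun s => by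
    rw [mul_mul_mul_comm, a, ← zpow_add₀ hc, neg_add_cancel, zpow_zero, mul_one]) hL⟩

variable [FiniteDimensional ℂ V]

theorem d_le_of {g : G} (h : ∀ v ∈ p.J L, p.ρ g v ∈ p.J L') : p.d L ≤ p.d L' :=
  LinearMap.finrank_le_finrank_of_injective (f := LinearMap.restrict _ h) fun _ _ e => Subtype.ext (p.inj g (congrArg Subtype.val e))

theorem d_eq_of {g : G} (h : ∀ v, v ∈ p.J L ↔ p.ρ g v ∈ p.J L') : p.d L' = p.d L :=
  (d_le_of (g := g⁻¹) fun v hv => (h _).2 (by simpa [← End.mul_apply, ← map_mul])).antisymm (d_le_of fun v => (h v).1)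

theorem d_le (h : L' ⊆ L) : p.d L ≤ p.d L' := Submodule.finrank_mono (J_mono h)

theorem d_eq (h : L' ⊆ L ∧ L ⊆ L') : p.d L = p.d L' := (d_le h.1).antisymm (d_le h.2)

theorem d_nil : p.d [] = finrank ℂ V := by
  rw [d, show p.J [] = ⊤ from top_unique fun _ _ _ h => by simp at h, finrank_top]

variable (p) in
theorem dN {r : ℕ} (hr : r < 12) : ∃ η : ℕ → F, (∀ s, η s * η s = 1) ∧ (∀ s, η s ≠ 0) ∧ ∀ L : List (ℕ × F), (∀ e ∈ L, e.1 < 12) →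
    p.d (L.map fun e => (rf r e.1, η e.1 * e.2)) = p.d L :=
  let ⟨η, a, b⟩ := p.cjN hr
  ⟨η, a, fun s => left_ne_zero_of_mul_eq_one (a s), fun L hL => by simpa using d_eq_of (b 1 one_ne_zero L hL)⟩

theorem dH {r : ℕ} (hr : r < 12) {c : F} (hc : c ≠ 0) (hL : ∀ e ∈ L, e.1 < 12) :
    p.d (L.map fun e => (e.1, c ^ pr r e.1 * e.2)) = p.d L :=
  let ⟨_, a⟩ := p.H_conj hr (inv_ne_zero hc)
  d_eq_of fun _ => cj (π := id) a (fun s => by rw [← mul_zpow, inv_mul_cancel₀ hc, one_zpow]) hL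

theorem det_trick {A B : G} (hA : ∀ v ∈ p.J L, p.ρ A v ∈ p.J L) (hB : ∀ v ∈ p.J L, p.ρ B v ∈ p.J L) {c : ℂ}
    (h : ∀ v ∈ p.J L, p.ρ A (p.ρ B v) = c • p.ρ B (p.ρ A v)) : c ^ p.d L = 1 := by
  have k : ∀ {g} (h : ∀ v ∈ p.J L, p.ρ g v ∈ p.J L), LinearMap.det ((p.ρ g).restrict h) ≠ 0 := fun h =>
    ((LinearMap.isUnit_iff_isUnit_det _).1 ((LinearMap.isUnit_iff_ker_eq_bot _).2 (LinearMap.ker_eq_bot.2 fun _ _ e =>
      Subtype.ext (p.inj _ (congrArg Subtype.val e))))).ne_zero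
  have := congrArg LinearMap.det (show (p.ρ A).restrict hA * (p.ρ B).restrict hB = c • ((p.ρ B).restrict hB * (p.ρ A).restrict hA) from
    LinearMap.ext fun v => Subtype.ext (h v v.2))
  rw [LinearMap.det_smul, map_mul, map_mul, mul_comm] at this
  exact (mul_eq_right₀ (mul_ne_zero (k hB) (k hA))).1 this.symm

variable [Fintype F]

theorem d_sum {r : ℕ} (h : ∀ t, ∀ v ∈ p.J L, p.x r t v ∈ p.J L) : p.d L = ∑ k, p.d ((r, k) :: L) := by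
  rw [d, Om.sum_eig p.ne (p.x_zero r) (p.x_add r) _ h]
  refine Finset.sum_congr rfl fun k _ => congrArg (fun A : Submodule ℂ V => finrank ℂ A) (Submodule.ext fun v => ?_)
  exact ⟨fun a => List.forall_mem_cons.2 ⟨a.2, a.1⟩, fun a => (List.forall_mem_cons.1 a).symm⟩

theorem heis {g h : ℕ} {ε : F} (hε : ε ≠ 0) (hg : ∀ t, ∀ v ∈ p.J L, p.x g t v ∈ p.J L)
    (hh : ∀ c k, ∀ v ∈ p.J ((g, k) :: L), p.x h c v ∈ p.J ((g, k + ε * c) :: L)) (k : F) : p.d L = Fintype.card F * p.d ((g, k) :: L) := by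
  have le : ∀ a b, p.d ((g, a) :: L) ≤ p.d ((g, b) :: L) := fun a b => by
    simpa [mul_div_cancel₀ _ hε] using d_le_of (hh ((b - a) / ε) a)
  rw [d_sum hg, Finset.sum_congr rfl fun a _ => (le a k).antisymm (le k a)]
  simp

end Rg

theorem sum_ne [Fintype F] {n : ℕ} (hn : Fintype.card F = n + 1) {f : F → ℕ} {c : ℕ} (h : ∀ k ≠ 0, f k = c) : ∑ k, f k = f 0 + n * c := by
  classical
  rw [← Finset.add_sum_erase _ _ (Finset.mem_univ 0), Finset.sum_congr rfl fun k hk => h k (Finset.ne_of_mem_erase hk)]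
  simp [hn]

theorem sum_ge [Fintype F] {n : ℕ} (hn : Fintype.card F = n + 1) {f : F → ℕ} {c : ℕ} (h : ∀ k ≠ 0, c ≤ f k) : f 0 + n * c ≤ ∑ k, f k := by
  classical
  rw [← Finset.add_sum_erase _ _ (Finset.mem_univ 0)]
  simpa [hn] using Finset.card_nsmul_le_sum (Finset.univ.erase 0) f c fun k hk => h k (Finset.ne_of_mem_erase hk)

end H28.Gt
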