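import Cfsg.Agent.H28.Gt1

/-!
# Dimension counts for `G₂` (namespace `H28.Gt`)
-/

set_option autoImplicit false

open Cfsg Cfsg.Lie H11 H11.StSys Module

namespace H28.Gt.Rg

variable {F G V : Type*} [Field F] [Group G] [AddCommGroup V] [Module ℂ V] {p : Rg F G V} [FiniteDimensional ℂ V] [Fintype F]
  {n : ℕ} (hn : Fintype.card F = n + 1) {L : List (ℕ × F)}

attribute [local simp] Ok cv vl cts List.lookup prs rfs

omit [Fintype F] in
theorem m11 {k : F} (hk : k ≠ 0) : p.d [(11, k)] = p.d [(11, 1)] := by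
  simpa using dH (p := p) (r := 6) (L := [(11, 1)]) (by simp) hk (by simp)

omit [Fintype F] in
theorem m10 {k : F} (hk : k ≠ 0) : p.d [(10, k)] = p.d [(11, 1)] := by
  obtain ⟨η, a, b, c⟩ := p.dN (r := 6) (by simp)
  simpa [← mul_assoc, a, m11 (mul_ne_zero (b 11) hk)] using c [(11, η 11 * k)] (by simp)

theorem one_zero {r : ℕ} (h : ∀ t, ∀ v ∈ p.J L, p.x r t v ∈ p.J L) (h1 : p.d L = 1)
    (h2 : ∀ l ≠ 0, ∃ l' ≠ l, p.d ((r, l') :: L) = p.d ((r, l) :: L)) : p.d ((r, 0) :: L) = 1 := by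
  classical
  have k := d_sum h
  rw [← h1, k, Finset.sum_eq_single 0 (fun l _ e => ?_) (by simp)]
  obtain ⟨l', a, b⟩ := h2 l e
  have := Finset.sum_le_sum_of_subset (f := fun k => p.d ((r, k) :: L)) (Finset.subset_univ {l', l})
  rw [Finset.sum_pair a] at this
  omega

include hn

theorem dim_eq : finrank ℂ V = p.d [(11, 0)] + n * p.d [(11, 1)] := by
  rw [← d_nil (p := p), d_sum (r := 11) (by simp [J]), sum_ne hn fun k hk => m11 hk]

theorem top {z g : ℕ} {k : F} (h2 : ∀ j ≠ 0, (n + 1) * p.d [(z, j), (g, k)] = p.d [(g, k)])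
    (h3 : ∀ t, ∀ v ∈ p.J [(g, k)], p.x z t v ∈ p.J [(g, k)]) : p.d [(g, k)] = (n + 1) * p.d [(z, 0), (g, k)] := by
  have := congrArg ((n + 1) * ·) (d_sum h3)
  simp only [Finset.mul_sum, sum_ne hn h2] at this
  linarith

theorem top11 {k : F} (hk : k ≠ 0) : p.d [(11, 1)] = (n + 1) * p.d [(11, 0), (10, k)] := by
  rw [← m10 hk]
  refine top hn (fun j hj => ?_) fun t => mv (by simp)
  rw [m10 hk, ← m11 hj, heis (L := [(11, j)]) (g := 10) (h := 6) (neg_ne_zero.2 hj) (fun t => mv (by simp))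
    (fun c k => mv (by simp; intro; ring)) k, hn]
  exact congrArg _ (d_eq (by simp))

section
variable (h3 : (3 : F) ≠ 0)
include h3

theorem sq_dvd : (n + 1) ^ 2 ∣ p.d [(11, 1)] := by
  rw [heis (L := [(11, 1)]) (g := 10) (h := 6) (neg_ne_zero.2 one_ne_zero) (fun t => mv (by simp))
    (fun c k => mv (by simp; intro; ring)) 0, heis (L := [(10, 0), (11, 1)]) (g := 9) (h := 8) (neg_ne_zero.2 h3) (fun t => mv (by simp))
    (fun c k => mv (by simp; intro; ring)) 0, hn, ← mul_assoc, sq]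
  exact dvd_mul_right _ _

variable (hM : p.d [(11, 1)] = (n + 1) ^ 2)
include hM

theorem dA {k : F} (hk : k ≠ 0) : p.d [(11, 0), (10, k)] = n + 1 ∧ ∀ l, p.d [(9, l), (11, 0), (10, k)] = 1 := by
  have a : p.d [(11, 0), (10, k)] = n + 1 := Nat.eq_of_mul_eq_mul_left n.succ_pos (by rw [← top11 hn hk, hM, sq])
  refine ⟨a, fun l => Nat.eq_of_mul_eq_mul_left n.succ_pos ?_⟩
  rw [heis (L := [(11, 0), (10, k)]) (g := 9) (h := 7) (neg_ne_zero.2 (mul_ne_zero h3 hk)) (fun t => mv (by simp))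
    (fun c k => mv (by simp; intro; ring)) l, hn] at a
  rwa [mul_one]

variable (h4 : 4 ≤ n)
include h4

theorem dB {k : F} (hk : k ≠ 0) : p.d [(6, 0), (8, 0), (9, 0), (11, 0), (10, k)] = 1 := by
  have ex : ∀ m ≤ 3, 0 < m → ∃ t : F, t ≠ 0 ∧ t ^ m ≠ 1 := fun m a b => by
    obtain ⟨t, ht⟩ := exists_pow_ne_one_of_isCyclic (G := Fˣ) b.ne' (by rw [Nat.card_units, Nat.card_eq_fintype_card, hn]; omega)
    exact ⟨t, t.ne_zero, fun e => ht (Units.ext (by simpa using e))⟩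
  obtain ⟨s, s0, hs⟩ := ex 2 (by simp) (by simp)
  obtain ⟨t, t0, ht⟩ := ex 3 (by simp) (by simp)
  refine one_zero (fun t => mv (by simp)) (one_zero (fun t => mv (by simp)) ((dA hn h3 hM hk).2 0) fun l a => ⟨s ^ 2 * l, fun e => hs ((mul_eq_right₀ a).1 e), ?_⟩)
    fun l a => ⟨t ^ 3 * l, fun e => ht ((mul_eq_right₀ a).1 e), ?_⟩
  · simpa [zpow_ofNat] using dH (p := p) (r := 8) (L := [(8, l), (9, 0), (11, 0), (10, k)]) (by simp) s0 (by simp)
  · simpa [zpow_ofNat] using dH (p := p) (r := 8) (L := [(6, l), (8, 0), (9, 0), (11, 0), (10, k)]) (by simp) t0 (by simp)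

theorem dC {j : F} (hj : j ≠ 0) : 1 ≤ p.d [(6, j), (10, 0), (11, 0)] := by
  obtain ⟨η, a, b, c⟩ := p.dN (r := 7) (by simp)
  have := c [(10, η 10 * j), (6, 0), (11, 0)] (by simp)
  simp [← mul_assoc, a] at this
  rw [this, ← dB hn h3 hM h4 (mul_ne_zero (b 10) hj)]
  exact d_le (by simp)

theorem dD : (n + 1) ^ 3 + p.d [(6, 0), (10, 0), (11, 0)] ≤ finrank ℂ V + 1 := by
  have a := sum_ge hn (f := fun j => p.d [(6, j), (10, 0), (11, 0)]) fun j => dC hn h3 hM h4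
  rw [← d_sum fun t => mv (by simp)] at a
  rw [dim_eq (p := p) hn, hM, d_sum (L := [(11, 0)]) (r := 10) fun t => mv (by simp),
    sum_ne hn fun k hk => (d_eq (by simp)).trans (dA hn h3 hM hk).1]
  nlinarith

theorem dE {j k : F} (hk : k ≠ 0) (h : ∀ s, j ≠ k * s ^ 3) : p.d [(6, j), (10, k), (11, 0)] = 0 := by
  classical
  rw [d_sum (r := 9) fun t => mv (by simp)]
  refine Finset.sum_eq_zero fun l _ => ?_
  obtain ⟨s, rfl⟩ : ∃ s, l = 3 * k * s := ⟨l / (3 * k), by field_simp⟩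
  have a : 1 ≤ p.d [(6, k * s ^ 3), (9, 3 * k * s), (11, 0), (10, k)] :=
    (dB hn h3 hM h4 hk).ge.trans (d_le_of (mv (r := 7) (t := -s) (by simp; constructor <;> intro <;> ring)))
  have b := Finset.sum_le_sum_of_subset (f := fun i => p.d [(6, i), (9, 3 * k * s), (11, 0), (10, k)]) (Finset.subset_univ {j, k * s ^ 3})
  rw [Finset.sum_pair (h s), ← d_sum fun t => mv (by simp), (dA hn h3 hM hk).2] at b
  rw [d_eq (L' := [(6, j), (9, 3 * k * s), (11, 0), (10, k)]) (by simp)]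
  omega

end

end H28.Gt.Rg
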