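import Cfsg.Agent.H28.Gt2

/-!
# The case `q ≡ 1 (mod 3)` for `G₂` (namespace `H28.Gt`)
-/

set_option autoImplicit false

open Cfsg Cfsg.Lie H11 H11.StSys Module

namespace H28.Gt.Rg

variable {F G V : Type*} [Field F] [Group G] [AddCommGroup V] [Module ℂ V] {p : Rg F G V} [Fintype F]
  {n : ℕ} (hn : Fintype.card F = n + 1) {L : List (ℕ × F)} {v : V}

attribute [local simp] Ok cv vl cts List.lookup prs rfs

theorem cts0 : chevG2.commTerms 1 6 = [] ∧ chevG2.commTerms 0 6 = [(1, 1, 1, 1)] ∧ chevG2.commTerms 0 1 = [] ∧ pr 6 0 = -1 := by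
  decide +kernel

variable (p) in
/-- averaging operator -/
noncomputable def a (r : ℕ) (k : F) : End ℂ V := Om.av (p.x r) (p.ψ.mulShift k)

theorem x_a (r : ℕ) (k t : F) : p.x r t * p.a r k = p.ψ (t * k) • p.a r k := by
  rw [a, Om.mul_av (p.x_add r), AddChar.mulShift_apply, mul_comm]

theorem a_x (r : ℕ) (k t : F) : p.a r k * p.x r t = p.ψ (t * k) • p.a r k := by
  rw [← x_a, a, Om.comm_av fun u => by rw [← x_add, add_comm, x_add]]

theorem a_fix {r : ℕ} {k : F} (hv : v ∈ p.J L) (h : (r, k) ∈ L) : p.a r k v = v :=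
  Om.av_apply fun t => by rw [AddChar.mulShift_apply, mul_comm]; exact hv _ h t

theorem a_mem {r : ℕ} {k : F} (h : ∀ t, ∀ v ∈ p.J L, p.x r t v ∈ p.J L) (hv : v ∈ p.J L) : p.a r k v ∈ p.J ((r, k) :: L) :=
  List.forall_mem_cons.2 ⟨fun t => by rw [← End.mul_apply, x_a]; rfl, show _ ∈ p.J L by
    simp only [a, Om.av, LinearMap.smul_apply, LinearMap.sum_apply]
    exact Submodule.smul_mem _ _ (Submodule.sum_mem _ fun t _ => Submodule.smul_mem _ _ (h t v hv))⟩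

theorem a_comm {A : End ℂ V} {r : ℕ} (h : ∀ t, p.x r t (A v) = A (p.x r t v)) : p.a r 0 (A v) = A (p.a r 0 v) := by
  simp [a, Om.av, h]

open Classical in
theorem a_split {W : Type*} [AddCommGroup W] [Module ℂ W] (A : V →ₗ[ℂ] W) (r : ℕ) (k : F) {z : W} (h : ∀ t ≠ 0, A (p.x r t v) = z) :
    A (p.a r k v) = (Fintype.card F : ℂ)⁻¹ • (A v - z) + if k = 0 then z else 0 := by
  have e : ∀ t, p.ψ (k * -t) • A (p.x r t v) = (if t = 0 then A v - z else 0) + p.ψ (t * -k) • z := fun t => by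
    split_ifs with c
    · simp [c]
    · rw [h t c, zero_add, mul_neg, mul_neg, mul_comm]
  simp only [a, Om.av, LinearMap.smul_apply, LinearMap.sum_apply, map_smul, map_sum, AddChar.mulShift_apply, e, Finset.sum_add_distrib,
    ← Finset.sum_smul, Wl.sum_psi p.ne, smul_add, smul_smul, neg_eq_zero]
  split_ifs with c <;> simp

omit [Fintype F] in
theorem x_rev {W : Type*} [AddCommGroup W] [Module ℂ W] {A : V →ₗ[ℂ] W} {r : ℕ} (hA : ∀ t v, A (p.x r t v) = A v) (hv : v ∈ p.J L)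
    (h : (r, 0) ∈ L) {t : F} : A (p.x (11 - r) t v) = A (p.ρ (p.N r (-t⁻¹)) v) := by
  have : p.x r (-t⁻¹) v = v := by simpa using hv _ h _
  rw [N, map_mul, map_mul, End.mul_apply, End.mul_apply, show p.ρ (p.X r (-t⁻¹)) = p.x r (-t⁻¹) from rfl, hA, this, inv_neg, inv_inv, neg_neg]
  rfl

include hn in
theorem quad {r s : ℕ} (hr : r < 12 ∧ s < 12 ∧ pr s r = 1 ∧ pr s (11 - r) = -1 ∧ rf r r = 11 - r) (hL : ∀ e ∈ L, e.1 < 12 ∧ e.2 = 0)
    (h : (r, 0) ∈ L) (hv : v ∈ p.J L) (h0 : v ≠ 0) (h1 : ∀ y ∈ p.J L, ∃ c : ℂ, c • v = y)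
    (h2 : ∀ c ≠ 0, p.a r 0 (p.ρ (p.N r c) v) ∈ p.J L) :
    ∃ γ : ℂ, (∀ c ≠ 0, p.a r 0 (p.ρ (p.N r c) v) = γ • v) ∧ (γ = 1 ∨ (n + 1) * γ = -1) := by
  obtain ⟨γ, hγ⟩ := h1 _ (h2 1 one_ne_zero)
  have k : ∀ c ≠ 0, p.a r 0 (p.ρ (p.N r c) v) = γ • v := fun c hc => by
    obtain ⟨g, hg⟩ := p.H_conj hr.2.1 hc
    obtain ⟨l, hl⟩ := h1 (p.ρ g v) fun e he =>
      (cj (π := id) hg (c' := fun s' => c ^ (-pr s s')) (fun _ => by rw [← zpow_add₀ hc, add_neg_cancel, zpow_zero])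
        fun e he => (hL e he).1).1 hv e (List.mem_map.2 ⟨e, he, Prod.ext rfl (by simp [(hL e he).2])⟩)
    have e1 : g * p.N r 1 = p.N r c * g := by
      have a1 := hg r hr.1 1
      have a2 := hg (11 - r) (by omega) (-1⁻¹)
      simp only [hr.2.2.1, hr.2.2.2.1, zpow_one, mul_one, inv_one, mul_neg, zpow_neg] at a1 a2
      rw [N, N, ← a1, ← a2, inv_one]; group
    have e2 : p.ρ g * p.a r 0 = p.a r 0 * p.ρ g := Om.av_conj (Equiv.mulLeft₀ c hc) (fun t => by
      have := hg r hr.1 t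
      rw [hr.2.2.1, zpow_one] at this
      rw [x, x, ← map_mul, ← map_mul, Equiv.mulLeft₀_apply, ← this, inv_mul_cancel_right]) (by simp)
    refine smul_right_injective V (r := l) (fun e => h0 (p.inj g (by rw [← hl, e, zero_smul, map_zero]))) ?_
    simp only [← map_smul, hl]
    rw [← End.mul_apply (p.ρ _), ← map_mul, ← e1, map_mul, End.mul_apply, ← End.mul_apply (p.a r 0), ← e2, End.mul_apply, ← hγ, map_smul,
      smul_comm, hl]
  refine ⟨γ, k, ?_⟩
  obtain ⟨η, e1, e2⟩ := p.N_conj hr.1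
  have e3 : (p.N r 1)⁻¹ = p.N r (-1) := by
    rw [show p.N r = p.S.n ⟨r, hr.1⟩ from funext (p.N_val ⟨r, hr.1⟩), n_inv]
  have e4 := a_split (p := p) (v := p.ρ (p.N r (-1)) v) (p.a r 0 * p.ρ (p.N r 1)) r 0 (z := γ • v) fun t ht => by
    rw [End.mul_apply, x, ← End.mul_apply (p.ρ _), ← End.mul_apply (_ * _), ← map_mul, ← map_mul, ← e3, e2 r hr.1 1 one_ne_zero, hr.2.2.2.2]
    refine (x_rev (fun t v => by rw [← End.mul_apply, a_x]; simp) hv h).trans (k _ ?_)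
    simp [ht, left_ne_zero_of_mul_eq_one (e1 r)]
  rw [k _ (by simp), map_smul, End.mul_apply, k _ one_ne_zero, End.mul_apply, ← End.mul_apply (p.ρ _), ← map_mul, ← e3, mul_inv_cancel, map_one,
    End.one_apply, a_fix hv h, if_pos rfl, hn] at e4
  have e5 : γ * γ = ((n + 1 : ℕ) : ℂ)⁻¹ * (1 - γ) + γ := smul_left_injective ℂ h0 (by
    simp only [mul_smul, e4, add_smul, sub_smul, one_smul])
  have e6 : (n + 1 : ℂ) ≠ 0 := by exact_mod_cast n.succ_ne_zero
  push_cast at e5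
  field_simp at e5
  exact (mul_eq_zero.1 (show (γ - 1) * ((n + 1) * γ + 1) = 0 by linear_combination e5)).imp sub_eq_zero.1 eq_neg_of_add_eq_zero_left

include hn in
theorem two_le [FiniteDimensional ℂ V] (h3 : (3 : F) ≠ 0) (hM : p.d [(11, 1)] = (n + 1) ^ 2) (h4 : 4 ≤ n) {k₀ : F} (hk0 : k₀ ≠ 0)
    (hk : ∀ s, 1 ≠ k₀ * s ^ 3) : 2 ≤ p.d [(6, 0), (10, 0), (11, 0)] := by
  classical
  by_contra! hμ
  obtain ⟨w, hw, w0⟩ := (Submodule.ne_bot_iff _).1 (Submodule.one_le_finrank_iff.1 (dC hn h3 hM h4 (j := 1) one_ne_zero))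
  obtain ⟨k, k0, hz⟩ : ∃ k ≠ 0, p.J [(6, 1), (0, k), (1, 0)] = ⊥ := by
    obtain ⟨η, a, b, c⟩ := p.dN (r := 9) (by simp)
    have := c [(6, η 6), (10, η 6 * k₀), (11, 0)] (by simp)
    rw [dE hn h3 hM h4 (mul_ne_zero (b 6) hk0) fun s e => hk s (mul_left_cancel₀ (b 6) (by linear_combination e))] at this
    exact ⟨η 10 * (η 6 * k₀), by simp [b, hk0], Submodule.finrank_eq_zero.1 (show p.d _ = 0 by simpa [a] using this)⟩
  obtain ⟨⟨v, hv⟩, h1⟩ : ∃ v : p.J [(5, 0), (10, 0), (11, 0)], ∀ y, ∃ c : ℂ, c • v = y := by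
    obtain ⟨η, a, b, c⟩ := p.dN (r := 6) (by simp)
    have := c [(6, 0), (11, 0), (10, 0)] (by simp)
    refine finrank_le_one_iff.1 (Nat.le_of_lt_succ (lt_of_eq_of_lt ?_ hμ))
    exact Eq.trans (show p.d _ = _ by simpa using this) (d_eq (by simp))
  replace h1 : ∀ y ∈ p.J [(5, 0), (10, 0), (11, 0)], ∃ c : ℂ, c • v = y := fun y hy => (h1 ⟨y, hy⟩).imp fun _ => congrArg Subtype.val
  have q0 : (Fintype.card F : ℂ) ≠ 0 := Wl.qne
  let E := p.a 10 0 * p.a 11 0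
  have E11 : ∀ t y, E (p.x 11 t y) = E y := fun t y => by rw [← End.mul_apply, mul_assoc, a_x]; simp [E]
  have c1 : ∀ t, p.x 10 t * p.a 11 0 = p.a 11 0 * p.x 10 t := fun t => Om.comm_av fun u => by
    simpa [ChevalleyDatum.commWord, x, ← map_mul] using congrArg p.ρ (p.comm (r := 11) (s := 10) (by simp) u t)
  have E10 : ∀ t y, E (p.x 10 t y) = E y := fun t y => by rw [← End.mul_apply, mul_assoc, ← c1, ← mul_assoc, a_x]; simp [E]
  have E6 : ∀ t y, E (p.x 6 t y) = p.x 6 t (E y) := fun t y => by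
    have c2 : p.x 6 t * p.a 11 0 = p.a 11 0 * p.x 6 t := Om.comm_av fun u => by
      simpa [ChevalleyDatum.commWord, x, ← map_mul] using congrArg p.ρ (p.comm (r := 11) (s := 6) (by simp) u t)
    have c3 : p.a 11 0 y ∈ p.J [(11, 0)] := a_mem (L := []) (by simp [J]) (by simp [J])
    rw [End.mul_apply, ← End.mul_apply (p.a 11 0), ← c2, End.mul_apply, End.mul_apply]
    exact a_comm fun u => by simpa using word c3 (r := 6) (s := 10) (by simp) t u
  have P6 : ∀ t y, p.a 6 1 (E (p.x 6 t y)) = p.ψ t • p.a 6 1 (E y) := fun t y => by rw [E6, ← End.mul_apply, a_x]; simp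
  have EN : ∀ c ≠ 0, ∀ y ∈ p.J [(10, 0)], E (p.ρ (p.N 11 c) y) ∈ p.J [(5, 0), (10, 0), (11, 0)] := fun c hc y hy => by
    obtain ⟨η, -, e⟩ := p.cjN (r := 11) (by simp)
    rw [show E = p.a 11 0 * p.a 10 0 from (Om.comm_av fun t => (c1 t).symm).symm]
    exact J_mono (by simp) (a_mem (L := [(10, 0), (5, 0)]) (fun t => mv (by simp))
      (a_mem (fun t => mv (by simp)) (J_mono (by simp) ((e c hc _ (by simp) y).1 hy))))
  have main : ∀ {W : Type _} [AddCommGroup W] [Module ℂ W] (A : V →ₗ[ℂ] W) (z : W), (∀ c ≠ 0, A (p.a 6 1 (E (p.ρ (p.N 11 c) w))) = z) →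
      A w = (Fintype.card F : ℂ) • z := fun A z h => by
    let B := A ∘ₗ (p.a 6 1 * E)
    have b1 : B (p.a 1 0 w) = (Fintype.card F : ℂ)⁻¹ • A w := by
      rw [a_split B 1 0 (z := 0) fun t ht => ?_]
      · simp [B, E, a_fix hw]
      obtain ⟨η, -, e⟩ := p.cjN (r := 10) (by simp)
      obtain ⟨s, hs⟩ := AddChar.ne_one_iff.1 p.ne
      have e1 := (e (-t⁻¹) (by simpa) _ (by simp) w).1 hw (6, 0) (by simp) s
      have e2 := P6 s (p.ρ (p.N 10 (-t⁻¹)) w)
      rw [e1, mul_zero, AddChar.map_zero_eq_one, one_smul, eq_comm, ← sub_eq_zero, ← one_smul ℂ (p.a _ _ _), smul_smul, mul_one, ← sub_smul,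
        smul_eq_zero, sub_eq_zero] at e2
      rw [x_rev (r := 10) (fun t v => by simp [B, E10]) hw (by simp)]
      simp [B, e2.resolve_left hs]
    have b2 := a_split (p := p) (v := p.a 1 0 w) B 0 k (z := z) fun u hu => by
      rw [← h (-u⁻¹) (by simpa), ← LinearMap.comp_apply, a_split _ 1 0 (z := B (p.x 0 u w)) fun t _ => ?_]
      · simp only [LinearMap.comp_apply, sub_self, smul_zero, zero_add, if_true]
        exact x_rev (r := 11) (fun t v => by simp [B, E11]) hw (by simp)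
      have e0 : p.x 0 u * p.x 6 (t / u) = p.x 6 (t / u) * p.x 0 u * p.x 1 t := by
        simpa [ChevalleyDatum.commWord, hu, x, X, ← map_mul] using congrArg p.ρ (p.comm (r := 6) (s := 0) (by simp) (t / u) u)
      have e1 := congrArg (fun g : End ℂ V => p.a 6 1 (E (g w))) e0
      have e2 : p.x 6 (t / u) w = _ := hw (6, 1) (by simp) (t / u)
      simp only [End.mul_apply _ (p.x _ _), e2, P6, map_smul, mul_one] at e1
      exact congrArg A (smul_right_injective _ (Wl.psi_ne p.ψ _) e1).symm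
    rw [show p.a 0 k (p.a 1 0 w) = 0 from hz.le (J_mono (by simp) (a_mem (L := [(1, 0), (6, 1)]) (fun t => mv (by simp [cts0]))
      (a_mem (fun t => mv (by simp [cts0])) (J_mono (by simp) hw)))), map_zero, if_neg k0, add_zero, eq_comm, smul_eq_zero,
      sub_eq_zero, b1] at b2
    rw [← b2.resolve_left (inv_ne_zero q0), smul_inv_smul₀ q0]
  obtain ⟨κ, hκ⟩ : ∃ κ : ℂ, κ • p.a 6 1 v = w := by
    have := main (ℂ ∙ p.a 6 1 v).mkQ 0 fun c hc => by
      obtain ⟨l, hl⟩ := h1 _ (EN c hc w (J_mono (by simp) hw))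
      rw [← hl, map_smul, Submodule.mkQ_apply, Submodule.Quotient.mk_eq_zero]
      exact Submodule.smul_mem _ _ (Submodule.mem_span_singleton_self _)
    rwa [smul_zero, Submodule.mkQ_apply, Submodule.Quotient.mk_eq_zero, Submodule.mem_span_singleton] at this
  have v0 : v ≠ 0 := by rintro rfl; exact w0 (by simp [← hκ])
  obtain ⟨γ, g1, g2⟩ := quad hn (r := 11) (s := 6) (by simp [cts0]) (by simp) (by simp) hv v0 h1 fun c hc => by
    obtain ⟨η, -, e⟩ := p.cjN (r := 11) (by simp)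
    exact J_mono (by simp) (a_mem (L := [(5, 0), (10, 0)]) (fun t => mv (by simp))
      (J_mono (by simp) ((e c hc [(5, 0), (10, 0)] (by simp) v).1 (J_mono (by simp) hv))))
  obtain ⟨δ, d1, d2⟩ := quad hn (r := 5) (s := 10) (by simp) (by simp) (by simp) hv v0 h1 fun c hc => by
    obtain ⟨η, -, e⟩ := p.cjN (r := 5) (by simp)
    exact a_mem (L := [(10, 0), (11, 0)]) (fun t => mv (by simp))
      (J_mono (by simp) ((e c hc [(10, 0), (11, 0)] (by simp) v).1 (J_mono (by simp) hv)))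
  have fin := main LinearMap.id (((Fintype.card F : ℂ)⁻¹ * (γ - δ * γ)) • w) fun c hc => by
    obtain ⟨η, -, e⟩ := p.N_conj (r := 11) (by simp)
    have A5 : ∀ t y, (E * p.ρ (p.N 11 c)) (p.x 5 t y) = (E * p.ρ (p.N 11 c)) y := fun t y => by
      rw [End.mul_apply E, End.mul_apply E, ← E10 (η 5 * c ^ (-pr 11 5) * t) (p.ρ _ y), x, x, ← show rf 11 5 = 10 by simp, ← e 5 (by simp) c hc]
      simp [← End.mul_apply, ← map_mul]
    have Av : (E * p.ρ (p.N 11 c)) v = γ • v := by simp [E, g1 c hc, a_fix hv]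
    have := a_split (p := p) (v := v) (E * p.ρ (p.N 11 c)) 6 1 (z := (δ * γ) • v) fun t ht => by
      rw [x_rev (r := 5) A5 hv (by simp), mul_smul, ← Av, ← map_smul, ← d1 (-t⁻¹) (by simpa), a_split _ 5 0 fun t _ => A5 t _]
      simp
    rw [LinearMap.id_apply, ← hκ, map_smul, map_smul, ← End.mul_apply E, this, Av]
    simp [← sub_smul, smul_smul, mul_comm]
  rw [LinearMap.id_apply, smul_smul, mul_inv_cancel_left₀ q0, eq_comm, ← sub_eq_zero, ← one_smul ℂ w, smul_smul, mul_one, ← sub_smul] at fin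
  have f2 := (smul_eq_zero.1 fin).resolve_right w0
  rcases g2 with rfl | g2 <;> rcases d2 with rfl | d2
  · simp at f2
  · exact one_ne_zero (α := ℂ) (by linear_combination d2 + (n + 1) * f2)
  · simp at f2
  · have : ((n + 1) ^ 2 + (n + 1) + 1 : ℂ) = 0 := by linear_combination (n + 1 + 1) * g2 - (n + 1) * γ * d2 - (n + 1) ^ 2 * f2
    norm_cast at this

include hn in
theorem m_pos [FiniteDimensional ℂ V] (hρ : p.x 11 1 ≠ 1) : p.d [(11, 1)] ≠ 0 := fun e => hρ (LinearMap.ext fun v => by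
  have := dim_eq (p := p) hn
  rw [e, mul_zero, add_zero] at this
  simpa using (Submodule.eq_top_of_finrank_eq this.symm).ge (Submodule.mem_top (x := v)) (11, 0) (by simp) 1)

include hn in
theorem boundA [FiniteDimensional ℂ V] (hρ : p.x 11 1 ≠ 1) (h3 : (3 : F) ≠ 0) (h4 : 4 ≤ n) : (n + 1) ^ 3 ≤ finrank ℂ V + 1 ∧
    ((∃ k₀ : F, k₀ ≠ 0 ∧ ∀ s, 1 ≠ k₀ * s ^ 3) → (n + 1) ^ 3 + 1 ≤ finrank ℂ V) := by
  obtain ⟨m, hm⟩ := sq_dvd (p := p) hn h3
  have h0 := m_pos hn hρ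
  obtain rfl | rfl | h : m = 0 ∨ m = 1 ∨ 2 ≤ m := by omega
  · simp [hm] at h0
  · have := dD hn h3 (hm.trans (mul_one _)) h4
    exact ⟨by omega, fun ⟨k, a, b⟩ => by have := two_le hn h3 (hm.trans (mul_one _)) h4 a b; omega⟩
  · have a := dim_eq (p := p) hn
    have b : (n + 1) ^ 3 + 1 ≤ n * ((n + 1) ^ 2 * 2) := by nlinarith
    have c := Nat.mul_le_mul_left n (Nat.mul_le_mul_left ((n + 1) ^ 2) h)
    rw [hm] at a
    exact ⟨by omega, fun _ => by omega⟩

end H28.Gt.Rg
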