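import Cfsg.Agent.H28.Gt3

/-!
# The case of characteristic three for `G₂` (namespace `H28.Gt`)
-/

set_option autoImplicit false

open Cfsg Cfsg.Lie H11 H11.StSys Module

namespace H28.Gt.Rg

variable {F G V : Type*} [Field F] [Group G] [AddCommGroup V] [Module ℂ V] {p : Rg F G V} [Fintype F] [FiniteDimensional ℂ V]
  {n : ℕ} (hn : Fintype.card F = n + 1) [CharP F 3] (h8 : 8 ≤ n)

attribute [local simp] Ok cv vl cts List.lookup prs rfs

omit [Fintype F] in
theorem h3 : (3 : F) = 0 := CharP.cast_eq_zero F 3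

omit [Fintype F] in
theorem h2 : (2 : F) = -1 := by linear_combination h3 (F := F)

attribute [local simp] h3 h2

omit [Fintype F] [CharP F 3] in
theorem n11 {k l : F} (hk : k ≠ 0) (hl : l ≠ 0) : p.d [(9, l), (11, k)] = p.d [(9, 1), (11, 1)] := by
  have a := dH (p := p) (r := 6) (L := [(9, l), (11, 1)]) (by simp) hk (by simp)
  have b := dH (p := p) (r := 7) (L := [(9, 1), (11, 1)]) (by simp) hl (by simp)
  simp at a b
  rw [a, b]

omit [Fintype F] [CharP F 3] in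
theorem m9 {k : F} (hk : k ≠ 0) : p.d [(9, k)] = p.d [(9, 1)] ∧ p.d [(8, k)] = p.d [(9, 1)] := by
  have m : ∀ {k : F}, k ≠ 0 → p.d [(9, k)] = p.d [(9, 1)] := fun hk => by
    simpa using dH (p := p) (r := 7) (L := [(9, 1)]) (by simp) hk (by simp)
  obtain ⟨η, a, b, c⟩ := p.dN (r := 7) (by simp)
  exact ⟨m hk, by simpa [← mul_assoc, a, m (mul_ne_zero (b 9) hk)] using c [(9, η 9 * k)] (by simp)⟩

include hn

theorem top9 {k : F} (hk : k ≠ 0) : p.d [(9, 1)] = (n + 1) * p.d [(9, 0), (8, k)] := by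
  rw [← (m9 hk).2]
  refine top hn (fun j hj => ?_) fun t => mv (by simp)
  rw [(m9 hk).2, ← (m9 hj).1, heis (L := [(9, j)]) (g := 8) (h := 7) (neg_ne_zero.2 hj) (fun t => mv (by simp))
    (fun c k => mv (by simp; intro; ring)) k, hn]
  exact congrArg _ (d_eq (by simp))

omit [CharP F 3] in
theorem n10 {k l : F} (hk : k ≠ 0) (hl : l ≠ 0) : p.d [(9, 1), (11, 1)] = (n + 1) * p.d [(9, l), (11, 0), (10, k)] := by
  obtain ⟨η, a, b, c⟩ := p.dN (r := 6) (by simp)
  have := c [(9, η 9 * l), (10, 0), (11, η 11 * k)] (by simp)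
  simp [← mul_assoc, a] at this
  rw [this, ← n11 (mul_ne_zero (b 11) hk) (mul_ne_zero (b 9) hl), heis (g := 10) (h := 6) (neg_ne_zero.2 (mul_ne_zero (b 11) hk))
    (fun t => mv (by simp)) (fun c k => mv (by simp; intro; ring)) 0, hn]
  exact congrArg _ (d_eq (by simp))

theorem n8 {k l : F} (hk : k ≠ 0) (hl : l ≠ 0) : p.d [(9, 1), (11, 1)] = (n + 1) * p.d [(11, k), (9, 0), (8, l)] := by
  obtain ⟨η, a, b, c⟩ := p.dN (r := 7) (by simp)
  have := c [(11, η 11 * k), (8, 0), (9, η 9 * l)] (by simp)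
  simp [← mul_assoc, a] at this
  rw [this, ← n11 (mul_ne_zero (b 11) hk) (mul_ne_zero (b 9) hl), heis (g := 8) (h := 7) (neg_ne_zero.2 (mul_ne_zero (b 9) hl))
    (fun t => mv (by simp)) (fun c k => mv (by simp; intro; ring)) 0, hn]
  exact congrArg _ (d_eq (by simp))

theorem sq_dvd3 : (n + 1) ^ 2 ∣ p.d [(9, 1), (11, 1)] := by
  rw [heis (L := [(9, 1), (11, 1)]) (g := 10) (h := 6) (neg_ne_zero.2 one_ne_zero) (fun t => mv (by simp))
    (fun c k => mv (by simp; intro; ring)) 0, heis (L := [(10, 0), (9, 1), (11, 1)]) (g := 8) (h := 7) (neg_ne_zero.2 one_ne_zero)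
    (fun t => mv (by simp)) (fun c k => mv (by simp; intro; ring)) 0, hn, ← mul_assoc, sq]
  exact dvd_mul_right _ _

include h8

omit [CharP F 3] in
theorem ex_t {k l : F} (h : k ≠ 0 ∨ l ≠ 0) (z : F) : ∃ t u, cv [(8, l), (10, k), (9, 0), (11, 0)] 7 6 t u = z := by
  obtain ⟨s, hs⟩ := exists_pow_ne_one_of_isCyclic (G := Fˣ) two_ne_zero (by rw [Nat.card_units, Nat.card_eq_fintype_card, hn]; omega)
  obtain ⟨t, ht⟩ : ∃ t : F, t * l - t ^ 3 * k ≠ 0 := by
    by_contra! a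
    have a1 := a 1
    have a2 := a s
    have : (s : F) * (1 - s ^ 2) * k = 0 := by linear_combination a2 - s * a1
    have k0 : k = 0 := (mul_eq_zero.1 this).resolve_left (mul_ne_zero s.ne_zero fun e => hs (Units.ext (by simpa using (sub_eq_zero.1 e).symm)))
    simp_all
  exact ⟨t, z / (t * l - t ^ 3 * k), by simp; linear_combination mul_div_cancel₀ z ht⟩

theorem three_dvd {k l : F} (h : k ≠ 0 ∨ l ≠ 0) : 3 ∣ p.d [(8, l), (10, k), (9, 0), (11, 0)] := by
  rw [← CharP.cast_eq_zero_iff F 3]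
  by_contra e
  obtain ⟨s, hs⟩ := AddChar.ne_one_iff.1 p.ne
  obtain ⟨t, u, a⟩ := ex_t hn h8 h (s / p.d [(8, l), (10, k), (9, 0), (11, 0)])
  have := det_trick (p := p) (L := [(8, l), (10, k), (9, 0), (11, 0)]) (A := p.X 6 u) (B := p.X 7 t) (mv (by simp)) (mv (by simp))
    fun v hv => word hv (by simp) t u
  rw [a, ← AddChar.map_nsmul_eq_pow, nsmul_eq_mul, mul_div_cancel₀ _ e] at this
  exact hs this

theorem n11_pos (hρ : p.x 11 1 ≠ 1) : p.d [(9, 1), (11, 1)] ≠ 0 := fun e => by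
  classical
  have a1 := top11 (p := p) hn one_ne_zero
  rw [d_sum (L := [(11, 0), (10, 1)]) (r := 9) fun t => mv (by simp), sum_ne hn (c := 0) fun l hl => by simpa [e] using n10 (p := p) hn one_ne_zero hl,
    d_sum (L := [(9, 0), (11, 0), (10, 1)]) (r := 8) fun t => mv (by simp)] at a1
  obtain ⟨l, -, hl⟩ := Finset.exists_ne_zero_of_sum_ne_zero (s := Finset.univ) (f := fun l => p.d [(8, l), (9, 0), (11, 0), (10, 1)])
    fun b => m_pos hn hρ (by rw [a1, b]; simp)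
  rw [d_eq (L' := [(8, l), (10, 1), (9, 0), (11, 0)]) (by simp)] at hl
  have a2 := d_sum (p := p) (L := [(8, l), (10, 1), (9, 0), (11, 0)]) (r := 7) fun t => mv (by simp)
  rw [sum_ne hn (c := 0) fun j hj => ?_, mul_zero, add_zero] at a2
  · have a3 := Submodule.eq_of_le_of_finrank_eq (J_mono (List.subset_cons_self _ _)) a2.symm
    obtain ⟨v, hv, v0⟩ := (Submodule.ne_bot_iff _).1 (Submodule.one_le_finrank_iff.1 (Nat.one_le_iff_ne_zero.2 hl))
    obtain ⟨s, hs⟩ := AddChar.ne_one_iff.1 p.ne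
    obtain ⟨t, u, a⟩ := ex_t hn h8 (k := 1) (l := l) (.inl one_ne_zero) s
    have a4 := word hv (r := 7) (s := 6) (by simp) t u
    rw [a, a3.ge hv (7, 0) (by simp), a3.ge (mv (by simp) v hv) (7, 0) (by simp)] at a4
    exact hs (smul_left_injective ℂ (fun e => v0 (p.inj (p.X 6 u) (e.trans (map_zero _).symm))) (by simpa [x] using a4.symm))
  · obtain ⟨η, a, b, c⟩ := p.dN (r := 7) (by simp)
    obtain ⟨ζ, a', b', c'⟩ := p.dN (r := 6) (by simp)
    have e1 := c [(9, η 9 * (ζ 8 * j)), (11, η 11 * ζ 11)] (by simp)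
    have e2 := c' [(8, ζ 8 * j), (11, ζ 11)] (by simp)
    simp [← mul_assoc, a, a'] at e1 e2
    rw [e1, n11 (by simp [b, b']) (by simp [b, b', hj]), e] at e2
    exact Nat.le_zero.1 (e2 ▸ d_le (by simp))

theorem x_zero' {k l : F} (hk : k ≠ 0) (hl : l ≠ 0) (h : p.d [(9, 0), (11, 0), (10, k)] = n + 1) :
    p.d [(8, l), (10, k), (9, 0), (11, 0)] = 0 := by
  classical
  by_contra e
  have a1 : ∀ t ≠ 0, 3 ≤ p.d [(8, t ^ 2 * l), (10, k), (9, 0), (11, 0)] := fun t ht => by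
    have := dH (p := p) (r := 8) (L := [(8, l), (10, k), (9, 0), (11, 0)]) (by simp) ht (by simp)
    simp [zpow_ofNat] at this
    rw [this]
    exact Nat.le_of_dvd (Nat.pos_of_ne_zero e) (three_dvd hn h8 (.inl hk))
  rw [d_eq (L' := [(10, k), (9, 0), (11, 0)]) (by simp), d_sum (r := 8) fun t => mv (by simp)] at h
  have a2 := Finset.card_le_mul_card_image (f := fun t : F => t ^ 2 * l) (Finset.univ.erase 0) 2 fun b hb => by
    obtain ⟨s, -, rfl⟩ := Finset.mem_image.1 hb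
    refine (Finset.card_le_card (t := {s, -s}) fun t ht => ?_).trans Finset.card_le_two
    simpa using sq_eq_sq_iff_eq_or_eq_neg.1 (mul_right_cancel₀ hl (Finset.mem_filter.1 ht).2)
  have a3 := (Finset.card_nsmul_le_sum _ (fun l => p.d [(8, l), (10, k), (9, 0), (11, 0)]) 3 fun b hb => by
    obtain ⟨s, hs, rfl⟩ := Finset.mem_image.1 hb
    exact a1 s (Finset.ne_of_mem_erase hs)).trans (Finset.sum_le_sum_of_subset (Finset.subset_univ
      ((Finset.univ.erase 0).image fun t : F => t ^ 2 * l)))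
  rw [Finset.card_erase_of_mem (Finset.mem_univ _), Finset.card_univ, hn] at a2
  rw [h, smul_eq_mul] at a3
  omega

set_option maxHeartbeats 400000 in
theorem boundB (hρ : p.x 11 1 ≠ 1) : (n + 1) ^ 4 + (n + 1) ^ 2 + 1 ≤ finrank ℂ V ∨
    (p.d [(11, 1)] = (n + 1) ^ 3 ∧ (n + 1) ^ 4 + (n + 1) ^ 2 ≤ finrank ℂ V + 2 * (n + 1)) := by
  obtain ⟨m, hm⟩ := sq_dvd3 (p := p) hn
  have h0 := n11_pos hn h8 hρ
  have s1 : ∀ k ≠ 0, p.d [(11, 1)] = p.d [(9, 0), (11, k)] + n * ((n + 1) ^ 2 * m) := fun k hk => by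
    rw [← m11 hk, d_sum (r := 9) fun t => mv (by simp), sum_ne hn fun l hl => n11 hk hl, hm]
  have s2 : ∀ l ≠ 0, p.d [(9, 1)] = p.d [(9, l), (11, 0)] + n * ((n + 1) ^ 2 * m) := fun l hl => by
    rw [← (m9 hl).1, d_sum (r := 11) fun t => mv (by simp), sum_ne hn fun k hk => (d_eq (by simp)).trans (n11 hk hl), hm,
      d_eq (L' := [(9, l), (11, 0)]) (by simp)]
  have s3 := dim_eq (p := p) hn
  have s4 : p.d [(11, 0)] = p.d [(9, 0), (11, 0)] + n * p.d [(9, 1), (11, 0)] := by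
    rw [d_sum (r := 9) fun t => mv (by simp), sum_ne hn fun l hl => Nat.add_right_cancel ((s2 l hl).symm.trans (s2 1 one_ne_zero))]
  obtain rfl | rfl | h : m = 0 ∨ m = 1 ∨ 2 ≤ m := by omega
  · simp [hm] at h0
  swap
  · have := s1 1 one_ne_zero
    have b : (n + 1) ^ 4 + (n + 1) ^ 2 + 1 ≤ n * (n * ((n + 1) ^ 2 * 2)) := by
      obtain ⟨n, rfl⟩ := Nat.exists_eq_add_of_le h8
      zify; rw [← sub_nonneg]; ring_nf; positivity
    exact .inl (b.trans (s3 ▸ le_add_left (Nat.mul_le_mul_left _ (this ▸ le_add_left (by gcongr)))))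
  rw [mul_one] at hm s1 s2
  have r1 : ∀ k ≠ 0, ∀ l ≠ 0, p.d [(9, l), (11, 0), (10, k)] = n + 1 := fun k hk l hl =>
    Nat.eq_of_mul_eq_mul_left n.succ_pos (by rw [← n10 hn hk hl, hm, sq])
  have r2 : ∀ k ≠ 0, ∀ l ≠ 0, p.d [(11, k), (9, 0), (8, l)] = n + 1 := fun k hk l hl =>
    Nat.eq_of_mul_eq_mul_left n.succ_pos (by rw [← n8 hn hk hl, hm, sq])
  have t1 : ∀ k ≠ 0, p.d [(9, 0), (11, 1)] = (n + 1) * p.d [(9, 0), (11, 0), (10, k)] := fun k hk => by
    have := top11 (p := p) hn hk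
    rw [s1 1 one_ne_zero, d_sum (L := [(11, 0), (10, k)]) (r := 9) fun t => mv (by simp), sum_ne hn (r1 k hk)] at this
    linarith
  have t2 : ∀ l ≠ 0, p.d [(9, 1), (11, 0)] = (n + 1) * p.d [(11, 0), (9, 0), (8, l)] := fun l hl => by
    have := top9 (p := p) hn hl
    rw [s2 1 one_ne_zero, d_sum (L := [(9, 0), (8, l)]) (r := 11) fun t => mv (by simp), sum_ne hn fun k hk => r2 k hk l hl] at this
    linarith
  have u1 : n * (n + 1) ≤ p.d [(9, 0), (11, 1)] := by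
    rw [d_sum (r := 8) fun t => mv (by simp)]
    exact le_add_left le_rfl |>.trans (sum_ge hn fun l hl => (r2 1 one_ne_zero l hl).ge.trans (d_le (by simp)))
  have u2 : n * (n + 1) ≤ p.d [(9, 1), (11, 0)] := by
    rw [d_sum (r := 10) fun t => mv (by simp)]
    exact le_add_left le_rfl |>.trans (sum_ge hn fun k hk => (r1 k hk 1 one_ne_zero).ge.trans (d_le (by simp)))
  have v1 : ∀ k, p.d [(9, 0), (11, 0), (10, k)] = ∑ l, p.d [(8, l), (10, k), (9, 0), (11, 0)] := fun k => by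
    rw [d_eq (L' := [(10, k), (9, 0), (11, 0)]) (by simp), d_sum (r := 8) fun t => mv (by simp)]
  have v2 : ∀ l, p.d [(11, 0), (9, 0), (8, l)] = ∑ k, p.d [(8, l), (10, k), (9, 0), (11, 0)] := fun l => by
    rw [d_sum (r := 10) fun t => mv (by simp)]
    exact Finset.sum_congr rfl fun k _ => d_eq (by simp)
  obtain ⟨R, hR⟩ : 3 ∣ p.d [(9, 0), (11, 0), (10, 1)] := v1 1 ▸ Finset.dvd_sum fun l _ => three_dvd hn h8 (.inl one_ne_zero)
  obtain ⟨C, hC⟩ : 3 ∣ p.d [(11, 0), (9, 0), (8, 1)] := v2 1 ▸ Finset.dvd_sum fun l _ => three_dvd hn h8 (.inr one_ne_zero)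
  obtain ⟨i, hi⟩ : 3 ∣ n + 1 := (CharP.cast_eq_zero_iff F 3 _).1 (hn ▸ FiniteField.cast_card_eq_zero F)
  have w1 := t1 1 one_ne_zero
  have w2 := t2 1 one_ne_zero
  have w3 := s1 1 one_ne_zero
  rw [hR] at w1
  rw [hC] at w2
  have x1 : n ≤ 3 * R := Nat.le_of_mul_le_mul_left (by rwa [w1, mul_comm] at u1) n.succ_pos
  have x2 : n ≤ 3 * C := Nat.le_of_mul_le_mul_left (by rwa [w2, mul_comm] at u2) n.succ_pos
  rw [s3, s4, w3, w1, w2]
  by_cases y : 3 * R = n + 1 ∧ 3 * C = n + 1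
  · have z1 : ∀ k ≠ 0, p.d [(9, 0), (11, 0), (10, k)] = n + 1 := fun k hk =>
      Nat.eq_of_mul_eq_mul_left n.succ_pos (by rw [← t1 k hk, w1, y.1])
    have z2 : ∀ l ≠ 0, n + 1 ≤ p.d [(8, l), (10, 0), (9, 0), (11, 0)] := fun l hl => by
      have := Nat.eq_of_mul_eq_mul_left n.succ_pos ((t2 l hl).symm.trans w2)
      rw [v2, sum_ne hn fun k hk => x_zero' hn h8 hk hl (z1 k hk), y.2] at this
      omega
    have z3 := sum_ge hn z2
    have z4 : p.d [(9, 0), (11, 0)] = p.d [(9, 0), (11, 0), (10, 0)] + n * (n + 1) := by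
      rw [d_sum (r := 10) fun t => mv (by simp), sum_ne hn fun k hk => (d_eq (by simp)).trans (z1 k hk)]
      exact congrArg (· + _) (d_eq (by simp))
    rw [← v1] at z3
    rw [y.1, y.2, z4]
    exact .inr ⟨by ring, by nlinarith⟩
  · obtain ⟨c, hc⟩ : ∃ c, 3 * R + 3 * C = 2 * n + 5 + c := Nat.exists_eq_add_of_le (by omega)
    generalize p.d [(9, 0), (11, 0)] = N
    clear * - hc h8
    have a1 : n * (n + 1) * (3 * R + 3 * C) = n * (n + 1) * (2 * n + 5 + c) := by rw [hc]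
    have a2 := Nat.mul_le_mul_left n h8
    exact .inl (by linarith [Nat.zero_le (n * (n + 1) * c), Nat.zero_le N])

end H28.Gt.Rg
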