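import Mathlib
import Cfsg.Agent.H10.Omega
import Cfsg.Agent.H10.Stab

/-!
# Siegel elements of orthogonal groups, frames and counting (namespace `H28.Om`)
-/

set_option autoImplicit false
set_option linter.style.haveILetI false

open Module Finset H10 H10.Form Submodule

namespace H28.Om

variable {F V : Type*} [Field F] [AddCommGroup V] [Module F V] {φ : Form F V} [hq : Fact φ.IsQuad]

@[simp] theorem sig (a : F) : φ.σ a = a := hq.out.σ_eq a
@[simp] theorem eps : φ.ε = 1 := hq.out.ε_eq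
@[simp] theorem Tq (a : F) : φ.T a = a := hq.out.T_eq a
theorem Bc (x y : V) : φ.B x y = φ.B y x := hq.out.B_comm x y
theorem Qa (x y : V) : φ.Q (x + y) = φ.Q x + φ.Q y + φ.B x y := hq.out.Q_add x y
theorem Qs (a : F) (x : V) : φ.Q (a • x) = a * a * φ.Q x := hq.out.Q_smul a x
theorem Bs (x : V) : φ.B x x = 2 * φ.Q x := hq.out.B_self x

instance (W : Submodule F V) : Fact (φ.restrict W).IsQuad := ⟨hq.out.restrict W⟩

open Classical in
variable (φ) in
/-- Siegel elements -/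
noncomputable def S (p w : V) : φ.E :=
  if h : φ.Q p = 0 ∧ φ.B p w = 0 then ⟨φ.siegel p w (φ.Q w), φ.siegel_mem_E h.1 h.2 (Tq _)⟩ else 1

omit hq in
theorem mul_ap (g k : φ.E) (x : V) : (g * k).1.1 x = g.1.1 (k.1.1 x) := rfl

omit hq in
theorem one_ap (x : V) : (1 : φ.E).1.1 x = x := rfl

omit hq in
theorem ext_E {g k : φ.E} (h : ∀ x, g.1.1 x = k.1.1 x) : g = k := Subtype.ext (Isom.ext h)

omit hq in
@[simp] theorem inv_ap (g : φ.E) (x : V) : g⁻¹.1.1 (g.1.1 x) = x := Isom.inv_apply_apply g.1 x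

omit hq in
@[simp] theorem ap_inv (g : φ.E) (x : V) : g.1.1 (g⁻¹.1.1 x) = x := Isom.apply_inv_apply g.1 x

omit hq in
theorem B_ap (g : φ.E) {x x' : V} (h : g.1.1 x = x') (y : V) : φ.B x' (g.1.1 y) = φ.B x y := by
  rw [← h, Isom.B_map]

omit hq in
theorem B_inv (g : φ.E) {x x' : V} (h : g.1.1 x = x') (y : V) : φ.B x (g⁻¹.1.1 y) = φ.B x' y := by
  rw [← B_ap g h, ap_inv]

section
variable [φ.Nondeg] [FiniteDimensional F V] {p w w' p' : V}

theorem S_val (hp : φ.Q p = 0) (hw : φ.B p w = 0) : (S φ p w).1 = φ.siegel p w (φ.Q w) := by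
  rw [S, dif_pos ⟨hp, hw⟩]

theorem S_ap (hp : φ.Q p = 0) (hw : φ.B p w = 0) (x : V) :
    (S φ p w).1.1 x = x + φ.B w x • p - φ.B p x • w - (φ.Q w * φ.B p x) • p := by
  rw [S_val hp hw, φ.siegel_apply hp hw (Tq _)]; simp

theorem S_fix (hp : φ.Q p = 0) (hw : φ.B p w = 0) {x : V} (h1 : φ.B p x = 0) (h2 : φ.B w x = 0) :
    (S φ p w).1.1 x = x := by simp [S_ap hp hw, h1, h2]

theorem S_ap0 (hp : φ.Q p = 0) (hw : φ.B p w = 0) {x : V} (h1 : φ.B p x = 0) :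
    (S φ p w).1.1 x = x + φ.B w x • p := by simp [S_ap hp hw, h1]

theorem S_self (hp : φ.Q p = 0) (hw : φ.B p w = 0) : (S φ p w).1.1 p = p :=
  S_fix hp hw (φ.B_self_eq_zero hp) (φ.B_symm_zero hw)

theorem S_add (hp : φ.Q p = 0) (hw : φ.B p w = 0) (hw' : φ.B p w' = 0) :
    S φ p (w + w') = S φ p w * S φ p w' := Subtype.ext (by
  rw [Subgroup.coe_mul, S_val hp hw, S_val hp hw', S_val hp (by simp [hw, hw']),
    φ.siegel_mul hp hw (Tq _) hw' (Tq _), Qa])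

theorem S_zero (p : V) : S φ p 0 = 1 := by
  by_cases hp : φ.Q p = 0
  · exact ext_E fun x => by simp [S_ap hp, one_ap]
  · rw [S, dif_neg fun h => hp h.1]

theorem S_comm (hp : φ.Q p = 0) (hw : φ.B p w = 0) (hw' : φ.B p w' = 0) :
    S φ p w * S φ p w' = S φ p w' * S φ p w := by rw [← S_add hp hw hw', ← S_add hp hw' hw, add_comm]

theorem S_neg (hp : φ.Q p = 0) (hw : φ.B p w = 0) : S φ p (-w) * S φ p w = 1 := by
  rw [← S_add hp (by simp [hw]) hw, neg_add_cancel, S_zero]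

theorem S_pp (hp : φ.Q p = 0) (c : F) : S φ p (c • p) = 1 := ext_E fun x => by
  simp [S_ap hp (show φ.B p (c • p) = 0 by simp [φ.B_self_eq_zero hp]), one_ap, Qs, hp, smul_smul, mul_comm]

theorem S_smul (hp : φ.Q p = 0) (hw : φ.B p w = 0) (c : F) : S φ (c • p) w = S φ p (c • w) := ext_E fun x => by
  rw [S_ap (φ.Q_smul_of_sing hp c) (by simp [hw]), S_ap hp (by simp [hw]), Qs]
  simp only [map_smulₛₗ, sig, LinearMap.smul_apply, smul_eq_mul]
  module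

theorem S_conj (g : φ.E) (hp : φ.Q p = 0) (hw : φ.B p w = 0) :
    g * S φ p w = S φ (g.1.1 p) (g.1.1 w) * g := ext_E fun x => by
  simp [mul_ap, S_ap hp hw, S_ap (show φ.Q (g.1.1 p) = 0 by simpa) (show φ.B (g.1.1 p) (g.1.1 w) = 0 by simpa)]

theorem S_det (hp : φ.Q p = 0) (hp' : φ.Q p' = 0) (h : φ.B p p' = 0) (a b c d : F) :
    S φ (a • p + b • p') (c • p + d • p') = S φ p ((a * d - b * c) • p') := ext_E fun x => by
  have h1 := φ.B_self_eq_zero hp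
  have h2 := φ.B_self_eq_zero hp'
  rw [S_ap (by simp [Qa, Qs, *]) (by simp [Bc p' p, *]), S_ap hp (by simp [h])]
  simp only [Qa, Qs, hp, hp', h, map_add, map_smulₛₗ, sig, LinearMap.smul_apply, smul_eq_mul, LinearMap.add_apply,
    RingHom.id_apply]
  module

theorem S_swap (hp : φ.Q p = 0) (hp' : φ.Q p' = 0) (h : φ.B p p' = 0) (c : F) :
    S φ p' (c • p) = S φ p (-c • p') := by simpa using S_det hp hp' h 0 1 c 0

theorem S_add_left (hp : φ.Q p = 0) (hp' : φ.Q p' = 0) (h : φ.B p p' = 0) (hw : φ.B p w = 0) (hw' : φ.B p' w = 0) :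
    S φ (p + p') w = S φ p w * S φ p' w * S φ p (φ.Q w • p') := ext_E fun x => by
  have h1 := φ.B_self_eq_zero hp
  have h2 := φ.B_self_eq_zero hp'
  rw [mul_ap, mul_ap, S_ap (by simp [Qa, *]) (by simp [*]), S_ap hp hw, S_ap hp' hw', S_ap hp (by simp [h])]
  simp only [Qs, hp', h, map_add, map_sub, map_smulₛₗ, sig, LinearMap.smul_apply, smul_eq_mul, LinearMap.add_apply,
    RingHom.id_apply, h1, h2, hw, hw', Bc p' p, Bc w p, Bc w p', Bs w]
  module

theorem E_le_ker {H : Type*} [Monoid H] (ρ : φ.E →* H)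
    (h : ∀ p w, φ.Q p = 0 → φ.B p w = 0 → ρ (S φ p w) = 1) : ρ.ker = ⊤ := by
  have : φ.E ≤ ρ.ker.map φ.E.subtype := E_le_iff.2 fun p hp w s hw hs =>
    ⟨S φ p w, h p w hp hw, by rw [Subgroup.coe_subtype, S_val hp hw, ← hs, Tq]⟩
  refine eq_top_iff.2 fun g _ => ?_
  obtain ⟨k, hk, e⟩ := this g.2
  exact (Subtype.ext e : k = g) ▸ hk

omit hq in
theorem ex_nondeg (X : Submodule F V) : ∃ W, φ.NondegOn W ∧ W ≤ φ.perp X ∧
    finrank F W + finrank F X + finrank F ↥(X ⊓ φ.perp X) = finrank F V := by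
  obtain ⟨C, hC⟩ := (X ⊓ φ.perp X).exists_isCompl
  have h1 : X ⊓ φ.perp X ⊔ C ⊓ φ.perp X = φ.perp X := by
    rw [← sup_inf_assoc_of_le _ inf_le_right, hC.sup_eq_top, top_inf_eq]
  have h2 : X ⊓ φ.perp X ⊓ (C ⊓ φ.perp X) = ⊥ := le_bot_iff.1 (hC.inf_eq_bot ▸ inf_le_inf_left _ inf_le_left)
  refine ⟨C ⊓ φ.perp X, fun x hx h => ?_, inf_le_right, ?_⟩
  · refine h2.le ⟨⟨φ.perp_perp X ▸ φ.mem_perp'.2 fun y hy => ?_, hx.2⟩, hx⟩
    obtain ⟨a, ha, b, hb, rfl⟩ := mem_sup.1 (h1.ge hy)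
    rw [map_add, h b hb, φ.mem_perp'.1 hx.2 a ha.1, add_zero]
  · have h3 := finrank_sup_add_finrank_inf_eq (X ⊓ φ.perp X) (C ⊓ φ.perp X)
    rw [h1, h2, finrank_bot] at h3
    have := φ.finrank_perp X
    omega

omit hq in
theorem ex_nondeg' (X : Submodule F V) {k : ℕ} (h : k + 2 * finrank F X ≤ finrank F V) :
    ∃ W, φ.NondegOn W ∧ W ≤ φ.perp X ∧ k ≤ finrank F W := by
  obtain ⟨W, h1, h2, h3⟩ := ex_nondeg (φ := φ) X
  have := finrank_mono (inf_le_left : X ⊓ φ.perp X ≤ X)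
  exact ⟨W, h1, h2, by omega⟩

omit hq [φ.Nondeg] [FiniteDimensional F V] in
theorem li_pair {p u : V} (hp : p ≠ 0) (hu : u ∉ F ∙ p) : LinearIndependent F ![p, u] :=
  (LinearIndependent.pair_iff' hp).2 fun a e => hu (mem_span_singleton.2 ⟨a, e⟩)

variable [Finite F]

theorem E_eq (hD : 5 ≤ finrank F V) : φ.E = commutator φ.Isom :=
  hq.out.E_eq_commutator (hq.out.good_of_finrank (by omega)) (by omega)

theorem witt_E (hD : 6 ≤ finrank F V) {u u' : V} (h1 : φ.Q p = 0) (h2 : φ.Q p' = 0) (h3 : φ.B p u = 0)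
    (h4 : φ.B p' u' = 0) (h5 : φ.Q u = φ.Q u') (p0 : p ≠ 0) (p0' : p' ≠ 0) (hu : u ∉ F ∙ p) (hu' : u' ∉ F ∙ p') :
    ∃ g : φ.E, g.1.1 p = p' ∧ g.1.1 u = u' := by
  obtain ⟨g, e1, e2⟩ := φ.witt_pair (li_pair p0 hu) (li_pair p0' hu') (h1.trans h2.symm) h5 (h3.trans h4.symm)
  obtain ⟨W, w1, w2, w3⟩ := ex_nondeg' (φ := φ) (span F {p, u}) (k := 2) (by have := finrank_span_pair_le (F := F) p u; omega)
  obtain ⟨k, hk, e⟩ := hq.out.exists_commutator_eqOn (hq.out.good_of_finrank (by omega)) w1 w3 g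
  have w4 := φ.le_perp_comm.1 w2
  exact ⟨⟨k, E_eq (φ := φ) (by omega) ▸ hk⟩, (e p (w4 (subset_span (by simp)))).trans e1,
    (e u (w4 (subset_span (by simp)))).trans e2⟩

theorem rot_mem (hD : 5 ≤ finrank F V) {e f : V} (h : φ.IsHyp e f) {c : F} (hc : c ≠ 0) :
    φ.rot e f (c * c) ∈ φ.E := by
  have hg := hq.out.good_of_finrank (show finrank F V ≠ 4 by omega)
  have : φ.rot e f (c * c) = φ.rot e f c * φ.rot e f c := (φ.rot_mul h hc hc).symm
  rw [E_eq hD, hq.out.mem_commutator_iff hg (by omega), hq.out.dickson_rot hg h (mul_ne_zero hc hc), this, map_mul]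
  exact ⟨rfl, Int.units_mul_self _⟩

end

section count
variable (φ)

omit hq in
/-- the orthogonal complement of a pair inside a subspace -/
def pp (W : Submodule F V) (e f : V) : Submodule F V := W ⊓ φ.perp (span F {e, f})

omit hq in
/-- number of vectors of given norm in a subspace -/
noncomputable def cn (W : Submodule F V) (a : F) : ℕ := Nat.card {v // v ∈ W ∧ φ.Q v = a}

variable {φ}
omit hq in
theorem mem_pp {W : Submodule F V} {e f x : V} : x ∈ pp φ W e f ↔ x ∈ W ∧ φ.B e x = 0 ∧ φ.B f x = 0 := by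
  rw [pp, Submodule.mem_inf, mem_perp_pair]

omit hq in
theorem cn_eq (W : Submodule F V) (a : F) : (φ.restrict W).cnt a = cn φ W a :=
  Nat.card_congr (Equiv.subtypeSubtypeEquivSubtypeInter (· ∈ W) (φ.Q · = a))

omit hq in
theorem cn_top (a : F) : cn φ ⊤ a = φ.cnt a := by simp [cn, cnt]

variable [FiniteDimensional F V] {W : Submodule F V} {e f : V}

theorem pp_spec (hW : φ.NondegOn W) (h : φ.IsHyp e f) (he : e ∈ W) (hf : f ∈ W) :
    φ.NondegOn (pp φ W e f) ∧ finrank F (pp φ W e f) + 2 = finrank F W ∧ ∀ [Finite F] (a : F),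
      cn φ W a = Nat.card F * cn φ (pp φ W e f) a + (Nat.card F - 1) * Nat.card F ^ finrank F (pp φ W e f) := by
  haveI := hW.nondeg
  have h' : (φ.restrict W).IsHyp ⟨e, he⟩ ⟨f, hf⟩ := ⟨h.Qe, h.Qf, h.Bef⟩
  have hm : ((φ.restrict W).perp (span F {⟨e, he⟩, ⟨f, hf⟩})).map W.subtype = pp φ W e f := by
    ext x
    simp only [Submodule.mem_map, mem_perp_pair, mem_pp, restrict_B]
    exact ⟨by rintro ⟨y, hy, rfl⟩; exact ⟨y.2, hy⟩, fun hx => ⟨⟨x, hx.1⟩, hx.2, rfl⟩⟩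
  have hr : finrank F (pp φ W e f) + 2 = finrank F W := by rw [← hm, finrank_map_subtype_eq, h'.finrank_perp]
  refine ⟨fun x hx hB => hW x hx.1 fun y hy => ?_, hr, fun a => ?_⟩
  · have := hB _ ⟨W.sub_mem (W.sub_mem hy (W.smul_mem _ he)) (W.smul_mem _ hf), h.proj_mem y⟩
    simpa [Bc x e, Bc x f, (mem_pp.1 hx).2] using this
  · rw [← cn_eq, (hq.out.restrict W).cnt_of_hyp h', ← hr, Nat.add_sub_cancel, cn_eq, cn, cn, ← hm]
    congr 2
    exact Nat.card_congr (Equiv.ofBijective (fun x => ⟨x.1.1, mem_map_of_mem x.2.1, x.2.2⟩)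
      ⟨fun x y e => Subtype.ext (Subtype.ext (congrArg (·.1) e)), by
        rintro ⟨_, ⟨y, hy, rfl⟩, h2⟩; exact ⟨⟨y, hy, h2⟩, rfl⟩⟩)

omit [FiniteDimensional F V] in
theorem card_B_one (h : φ.IsHyp e f) (he : e ∈ W) (hf : f ∈ W) (a : F) :
    Nat.card {u // u ∈ W ∧ φ.Q u = a ∧ φ.B u e = 1} = Nat.card (pp φ W e f) := by
  have h1 := h.Bee
  have h2 := h.Bff
  have h3 := h.Bef
  have h4 : φ.B f e = 1 := by rw [Bc, h3]
  symm
  refine Nat.card_congr (Equiv.ofBijective (fun w => ⟨(a - φ.Q w) • e + f + w,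
    W.add_mem (W.add_mem (W.smul_mem _ he) hf) w.2.1, ?_, ?_⟩) ⟨fun x y H => ?_, fun u => ?_⟩)
  · simp [Qa, Qs, h.Qe, h.Qf, h3, (mem_pp.1 w.2).2]
  · simp [h1, h4, Bc (w : V) e, (mem_pp.1 w.2).2]
  · have H := congrArg Subtype.val H
    have := congrArg (φ.B f) H
    simp only [map_add, map_smul, h4, h2, (mem_pp.1 x.2).2, (mem_pp.1 y.2).2, add_left_inj, smul_eq_mul,
      mul_one] at this
    exact Subtype.ext (by simpa [this] using H)
  · obtain ⟨u, u1, u2, u3⟩ := u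
    have u4 : φ.B e u = 1 := by rw [Bc, u3]
    refine ⟨⟨u - φ.B f u • e - f, mem_pp.2 ⟨W.sub_mem (W.sub_mem u1 (W.smul_mem _ he)) hf, by simp [*],
      by simp [*]⟩⟩, Subtype.ext ?_⟩
    have : φ.Q (u - φ.B f u • e - f) = a - φ.B f u := by
      simp [φ.Q_sub, Qs, h.Qe, h.Qf, u2, u3, h3, Bc u f]
    simp [this]

omit hq [FiniteDimensional F V] in
theorem card_fib (he : e ∈ W) (hf : φ.B f e = 1) (P : V → Prop) (hP : ∀ v ∈ W, ∀ c : F, P (v + c • e) ↔ P v) :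
    Nat.card {v // v ∈ W ∧ P v} = Nat.card F * Nat.card {v // (v ∈ W ∧ φ.B f v = 0) ∧ P v} := by
  rw [← Nat.card_prod]
  symm
  refine Nat.card_congr (Equiv.ofBijective (fun x => ⟨x.2.1 + x.1 • e, W.add_mem x.2.2.1.1 (W.smul_mem _ he),
    (hP _ x.2.2.1.1 _).2 x.2.2.2⟩) ⟨fun x y H => ?_, fun v => ⟨⟨φ.B f v, v - φ.B f v • e,
      ⟨W.sub_mem v.2.1 (W.smul_mem _ he), by simp [hf]⟩, ?_⟩, by simp⟩⟩)
  · have H := congrArg Subtype.val H
    have := congrArg (φ.B f) H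
    simp only [map_add, map_smul, hf, x.2.2.1.2, y.2.2.1.2, zero_add, smul_eq_mul, mul_one] at this
    exact Prod.ext this (Subtype.ext (by simpa [this] using H))
  · rw [sub_eq_add_neg, ← neg_smul]; exact (hP _ v.2.1 _).2 v.2.2

end count

end H28.Om
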