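import Cfsg.Agent.H28.Om1
import Cfsg.Agent.H28.Om2

/-!
# Weight spaces for the radicals of point stabilisers of orthogonal groups (namespace `H28.Om`)
-/

set_option autoImplicit false
set_option linter.style.haveILetI false

open Module Finset H10 H10.Form Submodule L.Wt

namespace H28.Om

variable {F V : Type*} [Field F] [AddCommGroup V] [Module F V] {φ : Form F V} [hq : Fact φ.IsQuad]
  {M : Type*} [AddCommGroup M] [Module ℂ M] {ρ : φ.E →* End ℂ M} {ψ : AddChar F ℂ}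

variable (ρ ψ) in
/-- weight spaces -/
noncomputable def Wt (x : V) (A : Submodule F V) (u : V) : Submodule ℂ M :=
  wt (fun w : A => ρ (S φ x w)) fun w => ψ (φ.B u w)

variable (ρ ψ) in
/-- weight spaces of the full radical -/
noncomputable def Vw (p u : V) : Submodule ℂ M := Wt ρ ψ p (φ.perp (F ∙ p)) u

variable {p u x w e : V} {A : Submodule F V} {y : M}

theorem mem_Wt : y ∈ Wt ρ ψ x A u ↔ ∀ w ∈ A, ρ (S φ x w) y = ψ (φ.B u w) • y :=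
  ⟨fun h w hw => h ⟨w, hw⟩, fun h w => h w.1 w.2⟩

theorem mem_Vw : y ∈ Vw ρ ψ p u ↔ ∀ w, φ.B p w = 0 → ρ (S φ p w) y = ψ (φ.B u w) • y := by
  simp only [Vw, mem_Wt, mem_perp_singleton]

theorem mem_Wt0 : y ∈ Wt ρ ψ x A 0 ↔ ∀ w ∈ A, ρ (S φ x w) y = y := by simp [mem_Wt]

theorem mem_Vw0 : y ∈ Vw ρ ψ p 0 ↔ ∀ w, φ.B p w = 0 → ρ (S φ p w) y = y := by simp [mem_Vw]

omit hq in
theorem rmul (g k : φ.E) (y : M) : ρ (g * k) y = ρ g (ρ k y) := by rw [map_mul]; rfl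

omit hq in
theorem rinj (g : φ.E) : Function.Injective (ρ g) := fun a b h => by
  simpa [← rmul] using congrArg (ρ g⁻¹) h

variable [φ.Nondeg] [FiniteDimensional F V]

theorem Wt_map (g : φ.E) (hx : φ.Q x = 0) (hA : ∀ w ∈ A, φ.B x w = 0) {A' : Submodule F V} {x' u' : V}
    (e : g.1.1 x = x') (h : ∀ w ∈ A', g⁻¹.1.1 w ∈ A ∧ φ.B u (g⁻¹.1.1 w) = φ.B u' w) (hy : y ∈ Wt ρ ψ x A u) :
    ρ g y ∈ Wt ρ ψ x' A' u' := mem_Wt.2 fun w hw => by
  rw [← rmul, ← ap_inv g w, ← e, ← S_conj g hx (hA _ (h w hw).1), rmul, mem_Wt.1 hy _ (h w hw).1, map_smul,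
    (h w hw).2, ap_inv]

theorem Vw_map (g : φ.E) (hp : φ.Q p = 0) {p' u' : V} (e : g.1.1 p = p') (e' : g.1.1 u = u') (hy : y ∈ Vw ρ ψ p u) :
    ρ g y ∈ Vw ρ ψ p' u' :=
  Wt_map g hp (fun _ => φ.mem_perp_singleton.1) e (fun w hw => ⟨φ.mem_perp_singleton.2 (by
    rw [B_inv g e, φ.mem_perp_singleton.1 hw]), B_inv g e' w⟩) hy

theorem Vw_smul (hp : φ.Q p = 0) {c : F} (hc : c ≠ 0) : Vw ρ ψ (c • p) (c • u) = Vw ρ ψ p u := by
  ext y
  simp only [mem_Vw]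
  refine ⟨fun h w hw => ?_, fun h w hw => ?_⟩
  · have := h (c⁻¹ • w) (by simp [hw])
    rw [S_smul hp (by simp [hw]), smul_inv_smul₀ hc] at this
    simpa [hc] using this
  · have hw : φ.B p w = 0 := by simpa [hc] using hw
    rw [S_smul hp hw, h _ (by simp [hw])]; simp

theorem Wt_ext (hx : φ.Q x = 0) (hA : ∀ w ∈ A, φ.B x w = 0) (he : φ.B x e = 0) (hy : y ∈ Wt ρ ψ x A u)
    {c : F} (h : ρ (S φ x (c • e)) y = ψ (c * φ.B u e) • y) (hw : w - c • e ∈ A) :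
    ρ (S φ x w) y = ψ (φ.B u w) • y := by
  rw [← sub_add_cancel w (c • e), S_add hx (hA _ hw) (by simp [he]), rmul, h, map_smul, mem_Wt.1 hy _ hw, smul_smul,
    ← AddChar.map_add_eq_mul]
  simp

theorem Wt_eq {f : V} (h : φ.IsHyp p f) (hu : φ.B u p = 0) : Wt ρ ψ p (pp φ ⊤ p f) u = Vw ρ ψ p u :=
  le_antisymm (fun y hy => mem_Vw.2 fun w hw => Wt_ext h.Qe (fun _ hw => (mem_pp.1 hw).2.1) h.Bee hy
    (c := φ.B f w) (by simp [S_pp h.Qe, hu]) (mem_pp.2 ⟨mem_top, by simp [hw, h.Bee], by simp [h.Bfe]⟩))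
    fun y hy => mem_Wt.2 fun w hw => mem_Vw.1 hy w (mem_pp.1 hw).2.1

omit hq [φ.Nondeg] [FiniteDimensional F V] in
theorem nm_pp {f : V} {W : Submodule F V} (h : φ.IsHyp p f) (hu : u ∈ pp φ W p f) (h0 : u ≠ 0) : u ∉ F ∙ p := fun e => by
  obtain ⟨c, rfl⟩ := mem_span_singleton.1 e
  have : c = 0 := by simpa [h.Bfe, φ.ε_ne_zero] using (mem_pp.1 hu).2.2
  simp [this] at h0

variable [FiniteDimensional ℂ M]

theorem Vw_rk (g : φ.E) (hp : φ.Q p = 0) : finrank ℂ (Vw ρ ψ (g.1.1 p) (g.1.1 u)) = finrank ℂ (Vw ρ ψ p u) := by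
  have le : ∀ (g : φ.E) p u, φ.Q p = 0 → finrank ℂ (Vw ρ ψ p u) ≤ finrank ℂ (Vw ρ ψ (g.1.1 p) (g.1.1 u)) :=
    fun g p u hp => LinearMap.finrank_le_finrank_of_injective (f := (ρ g).restrict fun y hy => Vw_map g hp rfl rfl hy)
      fun a b e => Subtype.ext (rinj g (congrArg Subtype.val e))
  exact le_antisymm (by have := le g⁻¹ (g.1.1 p) (g.1.1 u) (by simpa); rwa [inv_ap, inv_ap] at this) (le g p u hp)

section C
variable (h1 : finrank ℂ (Vw ρ ψ p u) ≤ 1) (hp : φ.Q p = 0) (hy : y ∈ Vw ρ ψ p u) (hx : φ.Q x = 0)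
  (hpx : φ.B p x = 0) (hux : φ.B u x = 0)
include h1 hp hy

theorem sc (y0 : y ≠ 0) (g : φ.E) (e : g.1.1 p = p) (e' : g.1.1 u = u) : ∃ c : ℂ, c ≠ 0 ∧ ρ g y = c • y := by
  obtain ⟨c, hc⟩ := (finrank_eq_one_iff_of_nonzero' (⟨y, hy⟩ : Vw ρ ψ p u) (by simpa using y0)).1
    (le_antisymm h1 (one_le_finrank hy y0)) ⟨_, Vw_map g hp e e' hy⟩
  have hc := (congrArg Subtype.val hc).symm
  exact ⟨c, fun h => y0 (rinj (ρ := ρ) g (by simpa [h] using hc)), hc⟩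

include hx hpx hux

theorem key (g : φ.E) (e : g.1.1 p = p) (e' : g.1.1 u = u) {c : F} (hc : c ≠ 0) (e'' : g.1.1 x = c • x)
    (w1 : φ.B p w = 0) (w2 : φ.B u w = 0) (w3 : φ.B x w = 0) : ρ (S φ x (c • g.1.1 w - w)) y = y := by
  by_cases y0 : y = 0
  · simp [y0]
  obtain ⟨a, a0, ha⟩ := sc h1 hp hy y0 g e e'
  obtain ⟨b, b0, hb⟩ := sc h1 hp hy y0 (S φ x w) (S_fix hx w3 (φ.B_symm_zero hpx) (φ.B_symm_zero w1))
    (S_fix hx w3 (φ.B_symm_zero hux) (φ.B_symm_zero w2))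
  have w4 : φ.B x (g.1.1 w) = 0 := by simpa [hc, w3] using B_ap g e'' w
  have := congrArg (ρ · y) (S_conj g hx w3)
  rw [e'', S_smul hx w4, ← sub_add_cancel (c • g.1.1 w) w, S_add hx (by simp [w4, w3]) w3] at this
  simp only [rmul, ha, hb, map_smul, smul_comm a b] at this
  exact (smul_right_injective _ a0 (smul_right_injective _ b0 this)).symm

omit h1 hp hy hpx hux [FiniteDimensional ℂ M] in
variable (ρ p u y) in
/-- the vectors whose Siegel elements fix `y` -/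
def KK : Submodule F V where
  carrier := {w | (φ.B p w = 0 ∧ φ.B u w = 0 ∧ φ.B x w = 0) ∧ ∀ c : F, ρ (S φ x (c • w)) y = y}
  zero_mem' := ⟨by simp, by simp [S_zero]⟩
  add_mem' := fun {a b} ha hb => ⟨by simp [ha.1, hb.1], fun c => by
    rw [smul_add, S_add hx (by simp [ha.1]) (by simp [hb.1]), rmul, hb.2, ha.2]⟩
  smul_mem' := fun c a ha => ⟨by simp [ha.1], fun d => by rw [smul_smul, ha.2]⟩

theorem K1 {z z' : V} (he : φ.Q e = 0) (e1 : φ.B p e = 0 ∧ φ.B u e = 0 ∧ φ.B x e = 0)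
    (z1 : φ.B p z = 0 ∧ φ.B u z = 0 ∧ φ.B x z = 0) (z2 : φ.B p z' = 0 ∧ φ.B u z' = 0 ∧ φ.B x z' = 0)
    (h3 : φ.B e z = 0) (h4 : φ.B e z' = 0) (h5 : φ.B z z' ≠ 0) : e ∈ KK ρ p u y hx := ⟨e1, fun c => by
  have h6 : φ.B e ((c / φ.B z z') • z) = 0 := by simp [h3]
  have := key h1 hp hy hx hpx hux (S φ e ((c / φ.B z z') • z)) (S_fix he h6 (by rw [Bc, e1.1]) (by simp [Bc z, z1]))
    (S_fix he h6 (by rw [Bc, e1.2.1]) (by simp [Bc z, z1])) one_ne_zero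
    (by rw [one_smul, S_fix he h6 (by rw [Bc, e1.2.2]) (by simp [Bc z, z1])]) z2.1 z2.2.1 z2.2.2
  simpa [S_ap0 he h6 h4, h5] using this⟩

theorem K2 {z f : V} (he : φ.Q e = 0) (e1 : e ∈ KK ρ p u y hx) (f1 : φ.B p f = 0 ∧ φ.B u f = 0 ∧ φ.B x f = 0)
    (z1 : φ.B p z = 0 ∧ φ.B u z = 0 ∧ φ.B x z = 0) (h3 : φ.B e z = 0) (h4 : φ.B e f = 1) : z ∈ KK ρ p u y hx := by
  have : (φ.B z f - φ.Q z) • e - z ∈ KK ρ p u y hx := ⟨by simp [e1.1, z1], fun c => by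
    have := key h1 hp hy hx hpx hux (S φ e z) (S_fix he h3 (by rw [Bc, e1.1.1]) (by simp [Bc z, z1]))
      (S_fix he h3 (by rw [Bc, e1.1.2.1]) (by simp [Bc z, z1])) one_ne_zero
      (by rw [one_smul, S_fix he h3 (by rw [Bc, e1.1.2.2]) (by simp [Bc z, z1])]) (w := c • f) (by simp [f1])
      (by simp [f1]) (by simp [f1])
    rw [S_ap he h3] at this
    convert this using 4
    simp only [map_smul, h4, smul_eq_mul]
    module⟩
  simpa using sub_mem (smul_mem _ (φ.B z f - φ.Q z) e1) this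

theorem cstar [Finite F] {W : Submodule F V} (hW : φ.NondegOn W) (h3 : 3 ≤ finrank F W)
    (h : ∀ w ∈ W, φ.B p w = 0 ∧ φ.B u w = 0 ∧ φ.B x w = 0) (w1 : φ.B p w = 0) (w2 : φ.B u w = 0)
    (w3 : φ.B x w = 0) : ρ (S φ x w) y = y := by
  obtain ⟨e, e1, e2, e3⟩ := hq.out.exists_singular h3
  obtain ⟨f, f1, hf⟩ := exists_hyp_mem hW e1 e2 e3
  obtain ⟨n1, n2, -⟩ := pp_spec hW hf e1 f1
  obtain ⟨z, z1, z0⟩ := (Submodule.ne_bot_iff (pp φ W e f)).1 fun h => by rw [h, finrank_bot] at n2; omega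
  obtain ⟨z', z2, h5⟩ : ∃ z' ∈ pp φ W e f, φ.B z z' ≠ 0 := by
    by_contra! hc
    exact z0 (n1 z z1 hc)
  rw [mem_pp] at z1 z2
  have k1 := K1 h1 hp hy hx hpx hux e3 (h e e1) (h z z1.1) (h _ z2.1) z1.2.1 z2.2.1 h5
  have k2 := K1 h1 hp hy hx hpx hux hf.Qf (h f f1) (h z z1.1) (h _ z2.1) z1.2.2 z2.2.2 h5
  have k3 := K2 h1 hp hy hx hpx hux e3 k1 (h f f1) (z := w - φ.B e w • f) (by simp [h f f1, *]) (by simp [hf.Bef])
    hf.Bef
  simpa using (add_mem k3 (smul_mem _ (φ.B e w) k2)).2 1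

theorem cstar' [Finite F] (hD : 5 ≤ finrank F V) {c : F} (c0 : c ≠ 0) (hc : c * c ≠ 1) (hx' : x ∉ span F {p, u})
    (w1 : φ.B p w = 0) (w2 : φ.B u w = 0) (w3 : φ.B x w = 0) : ρ (S φ x w) y = y := by
  obtain ⟨f, f1, hf⟩ := φ.exists_partner hx hx' (φ.mem_perp_pair.2 ⟨hpx, hux⟩)
  rw [mem_perp_pair] at f1
  have cc := mul_ne_zero c0 c0
  have b1 : φ.B x (w - φ.B f w • x) = 0 := by simp [w3, hf.Bee]
  have := key h1 hp hy hx hpx hux ⟨_, rot_mem hD hf c0⟩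
    (φ.rot_apply_of_orth hf cc (by rw [Bc, hpx]) (by rw [Bc, f1.1]))
    (φ.rot_apply_of_orth hf cc (by rw [Bc, hux]) (by rw [Bc, f1.2])) cc (φ.rot_apply_e hf cc)
    (w := (c * c - 1)⁻¹ • (w - φ.B f w • x)) (by simp [*]) (by simp [*]) (by simp [b1, -map_sub])
  rw [φ.rot_apply_of_orth hf cc (by simp [b1, -map_sub]) (by simp [hf.Bfe]),
    show ∀ v : V, (c * c) • (c * c - 1)⁻¹ • v - (c * c - 1)⁻¹ • v = v from fun v => by
      rw [smul_smul, ← sub_smul, ← sub_one_mul, mul_inv_cancel₀ (sub_ne_zero.2 hc), one_smul]] at this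
  rw [← sub_add_cancel w (φ.B f w • x), S_add hx b1 (by simp [hf.Bee]), S_pp hx, mul_one, this]

end C

open Classical in
variable (ρ ψ) in
/-- exactly one orbit of non-trivial weights, with multiplicity one -/
def One (a : F) : Prop := ∀ p u, φ.Q p = 0 → p ≠ 0 → φ.B p u = 0 → u ∉ F ∙ p →
  finrank ℂ (Vw ρ ψ p u) = if φ.Q u = a then 1 else 0

variable (ρ ψ) in
/-- the commutation property -/
def HC : Prop := ∀ p u x y w, φ.Q p = 0 → p ≠ 0 → φ.B p u = 0 → u ∉ F ∙ p → φ.Q x = 0 → φ.B p x = 0 → φ.B u x = 0 →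
  x ∉ span F {p, u} → y ∈ Vw ρ ψ p u → φ.B p w = 0 → φ.B u w = 0 → φ.B x w = 0 → ρ (S φ x w) y = y

omit [φ.Nondeg] [FiniteDimensional F V] [FiniteDimensional ℂ M] in
theorem One.le {a : F} (h : One ρ ψ a) (hp : φ.Q p = 0) (p0 : p ≠ 0) (hu : φ.B p u = 0) (hu' : u ∉ F ∙ p) :
    finrank ℂ (Vw ρ ψ p u) ≤ 1 := by rw [h p u hp p0 hu hu']; split_ifs <;> simp

end H28.Om
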