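import Cfsg.Agent.H28.Om3

/-!
# Multiplicities of weights (namespace `H28.Om`)
-/

set_option autoImplicit false
set_option linter.style.haveILetI false

open Module Finset H10 H10.Form Submodule L.Wt

namespace H28.Om

variable {F V : Type*} [Field F] [AddCommGroup V] [Module F V] {φ : Form F V} [hq : Fact φ.IsQuad]
  {M : Type*} [AddCommGroup M] [Module ℂ M] {ρ : φ.E →* End ℂ M} {ψ : AddChar F ℂ}
  {p u x w e f : V} {U : Submodule F V} {y : M} {a : F}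

open Classical in
/-- indicator of zero -/
noncomputable def io (a : F) : ℕ := if 0 = a then 1 else 0

omit hq in
open Classical in
theorem cn_sum [Fintype U] (a : F) : cn φ U a = io a + ∑ u ∈ univ.erase (0 : U), if φ.Q u = a then 1 else 0 := by
  rw [← cn_eq, cnt, Nat.card_eq_fintype_card, Fintype.card_subtype, card_filter, ← add_sum_erase _ _ (mem_univ 0), io]
  simp only [restrict_Q, ZeroMemClass.coe_zero, Q_zero]
  congr

variable [φ.Nondeg] [FiniteDimensional F V] [Fintype F]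

omit [φ.Nondeg] in
theorem ex_hyp (hU : φ.NondegOn U) (h3 : 3 ≤ finrank F U) : ∃ e ∈ U, ∃ f ∈ U, φ.IsHyp e f := by
  obtain ⟨e, e1, e2, e3⟩ := hq.out.exists_singular h3
  exact ⟨e, e1, exists_hyp_mem hU e1 e2 e3⟩

omit [φ.Nondeg] in
theorem cn_ge (hU : φ.NondegOn U) {r : ℕ} (h : finrank F U = r + 5) (a : F) :
    io a + (Fintype.card F - 1) * (Fintype.card F + 1) * Fintype.card F ^ (r + 2) ≤ cn φ U a := by
  haveI : Finite V := Module.finite_of_finite F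
  obtain ⟨e, e1, f, f1, hf⟩ := ex_hyp hU (by omega)
  obtain ⟨n1, n2, n3⟩ := pp_spec hU hf e1 f1
  obtain ⟨e', e1', f', f1', hf'⟩ := ex_hyp n1 (by omega)
  obtain ⟨-, n5, n6⟩ := pp_spec n1 hf' e1' f1'
  have h1 : io a ≤ cn φ (pp φ (pp φ U e f) e' f') a := by
    haveI := Fintype.ofFinite (pp φ (pp φ U e f) e' f')
    rw [cn_sum]; omega
  rw [n3, n6, Nat.card_eq_fintype_card, show finrank F (pp φ U e f) = r + 3 by omega,
    show finrank F (pp φ (pp φ U e f) e' f') = r + 1 by omega]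
  obtain ⟨t, ht⟩ : ∃ t, Fintype.card F = t + 1 := ⟨_, (Nat.succ_pred_eq_of_pos Fintype.card_pos).symm⟩
  rw [ht, Nat.add_sub_cancel]
  generalize cn φ (pp φ (pp φ U e f) e' f') a = c at h1
  have : (t + 1) * ((t + 1) * c + t * (t + 1) ^ (r + 1)) + t * (t + 1) ^ (r + 3) =
    c + t * (t + 1 + 1) * (t + 1) ^ (r + 2) + (t * t + 2 * t) * c := by ring
  omega

variable [FiniteDimensional ℂ M]

theorem m0_eq (hD : 5 ≤ finrank F V) {p' : V} (hp : φ.Q p = 0) (p0 : p ≠ 0) (hp' : φ.Q p' = 0) (p0' : p' ≠ 0) :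
    finrank ℂ (Vw ρ ψ p 0) = finrank ℂ (Vw ρ ψ p' 0) := by
  obtain ⟨g, hg, rfl⟩ := (hq.out.big (by omega)).exists_E_map_sing hp p0 hp' p0'
  have := Vw_rk (ρ := ρ) (ψ := ψ) (u := 0) ⟨g, hg⟩ hp
  rw [map_zero] at this
  exact this.symm

theorem exists_m (hD : 6 ≤ finrank F V) : ∃ m : F → ℕ, ∀ p u, φ.Q p = 0 → p ≠ 0 → φ.B p u = 0 → u ∉ F ∙ p →
    finrank ℂ (Vw ρ ψ p u) = m (φ.Q u) := by
  classical
  refine ⟨fun a => if h : ∃ z : V × V, (φ.Q z.1 = 0 ∧ z.1 ≠ 0 ∧ φ.B z.1 z.2 = 0 ∧ z.2 ∉ F ∙ z.1) ∧ φ.Q z.2 = a then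
    finrank ℂ (Vw ρ ψ h.choose.1 h.choose.2) else 0, fun p u h1 h2 h3 h4 => ?_⟩
  have h : ∃ z : V × V, (φ.Q z.1 = 0 ∧ z.1 ≠ 0 ∧ φ.B z.1 z.2 = 0 ∧ z.2 ∉ F ∙ z.1) ∧ φ.Q z.2 = φ.Q u :=
    ⟨(p, u), ⟨h1, h2, h3, h4⟩, rfl⟩
  simp only [dif_pos h]
  obtain ⟨⟨k1, k2, k3, k4⟩, k5⟩ := h.choose_spec
  obtain ⟨g, e1, e2⟩ := witt_E hD h1 k1 h3 k3 k5.symm h2 k2 h4 k4
  rw [← e1, ← e2, Vw_rk g h1]

theorem One.sq (hD : 5 ≤ finrank F V) (h : One ρ ψ a) (a0 : a ≠ 0) {c : F} (hc : c ≠ 0) : c * c = 1 := by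
  obtain ⟨p, f, hf⟩ := hq.out.exists_hyp_of_three_le (by omega)
  obtain ⟨n1, n2, -⟩ := pp_spec φ.nondegOn_top hf mem_top mem_top
  rw [finrank_top] at n2
  obtain ⟨u, u1, u2⟩ := hq.out.exists_Q_eq n1 (by omega) a
  have u0 : u ∉ F ∙ p := nm_pp hf u1 (by rintro rfl; simp [a0.symm] at u2)
  have h1 := h _ _ (φ.Q_smul_of_sing hf.Qe c) (smul_ne_zero hc hf.e_ne_zero) (by simp [(mem_pp.1 u1).2.1])
    (show c • u ∉ _ by rwa [span_singleton_smul_eq hc.isUnit, smul_mem_iff _ hc])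
  rw [Vw_smul hf.Qe hc, h _ _ hf.Qe hf.e_ne_zero (mem_pp.1 u1).2.1 u0, if_pos u2, Qs, u2] at h1
  by_contra h2
  simp [h2, a0] at h1

variable (hψ : ψ ≠ 1)
include hψ

theorem dec_sum [Fintype U] (hU : φ.NondegOn U) (hx : φ.Q x = 0) (hA : ∀ w ∈ U, φ.B x w = 0) {W : Submodule ℂ M}
    (hW : ∀ w ∈ U, ∀ y ∈ W, ρ (S φ x w) y ∈ W) : finrank ℂ W = ∑ u : U, finrank ℂ ↥(W ⊓ Wt ρ ψ x U u) := by
  haveI := hU.nondeg
  let e : U ≃ Dual F U := Equiv.ofBijective (φ.restrict U).B ⟨B_injective _, exists_B_eq _⟩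
  haveI := Fintype.ofEquiv _ e
  rw [L.SR.finrank_eq_sum_dual hψ Wl.qne (fun w : U => ρ (S φ x w)) (by simp [S_zero]) (fun a b => by
    rw [Submodule.coe_add, S_add hx (hA _ a.2) (hA _ b.2), map_mul]) W fun w => hW w w.2]
  exact (Equiv.sum_comp e _).symm

open Classical in
theorem wl1 (hU : φ.NondegOn U) (hx : φ.Q x = 0) (hA : ∀ w ∈ U, φ.B x w = 0) {W : Submodule ℂ M}
    (hW : ∀ w ∈ U, ∀ y ∈ W, ρ (S φ x w) y ∈ W)
    (hc : ∀ u ∈ U, u ≠ 0 → finrank ℂ ↥(W ⊓ Wt ρ ψ x U u) = if φ.Q u = a then 1 else 0) :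
    finrank ℂ W + io a = finrank ℂ ↥(W ⊓ Wt ρ ψ x U 0) + cn φ U a := by
  haveI : Finite V := Module.finite_of_finite F
  haveI := Fintype.ofFinite U
  rw [dec_sum hψ hU hx hA hW, cn_sum, ← add_sum_erase _ _ (mem_univ 0),
    sum_congr rfl fun (u : U) hu => hc u u.2 (by simpa using hu)]
  simp only [ZeroMemClass.coe_zero]; ring

open Classical in
theorem wl2 (hU : φ.NondegOn U) (hx : φ.Q x = 0) (hA : ∀ w ∈ U, φ.B x w = 0) {W : Submodule ℂ M}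
    (hW : ∀ w ∈ U, ∀ y ∈ W, ρ (S φ x w) y ∈ W)
    (hc : ∀ u ∈ U, u ≠ 0 → finrank ℂ ↥(W ⊓ Wt ρ ψ x U u) = if φ.Q u = a then 1 else 0)
    (he : e ∈ U) (e0 : e ≠ 0) (hQ : φ.Q e = 0) {r : ℕ} (hr : finrank F U = r + 2) :
    finrank ℂ ↥(W ⊓ Wl.eig (fun c => ρ (S φ x (c • e))) ψ 1) = Fintype.card F ^ r := by
  haveI : Finite V := Module.finite_of_finite F
  haveI := Fintype.ofFinite U
  obtain ⟨f, f1, hf⟩ := exists_hyp_mem hU he e0 hQ
  have h1 := card_B_one hf he f1 a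
  rw [Module.natCard_eq_pow_finrank (K := F) (V := pp φ U e f), show finrank F (pp φ U e f) = r by
    have := (pp_spec hU hf he f1).2.1; omega, Nat.card_eq_fintype_card (α := F),
    ← Nat.card_congr (Equiv.subtypeSubtypeEquivSubtypeInter (· ∈ U) _), Nat.card_eq_fintype_card,
    Fintype.card_subtype, card_filter] at h1
  rw [dec_sum (W := W ⊓ Wl.eig (fun c => ρ (S φ x (c • e))) ψ 1) hψ hU hx hA (fun w hw y hy => ⟨hW w hw y hy.1, fun c => by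
    rw [← rmul, S_comm hx (by simp [hA e he]) (hA w hw), rmul, hy.2 c, map_smul]⟩), ← h1]
  refine sum_congr rfl fun u _ => ?_
  by_cases h : φ.B u e = 1
  · rw [inf_right_comm, inf_eq_left.2 fun y hy c => by
      rw [mem_Wt.1 hy.2 _ (U.smul_mem c he)]; simp [h], hc u u.2 (by rintro h0; simp [h0] at h)]
    simp [h]
  · rw [if_neg fun h' => h h'.2, finrank_eq_zero, eq_bot_iff]
    intro y hy
    by_contra y0
    exact h (L.Wt.eq_of_mulShift hψ fun c => smul_left_injective ℂ y0 (by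
      simpa using (mem_Wt.1 hy.2 _ (U.smul_mem c he)).symm.trans (hy.1.2 c)))

theorem split {r : ℕ} (hD : finrank F V = r + 7) (hk : ρ.ker ≠ ⊤) :
    2 * ((Fintype.card F - 1) * (Fintype.card F + 1) * Fintype.card F ^ (r + 2)) ≤ finrank ℂ M ∨ ∃ a, One ρ ψ a := by
  classical
  haveI : Finite V := Module.finite_of_finite F
  obtain ⟨m, hm⟩ := exists_m (ρ := ρ) (ψ := ψ) (by omega)
  have key : ∀ p f, φ.IsHyp p f → ∃ c : F → ℕ, (∀ a, (Fintype.card F - 1) * (Fintype.card F + 1) *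
      Fintype.card F ^ (r + 2) ≤ c a) ∧ finrank ℂ M = finrank ℂ (Vw ρ ψ p 0) + ∑ a, m a * c a := fun p f hf => by
    obtain ⟨n1, n2, -⟩ := pp_spec φ.nondegOn_top hf mem_top mem_top
    rw [finrank_top] at n2
    haveI := Fintype.ofFinite (pp φ ⊤ p f)
    refine ⟨fun a => ∑ u ∈ univ.erase (0 : pp φ ⊤ p f), if φ.Q u = a then 1 else 0, fun a => ?_, ?_⟩
    · have := cn_ge n1 (show _ = r + 5 by omega) a
      rw [cn_sum] at this
      exact Nat.le_of_add_le_add_left this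
    rw [← finrank_top ℂ M, dec_sum (ρ := ρ) hψ n1 hf.Qe (fun _ h => (mem_pp.1 h).2.1) fun _ _ _ _ => mem_top,
      ← add_sum_erase _ _ (mem_univ 0), top_inf_eq, Wt_eq hf (by simp), ZeroMemClass.coe_zero]
    simp only [mul_sum]
    rw [sum_comm]
    refine congrArg _ (sum_congr rfl fun u hu => ?_)
    rw [top_inf_eq, Wt_eq hf (by rw [Bc, (mem_pp.1 u.2).2.1]), hm _ _ hf.Qe hf.e_ne_zero (mem_pp.1 u.2).2.1
      (nm_pp hf u.2 (by simpa using hu))]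
    simp
  rcases (by omega : ∑ a, m a = 0 ∨ ∑ a, m a = 1 ∨ 2 ≤ ∑ a, m a) with h | h | h
  · refine absurd (E_le_ker ρ fun p w hp hw => ?_) hk
    by_cases p0 : p = 0
    · rw [p0, ← zero_smul F (0 : V), S_smul (by simp) (by simp), zero_smul, S_zero, map_one]
    obtain ⟨f, hf⟩ := φ.exists_hyp hp p0
    obtain ⟨c, -, hc⟩ := key p f hf
    simp only [sum_eq_zero_iff.1 h _ (mem_univ _), zero_mul, sum_const_zero, add_zero] at hc
    exact LinearMap.ext fun y => mem_Vw0.1 (eq_top_of_finrank_eq hc.symm ▸ mem_top) w hw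
  · obtain ⟨a, -, ha⟩ := exists_ne_zero_of_sum_ne_zero (h ▸ one_ne_zero : ∑ a, m a ≠ 0)
    rw [← add_sum_erase _ _ (mem_univ a)] at h
    refine .inr ⟨a, fun p u h1 h2 h3 h4 => ?_⟩
    rw [hm p u h1 h2 h3 h4]
    split_ifs with h5
    · rw [h5]; omega
    · exact sum_eq_zero_iff.1 (by omega : ∑ x ∈ univ.erase a, m x = 0) _ (by simpa using h5)
  · obtain ⟨p, f, hf⟩ := hq.out.exists_hyp_of_three_le (by omega)
    obtain ⟨c, h1, hc⟩ := key p f hf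
    refine .inl (hc ▸ le_add_left ((Nat.mul_le_mul_right _ h).trans ?_))
    rw [sum_mul]
    exact sum_le_sum fun a _ => Nat.mul_le_mul_left _ (h1 a)

theorem One.dim (h : One ρ ψ a) (hf : φ.IsHyp p f) :
    finrank ℂ M + io a = finrank ℂ (Vw ρ ψ p 0) + cn φ (pp φ ⊤ p f) a := by
  have := wl1 (ρ := ρ) (a := a) hψ (pp_spec φ.nondegOn_top hf mem_top mem_top).1 hf.Qe (fun _ h => (mem_pp.1 h).2.1)
    (W := ⊤) (fun _ _ _ _ => mem_top) fun u hu u0 => by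
      rw [top_inf_eq, Wt_eq hf (by rw [Bc, (mem_pp.1 hu).2.1]),
        h _ _ hf.Qe hf.e_ne_zero (mem_pp.1 hu).2.1 (nm_pp hf hu u0)]
  rwa [finrank_top, top_inf_eq, Wt_eq hf (by simp)] at this

theorem One.dimH (h : One ρ ψ a) (hf : φ.IsHyp p f) (he : e ∈ pp φ ⊤ p f) (e0 : e ≠ 0) (hQ : φ.Q e = 0) {r : ℕ}
    (hr : finrank F V = r + 4) : finrank ℂ (Wl.eig (fun c => ρ (S φ p (c • e))) ψ 1) = Fintype.card F ^ r := by
  obtain ⟨n1, n2, -⟩ := pp_spec φ.nondegOn_top hf mem_top mem_top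
  rw [finrank_top] at n2
  have := wl2 (ρ := ρ) (a := a) hψ n1 hf.Qe (fun _ h => (mem_pp.1 h).2.1)
    (W := ⊤) (fun _ _ _ _ => mem_top) (fun u hu u0 => by
      rw [top_inf_eq, Wt_eq hf (by rw [Bc, (mem_pp.1 hu).2.1]),
        h _ _ hf.Qe hf.e_ne_zero (mem_pp.1 hu).2.1 (nm_pp hf hu u0)]) he e0 hQ (r := r) (by omega)
  rwa [top_inf_eq] at this

omit hq [φ.Nondeg] [Fintype F] [FiniteDimensional ℂ M] hψ in
theorem fr3 (p0 : p ≠ 0) (hu : u ∉ F ∙ p) (hx : x ∉ span F {p, u}) : finrank F (span F {x, p, u}) = 3 := by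
  rw [span_insert, sup_comm, finrank_sup_singleton hx, finrank_span_pair_of_li (li_pair p0 hu)]

theorem hc_eight (h : One ρ ψ 0) (hD : finrank F V = 8) (hT : ¬ φ.HasTS 4) : HC ρ ψ := by
  intro p u x y w hp p0 hu hu' hx hpx hux hx' hy w1 w2 w3
  classical
  haveI : Finite V := Module.finite_of_finite F
  by_cases y0 : y = 0
  · simp [y0]
  have h1 := h.le hp p0 hu hu'
  have hQ : φ.Q u = 0 := by_contra fun h2 => by
    have := one_le_finrank hy y0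
    rw [h p u hp p0 hu hu', if_neg h2] at this; omega
  have hX : φ.TS (span F {x, p, u}) := by
    rw [span_insert, span_insert]
    exact (TS.singleton hx).sup ((TS.singleton hp).sup (TS.singleton hQ) (by simpa [mem_perp_singleton]))
      (by simp [mem_perp_singleton, Bc x, *])
  have hY : ∀ w, w ∈ φ.perp (span F {x, p, u}) ↔ φ.B p w = 0 ∧ φ.B u w = 0 ∧ φ.B x w = 0 := fun w => by
    simp [mem_perp_span]; tauto
  have x0 : x ≠ 0 := by rintro rfl; simp at hx'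
  obtain ⟨W, n1, n2, n3⟩ := ex_nondeg' (φ := φ) (span F {x, p, u}) (k := 2) (by rw [fr3 p0 hu' hx']; omega)
  obtain ⟨z, z1, z0⟩ := (Submodule.ne_bot_iff W).1 fun h => by rw [h, finrank_bot] at n3; omega
  obtain ⟨z', z2, h5⟩ : ∃ z' ∈ W, φ.B z z' ≠ 0 := by
    by_contra! hc
    exact z0 (n1 z z1 hc)
  have k1 := K1 h1 hp hy hx hpx hux hQ ⟨hu, φ.B_self_eq_zero hQ, by rw [Bc, hux]⟩ ((hY _).1 (n2 z1))
    ((hY _).1 (n2 z2)) ((hY _).1 (n2 z1)).2.1 ((hY _).1 (n2 z2)).2.1 h5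
  choose lam l0 hl using fun w : φ.perp (span F {x, p, u}) => sc h1 hp hy y0 (S φ x w)
    (S_fix hx ((hY _).1 w.2).2.2 (φ.B_symm_zero hpx) (φ.B_symm_zero ((hY _).1 w.2).1))
    (S_fix hx ((hY _).1 w.2).2.2 (φ.B_symm_zero hux) (φ.B_symm_zero ((hY _).1 w.2).2.1))
  obtain ⟨f, hf⟩ := φ.exists_hyp hx x0
  haveI := Fintype.ofFinite (pp φ ⊤ x f)
  have h2 := dec_sum (ρ := ρ) hψ (pp_spec φ.nondegOn_top hf mem_top mem_top).1 hx (fun _ h => (mem_pp.1 h).2.1)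
    (W := wt (fun w : φ.perp (span F {x, p, u}) => ρ (S φ x w)) lam) fun w hw y hy a => by
      rw [← rmul, S_comm hx ((hY _).1 a.2).2.2 (mem_pp.1 hw).2.1, rmul, hy a, map_smul]
  obtain ⟨v, -, hv⟩ := exists_ne_zero_of_sum_ne_zero (h2 ▸ (Nat.one_le_iff_ne_zero.1 (one_le_finrank (W := wt _ lam) hl y0)))
  obtain ⟨y', h3, h4⟩ := (Submodule.ne_bot_iff _).1 (finrank_eq_zero.ne.1 hv)
  rw [Wt_eq hf (by rw [Bc, (mem_pp.1 v.2).2.1])] at h3
  have h6 : ∀ w, w ∈ φ.perp (span F {x, p, u}) → ρ (S φ x w) y = ψ (φ.B v w) • y := fun w hw => by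
    rw [hl ⟨w, hw⟩, smul_left_injective ℂ h4 ((h3.1 ⟨w, hw⟩).symm.trans (mem_Vw.1 h3.2 w ((hY _).1 hw).2.2))]
  have h7 : ∀ z ∈ φ.perp (span F {x, p, u}), (∀ c : F, ρ (S φ x (c • z)) y = y) → φ.B z v = 0 := fun z hz k =>
    L.Wt.eq_of_mulShift hψ fun c => smul_left_injective ℂ y0 (by
      simpa [Bc z] using (h6 _ (smul_mem _ c hz)).symm.trans (k c))
  have h8 : φ.Q v = 0 := by
    by_cases v0 : (v : V) = 0
    · simp [v0]
    by_contra h8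
    have := one_le_finrank h3.2 h4
    rw [h _ _ hx x0 (mem_pp.1 v.2).2.1 (nm_pp hf v.2 v0), if_neg h8] at this; omega
  have h9 : (v : V) ∈ φ.perp (span F {x, p, u}) := (hY _).2 ⟨h7 p (hX.le_perp (subset_span (by simp))) fun c => by
    rw [S_swap hp hx hpx, mem_Vw.1 hy _ (by simp [hpx])]; simp [hux],
    h7 u (hX.le_perp (subset_span (by simp))) k1.2, (mem_pp.1 v.2).2.1⟩
  have h10 : (v : V) ∈ span F {x, p, u} := by_contra fun h10 => hT ⟨_, hX.sup (TS.singleton h8) (by simpa using h9),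
    by rw [finrank_sup_singleton h10, fr3 p0 hu' hx']⟩
  rw [h6 w ((hY _).2 ⟨w1, w2, w3⟩), ((hY _).2 ⟨w1, w2, w3⟩) _ h10]; simp

omit hψ in
theorem hc_nine (h : One ρ ψ a) (hD : 9 ≤ finrank F V) : HC ρ ψ := by
  intro p u x y w hp p0 hu hu' hx hpx hux hx' hy w1 w2 w3
  obtain ⟨W, n1, n2, n3⟩ := ex_nondeg' (φ := φ) (span F {x, p, u}) (k := 3) (by rw [fr3 p0 hu' hx']; omega)
  exact cstar (h.le hp p0 hu hu') hp hy hx hpx hux n1 n3 (fun w hw => by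
    have := n2 hw; simp [mem_perp_span] at this; tauto) w1 w2 w3

omit hψ in
theorem hc_big (h : One ρ ψ a) (hD : 5 ≤ finrank F V) {c : F} (c0 : c ≠ 0) (hc : c * c ≠ 1) : HC ρ ψ :=
  fun _ _ _ _ _ hp p0 hu hu' hx hpx hux hx' hy w1 w2 w3 =>
    cstar' (h.le hp p0 hu hu') hp hy hx hpx hux hD c0 hc hx' w1 w2 w3

end H28.Om
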