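import Cfsg.Agent.H28.Om4

/-!
# Frames of two hyperbolic pairs and the fixed space of a radical (namespace `H28.Om`)
-/

set_option autoImplicit false
set_option linter.style.haveILetI false

open Module Finset H10 H10.Form Submodule L.Wt

namespace H28.Om

variable {F V : Type*} [Field F] [AddCommGroup V] [Module F V] {φ : Form F V} [hq : Fact φ.IsQuad]
  {M : Type*} [AddCommGroup M] [Module ℂ M] {ρ : φ.E →* End ℂ M} {ψ : AddChar F ℂ}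
  {p f p₁ f₁ u x w e : V} {y : M} {a : F}

variable (φ) in
/-- two orthogonal hyperbolic pairs -/
structure Fr (p f p₁ f₁ : V) : Prop where
  h : φ.IsHyp p f
  h₁ : φ.IsHyp p₁ f₁
  m₁ : p₁ ∈ pp φ ⊤ p f
  m₂ : f₁ ∈ pp φ ⊤ p f

local notation "U₁" => pp φ (pp φ ⊤ p f) p₁ f₁
set_option quotPrecheck false in
local notation "LL" => φ.perp (span F {p, p₁})

omit hq in
theorem mem_U : w ∈ U₁ ↔ φ.B p w = 0 ∧ φ.B f w = 0 ∧ φ.B p₁ w = 0 ∧ φ.B f₁ w = 0 := by simp [mem_pp, and_assoc]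

theorem Fr.tab (h : Fr φ p f p₁ f₁) : (φ.Q p = 0 ∧ φ.Q f = 0 ∧ φ.Q p₁ = 0 ∧ φ.Q f₁ = 0) ∧
    (φ.B p p = 0 ∧ φ.B p f = 1 ∧ φ.B p p₁ = 0 ∧ φ.B p f₁ = 0) ∧
    (φ.B f p = 1 ∧ φ.B f f = 0 ∧ φ.B f p₁ = 0 ∧ φ.B f f₁ = 0) ∧
    (φ.B p₁ p = 0 ∧ φ.B p₁ f = 0 ∧ φ.B p₁ p₁ = 0 ∧ φ.B p₁ f₁ = 1) ∧
    (φ.B f₁ p = 0 ∧ φ.B f₁ f = 0 ∧ φ.B f₁ p₁ = 1 ∧ φ.B f₁ f₁ = 0) := by
  have a := mem_pp.1 h.m₁
  have b := mem_pp.1 h.m₂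
  simp [h.h.Qe, h.h.Qf, h.h₁.Qe, h.h₁.Qf, h.h.Bee, h.h.Bff, h.h₁.Bee, h.h₁.Bff, h.h.Bef, h.h₁.Bef, h.h.Bfe, h.h₁.Bfe,
    Bc p₁ p, Bc p₁ f, Bc f₁ p, Bc f₁ f, a.2, b.2]

variable [φ.Nondeg] [FiniteDimensional F V]

theorem Fr.spec (h : Fr φ p f p₁ f₁) : φ.NondegOn U₁ ∧ finrank F U₁ + 4 = finrank F V := by
  obtain ⟨n1, n2, -⟩ := pp_spec φ.nondegOn_top h.h mem_top mem_top
  obtain ⟨n3, n4, -⟩ := pp_spec n1 h.h₁ h.m₁ h.m₂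
  rw [finrank_top] at n2
  exact ⟨n3, by omega⟩

omit [φ.Nondeg] [FiniteDimensional F V] in
theorem Fr.dec (h : Fr φ p f p₁ f₁) (hw : w ∈ LL) : w - φ.B f₁ w • p₁ - φ.B f w • p ∈ U₁ := by
  rw [mem_perp_pair] at hw
  simp [mem_U, h.tab, hw]

theorem Fr.wt_L (h : Fr φ p f p₁ f₁) (hu : u ∈ U₁) (h0 : y ∈ Vw ρ ψ p 0) (hy : y ∈ Wt ρ ψ p₁ U₁ u) :
    y ∈ Wt ρ ψ p₁ LL u := mem_Wt.2 fun w hw => by
  have t := h.tab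
  rw [mem_U] at hu
  have := Wt_ext t.1.2.2.1 (fun _ hw => (mem_U.1 hw).2.2.1) t.2.2.2.1.1 hy (c := φ.B f w) (by
    rw [S_swap t.1.1 t.1.2.2.1 t.2.1.2.2.1, mem_Vw0.1 h0 _ (by simp [t])]; simp [Bc u, hu]) (h.dec hw)
  rw [mem_perp_pair] at hw
  rw [← sub_add_cancel w (φ.B f₁ w • p₁), S_add t.1.2.2.1 (by simp [t, hw]) (by simp [t]), S_pp t.1.2.2.1, mul_one, this]
  simp [Bc u p₁, hu]

theorem Fr.eig_le (h : Fr φ p f p₁ f₁) (hu : φ.B u f = 0) (hy : y ∈ Wt ρ ψ p₁ LL u) {b : F}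
    (hb : y ∈ Wl.eig (fun c => ρ (S φ p₁ (c • f))) ψ b) : y ∈ Vw ρ ψ p₁ (u + b • p) := mem_Vw.2 fun w hw => by
  have t := h.tab
  refine Wt_ext (A := LL) (e := f) (c := φ.B p w) t.1.2.2.1 (fun _ hw => (φ.mem_perp_pair.1 hw).2) t.2.2.2.1.2.1
    (mem_Wt.2 fun w hw => ?_) (by rw [Wl.mem_eig.1 hb]; simp [hu, t]) (φ.mem_perp_pair.2 (by simp [t, hw]))
  rw [mem_Wt.1 hy w hw]; simp [(φ.mem_perp_pair.1 hw).1]

omit hq [φ.Nondeg] [FiniteDimensional F V] in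
theorem Fr.swap (h : Fr φ p f p₁ f₁) : Fr φ p₁ f₁ p f :=
  ⟨h.h₁, h.h, mem_pp.2 ⟨mem_top, φ.B_symm_zero (mem_pp.1 h.m₁).2.1, φ.B_symm_zero (mem_pp.1 h.m₂).2.1⟩,
    mem_pp.2 ⟨mem_top, φ.B_symm_zero (mem_pp.1 h.m₁).2.2, φ.B_symm_zero (mem_pp.1 h.m₂).2.2⟩⟩

theorem fam (hx : φ.Q x = 0) (he : φ.B x e = 0) (a b : F) :
    ρ (S φ x ((a + b) • e)) = ρ (S φ x (a • e)) * ρ (S φ x (b • e)) := by
  rw [add_smul, S_add hx (by simp [he]) (by simp [he]), map_mul]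

theorem fam0 : ρ (S φ x ((0 : F) • e)) = 1 := by simp [S_zero]

theorem Wt_inv {A : Submodule F V} (hx : φ.Q x = 0) (hA : ∀ w ∈ A, φ.B x w = 0) (hw : φ.B x w = 0)
    (hy : y ∈ Wt ρ ψ x A u) : ρ (S φ x w) y ∈ Wt ρ ψ x A u := mem_Wt.2 fun z hz => by
  rw [← rmul, S_comm hx (hA z hz) hw, rmul, mem_Wt.1 hy z hz, map_smul]

variable [FiniteDimensional ℂ M] [Fintype F] (hψ : ψ ≠ 1) (ho : One ρ ψ a) (hD : 7 ≤ finrank F V)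
include hψ ho hD

theorem Fr.le_sup (h : Fr φ p f p₁ f₁) : Wt ρ ψ p LL 0 ≤ Vw ρ ψ p 0 ⊔ Wt ρ ψ p₁ LL 0 := by
  have t := h.tab
  refine Wl.dec hψ (f := fun c => ρ (S φ p (c • f₁))) fam0 (fam t.1.1 t.2.1.2.2.2) (fun c y hy =>
    Wt_inv t.1.1 (fun _ hw => (φ.mem_perp_pair.1 hw).1) (by simp [t]) hy) fun b y hy hb => ?_
  have h1 := h.swap.eig_le (u := 0) (by simp) (by rwa [Set.pair_comm]) hb
  rw [zero_add] at h1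
  by_cases b0 : b = 0
  · exact mem_sup_left (by simpa [b0] using h1)
  refine mem_sup_right (mem_Wt0.2 fun w hw => ?_)
  rw [mem_perp_pair] at hw
  exact cstar (ho.le t.1.1 h.h.e_ne_zero (by simp [t]) (nm_pp h.h (smul_mem _ b h.m₁) (smul_ne_zero b0 h.h₁.e_ne_zero)))
    t.1.1 h1 t.1.2.2.1 t.2.1.2.2.1 (by simp [t]) h.spec.1 (by have := h.spec.2; omega)
    (fun w hw => by simp [mem_U.1 hw]) hw.1 (by simp [hw]) hw.2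

open Classical in
theorem Fr.mult (hC : HC ρ ψ) (h : Fr φ p f p₁ f₁) (hu : u ∈ U₁) (u0 : u ≠ 0) :
    finrank ℂ ↥(Vw ρ ψ p 0 ⊓ Wt ρ ψ p₁ U₁ u) = if φ.Q u = a then 1 else 0 := by
  have t := h.tab
  obtain ⟨z, z1, z2⟩ : ∃ z ∈ U₁, φ.B u z = -1 := by
    obtain ⟨z, z1, z2⟩ : ∃ z ∈ U₁, φ.B u z ≠ 0 := by
      by_contra! hc
      exact u0 (h.spec.1 u hu hc)
    exact ⟨-(φ.B u z)⁻¹ • z, smul_mem _ _ z1, by simp [z2]⟩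
  have hu' := mem_U.1 hu
  have z3 := mem_U.1 z1
  have hL : ∀ w ∈ LL, φ.B p₁ w = 0 := fun _ hw => (φ.mem_perp_pair.1 hw).2
  have n1 : ∀ b : F, u + b • p ∉ F ∙ p₁ := fun b e => by
    obtain ⟨c, e⟩ := mem_span_singleton.1 e
    simpa [Bc z, z3, z2] using congrArg (φ.B z) e
  have i1 : ∀ c : F, ∀ y ∈ Wt ρ ψ p₁ LL u, ρ (S φ p (c • z)) y ∈ Wt ρ ψ p₁ LL u := fun c y hy => by
    have k : φ.B p (c • z) = 0 := by simp [z3]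
    have k1 := S_fix t.1.1 k (x := p₁) (by simp [t]) (by simp [Bc z, z3])
    refine Wt_map _ t.1.2.2.1 hL k1 (fun w hw => ?_) hy
    rw [mem_perp_pair] at hw ⊢
    rw [B_inv _ (S_self t.1.1 k), B_inv _ k1, B_inv _ (S_ap0 t.1.1 k hu'.1)]
    simp [hw]
  have i2 : ∀ c : F, ∀ y ∈ Wt ρ ψ p₁ LL u, ρ (S φ p₁ (c • f)) y ∈ Wt ρ ψ p₁ LL u := fun c y hy =>
    Wt_inv t.1.2.2.1 hL (by simp [t]) hy
  have e1 := heis_eq hψ (g := fun c => ρ (S φ p (c • z))) (h := fun c => ρ (S φ p₁ (c • f))) fam0 (fam t.1.1 z3.1)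
    fam0 (fam t.1.2.2.1 t.2.2.2.1.2.1) i1 i2 fun c s y hy => by
      have k : φ.B p (s • z) = 0 := by simp [z3]
      rw [← rmul, S_conj _ t.1.2.2.1 (by simp [t]), S_fix t.1.1 k (by simp [t]) (by simp [Bc z, z3]),
        show (S φ p (s • z)).1.1 (c • f) = c • f + -(c • (s • z + φ.Q (s • z) • p)) by
          rw [S_ap t.1.1 k]; simp only [map_smulₛₗ, t, sig, LinearMap.smul_apply, Bc z, z3, RingHom.id_apply, smul_eq_mul]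
          module,
        S_add t.1.2.2.1 (by simp [t]) (by simp [t, z3]), rmul, rmul,
        mem_Wt.1 (i1 s y hy) _ (φ.mem_perp_pair.2 (by simp [t, z3])), map_smul]
      simp [z2, Bc u p, hu', mul_comm]
  have e2 : Wt ρ ψ p₁ LL u ⊓ Wl.eig (fun c => ρ (S φ p₁ (c • f))) ψ 0 = Vw ρ ψ p₁ u :=
    le_antisymm (fun y hy => by simpa using h.eig_le (by rw [Bc, hu'.2.1]) hy.1 hy.2) fun y hy =>
      ⟨mem_Wt.2 fun w hw => mem_Vw.1 hy w (hL w hw), fun c => by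
        rw [mem_Vw.1 hy _ (by simp [t])]; simp [Bc u, hu']⟩
  rw [e2, ho _ _ t.1.2.2.1 h.h₁.e_ne_zero hu'.2.2.1 (by simpa using n1 0)] at e1
  rw [← e1]
  refine congrArg (fun W : Submodule ℂ M => finrank ℂ W) (le_antisymm (fun y hy => ⟨h.wt_L hu hy.1 hy.2, fun c => by
    rw [mem_Vw0.1 hy.1 _ (by simp [z3])]; simp⟩) fun y hy => ⟨?_, mem_Wt.2 fun w hw =>
      mem_Wt.1 hy.1 w (φ.mem_perp_pair.2 ⟨(mem_U.1 hw).1, (mem_U.1 hw).2.2.1⟩)⟩)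
  have s1 : Wt ρ ψ p₁ LL u ≤ Wt ρ ψ p (φ.perp (span F {p₁, u, p})) 0 :=
    Wl.dec hψ (f := fun c => ρ (S φ p₁ (c • f))) fam0 (fam t.1.2.2.1 t.2.2.2.1.2.1) i2 fun b y hy hb =>
      mem_Wt0.2 fun w hw => by
        simp only [mem_perp_span, Set.mem_insert_iff, Set.mem_singleton_iff, forall_eq_or_imp, forall_eq] at hw
        refine hC p₁ (u + b • p) p y w t.1.2.2.1 h.h₁.e_ne_zero (by simp [t, hu']) (n1 b) t.1.1 t.2.2.2.1.1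
          (by simp [t, Bc u, hu']) (fun e => ?_) (h.eig_le (by rw [Bc, hu'.2.1]) hy hb) hw.1 (by simp [hw]) hw.2.2
        obtain ⟨c, d, e⟩ := mem_span_pair.1 e
        have : d = 0 := by simpa [Bc z, z3, z2] using congrArg (φ.B z) e
        simpa [this, t] using congrArg (φ.B f) e
  have s2 : y ∈ Wt ρ ψ p LL 0 := mem_Wt.2 fun w hw => by
    rw [mem_perp_pair] at hw
    exact Wt_ext (e := z) (c := -φ.B u w) t.1.1 (fun _ hw => φ.mem_perp_span.1 hw p (by simp)) z3.1 (s1 hy.1)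
      (by simpa using hy.2 (-φ.B u w)) (φ.mem_perp_span.2 (by simp [hw, z3, z2]))
  obtain ⟨y₁, h1, y₂, h2, e⟩ := mem_sup.1 (h.le_sup hψ ho hD s2)
  obtain ⟨c, hc⟩ := AddChar.ne_one_iff.1 hψ
  have k : -c • z ∈ LL := φ.mem_perp_pair.2 (by simp [z3])
  have h3 := mem_Wt.1 hy.1 _ k
  rw [← e, map_add, mem_Wt0.1 h2 _ k] at h3
  have h4 := Vw_map (S φ p₁ (-c • z)) t.1.1 (S_fix t.1.2.2.1 (hL _ k) t.2.2.2.1.1 (by simp [Bc z, z3])) (map_zero _) h1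
  refine (smul_mem_iff _ (sub_ne_zero.2 hc)).1 ?_
  rw [← e]
  convert sub_mem h4 h1 using 1
  rw [sub_smul, eq_sub_of_add_eq h3]; simp [z2]; abel

theorem Fr.dim0 (hC : HC ρ ψ) (h : Fr φ p f p₁ f₁) :
    finrank ℂ (Vw ρ ψ p 0) + io a = finrank ℂ ↥(Vw ρ ψ p 0 ⊓ Wt ρ ψ p₁ LL 0) + cn φ U₁ a := by
  have t := h.tab
  rw [wl1 hψ h.spec.1 t.1.2.2.1 (fun _ hw => (mem_U.1 hw).2.2.1) (fun w hw y hy => Vw_map _ t.1.1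
    (S_fix t.1.2.2.1 (mem_U.1 hw).2.2.1 t.2.2.2.1.1 (by rw [Bc, (mem_U.1 hw).1])) (map_zero _) hy)
    fun u hu u0 => h.mult hψ ho hD hC hu u0, show Vw ρ ψ p 0 ⊓ Wt ρ ψ p₁ U₁ 0 = Vw ρ ψ p 0 ⊓ Wt ρ ψ p₁ LL 0 from
    le_antisymm (fun y hy => ⟨hy.1, h.wt_L (zero_mem _) hy.1 hy.2⟩) fun y hy => ⟨hy.1, mem_Wt.2 fun w hw =>
      mem_Wt.1 hy.2 w (φ.mem_perp_pair.2 ⟨(mem_U.1 hw).1, (mem_U.1 hw).2.2.1⟩)⟩]

theorem Fr.dim2 (hC : HC ρ ψ) (h : Fr φ p f p₁ f₁) (he : e ∈ U₁) (e0 : e ≠ 0) (hQ : φ.Q e = 0) {r : ℕ}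
    (hr : finrank F V = r + 6) :
    finrank ℂ ↥(Vw ρ ψ p 0 ⊓ Wl.eig (fun c => ρ (S φ p₁ (c • e))) ψ 1) = Fintype.card F ^ r := by
  have t := h.tab
  exact wl2 hψ h.spec.1 t.1.2.2.1 (fun _ hw => (mem_U.1 hw).2.2.1) (fun w hw y hy => Vw_map _ t.1.1
    (S_fix t.1.2.2.1 (mem_U.1 hw).2.2.1 t.2.2.2.1.1 (by rw [Bc, (mem_U.1 hw).1])) (map_zero _) hy)
    (fun u hu u0 => h.mult hψ ho hD hC hu u0) he e0 hQ (by have := h.spec.2; omega)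

end H28.Om
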