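import Cfsg.Agent.H28.Om5

/-!
# The trace identity (namespace `H28.Om`)
-/

set_option autoImplicit false
set_option linter.style.haveILetI false

open Module Finset H10 H10.Form Submodule L.Wt
open scoped ComplexOrder

namespace H28.Om

variable {F V : Type*} [Field F] [AddCommGroup V] [Module F V] {φ : Form F V} [hq : Fact φ.IsQuad]
  {M : Type*} [AddCommGroup M] [Module ℂ M] {ρ : φ.E →* End ℂ M} {ψ : AddChar F ℂ}
  {p f p₁ p₂ f₁ u x w e : V} {y : M} {a : F} {A : Submodule F V} [Fintype V] [Fintype F]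

local notation "U₁" => pp φ (pp φ ⊤ p f) p₁ f₁
set_option quotPrecheck false in
local notation "LL" => φ.perp (span F {p, p₁})
local notation "tr" => LinearMap.trace ℂ M
local notation "q" => Fintype.card F

open Classical in
variable (ρ) in
/-- averaging over a group of Siegel elements -/
noncomputable def ea (x : V) (A : Submodule F V) : End ℂ M := av (fun w : A => ρ (S φ x w)) 1

variable (ρ) in
/-- averaging over the radical -/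
noncomputable def ee (p : V) : End ℂ M := ea ρ p (φ.perp (F ∙ p))

variable (ρ ψ) in
/-- projection to an eigenspace of a long root subgroup -/
noncomputable def pj (p₁ p₂ : V) : End ℂ M := av (fun c : F => ρ (S φ p₁ (c • p₂))) ψ

omit hq [Fintype V] [Fintype F] in
theorem tr_conj (g : φ.E) {X Y : End ℂ M} (h : ρ g * X = Y * ρ g) : tr X = tr Y := by
  rw [← one_mul X, ← map_one ρ, ← inv_mul_cancel g, map_mul ρ, mul_assoc, h, LinearMap.trace_mul_comm, mul_assoc,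
    ← map_mul ρ, mul_inv_cancel, map_one, mul_one]

variable [φ.Nondeg] [FiniteDimensional F V]

omit [Fintype V] [Fintype F] in
theorem famA (hx : φ.Q x = 0) (hA : ∀ w ∈ A, φ.B x w = 0) (a b : A) :
    ρ (S φ x (a + b : A)) = ρ (S φ x a) * ρ (S φ x b) := by
  rw [Submodule.coe_add, S_add hx (hA _ a.2) (hA _ b.2), map_mul]

omit [Fintype F] in
theorem ea_proj (hx : φ.Q x = 0) (hA : ∀ w ∈ A, φ.B x w = 0) : LinearMap.IsProj (Wt ρ ψ x A 0) (ea ρ x A) := by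
  classical
  exact isProj_av (famA hx hA) fun y => by simp [mem_Wt0]

omit [Fintype F] in
theorem ee_proj (hp : φ.Q p = 0) : LinearMap.IsProj (Vw ρ ψ p 0) (ee ρ p) :=
  ea_proj hp fun _ => φ.mem_perp_singleton.1

omit [Fintype V] in
theorem pj_proj (hp : φ.Q p₁ = 0) (h : φ.B p₁ p₂ = 0) :
    LinearMap.IsProj (Wl.eig (fun c => ρ (S φ p₁ (c • p₂))) ψ 1) (pj ρ ψ p₁ p₂) :=
  isProj_av (fam hp h) fun y => by simp [Wl.mem_eig]

omit [Fintype F] in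
theorem ea_conj (g : φ.E) (hx : φ.Q x = 0) (hA : ∀ w ∈ A, φ.B x w = 0) {x' : V} {A' : Submodule F V}
    (e : g.1.1 x = x') (h : ∀ w, w ∈ A ↔ g.1.1 w ∈ A') : ρ g * ea ρ x A = ea ρ x' A' * ρ g := by
  classical
  exact av_conj (Equiv.subtypeEquiv g.1.1.toEquiv h) (fun w => by
    rw [← map_mul, S_conj g hx (hA _ w.2), map_mul, e]; rfl) fun _ => rfl

omit [Fintype F] in
theorem ee_conj (g : φ.E) (hp : φ.Q p = 0) {p' : V} (e : g.1.1 p = p') : ρ g * ee ρ p = ee ρ p' * ρ g :=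
  ea_conj g hp (fun _ => φ.mem_perp_singleton.1) e fun w => by
    rw [mem_perp_singleton, mem_perp_singleton, B_ap g e]

omit [Fintype F] in
theorem mul_ee (hp : φ.Q p = 0) (hw : φ.B p w = 0) : ρ (S φ p w) * ee ρ p = ee ρ p :=
  LinearMap.ext fun y => mem_Vw0.1 ((ee_proj (ψ := 1) hp).map_mem y) w hw

omit [Fintype F] in
theorem ee_mul (hp : φ.Q p = 0) (hw : φ.B p w = 0) : ee ρ p * ρ (S φ p w) = ee ρ p := by
  rw [← ee_conj _ hp (S_self hp hw), mul_ee hp hw]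

theorem tau_conj (g : φ.E) (hp : φ.Q p = 0) (h1 : φ.Q p₁ = 0) (h : φ.B p₁ p₂ = 0) {p' p₁' p₂' : V} (e : g.1.1 p = p')
    (e1 : g.1.1 p₁ = p₁') (e2 : g.1.1 p₂ = p₂') :
    tr (ee ρ p * pj ρ ψ p₁ p₂) = tr (ee ρ p' * pj ρ ψ p₁' p₂') := tr_conj (ρ := ρ) g (by
  rw [← mul_assoc, ee_conj g hp e, mul_assoc, mul_assoc]
  exact congrArg _ (av_conj (Equiv.refl F) (fun c => by
    rw [← map_mul, S_conj g h1 (by simp [h]), map_mul, map_smul, e1, e2]; rfl) fun _ => rfl))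

omit [Fintype V] in
theorem pj_det (h1 : φ.Q p₁ = 0) (h2 : φ.Q p₂ = 0) (h : φ.B p₁ p₂ = 0) {a b c d : F} (hd : a * d - b * c = 1) :
    pj ρ ψ (a • p₁ + b • p₂) (c • p₁ + d • p₂) = pj ρ ψ p₁ p₂ := by
  refine congrArg (av · ψ) (funext fun t => ?_)
  rw [smul_add, smul_smul, smul_smul, S_det h1 h2 h, show a * (t * d) - b * (t * c) = t by linear_combination t * hd]

omit [Fintype V] [Fintype F] hq [φ.Nondeg] [FiniteDimensional F V] in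
theorem ex_det {a b : F} (h : ¬ (a = 0 ∧ b = 0)) : ∃ c d, a * d - b * c = 1 := by
  by_cases a0 : a = 0
  · exact ⟨-b⁻¹, 0, by simp [show b ≠ 0 from fun e => h ⟨a0, e⟩]⟩
  · exact ⟨0, a⁻¹, by simp [a0]⟩

theorem tau_one (hψ : ψ ≠ 1) (h1 : φ.Q p₁ = 0) (h2 : φ.Q p₂ = 0) (h : φ.B p₁ p₂ = 0) (hp : p ∈ span F {p₁, p₂})
    (p0 : p ≠ 0) : tr (ee ρ p * pj ρ ψ p₁ p₂) = 0 := by
  obtain ⟨a, b, rfl⟩ := mem_span_pair.1 hp
  obtain ⟨c, d, hd⟩ := ex_det (a := a) (b := b) fun e => p0 (by simp [e])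
  have h3 : φ.Q (a • p₁ + b • p₂) = 0 := by simp [Qa, Qs, *]
  rw [← pj_det h1 h2 h hd, pj, trace_av, sum_congr rfl fun t _ => by
    rw [ee_mul h3 (by simp [Bc p₂ p₁, h, φ.B_self_eq_zero h1, φ.B_self_eq_zero h2])], ← sum_mul,
    Fintype.sum_equiv (Equiv.neg F) (fun i => ψ (-i)) ψ fun _ => rfl, AddChar.sum_eq_zero_iff_ne_zero.2 hψ]
  simp

theorem tau_three (hD : 6 ≤ finrank F V) (h : Fr φ p p₂ p₁ f₁) (hx : φ.Q x = 0) (hx' : ¬ (φ.B x p₂ = 0 ∧ φ.B x p₁ = 0)) :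
    tr (ee ρ x * pj ρ ψ p₁ p₂) = tr (ee ρ p * pj ρ ψ p₁ p₂) := by
  have t := h.tab
  obtain ⟨c, d, hd⟩ := ex_det (a := φ.B x p₂) (b := -φ.B x p₁) (by simpa using hx')
  have h1 : φ.B x (φ.B x p₂ • p₁ + -φ.B x p₁ • p₂) = 0 := by simp [mul_comm]
  have h2 : φ.B x (c • p₁ + d • p₂) = 1 := by simp; linear_combination hd
  have h3 : φ.Q (φ.B x p₂ • p₁ + -φ.B x p₁ • p₂) = 0 := by simp [Qa, Qs, t]
  have h4 : φ.B (φ.B x p₂ • p₁ + -φ.B x p₁ • p₂) (c • p₁ + d • p₂) = 0 := by simp [t]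
  obtain ⟨g, e1, e2⟩ := witt_E hD h3 t.1.2.2.1 h4 t.2.2.2.1.2.1 (by simp [Qa, Qs, t]) (fun e => hx'
    ⟨by simpa [t] using congrArg (φ.B f₁) e, by simpa [t] using congrArg (φ.B p) e⟩) h.h₁.e_ne_zero (fun e => by
      obtain ⟨s, e⟩ := mem_span_singleton.1 e
      rw [← e, map_smul, h1] at h2; simp at h2) fun e => by
      obtain ⟨s, e⟩ := mem_span_singleton.1 e
      simpa [t] using congrArg (φ.B p) e
  have h5 : φ.B p₁ (g.1.1 x) = 0 := by rw [B_ap g e1, Bc, h1]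
  have h6 : φ.B p₂ (g.1.1 x) = 1 := by rw [B_ap g e2, Bc, h2]
  have h7 : φ.B p₂ (g.1.1 x - p) = 0 := by simp [h6, t]
  have h8 : φ.Q (g.1.1 x) = 0 := by simpa
  rw [← pj_det t.1.2.2.1 t.1.2.1 t.2.2.2.1.2.1 hd, tau_conj g hx h3 h4 rfl e1 e2, pj_det t.1.2.2.1 t.1.2.1 t.2.2.2.1.2.1 hd]
  refine tau_conj (S φ p₂ (g.1.1 x - p)) h8 t.1.2.2.1 t.2.2.2.1.2.1 ?_
    (S_fix t.1.2.1 h7 t.2.2.1.2.2.1 (by rw [Bc]; simp [h5, t])) (S_self t.1.2.1 h7)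
  simp [S_ap t.1.2.1 h7, h6, φ.Q_sub, t, φ.B_self_eq_zero h8, h8, Bc p]

omit [Fintype V] [Fintype F] in
theorem C_all (hp : φ.Q p = 0) (h1 : φ.Q p₁ = 0) (h : φ.B p p₁ = 0) (hy : y ∈ Wt ρ ψ p LL 0 ⊓ Wt ρ ψ p₁ LL 0) (c : F) :
    y ∈ Wt ρ ψ (p + c • p₁) LL 0 := mem_Wt0.2 fun w hw => by
  have hw' := φ.mem_perp_pair.1 hw
  rw [S_add_left hp (φ.Q_smul_of_sing h1 c) (by simp [h]) hw'.1 (by simp [hw']), rmul, rmul,
    mem_Wt0.1 hy.1 _ (φ.mem_perp_pair.2 (by simp [h, φ.B_self_eq_zero h1])), S_smul h1 hw'.2,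
    mem_Wt0.1 hy.2 _ (smul_mem _ c hw), mem_Wt0.1 hy.1 _ hw]

omit [Fintype V] [Fintype F] in
theorem C_map (hp : φ.Q p = 0) (h1 : φ.Q p₁ = 0) (h : φ.B p p₁ = 0) (g : φ.E) {c : F} (e : g.1.1 p = p + c • p₁)
    (e1 : g.1.1 p₁ = p₁) (hy : y ∈ Wt ρ ψ p LL 0 ⊓ Wt ρ ψ p₁ LL 0) : ρ g y ∈ Wt ρ ψ p LL 0 ⊓ Wt ρ ψ p₁ LL 0 := by
  have k : ∀ w ∈ LL, g⁻¹.1.1 w ∈ LL ∧ φ.B 0 (g⁻¹.1.1 w) = φ.B 0 w := fun w hw => by
    rw [mem_perp_pair] at hw ⊢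
    rw [B_inv g e, B_inv g e1]; simp [hw]
  exact ⟨Wt_map g (by simp [Qa, Qs, φ.Q_sub, *]) (fun w hw => by simp [φ.mem_perp_pair.1 hw]) (by simp [e, e1]) k
    (C_all hp h1 h hy (-c)), Wt_map g h1 (fun w hw => (φ.mem_perp_pair.1 hw).2) e1 k hy.2⟩

omit [Fintype F] in
theorem S_ea (hp : φ.Q p = 0) (h1 : φ.Q p₁ = 0) (h : φ.B p p₁ = 0) (hw : w ∈ LL) :
    ρ (S φ p₁ w) * ea ρ p LL = ea ρ p LL * ρ (S φ p₁ w) := by
  have hw' := φ.mem_perp_pair.1 hw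
  have e := S_fix h1 hw'.2 (φ.B_symm_zero h) (φ.B_symm_zero hw'.1)
  exact ea_conj _ hp (fun w hw => (φ.mem_perp_pair.1 hw).1) e fun z => by
    rw [mem_perp_pair, mem_perp_pair, B_ap _ e, B_ap _ (S_self h1 hw'.2)]

variable [FiniteDimensional ℂ M]

theorem gam (h : Fr φ p f p₁ f₁) : ∃ γ : ℂ, 0 ≤ γ ∧ IsIntegral ℤ ((q : ℂ) ^ 2 * γ) ∧ q * tr (ee ρ p * pj ρ ψ p₁ f) +
    finrank ℂ ↥(Vw ρ ψ p 0 ⊓ Wt ρ ψ p₁ LL 0) = q * γ + finrank ℂ (Vw ρ ψ p 0) := by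
  classical
  have t := h.tab
  have hL : ∀ w ∈ LL, φ.B p w = 0 := fun _ hw => (φ.mem_perp_pair.1 hw).1
  have hL₁ : ∀ w ∈ LL, φ.B p₁ w = 0 := fun _ hw => (φ.mem_perp_pair.1 hw).2
  have c1 : ee ρ p * ea ρ p₁ LL = ea ρ p₁ LL * ee ρ p := comm_av fun w =>
    (ee_conj _ t.1.1 (S_fix t.1.2.2.1 (hL₁ _ w.2) t.2.2.2.1.1 (by rw [Bc, hL _ w.2]))).symm
  have p1 := isProj_mul (ee_proj (ρ := ρ) (ψ := ψ) t.1.1) (ea_proj (ψ := ψ) t.1.2.2.1 hL₁) c1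
  have p2 := isProj_mul (ea_proj (ρ := ρ) (ψ := ψ) t.1.1 hL) (ea_proj (ψ := ψ) t.1.2.2.1 hL₁)
    (comm_av fun w => (S_ea t.1.1 t.1.2.2.1 t.2.1.2.2.1 w.2).symm)
  refine ⟨tr (ee ρ p * ea ρ p₁ LL * pj ρ ψ p₁ f), tr_nonneg (ρ := ρ) (.mul (sy_av (fun w : φ.perp (F ∙ p) => S φ p w) (fun w => S_neg t.1.1
    (φ.mem_perp_singleton.1 w.2)) _) (sy_av (fun w : LL => S φ p₁ w) (fun w => S_neg t.1.2.2.1 (hL₁ _ w.2)) _) c1)
    (sy_av (fun c : F => S φ p₁ (c • f)) (fun c => by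
      rw [neg_smul, S_neg t.1.2.2.1 (by simp [t])]) _) (proj_idem p1) (proj_idem (pj_proj t.1.2.2.1 t.2.2.2.1.2.1)), ?_, ?_⟩
  · have e1 : ee ρ p = av (fun c : F => ρ (S φ p (c • f₁))) 1 * ea ρ p LL := by
      have k : ∀ y, av (fun c : F => ρ (S φ p (c • f₁))) 1 (ea ρ p LL y) ∈ Vw ρ ψ p 0 := fun y => mem_Vw.2 fun w hw =>
        Wt_ext (A := LL) (e := f₁) (c := φ.B p₁ w) t.1.1 hL t.2.1.2.2.2 (mem_Wt0.2 fun z hz => by
          rw [← End.mul_apply, comm_av fun c => by rw [← map_mul, S_comm t.1.1 (hL z hz) (by simp [t]), map_mul],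
            End.mul_apply, mem_Wt0.1 ((ea_proj (ψ := ψ) t.1.1 hL).map_mem y) z hz])
          (by rw [← End.mul_apply, mul_av (f := fun c : F => ρ (S φ p (c • f₁))) (fam t.1.1 t.2.1.2.2.2)]; simp) (φ.mem_perp_pair.2 (by simp [t, hw]))
      refine Eq.trans ?_ (LinearMap.ext fun y => (ee_proj t.1.1).map_id _ (k y) : ee ρ p * _ = _)
      have k1 : ee ρ p * av (fun c : F => ρ (S φ p (c • f₁))) 1 = ee ρ p := by
        simp [av, mul_sum, fun c : F => ee_mul (ρ := ρ) t.1.1 (show φ.B p (c • f₁) = 0 by simp [t]),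
          ← Nat.cast_smul_eq_nsmul ℂ]
      rw [← mul_assoc, k1, ea, av, mul_smul_comm, mul_sum,
        sum_congr rfl fun w _ => by rw [mul_smul_comm, ee_mul t.1.1 (hL _ w.2)]]
      simp [← Nat.cast_smul_eq_nsmul ℂ]
    rw [pj, trace_av, sq, mul_assoc, mul_inv_cancel_left₀ Wl.qne, mul_sum]
    refine IsIntegral.sum _ fun c _ => ?_
    rw [mul_left_comm, e1, mul_assoc (av _ 1), mul_assoc (av _ 1), LinearMap.trace_mul_comm, trace_av,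
      mul_inv_cancel_left₀ Wl.qne]
    refine (isIntegral_psi ψ _).mul (IsIntegral.sum _ fun s _ => ?_)
    rw [AddChar.one_apply, one_mul, mul_assoc, ← map_mul, LinearMap.trace_mul_comm]
    refine isIntegral_proj ρ _ p2 fun y hy => ?_
    rw [rmul]
    refine C_map (c := c) t.1.1 t.1.2.2.1 t.2.1.2.2.1 _ (by rw [S_ap0 t.1.2.2.1 (by simp [t]) t.2.2.2.1.1]; simp [t])
      (S_self t.1.2.2.1 (by simp [t])) ?_
    rw [inf_comm, Set.pair_comm] at hy ⊢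
    exact C_map (c := s) t.1.2.2.1 t.1.1 t.2.2.2.1.1 _ (by rw [S_ap0 t.1.1 (by simp [t]) t.2.1.2.2.1]; simp [t])
      (S_self t.1.1 (by simp [t])) hy
  · have e2 : ∀ c : F, c ≠ 0 → tr (ee ρ p * ea ρ p₁ LL * ρ (S φ p₁ (c • f))) = tr (ee ρ p * ρ (S φ p₁ (c • f))) := by
      intro c c0
      have k0 : φ.B p₁ (c • f) = 0 := by simp [t]
      rw [mul_assoc, ea, ← comm_av fun w => by rw [← map_mul, S_comm t.1.2.2.1 k0 (hL₁ _ w.2), map_mul], ← mul_assoc]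
      refine trace_av_const fun w => ?_
      have k1 : φ.B p (-c⁻¹ • (w : V)) = 0 := by simp [hL _ w.2]
      obtain ⟨κ, hκ⟩ : ∃ κ : F, (S φ p (-c⁻¹ • (w : V))).1.1 (c • f) = c • f + w + κ • p :=
        ⟨φ.B (-c⁻¹ • (w : V)) (c • f) - φ.Q (-c⁻¹ • (w : V)) * c, by
          rw [S_ap t.1.1 k1, map_smul (φ.B p), t.2.1.2.1, smul_eq_mul, mul_one, smul_smul, mul_neg, mul_inv_cancel₀ c0]
          module⟩
      have k2 := S_conj (S φ p (-c⁻¹ • (w : V))) t.1.2.2.1 k0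
      rw [S_fix t.1.1 k1 t.2.1.2.2.1 (by simp [Bc (w : V), hL₁ _ w.2]), hκ, S_add t.1.2.2.1 (by simp [t, hL₁ _ w.2])
        (by simp [t]), S_comm t.1.2.2.1 (by simp [t, hL₁ _ w.2]) (by simp [t]), S_add t.1.2.2.1 k0 (hL₁ _ w.2),
        S_swap t.1.1 t.1.2.2.1 t.2.1.2.2.1] at k2
      symm
      refine tr_conj (ρ := ρ) (S φ p (-c⁻¹ • (w : V))) ?_
      rw [← mul_assoc, ee_conj _ t.1.1 (S_self t.1.1 k1), mul_assoc, ← map_mul, k2, map_mul, map_mul, map_mul,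
        ← mul_assoc, ← mul_assoc, ← mul_assoc, ee_mul t.1.1 (by simp [t])]
    rw [pj, trace_av, trace_av, mul_inv_cancel_left₀ Wl.qne, mul_inv_cancel_left₀ Wl.qne,
      ← add_sum_erase _ _ (mem_univ 0), ← add_sum_erase _ _ (mem_univ 0),
      sum_congr rfl fun c hc => by rw [← e2 c (ne_of_mem_erase hc)], fam0, mul_one, mul_one, p1.trace,
      (ee_proj (ψ := ψ) t.1.1).trace, neg_zero, AddChar.map_zero_eq_one]
    ring

end H28.Om
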