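import Cfsg.Agent.H28.Om6
import Cfsg.Agent.H05.Basic

/-!
# The degree identity for orthogonal groups (namespace `H28.Om`)
-/

set_option autoImplicit false
set_option linter.style.haveILetI false

open Module Finset H10 H10.Form Submodule L.Wt
open scoped ComplexOrder

namespace H28.Om

variable {F V : Type*} [Field F] [AddCommGroup V] [Module F V] {φ : Form F V} [hq : Fact φ.IsQuad]
  {M : Type*} [AddCommGroup M] [Module ℂ M] {ρ : Representation ℂ φ.E M} {ψ : AddChar F ℂ}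
  {p f p₁ p₂ f₁ u x w e : V} {y : M} {a : F} [Fintype V] [Fintype F]

local notation "U₁" => pp φ (pp φ ⊤ p f) p₁ f₁
local notation "tr" => LinearMap.trace ℂ M
local notation "q" => Fintype.card F

theorem ncard {α : Type*} [Fintype α] (P : α → Prop) [DecidablePred P] : Nat.card {v // P v} = #(univ.filter P) := by
  rw [Nat.card_eq_fintype_card, Fintype.card_subtype]

omit [Fintype V] in
theorem Fr.fib (h : Fr φ p f p₁ f₁) (P : V → Prop) (hP : ∀ v ∈ φ.perp (span F {p₁, f}), ∀ c : F,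
    (P (v + c • f) ↔ P v) ∧ (P (v + c • p₁) ↔ P v)) :
    Nat.card {v // v ∈ φ.perp (span F {p₁, f}) ∧ P v} = q ^ 2 * Nat.card {v // v ∈ U₁ ∧ P v} := by
  have t := h.tab
  have := card_fib (W := φ.perp (span F {p₁, f}) ⊓ φ.perp (F ∙ p)) (e := p₁) ⟨φ.mem_perp_pair.2 (by simp [t]),
    φ.mem_perp_singleton.2 (by simp [t])⟩ t.2.2.2.2.2.2.1 P fun v hv c => (hP v hv.1 c).2
  simp only [Submodule.mem_inf, mem_perp_singleton] at this
  rw [card_fib (φ.mem_perp_pair.2 (by simp [t])) t.2.1.2.1 P fun v hv c => (hP v hv c).1, this,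
    Nat.card_eq_fintype_card (α := F), sq, mul_assoc]
  congr 2
  exact Nat.card_congr (Equiv.subtypeEquivRight fun v => by rw [mem_U, mem_perp_pair]; tauto)

variable [φ.Nondeg] [FiniteDimensional F V]

omit [Fintype V] in
theorem ex_fr (hD : 5 ≤ finrank F V) : ∃ p f p₁ f₁, Fr φ p f p₁ f₁ := by
  obtain ⟨p, f, h⟩ := hq.out.exists_hyp_of_three_le (by omega)
  obtain ⟨n1, n2, -⟩ := pp_spec φ.nondegOn_top h mem_top mem_top
  rw [finrank_top] at n2
  obtain ⟨p₁, h1, f₁, h2, h3⟩ := ex_hyp n1 (by omega)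
  exact ⟨p, f, p₁, f₁, h, h3, h1, h2⟩

omit [Fintype V] in
theorem Fr.cnt (h : Fr φ p f p₁ f₁) {r : ℕ} (hr : finrank F V = r + 4) (a : F) :
    φ.cnt a = q * cn φ (pp φ ⊤ p f) a + (q - 1) * q ^ (r + 2) ∧
      cn φ (pp φ ⊤ p f) a = q * cn φ U₁ a + (q - 1) * q ^ r := by
  obtain ⟨n1, n2, n3⟩ := pp_spec φ.nondegOn_top h.h mem_top mem_top
  obtain ⟨-, n5, n6⟩ := pp_spec n1 h.h₁ h.m₁ h.m₂
  rw [finrank_top] at n2
  rw [← cn_top, n3, n6, Nat.card_eq_fintype_card, show finrank F (pp φ ⊤ p f) = r + 2 by omega,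
    show finrank F U₁ = r by omega]
  exact ⟨rfl, rfl⟩

variable [FiniteDimensional ℂ M] (hψ : ψ ≠ 1) (ho : One ρ ψ a) (hC : HC ρ ψ) {r : ℕ} (hD : finrank F V = r + 7)
include hψ ho hC hD

theorem tau_two (h : Fr φ p f p₁ f₁) (hx : φ.Q x = 0) (h1 : x ∈ φ.perp (span F {p₁, f})) (h2 : x ∉ span F {p₁, f}) :
    tr (ee ρ x * pj ρ ψ p₁ f) = q ^ (r + 1) := by
  have t := h.tab
  obtain ⟨g, g1, g2⟩ := φ.exists_partner hx h2 h1
  rw [mem_perp_pair] at h1 g1
  obtain ⟨g', g3, g4⟩ := φ.exists_partner (W := span F {x, g, f}) t.1.2.2.1 (fun e => by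
    obtain ⟨b, z, hz, e⟩ := mem_span_insert.1 e
    obtain ⟨c, d, rfl⟩ := mem_span_pair.1 hz
    have h3 : c = 0 := by simpa [Bc x p₁, Bc x f, h1, g2.Bee, g2.Bef] using congrArg (φ.B x) e.symm
    have h4 : b = 0 := by simpa [Bc g p₁, Bc g f, g1, g2.Bff, g2.Bfe] using congrArg (φ.B g) e.symm
    simpa [h3, h4, t] using congrArg (φ.B f₁) e) (by simp [mem_perp_span, Bc x, Bc g, h1, g1, t])
  simp only [mem_perp_span, Set.mem_insert_iff, Set.mem_singleton_iff, forall_eq_or_imp, forall_eq] at g3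
  have fr : Fr φ x g p₁ g' := ⟨g2, g4, mem_pp.2 (by simp [Bc x, Bc g, h1, g1]), mem_pp.2 (by simp [g3])⟩
  rw [(isProj_mul (ee_proj hx) (pj_proj t.1.2.2.1 t.2.2.2.1.2.1) (comm_av fun c => (ee_conj _ hx
    (S_fix t.1.2.2.1 (by simp [t]) h1.1 (by simp [h1]))).symm)).trace, fr.dim2 hψ ho (by omega) hC
    (mem_U.2 (by simp [Bc x, Bc g, Bc g', h1, g1, g3, t])) h.h.f_ne_zero t.1.2.1 (r := r + 1) hD, Nat.cast_pow]

theorem ident [ρ.IsIrreducible] (h : Fr φ p f p₁ f₁) : ∃ k : ℕ, (q : ℤ) * (φ.cnt 0 - 1) * finrank ℂ (Vw ρ ψ p 0) =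
    finrank ℂ M * (q * (cn φ U₁ 0 - 1) + (q ^ 2 - 1) * (k + q * (cn φ U₁ a - io a))) := by
  classical
  have t := h.tab
  obtain ⟨α, hα⟩ := H05.exists_scalar_of_comm ρ (∑ x ∈ univ.filter fun x => x ≠ 0 ∧ φ.Q x = 0, ee ρ x) fun g => by
    rw [← End.mul_eq_comp, ← End.mul_eq_comp, sum_mul, mul_sum]
    exact (sum_equiv g.1.1.toEquiv (by simp) fun x hx => ee_conj g (mem_filter.1 hx).2.2 rfl).symm
  have a1 := congrArg tr hα
  have n0 := card_sing_add_one (φ := φ)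
  rw [map_sum, sum_congr rfl fun x hx => by rw [(ee_proj (ψ := ψ) (mem_filter.1 hx).2.2).trace, m0_eq (by omega)
    (mem_filter.1 hx).2.2 (mem_filter.1 hx).2.1 t.1.1 h.h.e_ne_zero], sum_const, ← ncard, map_smul,
    LinearMap.trace_id] at a1
  have a2 := congrArg (fun X => tr (X * pj ρ ψ p₁ f)) hα
  have fs := h.swap
  simp only [sum_mul, map_sum, smul_mul_assoc, map_smul] at a2
  rw [show LinearMap.id * pj ρ ψ p₁ f = pj ρ ψ p₁ f from one_mul _, (pj_proj t.1.2.2.1 t.2.2.2.1.2.1).trace,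
    ho.dimH hψ h.h₁ fs.m₂ h.h.f_ne_zero t.1.2.1 (r := r + 3) hD, sum_filter, sum_congr rfl
      (g := fun x => (if x ∈ φ.perp (span F {p₁, f}) ∧ φ.Q x = 0 ∧ x ∉ span F {p₁, f} then (q : ℂ) ^ (r + 1) else 0) +
        if φ.Q x = 0 ∧ x ∉ φ.perp (span F {p₁, f}) then tr (ee ρ p * pj ρ ψ p₁ f) else 0) fun x _ => by
      by_cases hx : φ.Q x = 0
      swap
      · simp [hx]
      by_cases h1 : x ∈ φ.perp (span F {p₁, f})
      · by_cases h2 : x ∈ span F {p₁, f}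
        · simpa [hx, h1, h2] using tau_one hψ t.1.2.2.1 t.1.2.1 t.2.2.2.1.2.1 h2
        · simp [hx, h1, h2, show x ≠ 0 by rintro rfl; simp at h2, tau_two hψ ho hC hD h hx h1 h2]
      · simp [hx, h1, show x ≠ 0 by rintro rfl; simp at h1, tau_three (ρ := ρ) (ψ := ψ) (by omega) h hx fun e =>
          h1 (φ.mem_perp_pair.2 ⟨φ.B_symm_zero e.2, φ.B_symm_zero e.1⟩)],
    sum_add_distrib, ← sum_filter, ← sum_filter, sum_const, sum_const, ← ncard, h.fib _ fun v hv c => by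
      rw [mem_perp_pair] at hv
      rw [Submodule.add_mem_iff_left _ (smul_mem _ _ (subset_span (by simp))),
        Submodule.add_mem_iff_left _ (smul_mem _ _ (subset_span (by simp)))]
      simp [Qa, Qs, t, Bc v, hv]] at a2
  have n1 : Nat.card {v // v ∈ U₁ ∧ φ.Q v = 0 ∧ v ∉ span F {p₁, f}} + 1 = cn φ U₁ 0 := by
    rw [← cn_eq, ← card_sing_add_one, ← Nat.card_congr (Equiv.subtypeSubtypeEquivSubtypeInter (· ∈ U₁) _)]
    refine congrArg (· + 1) (Nat.card_congr (Equiv.subtypeEquivRight fun v => ?_))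
    rw [and_comm]
    refine and_congr_left' (not_congr ⟨fun e => ?_, fun e => by simp [e]⟩)
    obtain ⟨c, d, e⟩ := mem_span_pair.1 e
    have h3 : c = 0 := by simpa [t, (mem_U.1 v.2)] using congrArg (φ.B f₁) e
    have h4 : d = 0 := by simpa [t, (mem_U.1 v.2)] using congrArg (φ.B p) e
    exact Subtype.ext (by simp [← e, h3, h4])
  have n2 : q ^ 2 * cn φ U₁ 0 + #{x | φ.Q x = 0 ∧ x ∉ φ.perp (span F {p₁, f})} = φ.cnt 0 := by
    rw [cn, ← h.fib _ fun v hv c => by rw [mem_perp_pair] at hv; simp [Qa, Qs, t, Bc v, hv], ncard, cnt, ncard,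
      ← card_filter_add_card_filter_not (· ∈ φ.perp (span F {p₁, f})) (s := {v | φ.Q v = 0}),
      filter_filter, filter_filter]
    simp only [and_comm]
  obtain ⟨γ, g0, g1, g2⟩ := gam (ρ := ρ) (ψ := ψ) h
  have n3 := h.dim0 hψ ho (by omega) hC
  obtain ⟨n4, n5⟩ := h.cnt (r := r + 3) hD 0
  haveI := H05.nontrivial_of_isIrreducible ρ
  have d0 : (finrank ℂ M : ℂ) ≠ 0 := Nat.cast_ne_zero.2 finrank_pos.ne'
  have q0 : (q : ℂ) ≠ 0 := Wl.qne
  have q1 : (q : ℂ) ^ 2 - 1 ≠ 0 := by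
    rw [sub_ne_zero]; exact_mod_cast (Nat.one_lt_pow two_ne_zero Fintype.one_lt_card).ne'
  rw [n5] at n4
  replace n0 := congrArg (Nat.cast (R := ℂ)) n0
  replace n1 := congrArg (Nat.cast (R := ℂ)) n1
  replace n2 := congrArg (Nat.cast (R := ℂ)) n2
  replace n3 := congrArg (Nat.cast (R := ℂ)) n3
  replace n4 := congrArg (Nat.cast (R := ℂ)) n4
  simp only [nsmul_eq_mul, smul_eq_mul] at a1 a2
  push_cast [Nat.cast_sub Fintype.card_pos] at n0 n1 n2 n3 n4 a2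
  have key : q * α = q * (cn φ U₁ 0 - 1) + (q ^ 2 - 1) * (q ^ 2 * γ + q * (cn φ U₁ a - io a)) := by
    refine mul_left_cancel₀ (pow_ne_zero (r + 3) q0) ?_
    rw [eq_sub_of_add_eq n1, eq_sub_of_add_eq' n2, n4] at a2
    linear_combination (-q) * a2 + (q ^ 2 - 1) * q ^ (r + 3) * q * (g2 + n3)
  obtain ⟨k, hk⟩ := ex_nat (mul_nonneg (by positivity) g0) g1 (r := (q * ((φ.cnt 0 - 1) * finrank ℂ (Vw ρ ψ p 0) /
    finrank ℂ M) - q * (cn φ U₁ 0 - 1)) / (q ^ 2 - 1) - q * (cn φ U₁ a - io a)) (by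
      push_cast
      rw [← eq_sub_of_add_eq n0, a1, mul_div_cancel_right₀ _ d0, key]
      field_simp; ring)
  refine ⟨k, Int.cast_injective (α := ℂ) ?_⟩
  push_cast
  rw [← hk, ← key, ← eq_sub_of_add_eq n0, mul_assoc, a1]; ring

end H28.Om
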