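import Mathlib
import Cfsg.Agent.H28.Wl1
import Cfsg.Agent.L.SLRep
import Cfsg.Agent.H05.RepEquiv
import Cfsg.Agent.H05.Integral

/-!
# The smallest degree of a complex representation of `SL_n(q)` (namespace `H28.Sr`)
-/

set_option autoImplicit false
set_option linter.style.haveILetI false

open Module Matrix L.SR L.Wt Finset Cfsg

namespace H28.Sr

variable {ι : Type} [Fintype ι] [DecidableEq ι] {F M : Type*} [Field F] [AddCommGroup M] [Module ℂ M]
  {ψ : AddChar F ℂ} {ρ : Representation ℂ (SpecialLinearGroup ι F) M}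

local notation "G" => SpecialLinearGroup ι F

variable (ψ ρ) in
/-- weight spaces of the group with given centre -/
noncomputable abbrev VP (v x : ι → F) := wt (fP ρ v) (chi ψ v x)

variable (ψ ρ) in
/-- weight spaces of the group with given axis -/
noncomputable abbrev VH (φ θ : ι → F) := wt (fH ρ φ) (chi ψ φ θ)

theorem mem_VP {v x : ι → F} {y : M} : y ∈ VP ψ ρ v x ↔ ∀ φ, φ ⬝ᵥ v = 0 → ρ (tvS v φ) y = ψ (φ ⬝ᵥ x) • y :=
  ⟨fun h φ h' => h ⟨φ, mem_Kd.2 h'⟩, fun h φ => h φ.1 (Kd.dot φ)⟩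

theorem mem_VH {φ θ : ι → F} {y : M} : y ∈ VH ψ ρ φ θ ↔ ∀ w, φ ⬝ᵥ w = 0 → ρ (tvS w φ) y = ψ (θ ⬝ᵥ w) • y :=
  ⟨fun h w h' => by rw [dotProduct_comm θ]; exact h ⟨w, mem_Kd.2 (by rwa [dotProduct_comm])⟩,
    fun h w => by rw [chi, dotProduct_comm]; exact h w.1 (Kd.dot' w)⟩

theorem VP_map {v x : ι → F} {y : M} (hy : y ∈ VP ψ ρ v x) {g : G} {a : F} (ha : a ≠ 0) (h1 : g • v = a • v)
    (h2 : g • x = a • x) : ρ g y ∈ VP ψ ρ v x := mem_VP.2 fun φ h => by
  have := mem_VP.1 (mem_wt_conj hy g) (a⁻¹ • φ) (by simp [h1, h])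
  rwa [h1, h2, tvS_smul_left _ (by simp [h]), smul_inv_smul₀ ha, smul_dotProduct, dotProduct_smul,
    inv_smul_smul₀ ha] at this

theorem VP_tv {v x w φ : ι → F} {y : M} (hy : y ∈ VP ψ ρ v x) (h : φ ⬝ᵥ w = 0) (h1 : φ ⬝ᵥ v = 0) (h2 : φ ⬝ᵥ x = 0) :
    ρ (tvS w φ) y ∈ VP ψ ρ v x :=
  VP_map hy one_ne_zero (by simp [tvS_smul h, h1]) (by simp [tvS_smul h, h2])

theorem ex_ker (W : Submodule F (ι → F)) (h : finrank F W + 1 < Fintype.card ι) {φ : ι → F} (h0 : φ ≠ 0) :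
    ∃ u, φ ⬝ᵥ u = 0 ∧ u ∉ W := by
  by_contra! hc
  have := Submodule.finrank_mono (show Kd φ ≤ W from fun u hu => hc u (Kd.dot' ⟨u, hu⟩))
  rw [finrank_Kd h0] at this; omega

theorem ex_one {γ : ι → F} (h : γ ≠ 0) : ∃ y, γ ⬝ᵥ y = 1 := by
  obtain ⟨y, h1, -⟩ := H09.exists_dot_eq_one (W := ⊥) (u := γ) (by simpa using h)
  exact ⟨y, by rwa [dotProduct_comm]⟩

theorem fr2 (v x : ι → F) : finrank F (Submodule.span F {v, x}) ≤ 2 := by
  classical
  refine (finrank_span_le_card _).trans ?_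
  simpa using (card_le_two : ({v, x} : Finset _).card ≤ 2)

theorem fr3 (v x w : ι → F) : finrank F (Submodule.span F {v, x, w}) ≤ 3 := by
  classical
  refine (finrank_span_le_card _).trans ?_
  simpa using (card_le_three : ({v, x, w} : Finset _).card ≤ 3)

variable (ψ ρ) in
/-- the commutation property -/
def CC : Prop := ∀ v x φ w y, v ≠ 0 → x ∉ F ∙ v → y ∈ VP ψ ρ v x → φ ⬝ᵥ v = 0 → φ ⬝ᵥ x = 0 → φ ⬝ᵥ w = 0 →
  ρ (tvS w φ) y = y

theorem cc_of_one (hn : 3 ≤ Fintype.card ι) (hb : ∀ v x, v ≠ 0 → x ∉ F ∙ v → finrank ℂ (VP ψ ρ v x) = 1)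
    (h3 : Fintype.card ι = 3 → ∃ a : F, a ≠ 0 ∧ a ^ 3 ≠ 1) (h4 : Fintype.card ι = 4 → ∃ a : F, a ≠ 0 ∧ a ^ 2 ≠ 1) :
    CC ψ ρ := fun v x φ w y v0 hx hy hv hx' hw => by
  by_cases y0 : y = 0
  · simp [y0]
  by_cases φ0 : φ = 0
  · simp [φ0, tvS_zero]
  have sc : ∀ g, ρ g y ∈ VP ψ ρ v x → ∃ c : ℂ, c ≠ 0 ∧ ρ g y = c • y := fun g hg => by
    obtain ⟨c, hc⟩ := (finrank_eq_one_iff_of_nonzero' (⟨y, hy⟩ : VP ψ ρ v x) (by simpa using y0)).1
      (hb v x v0 hx) ⟨_, hg⟩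
    have hc := (congrArg Subtype.val hc).symm
    refine ⟨c, fun h => y0 (rho_injective ρ g ?_), hc⟩
    simpa [h] using hc
  have k1 : ∀ W : Submodule F (ι → F), v ∈ W → x ∈ W → w ∈ W → finrank F W + 1 < Fintype.card ι →
      ρ (tvS w φ) y = y := fun W h1 h2 h3 h4 => by
    obtain ⟨u, hu, hu'⟩ := ex_ker W h4 φ0
    obtain ⟨θ, e, hθ⟩ := H09.exists_dot_eq_one hu'
    obtain ⟨a, a0, ha⟩ := sc _ (VP_tv hy (hθ w h3) (hθ v h1) (hθ x h2))
    obtain ⟨b, b0, hb⟩ := sc _ (VP_tv hy hu hv hx')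
    have := congrArg (fun g => ρ g y) (tvS_comm (hθ w h3) hu hw)
    simp only [rho_mul, ha, hb, map_smul, e, one_smul, smul_comm a b] at this
    exact (smul_right_injective _ a0 (smul_right_injective _ b0 this)).symm
  have k2 : ∀ (g : G) (a b c : F), a ≠ 0 → g • v = a • v → g • x = a • x → g • w = b • w →
      (∀ z, c * φ ⬝ᵥ g • z = φ ⬝ᵥ z) → b * c ≠ 1 → ρ (tvS w φ) y = y := fun g a b c a0 h1 h2 h3 h4 h5 => by
    obtain ⟨s, s0, hs⟩ := sc _ (VP_map hy a0 h1 h2)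
    let d := (b * c - 1)⁻¹
    obtain ⟨r, r0, hr⟩ := sc _ (VP_tv (φ := d • φ) (w := w) hy (by simp [hw]) (by simp [hv]) (by simp [hx']))
    have e : cov g (d • φ) = (c * d) • φ := dot_ext fun z => by
      rw [cov_dot, smul_dotProduct, ← h4, smul_inv_smul, smul_dotProduct, smul_eq_mul, smul_eq_mul]; ring
    have := congrArg (fun k => ρ (k * g) y) (tvS_conj g (v := w) (φ := d • φ) (by simp [hw]))
    simp only [inv_mul_cancel_right, rho_mul, hs, hr, map_smul, e, h3] at this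
    rw [tvS_smul_left _ (by simp [hw]), smul_smul b, show b * (c * d) = 1 + d by
      simp only [d]; field_simp [sub_ne_zero.2 h5]; ring, add_smul, one_smul,
      tvS_add hw (by simp [hw]), rho_mul, hr, map_smul, smul_comm r] at this
    exact (smul_right_injective _ r0 (smul_right_injective _ s0 this)).symm
  obtain ⟨u, hu⟩ := ex_one φ0
  rcases (by omega : Fintype.card ι = 3 ∨ Fintype.card ι = 4 ∨ 5 ≤ Fintype.card ι) with h | h | h
  · obtain ⟨a, a0, ha⟩ := h3 h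
    let g : G := ⟨a • (1 + vecMulVec (((a ^ 3)⁻¹ - 1) • u) φ), by
      rw [det_smul, H09.det_one_add_vecMulVec, h]; simp [hu, a0]⟩
    have hg : ∀ z, g • z = a • (z + (φ ⬝ᵥ z) • ((a ^ 3)⁻¹ - 1) • u) := fun z => by
      rw [smul_eq]; simp only [g, smul_mulVec, add_mulVec, one_mulVec, vecMulVec_mulVec, op_smul_eq_smul]
    refine k2 g a a (a ^ 2) a0 (by simp [hg, hv]) (by simp [hg, hx']) (by simp [hg, hw]) (fun z => ?_)
      (by rwa [← pow_succ'])
    simp [hg, hu]; field_simp; ring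
  · by_cases hw' : w ∈ Submodule.span F {v, x}
    · exact k1 _ (Submodule.subset_span (by simp)) (Submodule.subset_span (by simp)) hw' (by have := fr2 v x; omega)
    obtain ⟨a, a0, ha⟩ := h4 h
    obtain ⟨θ', e, hθ⟩ := H09.exists_dot_eq_one hw'
    obtain ⟨θ, e1, e2, e3, e4⟩ : ∃ θ : ι → F, θ ⬝ᵥ w = 1 ∧ θ ⬝ᵥ v = 0 ∧ θ ⬝ᵥ x = 0 ∧ θ ⬝ᵥ u = 0 :=
      ⟨θ' - (θ' ⬝ᵥ u) • φ, by simp [e, hw], by simp [hv, hθ v (Submodule.subset_span (by simp))],
        by simp [hx', hθ x (Submodule.subset_span (by simp))], by simp [hu]⟩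
    let g : G := ⟨(1 + vecMulVec ((a - 1) • w) θ) * (1 + vecMulVec ((a⁻¹ - 1) • u) φ), by
      rw [det_mul, H09.det_one_add_vecMulVec, H09.det_one_add_vecMulVec]; simp [hu, e1, a0]⟩
    have hg : ∀ z, g • z = z + (φ ⬝ᵥ z) • (a⁻¹ - 1) • u + (θ ⬝ᵥ z) • (a - 1) • w := fun z => by
      rw [smul_eq]; simp only [g, ← mulVec_mulVec, add_mulVec, one_mulVec, vecMulVec_mulVec, op_smul_eq_smul]
      simp [e4]
    refine k2 g 1 a a one_ne_zero (by simp [hg, hv, e2]) (by simp [hg, hx', e3]) (by simp [hg, hw, e1, sub_smul])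
      (fun z => ?_) (by rwa [← sq])
    simp [hg, hu, hw]; field_simp; ring
  · exact k1 (Submodule.span F {v, x, w}) (Submodule.subset_span (by simp)) (Submodule.subset_span (by simp))
      (Submodule.subset_span (by simp)) (by have := fr3 v x w; omega)

theorem CC.of_inj {N : Type*} [AddCommGroup N] [Module ℂ N] {σ : Representation ℂ G N} (h : CC ψ ρ)
    (f : N →ₗ[ℂ] M) (hf : Function.Injective f) (hc : ∀ g y, f (σ g y) = ρ g (f y)) : CC ψ σ :=
  fun v x φ w y v0 hx hy h1 h2 h3 => hf <| (hc _ _).trans <| h v x φ w (f y) v0 hx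
    (mem_VP.2 fun θ hθ => by rw [← hc, mem_VP.1 hy θ hθ, map_smul]) h1 h2 h3

theorem exists_emb {κ : Type} [Fintype κ] [DecidableEq κ] (h : Fintype.card ι = Fintype.card κ + 1) :
    ∃ (j : SpecialLinearGroup κ F →* G) (h : (κ → F) →ₗ[F] (ι → F)) (v : ι → F), (∀ a b, h a ⬝ᵥ h b = a ⬝ᵥ b) ∧
      (∀ a, h a ⬝ᵥ v = 0) ∧ v ⬝ᵥ v = 1 ∧ (∀ θ, ∃ (a : κ → F) (c : F), θ = h a + c • v) ∧ (∀ g, j g • v = v) ∧
      ∀ w φ, φ ⬝ᵥ w = 0 → j (tvS w φ) = tvS (h w) (h φ) := by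
  obtain ⟨e⟩ : Nonempty (κ ⊕ Unit ≃ ι) := Fintype.card_eq.1 (by simp [h])
  let j₀ : SpecialLinearGroup κ F →* SpecialLinearGroup (κ ⊕ Unit) F :=
    { toFun := fun g => ⟨fromBlocks g.1 0 0 1, by simp⟩
      map_one' := Subtype.ext (by simp)
      map_mul' := fun a b => Subtype.ext (show fromBlocks (a.1 * b.1) 0 0 1 =
        fromBlocks a.1 0 0 1 * fromBlocks b.1 0 0 1 by simp [fromBlocks_multiply]) }
  let h : (κ → F) →ₗ[F] (ι → F) :=
    { toFun := fun a => Sum.elim a 0 ∘ e.symm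
      map_add' := fun a b => by ext i; rcases h : e.symm i with k | k <;> simp [h]
      map_smul' := fun a b => by ext i; rcases h : e.symm i with k | k <;> simp [h] }
  have hd : ∀ a b : κ ⊕ Unit → F, (a ∘ e.symm) ⬝ᵥ (b ∘ e.symm) = a ⬝ᵥ b := fun a b =>
    comp_equiv_dotProduct_comp_equiv a b e.symm
  have h1 : ∀ a b, h a ⬝ᵥ h b = a ⬝ᵥ b := fun a b => (hd _ _).trans (by simp [dotProduct])
  have hj : ∀ g, (((H09.slReindex e).toMonoidHom.comp j₀) g).1 = reindex e e (fromBlocks g.1 0 0 1) := fun g => rfl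
  refine ⟨(H09.slReindex e).toMonoidHom.comp j₀, h, Sum.elim 0 1 ∘ e.symm, h1, fun a => (hd _ _).trans (by simp [dotProduct]),
    (hd _ _).trans (by simp [dotProduct]), fun θ => ⟨fun k => θ (e (.inl k)), θ (e (.inr ())), ?_⟩, fun g => ?_,
    fun w φ hw => Subtype.ext ?_⟩
  · ext i; obtain ⟨k | k, rfl⟩ := e.surjective i <;> simp [h]
  · rw [smul_eq, hj]
    ext i; obtain ⟨k | k, rfl⟩ := e.surjective i <;>
      simp [submatrix_mulVec_equiv, Function.comp_assoc, fromBlocks_mulVec]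
  · rw [tvS_val (by rw [h1, hw]), hj]
    ext i i'; obtain ⟨k | k, rfl⟩ := e.surjective i <;> obtain ⟨k' | k', rfl⟩ := e.surjective i' <;>
      simp [h, tvS_val hw, one_apply, vecMulVec_apply]

variable [Fintype F] (hψ : ψ ≠ 1)

open Classical in
variable (ρ) in
/-- the sum over a group of transvections -/
noncomputable def PP (v : ι → F) : End ℂ M := ∑ φ : Kd v, ρ (tvS v φ)

theorem tv_PP {v φ : ι → F} (h : φ ⬝ᵥ v = 0) : ρ (tvS v φ) * PP ρ v = PP ρ v ∧ PP ρ v * ρ (tvS v φ) = PP ρ v := by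
  classical
  simp only [PP, mul_sum, sum_mul, ← map_mul, ← tvS_add h (Kd.dot _), ← tvS_add (Kd.dot _) h]
  exact ⟨Fintype.sum_equiv (Equiv.addLeft ⟨φ, mem_Kd.2 h⟩) _ _ fun _ => rfl,
    Fintype.sum_equiv (Equiv.addRight ⟨φ, mem_Kd.2 h⟩) _ _ fun _ => rfl⟩

theorem PP_of_mem {v : ι → F} (hv : v ≠ 0) {y : M} (hy : y ∈ VP ψ ρ v 0) :
    PP ρ v y = ((Fintype.card F : ℂ) ^ (Fintype.card ι - 1)) • y := by
  classical
  simp only [PP, LinearMap.sum_apply, mem_VP.1 hy _ (Kd.dot _), dotProduct_zero, AddChar.map_zero_eq_one, one_smul,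
    sum_const, card_univ]
  rw [Module.card_eq_pow_finrank (K := F), finrank_Kd hv, ← Nat.cast_smul_eq_nsmul ℂ, Nat.cast_pow]

variable [FiniteDimensional ℂ M]

theorem trace_PP {v : ι → F} (hv : v ≠ 0) : LinearMap.trace ℂ M (PP ρ v) =
    (Fintype.card F : ℂ) ^ (Fintype.card ι - 1) * finrank ℂ (VP ψ ρ v 0) := by
  have h0 : (Fintype.card F : ℂ) ^ (Fintype.card ι - 1) ≠ 0 := pow_ne_zero _ Wl.qne
  have : LinearMap.IsProj (VP ψ ρ v 0) (((Fintype.card F : ℂ) ^ (Fintype.card ι - 1))⁻¹ • PP ρ v) :=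
    ⟨fun y => Submodule.smul_mem _ _ (mem_VP.2 fun φ h => by rw [← End.mul_apply, (tv_PP h).1]; simp),
      fun y hy => by rw [LinearMap.smul_apply, PP_of_mem hv hy, inv_smul_smul₀ h0]⟩
  rw [← this.trace, map_smul, smul_eq_mul, mul_inv_cancel_left₀ h0]

theorem dvd_of_irr [ρ.IsIrreducible] {a : ℕ} (h : ∀ v, v ≠ 0 → finrank ℂ (VP ψ ρ v 0) = a) :
    finrank ℂ M ∣ (Fintype.card F ^ Fintype.card ι - 1) * (Fintype.card F ^ (Fintype.card ι - 1) * a) := by
  classical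
  haveI : Fintype G := Fintype.ofFinite _
  let T : Finset ((ι → F) × (ι → F)) := {p | p.1 ≠ 0 ∧ p.2 ⬝ᵥ p.1 = 0}
  let f : G → ℂ := fun g => #{p ∈ T | tvS p.1 p.2 = g}
  have le : ∀ g k : G, #{p ∈ T | tvS p.1 p.2 = g} ≤ #{p ∈ T | tvS p.1 p.2 = k * g * k⁻¹} := fun g k =>
    card_le_card_of_injOn (fun p => (k • p.1, cov k p.2)) (fun p hp => by
      simp only [T, coe_filter, mem_filter, mem_univ, true_and, Set.mem_setOf_eq] at hp ⊢
      exact ⟨⟨(smul_ne_zero_iff_ne k).2 hp.1.1, by rw [cov_dot_smul, hp.1.2]⟩, by rw [← tvS_conj k hp.1.2, hp.2]⟩)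
      fun p _ p' _ e => Prod.ext (MulAction.injective k (congrArg Prod.fst e)) (dot_ext fun x => by
        rw [← cov_dot_smul k, show cov k p.2 = cov k p'.2 from congrArg Prod.snd e, cov_dot_smul])
  have hf : IsClassFunction G f := fun g k => congrArg Nat.cast (le_antisymm (by simpa [mul_assoc] using le (k * g * k⁻¹) k⁻¹)
    (le g k))
  have h1 := H05.Cfsg.IsIrrCharacter.isIntegral_sum_div (H05.isIrrCharacter_character ρ) hf
    fun g => isIntegral_natCast _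
  have h2 : ∑ g, f g * ρ.character g = ((Fintype.card F ^ Fintype.card ι - 1) *
      (Fintype.card F ^ (Fintype.card ι - 1) * a) : ℕ) := by
    have : ∑ g, f g * ρ.character g = ∑ p ∈ T, ρ.character (tvS p.1 p.2) := by
      rw [← sum_fiberwise T fun p => tvS p.1 p.2]
      refine sum_congr rfl fun g _ => ?_
      rw [sum_congr rfl fun p hp => by rw [(mem_filter.1 hp).2], sum_const, nsmul_eq_mul]
    rw [this, sum_finset_product T (univ.erase 0) (fun v => {φ | φ ⬝ᵥ v = 0}) (by simp [T]),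
      sum_congr rfl (g := fun _ => (Fintype.card F : ℂ) ^ (Fintype.card ι - 1) * a), sum_const, card_erase_of_mem (mem_univ _)]
    · simp
    intro v hv
    rw [← h v (ne_of_mem_erase hv), ← trace_PP (ne_of_mem_erase hv), PP, map_sum]
    exact sum_subtype _ (by simp [mem_Kd]) fun φ => ρ.character (tvS v φ)
  rw [h2, Representation.char_one] at h1
  haveI := H05.nontrivial_of_isIrreducible ρ
  have h0 : finrank ℂ M ≠ 0 := finrank_pos.ne'
  generalize (Fintype.card F ^ Fintype.card ι - 1) * (Fintype.card F ^ (Fintype.card ι - 1) * a) = N at h1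
  rw [show (N : ℂ) / finrank ℂ M = algebraMap ℚ ℂ (N / finrank ℂ M) by simp,
    isIntegral_algebraMap_iff (algebraMap ℚ ℂ).injective] at h1
  obtain ⟨z, hz⟩ := IsIntegrallyClosed.isIntegral_iff.1 h1
  refine Int.natCast_dvd_natCast.1 ⟨z, Int.cast_injective (α := ℚ) ?_⟩
  simp only [algebraMap_int_eq, eq_intCast] at hz
  push_cast; rw [hz]; field_simp

include hψ

omit [FiniteDimensional ℂ M] in
theorem ex_psi {φ θ : ι → F} (h : θ ∉ F ∙ φ) : ∃ w, φ ⬝ᵥ w = 0 ∧ ψ (θ ⬝ᵥ w) ≠ 1 := by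
  obtain ⟨c, hc⟩ := AddChar.ne_one_iff.1 hψ
  obtain ⟨w, h1, h2⟩ := H09.exists_dot_eq_one h
  exact ⟨c • w, by simp [dotProduct_comm φ, h2 φ (Submodule.mem_span_singleton_self φ)],
    by simpa [dotProduct_comm θ, h1]⟩

theorem VH_le (hC : CC ψ ρ) {v φ θ : ι → F} (v0 : v ≠ 0) (h1 : φ ⬝ᵥ v = 0) (h2 : θ ⬝ᵥ v = 0) (h : θ ∉ F ∙ φ) :
    VH ψ ρ φ θ ≤ VP ψ ρ v 0 := by
  have := finrank_eq_add hψ Wl.qne v0 (fP ρ v) (fP_zero v) (fP_add v) (VH ψ ρ φ θ) (b := 0)
    (fun η y hy => mem_VH.2 fun w hw => by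
      have := congrArg (fun g => ρ g y) (tvS_comm (Kd.dot η) hw h1)
      have h3 := mem_VH.1 hy ((η.1 ⬝ᵥ w) • v) (by simp [h1])
      rw [← mul_assoc, tvS_commute (v := (η.1 ⬝ᵥ w) • v) (by simp [h1]) hw (by simp [h1]) hw, mul_assoc,
        tvS_commute (v := (η.1 ⬝ᵥ w) • v) (by simp [h1]) (Kd.dot η) (by simp [Kd.dot η]) h1] at this
      simp only [rho_mul, h3, mem_VH.1 hy w hw, map_smul, dotProduct_smul, h2, smul_zero, AddChar.map_zero_eq_one,
        one_smul] at this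
      exact this.symm)
    fun x hx => Submodule.finrank_eq_zero.2 (eq_bot_iff.2 fun y hy => by_contra fun y0 => ?_)
  · exact inf_eq_left.1 (Submodule.eq_of_le_of_finrank_eq inf_le_left (by simpa using this.symm))
  have h3 : φ ⬝ᵥ x = 0 := L.Wt.eq_of_mulShift hψ fun c => smul_left_injective ℂ y0 (by
    have a := mem_VP.1 hy.2 (c • φ) (by simp [h1])
    have b := mem_VH.1 hy.1 (c • v) (by simp [h1])
    rw [tvS_smul_left _ h1, a] at b
    simpa [h2] using b)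
  obtain ⟨w, hw, hw'⟩ := ex_psi hψ h
  exact hw' (smul_left_injective ℂ y0 (((mem_VH.1 hy.1 w hw).symm.trans (hC v x φ w y v0 hx hy.2 h1 h3 hw)).trans
    (one_smul _ _).symm))

theorem ex_VH (hn : 3 ≤ Fintype.card ι) (h : ρ.ker ≠ ⊤) {φ θ : ι → F} (h0 : φ ≠ 0) (h1 : θ ∉ F ∙ φ) :
    1 ≤ finrank ℂ (VH ψ ρ φ θ) := by
  obtain ⟨b, h2, h3⟩ := exists_mult' ρ hψ Wl.qne hn
  rw [h2 φ θ h0 h1]; exact mult_pos' hψ Wl.qne h h3

theorem base (hn : Fintype.card ι = 3) (hC : CC ψ ρ) (h : ρ.ker ≠ ⊤) :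
    Fintype.card F ^ 3 - 1 ≤ (Fintype.card F - 1) * finrank ℂ M ∨
      ∃ v, v ≠ 0 ∧ Fintype.card F ≤ finrank ℂ (VP ψ ρ v 0) := by
  classical
  have one : ∀ v : ι → F, finrank F (F ∙ v) + 1 < Fintype.card ι := fun v => by
    have := (finrank_span_le_card (R := F) ({v} : Set (ι → F))); simp at this; omega
  by_cases hc : ∃ v φ, v ≠ 0 ∧ φ ≠ 0 ∧ φ ⬝ᵥ v = 0 ∧ VP ψ ρ v 0 ⊓ VH ψ ρ φ 0 ≠ ⊥
  · obtain ⟨v, φ, v0, φ0, h1, h2⟩ := hc
    obtain ⟨θ, h3, h4⟩ := ex_ker _ (one φ) v0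
    refine .inr ⟨v, v0, ?_⟩
    have := card_mul_le (fH ρ φ) (VP ψ ρ v 0) (univ.image fun c : F => chi ψ φ (c • θ)) (m := 1) fun χ hχ => by
      obtain ⟨c, -, rfl⟩ := mem_image.1 hχ
      by_cases c0 : c = 0
      · rw [c0, zero_smul]; exact Submodule.one_le_finrank_iff.2 h2
      have h5 : c • θ ∉ F ∙ φ := by rwa [Submodule.smul_mem_iff _ c0]
      rw [inf_eq_right.2 (VH_le hψ hC v0 h1 (by simp [dotProduct_comm θ, h3]) h5)]
      exact ex_VH hψ hn.ge h φ0 h5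
    rwa [card_image_of_injective _ fun c d e => ?_, card_univ, mul_one] at this
    obtain ⟨w, h5, h6⟩ := H09.exists_dot_eq_one h4
    exact L.Wt.eq_of_mulShift hψ fun a => by
      simpa [chi, h5, mul_comm] using congrFun e ⟨a • w, mem_Kd.2 (by simp [h6 φ (Submodule.mem_span_singleton_self φ)])⟩
  push Not at hc
  have k : ∀ v v' y, v ≠ 0 → v' ∉ F ∙ v → y ∈ VP ψ ρ v 0 → PP ρ v' y = 0 := fun v v' y v0 h1 hy => by
    obtain ⟨u, hu⟩ : ∃ u, u ∉ Submodule.span F {v, v'} := by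
      by_contra! h
      have := fr2 v v'
      rw [Submodule.eq_top_iff'.2 h] at this; simp at this; omega
    obtain ⟨φ, e, h2⟩ := H09.exists_dot_eq_one hu
    have φ0 : φ ≠ 0 := by rintro rfl; simp at e
    have h3 := h2 v (Submodule.subset_span (by simp))
    have h4 := h2 v' (Submodule.subset_span (by simp))
    have h5 : ∑ c : F, ρ (tvS v' (c • φ)) y ∈ VP ψ ρ v 0 :=
      Submodule.sum_mem _ fun c _ => VP_tv hy (by simp [h4]) (by simp [h3]) (by simp)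
    have h6 : Submodule.span F {v, v'} = Kd φ := Submodule.eq_of_le_of_finrank_eq
      (fun x hx => mem_Kd.2 (by rw [dotProduct_comm, h2 x hx])) (by
        rw [finrank_Kd φ0, hn, H10.Form.finrank_span_pair_of_li (LinearIndependent.pair_iff'  v0 |>.2 fun a e =>
          h1 (Submodule.mem_span_singleton.2 ⟨a, e⟩))])
    have := (hc v φ v0 φ0 h3).le ⟨h5, mem_VH.2 fun w hw => by
      obtain ⟨a, b, rfl⟩ := Submodule.mem_span_pair.1 (h6.ge (mem_Kd.2 (by rwa [dotProduct_comm])))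
      rw [tvS_add_left (by simp [h3]) (by simp [h4]), rho_mul, tvS_smul_left _ h3, tvS_smul_left _ h4, map_sum,
        Fintype.sum_equiv (Equiv.addLeft b) _ (fun c => ρ (tvS v' (c • φ)) y) fun c => by
          rw [Equiv.coe_addLeft, add_smul, tvS_add (by simp [h4]) (by simp [h4]), rho_mul],
        mem_VP.1 h5 _ (by simp [h3])]
      simp⟩
    have := congrArg (PP ρ v') ((Submodule.mem_bot ℂ).1 this)
    simp only [map_sum, ← End.mul_apply, fun c : F => (tv_PP (ρ := ρ) (show (c • φ) ⬝ᵥ v' = 0 by simp [h4])).2,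
      sum_const, map_zero, ← Nat.cast_smul_eq_nsmul ℂ] at this
    simpa using this
  have ex : ∀ p : Projectivization F (ι → F), ∃ y ∈ VP ψ ρ p.rep 0, y ≠ 0 := fun p => by
    obtain ⟨φ, h1, h2⟩ := ex_ker ⊥ (by simp; omega) p.rep_nonzero
    obtain ⟨θ, h3, h4⟩ := ex_ker _ (one φ) p.rep_nonzero
    obtain ⟨y, hy, y0⟩ := (Submodule.ne_bot_iff _).1 (Submodule.one_le_finrank_iff.1 (ex_VH hψ hn.ge h h2 h4))
    exact ⟨y, VH_le hψ hC p.rep_nonzero (by rwa [dotProduct_comm]) (by rwa [dotProduct_comm]) h4 hy, y0⟩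
  choose y hy y0 using ex
  haveI := Fintype.ofFinite (Projectivization F (ι → F))
  have li : LinearIndependent ℂ y := Fintype.linearIndependent_iff.2 fun c e p => by
    have := congrArg (PP ρ p.rep) e
    rw [map_sum, sum_eq_single p (fun p' _ hp => by
      rw [map_smul, k _ _ _ p'.rep_nonzero (fun h => hp ?_) (hy p'), smul_zero]
      obtain ⟨a, ha⟩ := Submodule.mem_span_singleton.1 h
      rw [← p.mk_rep, ← p'.mk_rep, eq_comm, Projectivization.mk_eq_mk_iff']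
      exact ⟨a, ha⟩) (by simp), map_smul, PP_of_mem p.rep_nonzero (hy p)] at this
    simpa [y0, Wl.qne] using this
  have h1 := Projectivization.card F (ι → F)
  simp only [Nat.card_eq_fintype_card, Fintype.card_fun, hn] at h1
  rw [h1, mul_comm]
  exact .inl (Nat.mul_le_mul_left _ li.fintype_card_le_finrank)

omit hψ [FiniteDimensional ℂ M] [Fintype F] in
theorem arith {q N d : ℕ} (n : ℕ) (hq : 2 ≤ q) (hN : N * (q - 1) + 1 = q ^ (n + 2)) (hd : d + 1 = q * N) :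
    ¬ d ∣ (q ^ (n + 3) - 1) * (q ^ (n + 2) * (d - (q ^ (n + 2) - 1))) := fun h => by
  obtain ⟨r, rfl⟩ : ∃ r, q = r + 1 := ⟨q - 1, by omega⟩
  rw [Nat.add_sub_cancel] at hN
  have h1 : r + 2 ≤ N := by
    have : (r + 1) ^ 2 ≤ (r + 1) ^ (n + 2) := Nat.pow_le_pow_right (by omega) (by omega)
    exact Nat.le_of_mul_le_mul_right (c := r) (by nlinarith) (by omega)
  have h2 : (r + 1) ^ (n + 3) - 1 = r * (d + 2) := by
    rw [pow_succ, ← hN]; apply Nat.sub_eq_of_eq_add; nlinarith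
  have h3 : d - ((r + 1) ^ (n + 2) - 1) + 1 = N := by
    rw [← hN, Nat.add_sub_cancel]
    have : d + 1 = N * r + N := by rw [hd]; ring
    omega
  have hc : Nat.Coprime d (r + 1) := by
    refine (Nat.coprime_iff_gcd_eq_one).2 (Nat.dvd_one.1 ((Nat.dvd_add_right (Nat.gcd_dvd_left d (r + 1))).1 ?_))
    exact hd ▸ Dvd.dvd.mul_right (Nat.gcd_dvd_right _ _) _
  generalize d - ((r + 1) ^ (n + 2) - 1) = a at h h3
  rw [h2, mul_left_comm] at h
  have h4 := (hc.pow_right _).dvd_of_dvd_mul_left h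
  have h5 : d ∣ 2 * r * r := by
    have : 2 * r * r + (r + 1) * (r * (d + 2) * a) = d * (r * (r + 1) * a + 2 * r) := by
      subst h3; nlinarith
    exact (Nat.dvd_add_left (h4.mul_left _)).1 (this ▸ dvd_mul_right _ _)
  obtain ⟨k, hk⟩ := h5
  have h6 : r * r + 3 * r + 1 ≤ d := by nlinarith
  rcases (by omega : k = 0 ∨ k = 1 ∨ 2 ≤ k) with rfl | rfl | h7
  · simp at hk; omega
  · have : r + 1 ∣ 3 := (Nat.dvd_add_right (show r + 1 ∣ (r + 1) * (2 * r) from dvd_mul_right _ _)).1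
      ⟨N + 2, by nlinarith⟩
    have := Nat.le_of_dvd (by norm_num) this
    obtain rfl | rfl : r = 1 ∨ r = 2 := by omega
    all_goals omega
  · nlinarith

theorem big (hn : 3 ≤ Fintype.card ι) {b : ℕ} (hb : 2 ≤ b) {a : ℕ}
    (h : finrank ℂ M = a + (Fintype.card F ^ (Fintype.card ι - 1) - 1) * b) :
    Fintype.card F ^ Fintype.card ι - Fintype.card F ≤ (Fintype.card F - 1) * finrank ℂ M := by
  obtain ⟨n, hn⟩ : ∃ n, Fintype.card ι = n + 1 := ⟨Fintype.card ι - 1, by omega⟩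
  obtain ⟨r, hr⟩ : ∃ r, Fintype.card F = r + 2 := ⟨Fintype.card F - 2, by have := Fintype.one_lt_card (α := F); omega⟩
  rw [h, hn, hr, pow_succ', ← Nat.mul_sub_one, Nat.add_sub_cancel, show r + 2 - 1 = r + 1 from rfl]
  generalize (r + 2) ^ n - 1 = x
  nlinarith [Nat.mul_le_mul_left ((r + 1) * x) hb, Nat.zero_le (r * x), Nat.zero_le ((r + 1) * a)]

omit [AddCommGroup M] [Module ℂ M] [FiniteDimensional ℂ M] [Fintype ι] [DecidableEq ι] in
theorem main (n : ℕ) : ∀ (ι : Type) [Fintype ι] [DecidableEq ι] (M : Type) [AddCommGroup M] [Module ℂ M]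
    [FiniteDimensional ℂ M] (ρ : Representation ℂ (SpecialLinearGroup ι F) M), Fintype.card ι = n + 3 → CC ψ ρ →
    ρ.ker ≠ ⊤ → Fintype.card F ^ (n + 3) - Fintype.card F ≤ (Fintype.card F - 1) * finrank ℂ M := by
  induction n using Nat.strong_induction_on with | _ n ih => ?_
  intro ι _ _ M _ _ _ ρ hn hC h
  wlog hi : ρ.IsIrreducible generalizing M with H
  · obtain ⟨U, hU⟩ := H05.exists_isCompl_subrep (⟨ρ.invariants, fun g v hv => (hv g).symm ▸ hv⟩ : Subrepresentation ρ)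
    have hU := H05.isCompl_toSubmodule hU
    haveI : Nontrivial U.toSubmodule := Submodule.nontrivial_iff_ne_bot.2 fun e => h (eq_top_iff.2 fun g _ =>
      LinearMap.ext fun y => Submodule.eq_top_iff'.1 (show ρ.invariants = ⊤ from eq_top_of_isCompl_bot (e ▸ hU)) y g)
    obtain ⟨T, hT⟩ := H05.exists_irreducible_subrep U.toRepresentation
    refine (H _ T.toRepresentation (hC.of_inj (U.toSubmodule.subtype ∘ₗ T.toSubmodule.subtype)
      (Subtype.val_injective.comp Subtype.val_injective) fun _ _ => rfl) (fun e => ?_) hT).trans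
      (Nat.mul_le_mul_left _ ((Submodule.finrank_le _).trans (Submodule.finrank_le _)))
    haveI := H05.nontrivial_of_isIrreducible T.toRepresentation
    obtain ⟨y, y0⟩ := exists_ne (0 : T.toSubmodule)
    exact y0 (Subtype.ext (Subtype.ext (Submodule.disjoint_def.1 hU.disjoint _ (fun g => congrArg (·.1.1)
      (LinearMap.congr_fun (e ▸ Subgroup.mem_top g : g ∈ T.toRepresentation.ker) y)) y.1.2)))
  obtain ⟨b, h1, h2⟩ := exists_mult ρ hψ Wl.qne (by omega)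
  obtain rfl | hb := (mult_pos hψ Wl.qne h h2).eq_or_lt
  swap
  · obtain ⟨i⟩ : Nonempty ι := Fintype.card_pos_iff.1 (by omega)
    exact hn ▸ big hψ (by omega) hb (h2 (Pi.single i 1) (by simp))
  suffices k : ∃ v, v ≠ 0 ∧ Fintype.card F ^ (n + 2) - Fintype.card F ≤ (Fintype.card F - 1) * finrank ℂ (VP ψ ρ v 0) ∨
      Fintype.card F ^ (n + 3) - 1 ≤ (Fintype.card F - 1) * finrank ℂ M by
    obtain ⟨v, ⟨v0, k⟩ | k⟩ := k
    swap
    · exact (Nat.sub_le_sub_left Fintype.card_pos _).trans k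
    have h3 := dvd_of_irr (ψ := ψ) (ρ := ρ) (a := finrank ℂ M - (Fintype.card F ^ (n + 2) - 1)) fun v hv => by
      have := h2 v hv
      rw [hn] at this
      exact Nat.eq_sub_of_add_eq (by simpa using this.symm)
    have h4 := h2 v v0
    have hq := Fintype.one_lt_card (α := F)
    obtain ⟨N, hN⟩ : Fintype.card F - 1 ∣ Fintype.card F ^ (n + 2) - 1 := by
      simpa using Nat.sub_dvd_pow_sub_pow (Fintype.card F) 1 (n + 2)
    have h5 : 1 ≤ Fintype.card F ^ (n + 2) := Nat.one_le_pow _ _ (by omega)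
    have h6 := fun hd => arith (N := N) n hq (by rw [mul_comm, ← hN]; omega) hd (by simpa [hn] using h3)
    rw [pow_succ', ← Nat.mul_sub_one, hN, mul_left_comm]
    refine Nat.mul_le_mul_left _ ?_
    simp only [hn, show n + 3 - 1 = n + 2 from rfl, mul_one, hN] at h4
    obtain ⟨r, hr⟩ : ∃ r, Fintype.card F = r + 1 := ⟨Fintype.card F - 1, by omega⟩
    rw [show Fintype.card F ^ (n + 2) = (Fintype.card F - 1) * N + 1 by omega] at k
    rw [hr, Nat.add_sub_cancel] at k h4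
    change _ = finrank ℂ (VP ψ ρ v 0) + _ at h4
    have h7 : N ≤ finrank ℂ (VP ψ ρ v 0) + 1 := Nat.le_of_mul_le_mul_left (show r * _ ≤ r * _ by
      rw [mul_add r]; omega) (by omega)
    rw [hr] at h6 ⊢
    have : (r + 1) * N = r * N + N := by ring
    have h8 : finrank ℂ M + 1 ≠ (r + 1) * N := h6
    omega
  rcases n with _ | n
  · rcases base hψ hn hC h with k | ⟨v, v0, k⟩
    · exact ⟨0, .inr k⟩
    · exact ⟨v, .inl ⟨v0, by rw [zero_add, sq, ← Nat.mul_sub_one, mul_comm]; exact Nat.mul_le_mul_left _ k⟩⟩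
  obtain ⟨j, e, v, e1, e2, e3, e4, e5, e6⟩ := exists_emb (F := F) (ι := ι) (κ := Fin (n + 3)) (by simpa using hn)
  have v0 : v ≠ 0 := by rintro rfl; simp at e3
  have e0 : ∀ a b c, a ∉ F ∙ b → e a + c • v ∉ F ∙ e b := fun a b (c : F) h1 h2 => by
    obtain ⟨φ, h3, h4⟩ := H09.exists_dot_eq_one h1
    obtain ⟨s, hs⟩ := Submodule.mem_span_singleton.1 h2
    simpa [e1, e2, h3, h4 b (Submodule.mem_span_singleton_self b)] using congrArg (e φ ⬝ᵥ ·) hs
  have e7 : ∀ a, a ≠ 0 → e a ≠ 0 := fun a h => by simpa using e0 a 0 0 (by simpa using h)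
  let X : Subrepresentation (ρ.comp j : Representation ℂ _ M) :=
    ⟨VP ψ ρ v 0, fun g y hy => VP_map hy one_ne_zero (by simp [e5]) (by simp)⟩
  refine ⟨v, .inl ⟨v0, ih n (by omega) _ _ X.toRepresentation (by simp) (fun u x φ w y u0 hx hy h3 h4 h5 =>
    Subtype.ext ?_) fun hk => ?_⟩⟩
  · have k : e u ⬝ᵥ v = 0 := e2 u
    refine Wl.dec (f := fun c => ρ (tvS (e u) (c • v))) (S := wt (fun φ : Kd u => ρ (j (tvS u φ))) (chi ψ u x))
      (N := LinearMap.eqLocus (ρ (j (tvS w φ))) LinearMap.id) hψ (by simp [tvS_zero])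
      (fun a b => by rw [add_smul, tvS_add, map_mul] <;> simp [dotProduct_comm v, k]) (fun c z hz θ => ?_)
      (fun b z hz hb => ?_) fun θ => congrArg Subtype.val (hy θ)
    · rw [← rho_mul, e6 _ _ (Kd.dot θ), tvS_commute, rho_mul, ← e6 _ _ (Kd.dot θ), hz, map_smul] <;>
        simp [dotProduct_comm v, k, e1, Kd.dot θ]
    · rw [LinearMap.mem_eqLocus, e6 _ _ h5]
      refine hC (e u) (e x + b • v) _ _ z (e7 u u0) (e0 _ _ _ hx) (mem_VP.2 fun θ hθ => ?_) (by rw [e1, h3])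
        (by simp [e1, e2, h4]) (by rw [e1, h5])
      obtain ⟨a, c, rfl⟩ := e4 θ
      have ha : a ⬝ᵥ u = 0 := by simpa [e1, dotProduct_comm v, k] using hθ
      rw [tvS_add (by rw [e1, ha]) (by simp [dotProduct_comm v, k]), rho_mul, Wl.mem_eig.1 hb, map_smul, ← e6 _ _ ha,
        hz ⟨a, mem_Kd.2 ha⟩, smul_smul, chi, ← AddChar.map_add_eq_mul]
      simp [e1, e2, e3, dotProduct_comm v, add_comm, mul_comm]
  · let φ : Fin (n + 3) → F := Pi.single 0 1
    have h3 : (Pi.single 1 1 : Fin (n + 3) → F) ∉ F ∙ φ := notMem_span_of_dot (φ := Pi.single 1 1) (by simp [φ]) (by simp)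
    have h4 : e (Pi.single 1 1) ∉ F ∙ e φ := by simpa using e0 _ _ 0 h3
    obtain ⟨y, hy, y0⟩ := (Submodule.ne_bot_iff _).1 (Submodule.one_le_finrank_iff.1
      (ex_VH hψ (by omega) h (e7 φ (by simp [φ])) h4))
    obtain ⟨w, hw, hw'⟩ := ex_psi hψ h3
    have := congrArg Subtype.val (LinearMap.congr_fun (hk ▸ Subgroup.mem_top (tvS w φ) : _ ∈ X.toRepresentation.ker)
      ⟨y, VH_le hψ hC v0 (e2 _) (e2 _) h4 hy⟩)
    refine hw' (smul_left_injective ℂ y0 ?_)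
    have h5 := mem_VH.1 hy (e w) (by rw [e1, hw])
    rw [← e6 _ _ hw, e1] at h5
    exact (h5.symm.trans this).trans (one_smul _ _).symm

omit hψ [AddCommGroup M] [Module ℂ M] [FiniteDimensional ℂ M] in
theorem ex_pow {k : ℕ} (h : ¬ Fintype.card F - 1 ∣ k) : ∃ a : F, a ≠ 0 ∧ a ^ k ≠ 1 := by
  classical
  obtain ⟨g, hg⟩ := IsCyclic.exists_ofOrder_eq_natCard (α := Fˣ)
  refine ⟨g, g.ne_zero, fun e => h ?_⟩
  rw [← H09.card_units_field, ← hg]
  exact orderOf_dvd_of_pow_eq_one (Units.ext (by simpa using e))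

omit hψ [AddCommGroup M] [Module ℂ M] [FiniteDimensional ℂ M] in
theorem bound {n k : ℕ} (hn : 3 ≤ n) (h3 : n = 3 → ¬ Fintype.card F - 1 ∣ 3) (h4 : n = 4 → ¬ Fintype.card F - 1 ∣ 2)
    (ρ : Representation ℂ (SpecialLinearGroup (Fin n) F) (Fin k → ℂ)) (h : ρ.ker ≠ ⊤) :
    Fintype.card F ^ n - Fintype.card F ≤ (Fintype.card F - 1) * k := by
  obtain ⟨ψ, hψ⟩ := L.Wt.exists_addChar (F := F) (K := ℂ) (by simpa using (CharP.char_is_prime F (ringChar F)).ne_zero)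
  have hn' : 3 ≤ Fintype.card (Fin n) := by simpa using hn
  obtain ⟨b, h1, h2⟩ := exists_mult ρ hψ Wl.qne hn'
  obtain rfl | hb := (mult_pos hψ Wl.qne h h2).eq_or_lt
  · obtain ⟨n, rfl⟩ := Nat.exists_eq_add_of_le' hn
    simpa using main hψ n _ _ ρ (by simp) (cc_of_one hn' h1 (fun e => ex_pow (h3 (by simpa using e)))
      fun e => ex_pow (h4 (by simpa using e))) h
  · simpa using big hψ hn' hb (h2 (Pi.single ⟨0, by omega⟩ 1) (by simp))

end H28.Sr
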