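import Cfsg.Agent.H28.Om7
import Cfsg.Agent.H28.Sr1
import Cfsg.Agent.L.MinRep

/-!
# The smallest degrees of complex representations of orthogonal groups (namespace `H28.Om`)
-/

set_option autoImplicit false
set_option linter.style.haveILetI false

open Module Finset H10 H10.Form Submodule

namespace H28.Om

theorem num_even {q A ε d k n f : ℤ} (hq : 2 ≤ q) (hA : 1 ≤ A) (hε : ε = 1 ∧ 4 ≤ q ∨ ε = -1)
    (hf : (q ^ 2 - 1) * f = (q ^ 4 * A - ε) * (q ^ 2 * A + ε)) (hk : 0 ≤ k) (hd : 0 ≤ d)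
    (hn : (q ^ 3 * A - ε) * (q ^ 2 * A + ε) ≤ n) (h : n = (q ^ 3 * A - ε) * (q ^ 2 * A + ε) ∨ 2 * q ≤ k)
    (e : d * (q ^ 2 - 1) * (q ^ 6 * A ^ 2 + q - k) = q * ((q ^ 4 * A - ε) * (q ^ 3 * A + ε)) * n) : q * f ≤ d := by
  have q0 : 0 < q := by omega
  have q1 : 0 < q ^ 2 - 1 := by nlinarith
  have ε2 : ε * ε = 1 := by rcases hε with h | h <;> simp [h]
  have ε1 : ε ≤ 1 ∧ -1 ≤ ε := by rcases hε with h | h <;> simp [h]
  have b : ∀ i, 2 ≤ q ^ (i + 1) * A := fun i => by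
    have : q ^ 1 ≤ q ^ (i + 1) := pow_le_pow_right₀ (by omega) (by omega)
    nlinarith
  have b1 := b 1
  have b2 := b 2
  have b3 := b 3
  have b0 := b 0
  norm_num at b0 b1 b2 b3
  have f0 : 0 < f := by
    by_contra! h
    have : 0 < (q ^ 4 * A - ε) * (q ^ 2 * A + ε) := mul_pos (by omega) (by omega)
    nlinarith
  have P1 : 4 ≤ q ^ 6 * A ^ 2 := by nlinarith
  by_cases hk' : q + 1 ≤ k
  · refine le_of_mul_le_mul_right (a := (q ^ 2 - 1) * (q ^ 6 * A ^ 2 - 1)) ?_ (mul_pos q1 (by omega))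
    have h1 : q * ((q ^ 4 * A - ε) * (q ^ 3 * A + ε)) * ((q ^ 3 * A - ε) * (q ^ 2 * A + ε)) ≤
        q * ((q ^ 4 * A - ε) * (q ^ 3 * A + ε)) * n :=
      mul_le_mul_of_nonneg_left hn (mul_nonneg q0.le (mul_nonneg (by omega) (by omega)))
    have h2 : d * (q ^ 2 - 1) * (q ^ 6 * A ^ 2 + q - k) ≤ d * (q ^ 2 - 1) * (q ^ 6 * A ^ 2 - 1) :=
      mul_le_mul_of_nonneg_left (by omega) (mul_nonneg hd q1.le)
    calc _ = q * ((q ^ 4 * A - ε) * (q ^ 3 * A + ε)) * ((q ^ 3 * A - ε) * (q ^ 2 * A + ε)) := by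
          linear_combination q * (q ^ 6 * A ^ 2 - 1) * hf + q * (q ^ 4 * A - ε) * (q ^ 2 * A + ε) * ε2
      _ ≤ _ := by rw [← mul_assoc d]; exact h1.trans (e ▸ h2)
  obtain rfl := h.resolve_right (by omega)
  by_contra! hc
  have h1 : (q * f - d) * (q ^ 6 * A ^ 2 + q - k) = q * f * (q - k + 1) := mul_left_cancel₀ q1.ne' (by
    linear_combination -e + q * (q ^ 6 * A ^ 2 - 1) * hf + q * (q ^ 4 * A - ε) * (q ^ 2 * A + ε) * ε2)
  have h2 : q * f * (q + 1) < 2 * (q ^ 6 * A ^ 2) := by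
    refine lt_of_mul_lt_mul_left (a := q - 1) ?_ (by omega)
    rw [show (q - 1) * (q * f * (q + 1)) = q * (q ^ 6 * A ^ 2 + ε * (q ^ 4 * A - q ^ 2 * A) - 1) by
      linear_combination q * hf - q * ε2]
    have h3 : q ^ 5 * A ≤ q ^ 6 * A ^ 2 := by
      have h0 : 0 ≤ q ^ 5 * A := by positivity
      have := mul_le_mul_of_nonneg_left b0 h0
      linarith
    have h4 : q ^ 2 * A ≤ q ^ 4 * A := mul_le_mul_of_nonneg_right (pow_le_pow_right₀ (by omega) (by omega)) (by omega)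
    rcases hε with ⟨rfl, h⟩ | rfl <;> nlinarith
  have h3 : q * f - d = 1 := by
    by_contra h3
    have : 2 ≤ q * f - d := by omega
    nlinarith [mul_pos q0 f0]
  rw [h3, one_mul] at h1
  obtain ⟨c, rfl⟩ : q ∣ k := ⟨q ^ 5 * A ^ 2 + 1 - f * (q - k + 1), by linear_combination -h1⟩
  have h4 : q ^ 5 * A ^ 2 + 1 - c = f * (q - q * c + 1) := mul_left_cancel₀ q0.ne' (by linear_combination h1)
  have h5 : q ^ 4 * A ≤ q ^ 5 * A ^ 2 - q ^ 4 * A := by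
    have := mul_le_mul_of_nonneg_left b0 (show 0 ≤ q ^ 4 * A by positivity)
    linarith
  have h6 : q ^ 2 * A ≤ q ^ 4 * A := mul_le_mul_of_nonneg_right (pow_le_pow_right₀ (by omega) (by omega)) (by omega)
  obtain rfl | rfl : c = 0 ∨ c = 1 := by
    have : 0 ≤ c := by nlinarith
    have : c < 2 := by nlinarith
    omega
  · have h7 : (q - 1) * (q ^ 5 * A ^ 2 + 1) = q ^ 6 * A ^ 2 + ε * (q ^ 4 * A - q ^ 2 * A) - 1 := by
      linear_combination (q - 1) * h4 + hf - ε2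
    have h8 : q < q ^ 4 * A := by
      have : q ^ 3 * A * q = q ^ 4 * A := by ring
      nlinarith
    rcases hε with ⟨rfl, h⟩ | rfl <;> nlinarith
  · have : f = q ^ 5 * A ^ 2 := by linear_combination -h4
    subst this
    nlinarith

theorem num_odd {q B d k f : ℤ} (hq : 4 ≤ q) (hB : 1 ≤ B) (hf : (q ^ 2 - 1) * f = q ^ 4 * B - 1) (hk : 0 ≤ k)
    (hd : 0 ≤ d) (e : d * (q ^ 2 - 1) * (q ^ 5 * B + q - k) = q * (q ^ 6 * B - 1) * (q ^ 4 * B - 1)) :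
    1 + q ^ 2 * f ≤ d := by
  have q0 : 0 < q := by omega
  have q1 : 0 < q ^ 2 - 1 := by nlinarith
  have b : q ^ 2 * 16 ≤ q ^ 4 * B := by nlinarith [show 16 ≤ q ^ 2 by nlinarith, sq_nonneg (q ^ 2)]
  have f0 : 0 < f := by nlinarith
  have h0 : d * (q ^ 5 * B + q - k) = (1 + q ^ 2 * f) * (q ^ 5 * B - q) := mul_left_cancel₀ q1.ne' (by
    linear_combination e - q ^ 2 * (q ^ 5 * B - q) * hf)
  have P1 : 16 * q < q ^ 5 * B := by nlinarith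
  by_cases hk' : 2 * q ≤ k
  · refine le_of_mul_le_mul_right (a := q ^ 5 * B - q) ?_ (by omega)
    rw [← h0]
    exact mul_le_mul_of_nonneg_left (by omega) hd
  by_contra! hc
  have h1 : (1 + q ^ 2 * f - d) * (q ^ 5 * B + q - k) = (1 + q ^ 2 * f) * (2 * q - k) := by linear_combination -h0
  have h2 : (1 + q ^ 2 * f) * (2 * q) < 3 * (q ^ 5 * B - q) := by
    refine lt_of_mul_lt_mul_left (a := q ^ 2 - 1) ?_ q1.le
    rw [show (q ^ 2 - 1) * ((1 + q ^ 2 * f) * (2 * q)) = 2 * q * (q ^ 2 * (q ^ 4 * B) - 1) by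
      linear_combination 2 * q ^ 3 * hf, show q ^ 5 * B = q * (q ^ 4 * B) by ring]
    generalize q ^ 4 * B = X at b
    have : 16 ≤ q ^ 2 := by nlinarith
    generalize q ^ 2 = Y at *
    nlinarith [mul_pos q0 (show 0 < Y * X - 3 * X - 3 * Y + 5 by nlinarith)]
  have F0 : 0 < 1 + q ^ 2 * f := by positivity
  obtain h3 | h3 : 1 + q ^ 2 * f - d = 1 ∨ 1 + q ^ 2 * f - d = 2 := by
    have : 1 + q ^ 2 * f - d < 3 := by nlinarith
    omega
  · rw [h3] at h1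
    have := Int.le_of_dvd q0 (show q ^ 2 ∣ q from ⟨q ^ 3 * B - f * (2 * q - k), by linear_combination -h1⟩)
    nlinarith
  · rw [h3] at h1
    obtain ⟨c, rfl⟩ : q ^ 2 ∣ k := ⟨2 * q ^ 3 * B - f * (2 * q - k), by linear_combination -h1⟩
    obtain rfl : c = 0 := by
      have : 0 ≤ c := by nlinarith
      have : c < 1 := by nlinarith
      omega
    have : f = q ^ 2 * B := mul_left_cancel₀ (show 2 * q ^ 3 ≠ 0 by positivity) (by linear_combination -h1)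
    subst this
    nlinarith

theorem ex_f (q ε : ℤ) (t : ℕ) (hε : ε * ε = 1) : ∃ f, (q ^ 2 - 1) * f = (q ^ 4 * q ^ t - ε) * (q ^ 2 * q ^ t + ε) := by
  obtain ⟨s, rfl | rfl⟩ := Nat.even_or_odd' t
  all_goals obtain ⟨u, hu⟩ := sub_dvd_pow_sub_pow (q ^ 2) 1 s
  · exact ⟨(q ^ 2 + 1 + q ^ 4 * u) * (1 + ε) + (1 + q ^ 2 * u) * (1 - ε) + (q ^ 2 - 1) * (q ^ 2 + 1 + q ^ 4 * u) *
      (1 + q ^ 2 * u), by rw [pow_mul, eq_add_of_sub_eq hu]; linear_combination hε⟩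
  · exact ⟨1 + (q ^ 3 + q + q ^ 5 * u) * (q + ε) + (q + q ^ 3 * u) * (q - ε) + (q ^ 2 - 1) * (q ^ 3 + q + q ^ 5 * u) *
      (q + q ^ 3 * u), by rw [pow_succ _ (2 * s), pow_mul, eq_add_of_sub_eq hu]; linear_combination hε⟩

variable {F V : Type*} [Field F] [AddCommGroup V] [Module F V] {φ : Form F V} [hq : Fact φ.IsQuad]
  {M : Type*} [AddCommGroup M] [Module ℂ M] {ρ : Representation ℂ φ.E M} {ψ : AddChar F ℂ} {a : F} [Fintype F]
  [φ.Nondeg] [FiniteDimensional F V]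

local notation "q" => Fintype.card F

theorem cnt_minus_ne {m : ℕ} (hn : finrank F V = 2 * m + 2) (hT : ¬ φ.HasTS (m + 1)) (ha : a ≠ 0) :
    φ.cnt a = q ^ m * (q ^ (m + 1) + 1) := by
  refine hyp_induction 2 (fun m V _ _ φ => ¬ φ.HasTS (m + 1) → φ.cnt a = q ^ m * (q ^ (m + 1) + 1)) ?_ ?_ one_le_two
    m V φ hq.out hn hT
  · intro V _ _ _ φ _ h hn h1
    rw [h.cnt_of_aniso_two hn (fun v hv => by_contra fun h0 => h1 (hasTS_one_iff.2 ⟨v, h0, hv⟩)) ha]; simp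
  · intro m V _ _ _ φ _ h hn e f hyp h1 h2
    rw [h.cnt_of_hyp hyp, h1 fun h0 => h2 ((hasTS_succ_iff hyp).2 h0), hn, Nat.card_eq_fintype_card,
      show 2 * (m + 1) + 2 - 2 = 2 * m + 2 by omega]
    zify [Fintype.card_pos (α := F)]; ring

variable [FiniteDimensional ℂ M] [ρ.IsIrreducible]

theorem mainB (hψ : ψ ≠ 1) (ho : One ρ ψ a) (hC : HC ρ ψ) {r : ℕ} (hD : finrank F V = r + 7)
    (ha : a ≠ 0 → φ.cnt 0 < φ.cnt a) : ∃ k c n : ℤ, 0 ≤ k ∧ φ.cnt 0 = q * c + (q - 1) * (q : ℤ) ^ (r + 5) ∧ c - 1 ≤ n ∧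
      (a = 0 ∧ n = c - 1 ∨ 2 * q ≤ k) ∧
      finrank ℂ M * ((q : ℤ) ^ 2 - 1) * (q ^ (r + 5) + q - k) = q * (φ.cnt 0 - 1) * n := by
  haveI : Finite V := Module.finite_of_finite F
  haveI := Fintype.ofFinite V
  obtain ⟨p, f, p₁, f₁, h⟩ := ex_fr (φ := φ) (by omega)
  obtain ⟨k, hk⟩ := ident hψ ho hC hD h
  obtain ⟨h1, h2⟩ := h.cnt (r := r + 3) hD 0
  obtain ⟨h3, h4⟩ := h.cnt (r := r + 3) hD a
  have h5 := ho.dim hψ h.h
  have q0 := Fintype.card_pos (α := F)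
  have h6 : a = 0 ∧ io a = 1 ∨ cn φ (pp φ (pp φ ⊤ p f) p₁ f₁) 0 < cn φ (pp φ (pp φ ⊤ p f) p₁ f₁) a ∧ io a = 0 := by
    by_cases a0 : a = 0
    · simp [a0, io]
    have := ha a0
    rw [h1, h3, h2, h4, Nat.add_lt_add_iff_right, Nat.mul_lt_mul_left q0, Nat.add_lt_add_iff_right,
      Nat.mul_lt_mul_left q0] at this
    exact .inr ⟨this, by simp [io, Ne.symm a0]⟩
  zify [q0] at h1 h2 h3 h4 h5 h6
  refine ⟨k + q * (cn φ (pp φ (pp φ ⊤ p f) p₁ f₁) a - io a - cn φ (pp φ (pp φ ⊤ p f) p₁ f₁) 0 + 1), cn φ (pp φ ⊤ p f) 0,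
    cn φ (pp φ ⊤ p f) a - io a, ?_, h1, ?_, ?_, ?_⟩
  · rcases h6 with ⟨rfl, h⟩ | ⟨h, h'⟩
    · simp [h]
    · exact add_nonneg (by positivity) (mul_nonneg (by positivity) (by omega))
  · rcases h6 with ⟨rfl, h⟩ | ⟨h, h'⟩
    · simp [h]
    · rw [h2, h4]; nlinarith
  · rcases h6 with ⟨rfl, h⟩ | ⟨h, h'⟩
    · simp [h]
    · right; nlinarith
  · rw [eq_sub_of_add_eq h5.symm] at hk
    rw [h2] at h1
    linear_combination hk - (finrank ℂ M : ℤ) * q * h1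

theorem ex_sq (h3 : 3 < q) : ∃ c : F, c ≠ 0 ∧ c * c ≠ 1 := by
  simpa [sq] using Sr.ex_pow (F := F) (k := 2) fun h => by have := Nat.le_of_dvd two_pos h; omega

theorem ex_psi : ∃ ψ : AddChar F ℂ, ψ ≠ 1 :=
  L.Wt.exists_addChar (by simpa using (CharP.char_is_prime F (ringChar F)).ne_zero)

theorem bound_odd (hk : ρ.ker ≠ ⊤) {t : ℕ} (hD : finrank F V = 2 * (t + 3) + 1) (h3 : 3 < q) :
    q ^ (2 * (t + 3)) - 1 ≤ (q ^ 2 - 1) * finrank ℂ M := by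
  obtain ⟨ψ, hψ⟩ := ex_psi (F := F)
  obtain ⟨c, c0, c1⟩ := ex_sq h3
  have q0 := Fintype.card_pos (α := F)
  have hB : (1 : ℤ) ≤ (q : ℤ) ^ (2 * t) := one_le_pow₀ (by exact_mod_cast q0)
  have hq' : (4 : ℤ) ≤ q := by exact_mod_cast h3
  zify [Nat.one_le_pow _ _ q0]
  rcases split hψ (r := 2 * t) hD hk with h | ⟨a, ho⟩
  · zify [q0] at h
    rw [show 2 * (t + 3) = 2 * t + 2 + 4 by ring, pow_add]
    have : 0 ≤ (q : ℤ) ^ (2 * t + 2) := by positivity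
    have h1 : (16 : ℤ) ≤ q ^ 2 := by nlinarith
    have h2 : (q : ℤ) ^ 4 ≤ 2 * (q ^ 2 - 1) ^ 2 := by nlinarith
    nlinarith [mul_le_mul_of_nonneg_left h (show (0 : ℤ) ≤ q ^ 2 - 1 by omega), mul_le_mul_of_nonneg_left h2 this]
  obtain rfl : a = 0 := by_contra fun a0 => c1 (ho.sq (by omega) a0 c0)
  obtain ⟨k, c, n, h1, h2, h4, h5, h6⟩ := mainB hψ ho (hc_big ho (by omega) c0 c1) (r := 2 * t) hD (by simp)
  rw [hq.out.cnt_odd hD, Nat.card_eq_fintype_card] at h2 h6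
  push_cast at h2 h6
  have h7 : c = q ^ 4 * q ^ (2 * t) := mul_left_cancel₀ (show (q : ℤ) ≠ 0 by omega) (by linear_combination -h2)
  obtain ⟨f, hf⟩ := sub_dvd_pow_sub_pow ((q : ℤ) ^ 2) 1 (t + 2)
  have h8 : ((q : ℤ) ^ 2 - 1) * f = q ^ 4 * q ^ (2 * t) - 1 := by rw [← hf]; ring
  have h9 : (0 : ℤ) ≤ q ^ 2 - 1 := by nlinarith
  rw [show (q : ℤ) ^ (2 * (t + 3)) = q ^ 6 * q ^ (2 * t) by ring] at *
  rw [show (q : ℤ) ^ (2 * t + 5) = q ^ 5 * q ^ (2 * t) by ring] at h6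
  have h10 : (16 : ℤ) ≤ q ^ 2 := by nlinarith
  have h11 : (16 : ℤ) ≤ q ^ 4 * q ^ (2 * t) := by
    nlinarith [mul_le_mul_of_nonneg_left hB (show (0 : ℤ) ≤ q ^ 4 by positivity)]
  rcases h5 with ⟨-, rfl⟩ | h5
  · have := num_odd hq' hB h8 h1 (d := finrank ℂ M) (by positivity) (by rw [h7] at h6; linear_combination h6)
    linarith [mul_le_mul_of_nonneg_left this h9, congrArg ((q : ℤ) ^ 2 * ·) h8]
  · refine le_of_mul_le_mul_right (a := (q : ℤ) * (q ^ 4 * q ^ (2 * t) - 1)) ?_ (mul_pos (by omega) (by omega))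
    have := mul_le_mul_of_nonneg_left h4 (show (0 : ℤ) ≤ q * (q ^ 6 * q ^ (2 * t) - 1) from
      mul_nonneg (by omega) (by nlinarith))
    have := mul_le_mul_of_nonneg_left h5 (show (0 : ℤ) ≤ finrank ℂ M * (q ^ 2 - 1) by positivity)
    rw [h7] at *
    linarith

theorem bound_even (hk : ρ.ker ≠ ⊤) {t : ℕ} (hD : finrank F V = 2 * (t + 3) + 2) {ε : ℤ}
    (hε : ε = 1 ∧ 3 < q ∨ ε = -1 ∧ ¬ φ.HasTS (t + 3 + 1))
    (hc : (φ.cnt 0 : ℤ) = (q ^ 4 * q ^ t - ε) * (q ^ 3 * q ^ t + ε) + 1) :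
    ((q : ℤ) ^ 4 * q ^ t - ε) * (q ^ 3 * q ^ t + ε * q) ≤ (q ^ 2 - 1) * finrank ℂ M := by
  obtain ⟨ψ, hψ⟩ := ex_psi (F := F)
  have q0 := Fintype.card_pos (α := F)
  have hq' : (2 : ℤ) ≤ q := by exact_mod_cast Fintype.one_lt_card
  have hA : (1 : ℤ) ≤ (q : ℤ) ^ t := one_le_pow₀ (by omega)
  have ε2 : ε * ε = 1 := by rcases hε with h | h <;> simp [h]
  have hε' : ε = 1 ∧ (4 : ℤ) ≤ q ∨ ε = -1 := hε.imp (fun h => ⟨h.1, by exact_mod_cast h.2⟩) And.left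
  have h9 : (0 : ℤ) ≤ q ^ 2 - 1 := by nlinarith
  rcases split hψ (r := 2 * t + 1) hD hk with h | ⟨a, ho⟩
  · zify [q0] at h
    have h0 := mul_le_mul_of_nonneg_left h h9
    rw [show (q : ℤ) ^ (2 * t + 1 + 2) = q ^ 3 * (q ^ t) ^ 2 by ring] at h0
    generalize (q : ℤ) ^ t = A at *
    generalize (q : ℤ) = x at *
    have h1 : 4 ≤ x ^ 2 := by nlinarith
    have h2 : 0 < x ^ 3 * A ^ 2 := by positivity
    have h3 : x ^ 2 * A ≤ x ^ 4 * A := mul_le_mul_of_nonneg_right (pow_le_pow_right₀ (by omega) (by omega)) (by omega)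
    have h4 := mul_le_mul_of_nonneg_left h3 (show 0 ≤ x by omega)
    rcases hε' with ⟨rfl, h⟩ | rfl
    · have h5 : x ^ 4 + x ^ 2 ≤ 2 * (x ^ 2 - 1) ^ 2 := by nlinarith [show 16 ≤ x ^ 2 by nlinarith]
      have h6 : x ^ 5 * A * 1 ≤ x ^ 5 * A * A := mul_le_mul_of_nonneg_left hA (by positivity)
      have : 0 < x ^ 3 * A := by positivity
      linarith [mul_le_mul_of_nonneg_left h5 h2.le]
    · have h5 : x ^ 4 ≤ 2 * (x ^ 2 - 1) ^ 2 := by nlinarith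
      linarith [mul_le_mul_of_nonneg_left h5 h2.le]
  have ha : a ≠ 0 → ε = -1 ∧ φ.cnt a = q ^ (t + 3) * (q ^ (t + 3 + 1) + 1) := fun a0 => by
    rcases hε with h | h
    · obtain ⟨c, c0, c1⟩ := ex_sq h.2
      exact absurd (ho.sq (by omega) a0 c0) c1
    · exact ⟨h.1, cnt_minus_ne hD h.2 a0⟩
  by_cases h8 : t = 0 ∧ a ≠ 0
  · obtain ⟨rfl, a0⟩ := h8
    obtain ⟨rfl, h1⟩ := ha a0
    obtain ⟨p, f, p₁, f₁, h⟩ := ex_fr (φ := φ) (by omega)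
    have h2 := (h.cnt (r := 4) hD a).1
    have h3 := ho.dim hψ h.h
    rw [h1] at h2
    simp only [io, if_neg a0.symm] at h3
    zify [q0] at h2 h3
    have h4 : (cn φ (pp φ ⊤ p f) a : ℤ) = q ^ 5 + q ^ 2 := mul_left_cancel₀ (show (q : ℤ) ≠ 0 by omega)
      (by linear_combination -h2)
    have h5 : (q : ℤ) ^ 5 + q ≤ finrank ℂ M := by nlinarith [Int.natCast_nonneg (finrank ℂ (Vw ρ ψ p 0))]
    rw [pow_zero]
    linarith [mul_le_mul_of_nonneg_left h5 h9]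
  have hC : HC ρ ψ := by
    rcases hε with h | h
    · obtain ⟨c, c0, c1⟩ := ex_sq h.2
      exact hc_big ho (by omega) c0 c1
    by_cases t0 : t = 0
    · subst t0
      obtain rfl : a = 0 := by simpa using h8
      exact hc_eight hψ ho hD h.2
    · exact hc_nine ho (by omega)
  obtain ⟨k, c, n, h1, h2, h4, h5, h6⟩ := mainB hψ ho hC (r := 2 * t + 1) hD fun a0 => by
    obtain ⟨rfl, h⟩ := ha a0
    zify
    rw [h, hc]; push_cast
    have : (0 : ℤ) < q ^ 4 * q ^ t := by positivity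
    rw [show (q : ℤ) ^ (t + 3) = q ^ 3 * q ^ t by ring, show (q : ℤ) ^ (t + 3 + 1) = q ^ 4 * q ^ t by ring]
    linarith
  obtain ⟨f, hf⟩ := ex_f q ε t ε2
  rw [hc] at h2 h6
  have h7 : c - 1 = (q ^ 3 * q ^ t - ε) * (q ^ 2 * q ^ t + ε) := mul_left_cancel₀ (show (q : ℤ) ≠ 0 by omega)
    (by linear_combination -h2 + (q - 1) * ε2)
  have := num_even hq' hA hε' hf h1 (d := finrank ℂ M) (by positivity) (h7 ▸ h4) (h5.imp_left fun h => h7 ▸ h.2)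
    (by linear_combination h6)
  linarith [mul_le_mul_of_nonneg_left this h9, congrArg ((q : ℤ) * ·) hf]

omit [FiniteDimensional ℂ M] [ρ.IsIrreducible] in
theorem transfer {G : Type*} [Group G] (e : G ≃* commutator φ.Isom) (hD : 5 ≤ finrank F V) {k : ℕ}
    (ρ : Representation ℂ G (Fin k → ℂ)) (h : ρ.IsIrreducible) (hk : 2 ≤ k) :
    ∃ σ : Representation ℂ φ.E (Fin k → ℂ), σ.IsIrreducible ∧ σ.ker ≠ ⊤ :=
  let e' := (MulEquiv.subgroupCongr (E_eq (φ := φ) hD)).trans e.symm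
  have := H05.isIrreducible_comp_of_surjective ρ e'.toMonoidHom e'.surjective
  ⟨_, this, L.MR.ker_ne_top _ this hk⟩

end H28.Om
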