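import Mathlib
import Cfsg.Agent.H17.Stab2
import Cfsg.Agent.H28.Fit
import Cfsg.Agent.H28.Q4

/-! Normalizer stability passes to central quotients for every odd prime; stable fusion systems of groups are constrained. -/

set_option autoImplicit false
set_option linter.unusedSectionVars false
set_option linter.style.haveILetI false

namespace H28

section Grp
open Subgroup H26 H17 Cfsg Matrix
open scoped commutatorElement MatrixGroups

universe u

variable {G G' : Type*} [Group G] [Group G'] {p : ℕ} [Fact p.Prime] [Finite G]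

theorem nst_not_natSL2 (h : NSt p G) (hp : p ≠ 2) {f : G →* G'} (hk : IsPGroup p f.ker) {L : Subgroup G}
    (hL : pResidualOf p L ≤ 𝐂(f.ker)) : ¬ NatSL2 p f.range (L.map f) := by
  rintro ⟨H₀, ψ, ι, h0, hψ, hι, hιr, hact⟩
  let H := L ⊓ H₀.comap f
  let φ : H →* SL(2, ZMod p) := ψ.comp ((f.comp H.subtype).codRestrict H₀ fun x => x.2.2)
  have hφ : Function.Surjective φ := fun s => by
    obtain ⟨⟨y, hy⟩, rfl⟩ := hψ s
    obtain ⟨x, hx, rfl⟩ := h0 hy
    exact ⟨⟨x, hx, hy⟩, rfl⟩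
  have hact' : ∀ (k : H) (x : Fin 2 → ZMod p), f k * ι (Multiplicative.ofAdd x) * (f k)⁻¹ =
      ι (Multiplicative.ofAdd ((φ k : Matrix (Fin 2) (Fin 2) (ZMod p)) *ᵥ x)) := fun k x =>
    hact ⟨f k, k.2.2⟩ x
  have hp2 : Nat.Coprime 2 p := (Nat.coprime_primes Nat.prime_two Fact.out).2 hp.symm
  have h2 : (2 : ZMod p) ≠ 0 := fun e =>
    hp ((Nat.prime_dvd_prime_iff_eq Fact.out Nat.prime_two).1 ((ZMod.natCast_eq_zero_iff 2 p).1 e))
  have hRp : IsPGroup p (ι.range.comap f) := by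
    refine IsPGroup.comap_of_ker_isPGroup (fun x => ⟨1, ?_⟩) f hk
    obtain ⟨_, x, rfl⟩ := x
    refine Subtype.ext ?_
    change ι x ^ p ^ 1 = 1
    rw [← map_pow, pow_one, show x ^ p = 1 from by
      change p • Multiplicative.toAdd x = 0
      ext i; simp, map_one]
  have hsq : ∀ r ∈ ι.range.comap f, ∀ A : Subgroup G, r ^ 2 ∈ A → r ∈ A := fun r hr A a => by
    obtain ⟨k, hk⟩ := isPGroup_iff_mem.1 hRp r hr
    exact H26.mem_of_pow_mem_of_coprime a ((hp2.symm.pow_left k).coprime_dvd_left (orderOf_dvd_of_pow_eq_one hk))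
  have hz : IsPGroup 2 (zpowers (-1 : SL(2, ZMod p))) := isPGroup_zpowers ⟨1, by simp⟩
  haveI : (zpowers (-1 : SL(2, ZMod p))).Normal := ⟨fun n hn g => by
    obtain ⟨k, rfl⟩ := hn
    rw [← conj_zpow]; simpa using zpow_mem (mem_zpowers (-1 : SL(2, ZMod p))) k⟩
  obtain ⟨U, hU⟩ := exists_isSyl 2 ((zpowers (-1 : SL(2, ZMod p))).comap φ)
  have hUm : U.map φ = zpowers (-1) := by
    have := hU.map φ
    rw [map_comap_eq_self_of_surjective hφ] at this
    exact (this.max _ hz this.le le_rfl).symm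
  obtain ⟨t, htU, ht⟩ := hUm.ge (mem_zpowers _)
  have hsurj : ∀ s, ∃ n ∈ 𝐍(U), φ n = s := fun s => by
    obtain ⟨k, rfl⟩ := hφ s
    obtain ⟨a, ha, n, hn, rfl⟩ := hU.frattini (H := ⊤) (norm_of_normal _ _) (mem_top k)
    obtain ⟨v, hv, e⟩ := hUm.ge ha
    exact ⟨v * n, mul_mem (le_normalizer hv) hn, by rw [map_mul, map_mul, e]⟩
  have hUo : ∀ v ∈ U, (orderOf (v : G)).Coprime p := fun v hv => by
    obtain ⟨k, hk⟩ := isPGroup_iff_mem.1 hU.pg v hv
    rw [orderOf_coe]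
    exact (hp2.pow_left k).coprime_dvd_left (orderOf_dvd_of_pow_eq_one hk)
  have hUc : ∀ v ∈ U, (v : G) ∈ 𝐂(f.ker) := fun v hv => hL (mem_pResidualOf v.2.1 (hUo v hv))
  have hUR : ∀ v ∈ U, φ v = 1 → (v : G) ∈ 𝐂(ι.range.comap f) := fun v hv e =>
    mem_centralizer_of_two_step hk (hUo v hv) (by
      rintro r ⟨x, hx⟩
      rw [MonoidHom.mem_ker, map_commutatorElement, commutatorElement_def, ← hx, mul_inv_eq_one]
      exact (hact' v x.toAdd).trans (by rw [e]; simp)) (hUc v hv)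
  have hHR : ∀ (k : H), ∀ r ∈ ι.range.comap f, k * r * (k : G)⁻¹ ∈ ι.range.comap f := by
    rintro k r ⟨x, hx⟩
    refine ⟨Multiplicative.ofAdd ((φ k : Matrix (Fin 2) (Fin 2) (ZMod p)) *ᵥ x.toAdd), ?_⟩
    rw [← hact', map_mul, map_mul, map_inv, ← hx]; rfl
  have I1 : ∀ n ∈ 𝐍(U), ∀ r ∈ ι.range.comap f, t * r * (t : G)⁻¹ = r⁻¹ →
      t * (n * r * (n : G)⁻¹) * (t : G)⁻¹ = (n * r * (n : G)⁻¹)⁻¹ := fun n hn r hr e => by
    have a := conj_eq_of_cent (hUR (t⁻¹ * (n⁻¹ * t * n)) (mul_mem (inv_mem htU) ((mem_normalizer_iff''.1 hn t).1 htU)) (by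
      simp [ht])) hr
    push_cast at a
    calc t * (n * r * (n : G)⁻¹) * (t : G)⁻¹
        = n * (t * ((t : G)⁻¹ * ((n : G)⁻¹ * t * n) * r * ((t : G)⁻¹ * ((n : G)⁻¹ * t * n))⁻¹) * (t : G)⁻¹) * (n : G)⁻¹ := by group
      _ = _ := by rw [a, e]; group
  have I2 : ∀ P : Subgroup G, (∀ r ∈ P, t * r * (t : G)⁻¹ ∈ P) → (∀ v, ∃ r ∈ P, f r = ι v) →
      ∀ v, ∃ a ∈ P, f a = ι v ∧ t * a * (t : G)⁻¹ = a⁻¹ := fun P a b v => by
    obtain ⟨r, hr, e⟩ := b (Multiplicative.ofAdd (-(2 : ZMod p)⁻¹ • v.toAdd))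
    have c := conj_eq_of_cent (hUR (t * t) (mul_mem htU htU) (by simp [ht])) (show r ∈ ι.range.comap f from ⟨_, e.symm⟩)
    push_cast at c
    refine ⟨r⁻¹ * (t * r * (t : G)⁻¹), mul_mem (inv_mem hr) (a r hr), ?_, ?_⟩
    · rw [map_mul, map_mul, map_mul, map_inv, map_inv, e, hact', ht, ← map_inv, ← map_mul]
      refine congrArg ι (congrArg Multiplicative.ofAdd ?_ |>.trans (ofAdd_toAdd v))
      ext i
      simp [Matrix.neg_mulVec]
      field_simp
      ring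
    · conv_rhs => rw [_root_.mul_inv_rev, inv_inv]; arg 2; rw [← c]
      group
  have I3 : ∀ a ∈ ι.range.comap f, t * a * (t : G)⁻¹ = a⁻¹ → a ∈ 𝐂(f.ker) := fun a ha e => hsq a ha _ (by
    have := mul_mem (Normal.conj_mem inferInstance _ (hUc t htU) a) (inv_mem (hUc t htU))
    rwa [show a * t * a⁻¹ * (t : G)⁻¹ = a * (t * a * (t : G)⁻¹)⁻¹ by group, e, inv_inv, ← sq] at this)
  have I5 : ∀ a b c : G, a ∈ 𝐂(f.ker) → b ∈ 𝐂(f.ker) → c ∈ f.ker → t * a * (t : G)⁻¹ = a⁻¹ → t * b * (t : G)⁻¹ = b⁻¹ →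
      t * (a * b * c) * (t : G)⁻¹ = (a * b * c)⁻¹ → c ^ 2 = b * a * b⁻¹ * a⁻¹ := fun a b c ha hb hc e1 e2 e3 => by
    have e4 : a⁻¹ * b⁻¹ * c = c⁻¹ * b⁻¹ * a⁻¹ := by
      rw [← e1, ← e2, ← conj_eq_of_cent (hUc t htU) hc, conj_eq_of_cent (hUc t htU) hc, e1, e2]
      calc a⁻¹ * b⁻¹ * c = (t * a * (t : G)⁻¹) * (t * b * (t : G)⁻¹) * (t * c * (t : G)⁻¹) := by
            rw [e1, e2, conj_eq_of_cent (hUc t htU) hc]
        _ = t * (a * b * c) * (t : G)⁻¹ := by group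
        _ = _ := by rw [e3]; group
    have e5 := conj_eq_of_cent (mul_mem hb ha) (inv_mem hc)
    calc c ^ 2 = (b * a * (a⁻¹ * b⁻¹ * c)) * c := by rw [sq]; group
      _ = (b * a * c⁻¹ * (b * a)⁻¹) * (b * a * b⁻¹ * a⁻¹) * c := by rw [e4]; group
      _ = c⁻¹ * ((b * a * b⁻¹ * a⁻¹) * c * (b * a * b⁻¹ * a⁻¹)⁻¹) * (b * a * b⁻¹ * a⁻¹) := by rw [e5]; group
      _ = _ := by
        rw [conj_eq_of_cent (mul_mem (mul_mem (mul_mem hb ha) (inv_mem hb)) (inv_mem ha)) hc]; group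
  have I4 : ∀ a ∈ ι.range.comap f, ∀ b, f a = f b → t * a * (t : G)⁻¹ = a⁻¹ → t * b * (t : G)⁻¹ = b⁻¹ → a = b :=
    fun a ha b e e1 e2 => by
    have hc : a⁻¹ * b ∈ f.ker := by rw [MonoidHom.mem_ker, map_mul, map_inv, e, inv_mul_cancel]
    have := I5 a 1 _ (I3 a ha e1) (one_mem _) hc e1 (by simp) (by simpa using e2)
    exact inv_mul_eq_one.1 (hsq _ (show f _ ∈ ι.range by rw [hc]; exact one_mem _) ⊥ (by rw [this]; simp))
  obtain ⟨x, -, fx, tx⟩ := I2 ⊤ (fun _ _ => trivial) (fun v => let ⟨r, hr⟩ := hιr v; ⟨r, trivial, hr⟩) (.ofAdd ![0, 1])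
  obtain ⟨y, -, fy, ty⟩ := I2 ⊤ (fun _ _ => trivial) (fun v => let ⟨r, hr⟩ := hιr v; ⟨r, trivial, hr⟩) (.ofAdd ![1, 0])
  have hxR : x ∈ ι.range.comap f := ⟨_, fx.symm⟩
  have hyR : y ∈ ι.range.comap f := ⟨_, fy.symm⟩
  have hxP : x ∈ closure ({x, y} : Set G) := subset_closure (Or.inl rfl)
  have hyP : y ∈ closure ({x, y} : Set G) := subset_closure (Or.inr rfl)
  have hPR : closure ({x, y} : Set G) ≤ ι.range.comap f := (closure_le _).2 (by rintro _ (rfl | rfl); exacts [hxR, hyR])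
  have hPn : ∀ n : G, n * x * n⁻¹ ∈ closure ({x, y} : Set G) → n * y * n⁻¹ ∈ closure ({x, y} : Set G) →
      n ∈ 𝐍(closure ({x, y} : Set G)) := fun n a b => mem_normalizer_of_cj_le (by
    rw [cj_closure, closure_le]
    rintro _ ⟨_, rfl | rfl, rfl⟩
    exacts [a, b])
  have hPv : ∀ v, ∃ r ∈ closure ({x, y} : Set G), f r = ι v := fun v =>
    ⟨y ^ (v.toAdd 0).val * x ^ (v.toAdd 1).val, mul_mem (pow_mem hyP _) (pow_mem hxP _), by
      rw [map_mul, map_pow, map_pow, fx, fy, ← map_pow ι, ← map_pow ι, ← map_mul ι]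
      refine congrArg ι (congrArg Multiplicative.ofAdd ?_ |>.trans (ofAdd_toAdd v))
      ext i; fin_cases i <;> simp⟩
  have hI : ∀ a ∈ ι.range.comap f, t * a * (t : G)⁻¹ = a⁻¹ → a ∈ closure ({x, y} : Set G) := by
    rintro a ⟨v, hv⟩ e
    obtain ⟨b, b1, b2, b3⟩ := I2 _ (fun r => conj_mem_of_normalizer (hPn t (tx ▸ inv_mem hxP) (ty ▸ inv_mem hyP))) hPv v
    exact I4 a ⟨v, hv⟩ b (hv.symm.trans b2.symm) e b3 ▸ b1
  have hN : ∀ n ∈ 𝐍(U), (n : G) ∈ 𝐍(closure ({x, y} : Set G)) := fun n hn =>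
    hPn n (hI _ (hHR n x hxR) (I1 n hn x hxR tx)) (hI _ (hHR n y hyR) (I1 n hn y hyR ty))
  obtain ⟨u, hu, hφu⟩ := hsurj (up 1)
  obtain ⟨g, hgU, hg⟩ := hsurj (H09.sl2 0 (-1) 1 0 (by ring))
  have uy : u * y * (u : G)⁻¹ = y := I4 _ (hHR u y hyR) _ (by
    rw [map_mul, map_mul, map_inv, fy, hact', hφu]
    refine congrArg ι (congrArg Multiplicative.ofAdd ?_)
    ext i; fin_cases i <;> simp [up, H09.sl2, Matrix.mulVec, dotProduct]) (I1 u hu y hyR ty) ty
  obtain ⟨c, hc⟩ : ∃ c, u * x * (u : G)⁻¹ = x * y * c := ⟨(x * y)⁻¹ * (u * x * (u : G)⁻¹), by group⟩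
  have hck : c ∈ f.ker := by
    have h1 : f (u * x * (u : G)⁻¹) = f (x * y) := by
      rw [map_mul, map_mul, map_inv, fx, hact', hφu, map_mul, fx, fy, ← map_mul ι]
      refine congrArg ι (congrArg Multiplicative.ofAdd ?_)
      ext i; fin_cases i <;> simp [up, H09.sl2, Matrix.mulVec, dotProduct]
    rw [hc, map_mul f (x * y)] at h1
    exact mul_eq_left.1 h1
  have cx := conj_eq_of_cent (I3 x hxR tx) hck
  have cy := conj_eq_of_cent (I3 y hyR ty) hck
  have c2 := I5 x y c (I3 x hxR tx) (I3 y hyR ty) hck tx ty (hc ▸ I1 u hu x hxR tx)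
  have uc : (u : G) ∈ 𝐂(closure ({y, c} : Set G)) := by
    refine le_centralizer_iff.1 ((closure_le _).2 ?_ : closure ({y, c} : Set G) ≤ 𝐂(zpowers (u : G))) (mem_zpowers _)
    rw [centralizer_zpowers]
    rintro z (hz | hz) <;> rw [hz]
    · exact mem_centralizer_singleton_iff.2 (mul_inv_eq_iff_eq_mul.1 uy).symm
    refine hsq _ (show f _ ∈ ι.range by rw [hck]; exact one_mem _) _ (mem_centralizer_singleton_iff.2 ?_)
    rw [c2, eq_comm, ← mul_inv_eq_iff_eq_mul]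
    calc u * (y * x * y⁻¹ * x⁻¹) * (u : G)⁻¹
        = (u * y * (u : G)⁻¹) * (u * x * (u : G)⁻¹) * (u * y * (u : G)⁻¹)⁻¹ * (u * x * (u : G)⁻¹)⁻¹ := by group
      _ = y * x * (y * c * y⁻¹) * c⁻¹ * y⁻¹ * x⁻¹ := by rw [uy, hc]; group
      _ = _ := by rw [cy]; group
  have hyA : y ∈ closure ({y, c} : Set G) := subset_closure (Or.inl rfl)
  have hcA : c ∈ closure ({y, c} : Set G) := subset_closure (Or.inr rfl)
  have hPA : closure ({x, y} : Set G) ≤ 𝐍(closure ({y, c} : Set G)) := (closure_le _).2 (by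
    rintro _ (rfl | rfl)
    · refine mem_normalizer_of_cj_le ?_
      rw [cj_closure, closure_le]
      rintro _ ⟨_, rfl | rfl, rfl⟩
      · have := mul_mem (inv_mem (pow_mem hcA 2)) hyA
        rw [c2] at this
        change _ ∈ Subgroup.closure _
        convert this using 1; simp only [MulAut.conj_apply, MulEquiv.coe_toMonoidHom]; group
      · change _ ∈ Subgroup.closure _
        simpa only [MulAut.conj_apply, MulEquiv.coe_toMonoidHom, cx] using hcA
    · exact le_normalizer hyA)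
  have hW : ⁅closure ({x, y} : Set G), zpowers (u : G)⁆ ≤ closure ({y, c} : Set G) := by
    refine commutator_zpowers_le (H26.centralizer_le_normalizer _ uc) fun r hr => ?_
    induction hr using closure_induction with
    | mem r hr =>
      rcases hr with rfl | rfl
      · have := conj_mem_of_normalizer (hPA hxP) (mul_mem hyA hcA)
        rw [commutatorElement_def, hc]
        convert this using 1; group
      · rw [commutatorElement_def, uy, mul_inv_cancel]; exact one_mem _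
    | one => simp
    | mul a b ha _ h1 h2 =>
      have := mul_mem h1 (conj_mem_of_normalizer (hPA ha) h2)
      simp only [commutatorElement_def] at this ⊢
      convert this using 1; group
    | inv a ha h1 =>
      have := conj_mem_of_normalizer' (hPA ha) (inv_mem h1)
      simp only [commutatorElement_def] at this ⊢
      convert this using 1; group
  have h4 := h _ (hRp.to_le hPR) u (hN u hu) (le_bot_iff.1 ((commutator_mono hW le_rfl).trans
    (commutator_eq_bot_iff'.2 (zpowers_le.2 uc)).le)) g (hN g hgU)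
  have h5 : IsPGroup p ((closure {u, g * u * g⁻¹}).map φ) := (isPGroup_map_iff φ).2 fun y hy => by
    have h6 := h4 (show (y : G) ∈ _ from map_pair H.subtype u g ▸ map_pResidualOf_le _ _ ⟨y, hy, rfl⟩)
    refine Subtype.ext (Matrix.ext_of_mulVec_single fun i => ?_)
    obtain ⟨r, hr', hr⟩ := hPv (Multiplicative.ofAdd (Pi.single i 1))
    have h7 := hact' y (Pi.single i 1)
    rw [← hr, ← map_inv, ← map_mul, ← map_mul, conj_eq_of_cent h6 hr', hr] at h7
    exact (Multiplicative.ofAdd.injective (hι h7)).symm.trans (Matrix.one_mulVec _).symm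
  rw [map_pair, hφu, hg] at h5
  refine not_isPGroup_up_lo p one_ne_zero (neg_ne_zero.2 one_ne_zero) (subset_closure (Or.inl rfl))
    (subset_closure (Or.inr ?_)) h5
  rw [Set.mem_singleton_iff, eq_mul_inv_iff_mul_eq]
  simp [up, lo, H09.sl2_mul]

theorem nst_quot_central (h : NSt p G) (hp : p ≠ 2) {T : Subgroup G} [T.Normal] (hT : IsPGroup p T)
    (hc : ∀ y : G, (orderOf y).Coprime p → y ∈ 𝐂(T)) : NSt p (G ⧸ T) := by
  intro P' hP' a' ha' hq g' hg'
  set π := QuotientGroup.mk' T with hπ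
  obtain ⟨a, rfl⟩ := QuotientGroup.mk'_surjective T a'
  obtain ⟨g, rfl⟩ := QuotientGroup.mk'_surjective T g'
  have hq' := quad_conj hg' hq
  rw [← map_mul, ← map_inv, ← map_mul] at hq'
  have hb' : π (g * a * g⁻¹) ∈ 𝐍(P') := by
    rw [map_mul, map_mul, map_inv]; exact mul_mem (mul_mem hg' ha') (inv_mem hg')
  rw [← map_pair, ← map_pResidualOf]
  generalize g * a * g⁻¹ = b at hq' hb'
  have hQ : IsPGroup p (P'.comap π) := hP'.comap_of_ker_isPGroup π (by rwa [hπ, QuotientGroup.ker_mk'])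
  have hTQ : T ≤ P'.comap π := QuotientGroup.le_comap_mk' T _
  have hqq : ∀ x, ⁅⁅P', zpowers (π x)⁆, zpowers (π x)⁆ = ⊥ → ⁅⁅P'.comap π, zpowers x⁆, zpowers x⁆ ≤ T :=
    fun x hx => by
      refine le_trans ((Subgroup.map_eq_bot_iff _).1 ?_) (QuotientGroup.ker_mk' T).le
      rw [map_quad, map_comap_eq_self_of_surjective (QuotientGroup.mk'_surjective T)]
      exact hx
  have hLQ : closure {a, b} ≤ 𝐍(P'.comap π) := (closure_le _).2 (by
    rintro _ (rfl | rfl)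
    exacts [comap_normalizer_le π P' ha', comap_normalizer_le π P' hb'])
  have hqa := hqq a hq
  have hqb := hqq b hq'
  suffices h1 : pResidualOf p (closure {a, b}) ≤ 𝐂(P'.comap π) by
    refine (map_mono h1).trans ((cent_map_le π _).trans ?_)
    rw [map_comap_eq_self_of_surjective (QuotientGroup.mk'_surjective T)]
  generalize P'.comap π = Q at hQ hTQ hLQ hqa hqb
  set L := closure ({a, b} : Set G) with hL
  by_contra h1
  obtain ⟨R, ⟨r1, r2, r3, r4⟩, hmin⟩ := Set.exists_min_image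
    {R : Subgroup G | T ≤ R ∧ R ≤ Q ∧ L ≤ 𝐍(R) ∧ ¬ pResidualOf p L ≤ 𝐂(R)} (fun R => Nat.card R)
    (Set.toFinite _) ⟨Q, hTQ, le_rfl, hLQ, h1⟩
  have hR := hQ.to_le r2
  obtain ⟨C, hC⟩ : ∃ C, C = (frattini R).map R.subtype ⊔ T := ⟨_, rfl⟩
  have hNC : 𝐍(R) ≤ 𝐍(C) := hC ▸ le_normalizer_sup (H02.normalizer_le_normalizer_map_subtype _)
    (norm_of_normal _ _)
  have hCR : C ≤ R := hC ▸ sup_le (map_subtype_le _) r1
  have hOT : pResidualOf p L ≤ 𝐂(T) := pResidualOf_le_iff.2 fun y _ hy => hc y hy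
  have hOC : pResidualOf p L ≤ 𝐂(C) := by
    by_contra h2
    have h3 : C = R := eq_of_le_of_card_ge hCR
      (hmin C ⟨hC ▸ le_sup_right, hCR.trans r2, r3.trans hNC, h2⟩)
    have h4 : T.subgroupOf R = ⊤ := frattini_nongenerating (map_subtype_inj.1 (by
      rw [Subgroup.map_sup, subgroupOf_map_subtype, inf_eq_left.2 r1, sup_comm, ← hC, h3,
        ← MonoidHom.range_eq_map, range_subtype]))
    exact r4 (hOT.trans (centralizer_anti (subgroupOf_eq_top.1 h4)))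
  let f := QuotientGroup.mk' (C.subgroupOf 𝐍(C))
  have hf : ∀ x : 𝐍(C), f x = 1 ↔ (x : G) ∈ C := fun x => QuotientGroup.eq_one_iff x
  have hRN : R ≤ 𝐍(C) := le_normalizer.trans hNC
  have haL : a ∈ L := subset_closure (Or.inl rfl)
  have hbL : b ∈ L := subset_closure (Or.inr rfl)
  have hV : IsElementaryAbelian p ((R.subgroupOf 𝐍(C)).map f) := by
    refine ⟨isMulCommutative_of_comm ?_, ?_⟩
    · rintro _ ⟨x, hx, rfl⟩ _ ⟨y, hy, rfl⟩
      rw [← commutatorElement_eq_one_iff_mul_comm, ← map_commutatorElement, hf]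
      exact hC.ge (mem_sup_left (H04.commutatorElement_mem_map_frattini hR hx hy))
    · rintro _ ⟨x, hx, rfl⟩
      rw [← map_pow, hf]
      exact hC.ge (mem_sup_left (H04.pow_mem_map_frattini hR hx))
  have hn : ∀ x (hx : x ∈ L), f ⟨x, hNC (r3 hx)⟩ ∈ 𝐍((R.subgroupOf 𝐍(C)).map f) := fun x hx =>
    H26.le_normalizer_map f le_rfl ⟨_, mem_normalizer_of_cj_le (by
      rw [cj_subgroupOf, cj_eq_of_mem_normalizer (r3 hx)]), rfl⟩
  have hq2 : ∀ x (hx : x ∈ L), ⁅⁅Q, zpowers x⁆, zpowers x⁆ ≤ T → ⁅⁅(R.subgroupOf 𝐍(C)).map f,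
      zpowers (f ⟨x, hNC (r3 hx)⟩)⁆, zpowers (f ⟨x, hNC (r3 hx)⟩)⁆ = ⊥ := fun x hx h2 => by
    rw [← map_quad, Subgroup.map_eq_bot_iff, QuotientGroup.ker_mk']
    refine map_le_iff_le_comap.1 ?_
    rw [map_quad, subgroupOf_map_subtype, inf_eq_left.2 hRN]
    exact (commutator_mono (commutator_mono r2 le_rfl) le_rfl).trans (h2.trans (hC ▸ le_sup_right))
  have hLL : (closure {(⟨a, hNC (r3 haL)⟩ : 𝐍(C)), ⟨b, hNC (r3 hbL)⟩}).map (Subgroup.subtype _) = L := by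
    rw [MonoidHom.map_closure, Set.image_pair]; rfl
  rcases quad_group hp hV (hn a haL) (hn b hbL) (hq2 a haL hqa) (hq2 b hbL hqb) with h2 | h2
  · refine r4 (pResidualOf_le_iff.2 fun y hy hyc => mem_centralizer_of_two_step (hR.to_le hCR) hyc
      (fun v hv => ?_) (hOC (mem_pResidualOf hy hyc)))
    obtain ⟨y, hy', rfl⟩ := hLL.ge hy
    obtain ⟨n, h3⟩ := h2 (f y) (by rw [← Set.image_pair, ← MonoidHom.map_closure]; exact ⟨y, hy', rfl⟩)
    have h4 := H26.mem_of_pow_mem_of_coprime h3 (Nat.Coprime.pow_right n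
      ((orderOf_coe y ▸ hyc : (orderOf y).Coprime p).coprime_dvd_left (orderOf_map_dvd f y)))
    refine (hf ⁅y, ⟨v, hRN hv⟩⁆).1 ?_
    rw [map_commutatorElement, commutatorElement_eq_one_iff_mul_comm]
    exact (h4 _ ⟨_, hv, rfl⟩).symm
  · rw [← Set.image_pair, ← MonoidHom.map_closure] at h2
    refine nst_not_natSL2 (h.of_injective _ (subtype_injective 𝐍(C))) hp (f := f) ?_ ?_
      (h2.mono (map_le_range _ _) le_rfl)
    · rw [QuotientGroup.ker_mk']; exact (hR.to_le hCR).comap_subtype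
    · rw [QuotientGroup.ker_mk', H26.centralizer_subgroupOf le_normalizer, ← comap_subtype, ← map_le_iff_le_comap,
        ← pResidualOf_map_inj (subtype_injective _), hLL]
      exact hOC

theorem ctl_of_nst' {F : H03.AmbF.{u} p} (hF : F.ZJlike) (hp : p ≠ 2) {G : Type u} [Group G]
    [Finite G] (h : NSt p G) (P : Sylow p G) {D : Subgroup G} (hD : IsStronglyClosed D P) :
    H03.Ctl ⊤ (normalizer (F.W G D : Set G)) P :=
  ctl' F (fun G _ => NSt p G) False (fun _ _ K h => h.of_injective _ K.subtype_injective)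
    (fun _ _ _ h => h.of_coprime (QuotientGroup.mk'_surjective _) coprime_ker_mk')
    (fun _ _ _ h hc => nst_quot_central h hp isPGroup_pCore hc)
    (fun G _ _ h hc P D hD _ => haveI := hF G hc h.weaklyStable P D hD; H03.Ctl.of_le le_normalizer_of_normal)
    G h P D hD False.elim

end Grp

open Cfsg Cfsg.FusionSystem Equiv
open H26 (IsSyl)

variable {G : Type*} [Group G] [Finite G] {p : ℕ} [Fact p.Prime] {T : Subgroup G}

theorem core_ne_bot_of_nst (hp : p ≠ 2) (h : H17.NSt p G) (hT : IsSyl p T ⊤) (h0 : T ≠ ⊥) :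
    (fusionSystemOfSubgroup ⊤ T le_top).core ≠ ⊥ := by
  obtain ⟨P, rfl⟩ := hT.exists_sylow_top
  have c := ctl_of_nst' (H03.AmbF.zjlike_zj hp (Or.inl rfl)) hp h P ⟨le_rfl, fun _ _ _ h => h⟩
  have h1 := (H03.AmbF.zj 0 (Or.inl rfl)).ne G _ P.2 h0
  have h2 := (H03.AmbF.zj (p := p) 0 (Or.inl rfl)).le G P
  have h3 := (H03.AmbF.zj 0 (Or.inl rfl)).normalizer_le P.2
  generalize (H03.AmbF.zj (p := p) 0 (Or.inl rfl)).W G P = W at *
  refine fun e => h1 (eq_bot_iff.2 (e ▸ le_core (isNormal_iff.2 ⟨h2, fun A f hf => ?_⟩)))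
  obtain ⟨a, b, g, -, d⟩ := (M_ofSubgroup _).1 hf
  obtain ⟨m, hm, k⟩ := c A g trivial a (H26.cj_le_iff.2 fun x hx => d x hx ▸ b x hx)
  exact ⟨cj m, M_cj_ofSubgroup _ (sup_le a h2) trivial ((homOn_cj _ m).mem_of_sup (fun x hx => by
    rw [cj_apply, k x hx, ← d x hx]; exact b x hx) fun x hx => h2 (conj_mem_of_normalizer hm hx)),
    fun x hx => (k x hx).trans (d x hx).symm, fun x => conj_mem_of_normalizer hm⟩

theorem constrained_of_nst (hp : p ≠ 2) (h : H17.NSt p G) (hT : IsSyl p T ⊤) : (groupFusionSystem T).IsConstrained p := by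
  have hF := sat_group hT
  have hQ := normal_core (groupFusionSystem T)
  refine (constrained_iff hT.pg hF).2 ?_
  have hN := isNK_ofSubgroup (H := ⊤) le_top hQ.1 ⊥
  rw [← group_eq_ofSubgroup] at hN
  have hc := le_core (F := groupFusionSystem T) (Q := _) (normal_core_of_inv hT.pg hF
    (hN.normalIn_bot hT.pg hF hQ).1.2.2)
  have hs := (fc_group_iff hT hQ.1).1 (sat_fc hT.pg hF (fullyNormalized_of_normal hQ.1 (normal_le_normalizer hQ)))
  generalize (groupFusionSystem T).core = Q at *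
  rw [← centralizerIn_top, ← nK_bot, ← nK_bot] at hs
  have hZ : ∀ z ∈ Q ⊓ nK T Q ⊥, ∀ x ∈ nK ⊤ Q ⊥, x * z = z * x := fun z hz x hx => by
    rw [nK_bot] at hx; exact ((mem_centralizerIn.1 hx).2 z hz.1).symm
  rw [← nK_bot]
  replace hc : (fusionSystemOfSubgroup _ _ hs.le).core ≤ Q := hc
  clear hN
  obtain ⟨D, hD⟩ : ∃ D, nK T Q ⊥ = D := ⟨_, rfl⟩
  obtain ⟨H, hH⟩ : ∃ H, nK ⊤ Q ⊥ = H := ⟨_, rfl⟩
  have : ∀ D' H', nK T Q ⊥ = D' → nK ⊤ Q ⊥ = H' → ∃ hs : IsSyl p D' H', (fusionSystemOfSubgroup H' D' hs.le).core ≤ Q := by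
    rintro _ _ rfl rfl; exact ⟨hs, hc⟩
  clear hc hs
  obtain ⟨hs, hc⟩ := this D H hD hH
  rw [hD, hH] at hZ
  rw [hD]
  haveI : ((Q ⊓ D).subgroupOf H).Normal := ⟨fun n hn g => by
    rw [Subgroup.mem_subgroupOf] at hn ⊢
    simpa [hZ n hn g g.2] using hn⟩
  have h1 := nst_quot_central (T := (Q ⊓ D).subgroupOf H) (h.of_injective _ H.subtype_injective) hp
    (hs.pg.to_le inf_le_right).comap_subtype fun y _ z hz => Subtype.ext (hZ z hz y y.2).symm
  have ht := homOn_tot (QuotientGroup.mk' ((Q ⊓ D).subgroupOf H))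
  have hq := isQuo_ofSubgroup hs ht (mk_img _) rfl le_top
  have hk : hq.hom.pre ⊥ = Q ⊓ D := le_antisymm (fun x hx => ((mk_ker (Q ⊓ D) (inf_le_right.trans hs.le)).le ⟨hs.le hx.1, hx.2⟩))
    fun x hx => ⟨hx.2, ((mk_ker (Q ⊓ D) (inf_le_right.trans hs.le)).ge hx).2⟩
  by_contra h2
  obtain ⟨B, b1, b2, b3⟩ := hq.exists_step hs.pg (sat_ofSubgroup hs) (core_ne_bot_of_nst hp h1 (mk_img (S := H) (Q ⊓ D) ▸ ht.isSyl_img hs)
    fun e => h2 (((img_eq_bot_iff hq.hom le_rfl).1 e).trans (hk.le.trans inf_le_left)))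
  have b4 := normal_of_sc_two_step hs.pg (sat_ofSubgroup hs) b2 hq.sc_ker b3 (Subgroup.commutator_eq_bot_iff_le_centralizer.2
    fun z hz x hx => hZ z (hk.le hz) x (hs.le (b2.1 hx)))
  exact b1.not_ge (hk.ge.trans' (le_inf ((le_core b4).trans hc) b2.1))

end H28
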