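import Cfsg.Agent.H06.PT1

/-!
# The centre of the invariant Sylow `2`-subgroup
-/

set_option autoImplicit false
open Cfsg BG Subgroup
open scoped commutatorElement
universe u
namespace H28.PtI
open Cfsg.Agent.H06.PT

variable {Γ : Type u} [Group Γ] [Finite Γ] {r p q : ℕ} {A G Y D V : Subgroup Γ} {b c : Γ}

/-- the case of two different odd primes -/
theorem two (h : R2 r A G) (hG : GLS.{u}) (hp : p.Prime) (hq : q.Prime) (p2 : p ≠ 2) (q2 : q ≠ 2) (pq : q ≠ p)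
    (hi : Ind A b c) (hY : Y ≤ G) (pY : IsPGroup 2 Y) (nY : A ≤ N_(Y)) (aY : Y ≤ C_(Y)) (hD : D ≤ G ⊓ C_[c])
    (pD : IsPGroup p D) (nD : A ≤ N_(D)) (eD : ⁅D, A⁆ = D) (hDY : D ≤ N_(Y)) (eY : ⁅Y, D⁆ = Y)
    (hV : V ≤ G) (pV : IsPGroup q V) (nV : A ≤ N_(V)) (hYV : Y ≤ N_(V)) : Y ⊓ C_[b] ≤ C_(V) := by
  have s := h.toSt
  have lW : Y ⊓ C_[b] ≤ G ⊓ C_[b] := inf_le_inf_right _ hY
  have pW : IsPGroup 2 ↥(Y ⊓ C_[b]) := pg_le pY inf_le_left
  have nW : A ≤ N_(Y ⊓ C_[b]) := norm_inf nY (s.nc hi.l)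
  have eW := s.two' (inf_le_left.trans hY) pW nW
  have wV : Y ⊓ C_[b] ≤ N_(V) := inf_le_left.trans hYV
  have lX : ⁅V, Y ⊓ C_[b]⁆ ≤ V := comm_le_left wV
  have eX : ⁅⁅V, Y ⊓ C_[b]⁆, Y ⊓ C_[b]⁆ = ⁅V, Y ⊓ C_[b]⁆ :=
    coprime_comm_comm wV (pg_coprime_ne Nat.prime_two hq pW pV q2.symm) (Or.inr (pg_sol hq pV))
  have nX : A ≤ N_(⁅V, Y ⊓ C_[b]⁆) := norm_comm nV nW
  have wX := right_le_norm_comm V (Y ⊓ C_[b])
  set X := ⁅V, Y ⊓ C_[b]⁆ with hX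
  have pX : IsPGroup q X := pg_le pV lX
  have nF : A ≤ N_(Y ⊓ C_[b * c]) := norm_inf nY (s.nc hi.mul.rr)
  have pF : IsPGroup 2 ↥(Y ⊓ C_[b * c]) := pg_le pY inf_le_left
  have h1 : X ≤ C_(Y ⊓ C_[b * c]) := h.gc hG hq Nat.prime_two Nat.prime_two q2 q2 hi.mul (lX.trans hV) pX nX lW pW nW eW
    wX eX (inf_le_inf_right _ hY) pF nF (s.two' (inf_le_left.trans hY) pF nF) (le_cent_mono aY inf_le_left inf_le_left)
  have nX' : A ≤ N_(X ⊓ C_[c]) := norm_inf nX (s.nc hi.rr)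
  have h2 : ⁅X ⊓ C_[c], A⁆ ≤ C_(D) := by
    rw [← eD]
    exact h.c1 hq hp pq hi.rr (h.ne hi.symm) (inf_le_inf_right _ (lX.trans hV)) hD (pg_le pX inf_le_left) pD nX' nD
  have h3 : Y ≤ C_(⁅X ⊓ C_[c], A⁆) := h.gk hG Nat.prime_two hp p2.symm hi.mul' hY pY nY hD pD nD eD hDY eY
    (norm_cent (right_le_norm_comm _ _)) (cent_symm h2)
    (le_cent_mono (cent_symm h1) (comm_le_left nF) ((comm_le_left nX').trans inf_le_left))
  have h4 : X ≤ C_(Y ⊓ C_[b]) := h.gk hG hq Nat.prime_two q2 hi (lX.trans hV) pX nX lW pW nW eW wX eX (norm_cent nW)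
    (le_cent_mono aY inf_le_left inf_le_left) (le_cent_mono (cent_symm h3) le_rfl inf_le_left)
  exact cent_symm (comm_eq_bot.1 (eX.symm.trans (comm_eq_bot.2 h4)))

theorem claim (h : M2 r A G) (hp : p.Prime) (p2 : p ≠ 2) (hc : c ∈ A) (c1 : c ≠ 1) :
    ⁅ZT A G, ⁅Syl p A (G ⊓ N_(Syl 2 A G)) ⊓ C_[c], A⁆⁆ ≤ ZT A G ⊓ C_(VV A G) := by
  have s := h.r2.toSt
  have nT := s.syl_n Nat.prime_two
  have nN : A ≤ N_(G ⊓ N_(Syl 2 A G)) := norm_inf s.nG (norm_norm nT)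
  have s' := s.sub inf_le_left nN
  have nP : A ≤ N_(Syl p A (G ⊓ N_(Syl 2 A G)) ⊓ C_[c]) := norm_inf (s'.syl_n hp) (s.nc hc)
  have eD := s.cc (inf_le_left.trans (syl_le.trans inf_le_left)) nP
  have lD := comm_le_left nP
  have nD := right_le_norm_comm (Syl p A (G ⊓ N_(Syl 2 A G)) ⊓ C_[c]) A
  set D := ⁅Syl p A (G ⊓ N_(Syl 2 A G)) ⊓ C_[c], A⁆ with hD
  have dS : D ≤ Syl p A G := (lD.trans inf_le_left).trans (s.syl_mono hp inf_le_left nN)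
  have dT : D ≤ N_(Syl 2 A G) := (lD.trans inf_le_left).trans (syl_le.trans inf_le_right)
  have dG : D ≤ G ⊓ C_[c] := le_inf (dS.trans syl_le) (lD.trans inf_le_right)
  have pD : IsPGroup p D := pg_le (s.syl_pg hp) dS
  have dZ : D ≤ N_(ZT A G) := norm_inf dT (norm_cent dT)
  have zT : ZT A G ≤ Syl 2 A G := inf_le_left
  have pZ : IsPGroup 2 (ZT A G) := pg_le (s.syl_pg Nat.prime_two) zT
  have aZ : ZT A G ≤ C_(ZT A G) := le_cent_mono (inf_le_right : ZT A G ≤ _) le_rfl zT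
  have lY := comm_le_left dZ
  have eY := coprime_comm_comm dZ (pg_coprime_ne hp Nat.prime_two pD pZ p2) (Or.inl (pg_sol hp pD))
  have nY : A ≤ N_(⁅ZT A G, D⁆) := norm_comm (norm_inf nT (norm_cent nT)) nD
  have dY := right_le_norm_comm (ZT A G) D
  have y0 := (coprime_abelian_dprod dZ (pg_coprime_ne hp Nat.prime_two pD pZ p2) (abelian_iff.2 aZ)).disj
  set Y := ⁅ZT A G, D⁆ with hY
  have yG : Y ≤ G := lY.trans (zT.trans syl_le)
  have pY : IsPGroup 2 Y := pg_le pZ lY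
  have yV : ∀ q, Y ≤ N_(Vq A G q) := fun q => (lY.trans zT).trans vq_T
  refine le_inf lY (cent_symm (vv_le fun q hq q2 => cent_symm ?_))
  by_cases pq : q = p
  · subst pq
    exact h.l3 Γ r q 2 A G _ D Y c h.r2 hq Nat.prime_two q2 vq_G (dS.trans syl_le) yG (s.vq_pg hq) pD pY (s.vq_A hq) nD nY
      (yV q) (vq_n (dS.trans (le_norm _)) dT) dY hc c1 (lD.trans inf_le_right) eD eY
  refine h.r2.dec yG nY fun b hb b1 => ?_
  rcases h.r2.or hb b1 hc c1 with hi | e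
  · exact two h.r2 h.gl hp hq p2 q2 pq hi yG pY nY (le_cent_mono aZ lY lY) dG pD nD eD dY eY vq_G (s.vq_pg hq)
      (s.vq_A hq) (yV q)
  · rw [e]
    refine le_trans (le_inf (le_inf (inf_le_left.trans lY) (cent_symm ?_)) inf_le_left) (y0.le.trans bot_le)
    exact h.r2.c2' Nat.prime_two hp p2.symm hc c1 yG pY dG pD nD eD dY

theorem iia : IIa.{u} := by
  intro Γ _ _ r A G h hL
  have s := h.r2.toSt
  have nT := s.syl_n Nat.prime_two
  have nN : A ≤ N_(G ⊓ N_(Syl 2 A G)) := norm_inf s.nG (norm_norm nT)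
  have s' := s.sub inf_le_left nN
  have tZ : Syl 2 A G ≤ C_(ZT A G) := cent_symm inf_le_right
  have cZ : G ⊓ C_(A) ≤ N_(ZT A G) := norm_inf (s.c_n Nat.prime_two) (norm_cent (s.c_n Nat.prime_two))
  have key : ∀ K : Subgroup Γ, K ≤ ZT A G → G ⊓ C_(A) ≤ N_(K) → (∀ p : ℕ, p.Prime → p ≠ 2 → ∀ c ∈ A, c ≠ 1 →
      ⁅Syl p A (G ⊓ N_(Syl 2 A G)) ⊓ C_[c], A⁆ ≤ N_(K)) → G ⊓ N_(Syl 2 A G) ≤ N_(K) := fun K h1 h2 h3 =>
    s'.gen fun p hp => by
      by_cases p2 : p = 2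
      · subst p2
        exact le_norm_of_cent (le_cent_mono tZ (s.syl_mono hp inf_le_left nN) h1)
      · exact h.r2.dec' (syl_le.trans inf_le_left) (s'.syl_n hp) (h3 p hp p2)
          ((inf_le_inf_right _ (syl_le.trans inf_le_left)).trans h2)
  have z0 : ZT A G ⊓ C_(VV A G) = ⊥ := by
    by_contra h0
    have h1 : LL A G ≤ N_(ZT A G ⊓ C_(VV A G)) := sup_le (key _ inf_le_left
      (norm_inf cZ (norm_cent (vv_n fun q hq => s.c_n hq))) fun p hp p2 c hc c1 =>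
        le_norm_of_comm (claim h hp p2 hc c1) inf_le_left) (le_norm_of_cent (cent_symm inf_le_right))
    rw [hL] at h1
    exact (h.toMn.lt (inf_le_left.trans (inf_le_left.trans syl_le)) h0
      (pg_sol Nat.prime_two (pg_le (s.syl_pg Nat.prime_two) (inf_le_left.trans inf_le_left)))).ne (inf_eq_left.2 h1)
  refine ⟨z0, fun a ha => key _ inf_le_left (norm_inf cZ (norm_cent1 (inf_le_right.trans (cent_le_cent1 ha))))
    fun p hp p2 c hc c1 => le_norm_of_cent (cent_symm (inf_le_left.trans (comm_eq_bot.1 ?_)))⟩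
  exact le_bot_iff.1 ((claim h hp p2 hc c1).trans z0.le)

end H28.PtI
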