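import Mathlib
import Cfsg.Agent.H28.Flav2
import Cfsg.Agent.H28.Trans2
import Cfsg.Agent.H28.Pre

/-! A nilpotency criterion for fusion systems by weakly embedded subgroups. -/

set_option autoImplicit false
set_option linter.unusedSectionVars false
set_option linter.style.haveILetI false

namespace H28
open Cfsg Cfsg.FusionSystem Equiv
open H26 (IsSyl)

universe u
variable {p : ℕ} [Fact p.Prime]

theorem exists_card_between {Ω : Type*} [Group Ω] {A M : Subgroup Ω} [Finite M] (hM : IsPGroup p M) (hA : A ≤ M) {n : ℕ}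
    (h1 : Nat.card A ∣ n) (h2 : n ∣ Nat.card M) : ∃ Q, A ≤ Q ∧ Q ≤ M ∧ Nat.card Q = n := by
  obtain ⟨m, hm⟩ := IsPGroup.iff_card.1 hM
  obtain ⟨k, -, rfl⟩ := (Nat.dvd_prime_pow Fact.out).1 (hm ▸ h2)
  obtain ⟨j, hj, e⟩ := (Nat.dvd_prime_pow Fact.out).1 h1
  obtain ⟨K, h3, h4⟩ := Sylow.exists_subgroup_card_pow_prime_le p h2 (A.subgroupOf M)
    (by rw [Nat.card_congr (Subgroup.subgroupOfEquivOfLe hA).toEquiv, e]) hj
  exact ⟨K.map M.subtype, fun x hx => ⟨⟨x, hA hx⟩, h4 hx, rfl⟩, Subgroup.map_subtype_le _,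
    by rw [Subgroup.card_subtype, h3]⟩

theorem dvd_or_dvd_of_pow {a b k : ℕ} (ha : a ∣ p ^ k) (hb : b ∣ p ^ k) : a ∣ b ∨ b ∣ a := by
  obtain ⟨i, -, rfl⟩ := (Nat.dvd_prime_pow Fact.out).1 ha
  obtain ⟨j, -, rfl⟩ := (Nat.dvd_prime_pow Fact.out).1 hb
  exact (le_total i j).imp (pow_dvd_pow p) (pow_dvd_pow p)

section
variable {Ω : Type*} [Group Ω] {S : Subgroup Ω}

/-- automorphisms normalizing a normal subgroup of order `n` have `p`-power order -/
def PN (p n : ℕ) (F : FusionSystem S) : Prop := ∀ (H P : Subgroup Ω) (f : Perm Ω), H ≤ P → P ≤ Subgroup.normalizer (H : Set Ω) → Nat.card H = n →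
  Iso F P P f → (∀ x ∈ H, f x ∈ H) → ∃ k, ∀ x ∈ P, (f ^ p ^ k) x = x

/-- subgroups of order `n` are weakly embedded -/
def WE (n : ℕ) (F : FusionSystem S) : Prop := ∀ Q ≤ S, Nat.card Q = n →
  ∃ P, F.StronglyClosed P ∧ F.StronglyClosed (Q ⊔ P) ∧ F.StronglyClosed (Q ⊓ P)

theorem pow_induced {Ω' : Type*} {P : Subgroup Ω} {f : Perm Ω} {f' : Perm Ω'} {t : Ω → Ω'} (hf : HIso P P f)
    (e : ∀ x ∈ P, f' (t x) = t (f x)) (m : ℕ) : ∀ x ∈ P, (f' ^ m) (t x) = t ((f ^ m) x) := fun x hx => by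
  induction m with
  | zero => rfl
  | succ m ih => rw [pow_succ', pow_succ', Perm.mul_apply, ih, e _ ((hf.pow m).map_mem hx), Perm.mul_apply]

variable [Finite S] {F : FusionSystem S} {n : ℕ}

theorem pn_of (hS : IsPGroup p S) (hF : F.IsSaturated p) (h : ∀ H, F.IsFullyNormalized H → Nat.card H = n →
    ∀ N : FusionSystem (normalizerIn S H), F.IsNormalizerSystem H N →
      ∀ P, N.Hom P = (innerFusionSystem (normalizerIn S H)).Hom P) : PN p n F := fun H P f h1 h2 h3 hf h4 => by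
  have hH := h1.trans hf.le
  obtain ⟨R, g, hg, hi, hR⟩ := sat_exists_fn hS hF hH
  have h5 : P ≤ normalizerIn S H := le_inf hf.le h2
  have hg' := (hg.mono h5).iso_img
  obtain ⟨N, hN⟩ := exists_normalizerSystem F hR.1
  have h6 := (hg'.symm.trans hf).trans hg'
  have h7 := (hi.symm.trans ((hf.map.mono h1).iso_self h4).hiso).trans hi
  obtain ⟨s, hs, e⟩ := (M_inner.1 ((M_congr_of_hom_eq (h R hR (hi.card_eq ▸ h3) N hN _)).1
    ((isNK_of_normalizer hR.1 hN).of_M h6.map le_rfl (hi.img_eq.ge.trans (img_mono h1))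
      (img_le_iff.2 fun x hx => hg.normalizerIn_mem hi hH (h5 hx)) h7 trivial))).2
  obtain ⟨k, hk⟩ := exists_pow_card hS
  refine ⟨k, fun x hx => g.injective ?_⟩
  rw [← pow_induced (f' := cj s) (t := g) hf.hiso (fun y hy => by
    rw [cj_apply, ← e _ (hg'.map_mem hy)]; simp) _ x hx, ← map_pow, hk s hs.1, map_one, Perm.one_apply]

theorem WE.card_dvd (hS : IsPGroup p S) (h : WE n F) (hn : n ∣ Nat.card S) (h1 : n ≠ 1) {T : Subgroup Ω}
    (hT : F.StronglyClosed T) (hm : ∀ T', F.StronglyClosed T' → T' < T → T' = ⊥) : Nat.card T ∣ n := by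
  haveI := finite_of_le hT.1
  obtain ⟨k, hk⟩ := IsPGroup.iff_card.1 hS
  refine (dvd_or_dvd_of_pow (hk ▸ Subgroup.card_dvd_of_le hT.1) (hk ▸ hn)).elim id fun h2 => ?_
  obtain ⟨Q, -, h3, rfl⟩ := exists_card_between (hS.to_le hT.1) bot_le (by simp) h2
  obtain rfl | h4 := h3.eq_or_lt
  · rfl
  obtain ⟨P, a1, a2, a3⟩ := h Q (h3.trans hT.1) rfl
  have h0 : Q ≠ ⊥ := fun e => h1 (by simp [e])
  have a4 := hm _ a3 (inf_le_left.trans_lt h4)
  have a5 : T ≤ Q ⊔ P := by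
    by_contra a
    exact h0 (le_bot_iff.1 ((le_inf le_sup_left h3).trans
      (hm _ (sc_inf a2 hT) (lt_of_le_of_ne inf_le_right fun e => a (inf_eq_right.1 e))).le))
  by_cases a6 : T ≤ P
  · exact absurd (by rw [← a4, inf_eq_left.2 (h3.trans a6)]) h0
  have a7 := hm _ (sc_inf a1 hT) (lt_of_le_of_ne inf_le_right fun e => a6 (inf_eq_right.1 e))
  refine absurd (fun x hx => ?_) h4.not_ge
  obtain ⟨y, hy, q, hq, rfl⟩ := (H26.mem_sup_of_le_normalizer' ((h3.trans hT.1).trans (sc_le_normalizer a1))).1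
    (sup_comm Q P ▸ a5 hx)
  obtain rfl : y = 1 := a7.le ⟨hy, (T.mul_mem_cancel_right (h3 hq)).1 hx⟩
  rwa [one_mul]

end

variable {Ω : Type u} [Group Ω] {S : Subgroup Ω} [Finite S]

theorem we_inner (F : FusionSystem S) : IsPGroup p S → F.IsSaturated p → ∀ n, n ∣ Nat.card S → n < Nat.card S →
    WE n F → PN p n F → F = innerFusionSystem S := by
  refine fs_induction (C := fun {_} _ {S} F => IsPGroup p S → F.IsSaturated p → ∀ n, n ∣ Nat.card S → n < Nat.card S →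
    WE n F → PN p n F → F = innerFusionSystem S) (fun {Ω} _ {S} _ F ih _ hS hF n h1 h2 hW hP => ?_) F
  by_cases hn : n = 1
  · refine eq_inner_of_isPGroup hS hF fun R hR α => ?_
    have hR : R ≤ S := hR.elim Eq.le fun h => h.1.1
    obtain ⟨k, hk⟩ := hP ⊥ R _ bot_le (by rw [Subgroup.normalizer_eq_top]; exact le_top) (by simp [hn]) (iso_ex hR α.2) fun x hx => by
      rw [Subgroup.mem_bot.1 hx, (hiso_ex _).hom.map_one]; exact one_mem _
    exact ⟨k, Subtype.ext (aut_eq_one fun x hx => by simpa using hk x hx)⟩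
  have key : ∀ m, ∀ T : Subgroup Ω, Nat.card T = m → F.StronglyClosed T → T ≠ ⊥ → F.hyperfocalSubgroup p ≤ T := fun m => by
    induction m using Nat.strong_induction_on with | _ m ihm => ?_
    rintro T rfl hT h0
    by_cases hm : ∀ T', F.StronglyClosed T' → T' < T → T' = ⊥
    swap
    · push Not at hm
      obtain ⟨T', a1, a2, a3⟩ := hm
      exact (ihm _ (card_lt_of_lt hT.1 a2) T' rfl a1 a3).trans a2.le
    obtain ⟨n', rfl⟩ := hW.card_dvd hS h1 hn hT hm
    obtain ⟨Ω', _, S', _, F', t, h, e, a1, a2, a3, -⟩ := exists_quo hS hF hT h0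
    have hc : ∀ P' ≤ S', Nat.card (h.hom.pre P') = Nat.card T * Nat.card P' := fun P' hP' => by rw [h.card_pre hP', e]
    have hc' := hc S' le_rfl
    rw [h.pre_top] at hc'
    haveI := finite_of_le hT.1
    rw [hc'] at h1 h2
    have h3 := ih F' a1 a2 a3 n' (Nat.dvd_of_mul_dvd_mul_left Nat.card_pos h1) (Nat.lt_of_mul_lt_mul_left h2)
      (fun Q' hQ' c => ?_) fun H' P' f' c1 c2 c3 c4 c5 => ?_
    · rw [← e, ← img_eq_bot_iff h.hom (hyperfocal_le F), ← h.hyperfocal_eq, h3, hyperfocal_inner a2]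
    · obtain ⟨P, b1, b2, b3⟩ := hW _ h.hom.pre_le ((hc Q' hQ').trans (by rw [c]))
      have b4 := h.sc_img b2
      have b5 := h.sc_img b3
      rw [(h.hom.mono b2.1).img_sup, h.img_pre hQ'] at b4
      refine ⟨_, h.sc_img b1, b4, (le_antisymm (img_le_iff.2 fun x hx => ⟨hx.1.2, mem_img_of_mem hx.2⟩) fun y hy => ?_ :
        img t (h.hom.pre Q' ⊓ P) = Q' ⊓ img t P) ▸ b5⟩
      obtain ⟨x, hx, rfl⟩ := (h.hom.mono b1.1).mem_img.1 hy.2
      exact mem_img_of_mem ⟨⟨b1.1 hx, hy.1⟩, hx⟩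
    · obtain ⟨f, b1, b2⟩ := h.lift_iso c4
      obtain ⟨k, hk⟩ := hP _ _ f (h.hom.pre_mono c1) (fun s hs => h.hom.mem_normalizer_pre hs.1 (c2 hs.2))
        ((hc H' (c1.trans c4.le)).trans (by rw [c3])) b1 fun x hx =>
          ⟨b1.map.mem (h.hom.pre_mono c1 hx), b2 x (h.hom.pre_mono c1 hx) ▸ c5 _ hx.2⟩
      refine ⟨k, fun y hy => ?_⟩
      obtain ⟨x, hx, rfl⟩ := h.exists_eq (c4.le hy)
      rw [pow_induced b1.hiso b2 _ x ⟨hx, hy⟩, hk x ⟨hx, hy⟩]
  by_contra hne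
  set U := F.hyperfocalSubgroup p with hU
  have hUs : F.StronglyClosed U := sc_hyperfocal hS hF
  have h0 : U ≠ ⊥ := fun e => hne (eq_inner_of_hyperfocal hS hF e)
  have h3 : ∀ Q ≤ S, Nat.card Q = n → U ≤ Q ∨ Q ⊓ U = ⊥ := fun Q hQ c => by
    obtain ⟨P, b1, b2, b3⟩ := hW Q hQ c
    by_cases b4 : P = ⊥
    · rw [b4, sup_bot_eq] at b2
      exact Or.inl (key _ Q rfl b2 fun e => hn (by simp [← c, e]))
    by_cases b5 : Q ⊓ P = ⊥
    · exact Or.inr (le_bot_iff.1 ((inf_le_inf_left Q (key _ P rfl b1 b4)).trans b5.le))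
    · exact Or.inl ((key _ _ rfl b3 b5).trans inf_le_left)
  obtain ⟨k, hk⟩ := IsPGroup.iff_card.1 hS
  obtain ⟨j, -, rfl⟩ := (Nat.dvd_prime_pow Fact.out).1 (hk ▸ h1)
  have hj : p ∣ p ^ j := dvd_pow_self p fun e => hn (by rw [e, pow_zero])
  by_cases h4 : U ≤ (frattini S).map S.subtype
  · exact h0 (le_bot_iff.1 (hyperfocal_le_of_frattini hS hF bot_le (by rw [Subgroup.normalizer_eq_top]; exact le_top) (h4.trans le_sup_right)))
  obtain ⟨M, hM, h5⟩ : ∃ M : Subgroup S, IsCoatom M ∧ ¬ U ≤ M.map S.subtype := by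
    by_contra a
    push Not at a
    refine h4 fun x hx => ⟨⟨x, hUs.1 hx⟩, ?_, rfl⟩
    simp only [frattini, Order.radical, SetLike.mem_coe, Subgroup.mem_iInf]
    intro M hM
    obtain ⟨y, hy, rfl⟩ := a M hM hx
    exact hy
  have h6 : p ^ j ∣ Nat.card (M.map S.subtype) := by
    have a := M.card_mul_index
    rw [H04.index_eq_of_isCoatom hS hM, hk] at a
    rw [hk, Nat.pow_lt_pow_iff_right (Fact.out : p.Prime).one_lt] at h2
    rw [Subgroup.card_subtype]
    exact Nat.dvd_of_mul_dvd_mul_right (Fact.out : p.Prime).pos (by rw [a, ← pow_succ]; exact pow_dvd_pow p h2)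
  have hMS := Subgroup.map_subtype_le M
  haveI := finite_of_le hMS
  have h7 : U ⊓ M.map S.subtype = ⊥ := by
    by_contra a
    haveI := finite_of_le (inf_le_right (a := U) (b := M.map S.subtype))
    obtain ⟨w, hw, e⟩ := H26.exists_mem_orderOf_eq (((hS.to_le (inf_le_left.trans hUs.1)).card_eq_or_dvd).resolve_left
      fun c => a (Subgroup.card_eq_one.1 c))
    obtain ⟨Q, b1, b2, b3⟩ := exists_card_between (hS.to_le hMS) (Subgroup.zpowers_le.2 hw.2)
      (by rw [Nat.card_zpowers, e]; exact hj) h6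
    refine (h3 Q (b2.trans hMS) b3).elim (fun c => h5 (c.trans b2)) fun c => ?_
    rw [Subgroup.mem_bot.1 (c.le ⟨b1 (Subgroup.mem_zpowers w), hw.1⟩), orderOf_one] at e
    exact (Fact.out : p.Prime).ne_one e.symm
  haveI := sc_normal hUs
  haveI := hS.isNilpotent
  haveI := H04.normal_of_isCoatom hM
  have h8 : Nat.card (U.subgroupOf S) ∣ p := by
    rw [← H04.index_eq_of_isCoatom hS hM, ← Subgroup.relIndex_bot_left, show (⊥ : Subgroup S) = M ⊓ U.subgroupOf S from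
      bot_le.antisymm fun x hx => Subtype.ext (h7.le ⟨hx.2, x, hx.1, rfl⟩), Subgroup.inf_relIndex_right]
    exact Subgroup.relIndex_dvd_index_of_normal _ _
  have h9 := Nat.card_congr (Subgroup.subgroupOfEquivOfLe hUs.1).toEquiv
  have h10 : Nat.card (U.subgroupOf S) = p := ((Nat.dvd_prime Fact.out).1 h8).resolve_left fun c =>
    h0 (Subgroup.card_eq_one.1 (h9 ▸ c))
  have h11 : U ≤ centralizerIn S S := fun x hx => ⟨hUs.1 hx, fun y hy => congrArg Subtype.val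
    (Subgroup.mem_center_iff.1 (H04.le_center_of_card_eq hS _ h10 (x := ⟨x, hUs.1 hx⟩) hx) ⟨y, hy⟩)⟩
  obtain ⟨H, b1, b2, b3⟩ := exists_card_between hS hUs.1 (by rw [← h9, h10]; exact hj) h1
  haveI := finite_of_le hUs.1
  refine hne (eq_inner_of_hyperfocal_le hS hF fun z hz => (mem_center_iff hS hF).2 ⟨hUs.1 hz, fun P f hf hzP => ?_⟩)
  by_contra b4
  have b5 : Subgroup.zpowers z = U := eq_of_le_of_card_le hUs.1 (Subgroup.zpowers_le.2 hz) (by
    rw [← h9, h10]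
    haveI := finite_of_le (Subgroup.zpowers_le.2 hz)
    refine Nat.le_of_dvd Nat.card_pos (((hS.to_le ((Subgroup.zpowers_le.2 hz).trans hUs.1)).card_eq_or_dvd).resolve_left
      fun c => b4 ?_)
    rw [Subgroup.zpowers_eq_bot.1 (Subgroup.card_eq_one.1 c), hf.hom.map_one])
  have b6 : U ≤ P := b5 ▸ Subgroup.zpowers_le.2 hzP
  have b7 := (hf.mono b6).iso_self fun x hx => sc_mem hUs hf (b6 hx) hx
  obtain ⟨g, hg, e⟩ := recep_ext_of_le (K := S) (sat_recep_fn hS hF (fullyNormalized_of_normal hUs.1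
    (le_normalizer_of_central h11))) b7 fun s hs => ⟨hs, le_normalizer_of_central h11 hs, 1, one_mem _, fun x hx => by
      rw [(h11 hx).2 s hs]; simp⟩
  rw [sup_eq_right.2 hUs.1] at hg
  obtain ⟨s, hs, e'⟩ := exists_inner_mod_hyperfocal hS hF hg
  have b8 := ((H28.M.cj F le_rfl (S.inv_mem hs)).comp hg fun x hx => (H28.M.cj F le_rfl (S.inv_mem hs)).mem hx).mono b2
  have b9 : ∀ x ∈ H, (g * cj s⁻¹) x ∈ H := fun x hx => by
    have := H.mul_mem hx (b1 (e' _ ((H28.M.cj F le_rfl (S.inv_mem hs)).mem (b2 hx))))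
    simpa [mul_assoc] using this
  obtain ⟨m, hm⟩ := hP H H _ le_rfl Subgroup.le_normalizer b3 (b8.iso_self b9) b9
  have c1 : ∀ x ∈ U, (g * cj s⁻¹) x = f x := fun x hx => by
    rw [Perm.mul_apply, cj_apply, (h11 hx).2 _ (S.inv_mem hs), mul_inv_cancel_right, e x hx]
  haveI := finite_mulAut hUs.1
  have c2 : orderOf (res U f) ∣ p ^ m := orderOf_dvd_of_pow_eq_one (by
    rw [← b7.hiso.res_pow, (b7.hiso.pow _).res_eq_one_iff]
    exact fun x hx => (pow_induced (t := id) b7.hiso c1 _ x hx).symm.trans (hm x (b1 hx)))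
  have c3 := (coprime_aut_central hS hF h11).coprime_dvd_left (Subgroup.orderOf_dvd_natCard _ b7.res_mem)
  exact b4 (b7.hiso.res_eq_one_iff.1 (orderOf_eq_one_iff.1 ((c3.pow_right m).eq_one_of_dvd c2)) z hz)

end H28
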